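import Cfsg.Agent.Lib.Char.Burnside
import Cfsg.Agent.Lib.Solv.Hall
import Cfsg.Agent.Lib.Solv.SZ

/-! # Groups with an abelian 2-complement. -/

set_option autoImplicit false
set_option linter.unusedSectionVars false

namespace CfsgLib.AbComp

open Subgroup

universe u

/-- The index of `C ∩ N` in `N` divides the index of `C` for `N` normal. -/
lemma relIndex_dvd_index {H : Type*} [Group H] [Finite H] (C N : Subgroup H) [hN : N.Normal] :
    C.relIndex N ∣ C.index := by
  have h1 := CfsgLib.Solv.card_sup_mul_card_inf C N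
  have h2 : C.relIndex (C ⊔ N) * (C ⊔ N).index = C.index :=
    Subgroup.relIndex_mul_index le_sup_left
  have h3 : Nat.card C * C.relIndex (C ⊔ N) = Nat.card (C ⊔ N : Subgroup H) := by
    have := Subgroup.card_mul_index (C.subgroupOf (C ⊔ N))
    rwa [CfsgLib.Solv.card_subgroupOf_of_le le_sup_left] at this
  have h4 : Nat.card (C ⊓ N : Subgroup H) * C.relIndex N = Nat.card N := by
    have := Subgroup.card_mul_index (C.subgroupOf N)
    rwa [CfsgLib.Solv.card_subgroupOf_eq_inf] at this
  have h5 : C.relIndex N = C.relIndex (C ⊔ N) := by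
    have hpos : 0 < Nat.card C * Nat.card (C ⊓ N : Subgroup H) :=
      Nat.mul_pos Nat.card_pos Nat.card_pos
    apply Nat.eq_of_mul_eq_mul_left hpos
    calc Nat.card C * Nat.card (C ⊓ N : Subgroup H) * C.relIndex N
        = Nat.card C * (Nat.card (C ⊓ N : Subgroup H) * C.relIndex N) := by ring
      _ = Nat.card C * Nat.card N := by rw [h4]
      _ = Nat.card (C ⊔ N : Subgroup H) * Nat.card (C ⊓ N : Subgroup H) := h1.symm
      _ = Nat.card C * C.relIndex (C ⊔ N) * Nat.card (C ⊓ N : Subgroup H) := by rw [h3]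
      _ = Nat.card C * Nat.card (C ⊓ N : Subgroup H) * C.relIndex (C ⊔ N) := by ring
  rw [h5, ← h2]
  exact dvd_mul_right _ _

/-- A finite group with an abelian subgroup of prime power index is solvable. -/
theorem solvable_of_abelian_index : ∀ (n : ℕ) (H : Type u) [Group H] [Finite H], Nat.card H = n →
    ∀ (q : ℕ), q.Prime → ∀ C : Subgroup H, (∀ a ∈ C, ∀ b ∈ C, a * b = b * a) → (∃ k, C.index = q ^ k) →
      Group.IsSolvable H := by
  intro n
  induction n using Nat.strong_induction_on with
  | _ n ih =>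
  intro H _ _ hn q hq C hC hidx
  by_cases hs : IsSimpleGroup H
  · by_cases hCbot : C = ⊥
    · obtain ⟨k, hk⟩ := hidx
      rw [hCbot, Subgroup.index_bot] at hk
      haveI : Fact q.Prime := ⟨hq⟩
      have : IsPGroup q H := IsPGroup.of_card hk
      haveI := this.isNilpotent
      infer_instance
    · obtain ⟨⟨c, hc⟩, hc1⟩ := Subgroup.ne_bot_iff_exists_ne_one.1 hCbot
      have hc1' : c ≠ 1 := fun h => hc1 (Subtype.ext h)
      have hle : C ≤ centralizer ({c} : Set H) := by
        intro a ha
        rw [Subgroup.mem_centralizer_singleton_iff]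
        exact hC a ha c hc
      obtain ⟨k, hk⟩ := hidx
      have hd : (centralizer ({c} : Set H)).index ∣ q ^ k := by
        rw [← hk]
        exact Subgroup.index_dvd_of_le hle
      obtain ⟨j, -, hj⟩ := (Nat.dvd_prime_pow hq).1 hd
      have hprime := CfsgLib.Char.prime_card_of_class_prime_power hq hc1' hj
      haveI : IsCyclic H := isCyclic_of_prime_card (p := Nat.card H) (hp := ⟨hprime⟩) rfl
      letI := IsCyclic.commGroup (α := H)
      infer_instance
  · by_cases hnt : Nontrivial H
    · obtain ⟨N, hNn, hNbot, hNtop⟩ : ∃ N : Subgroup H, N.Normal ∧ N ≠ ⊥ ∧ N ≠ ⊤ := by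
        by_contra hcon
        push Not at hcon
        apply hs
        refine ⟨fun N hN => ?_⟩
        by_cases hb : N = ⊥
        · exact Or.inl hb
        · exact Or.inr (hcon N hN hb)
      haveI := hNn
      have hNlt : Nat.card N < n := by
        rw [← hn]
        have h1 := Subgroup.card_mul_index N
        have h2 : 1 < N.index := by
          rcases Nat.lt_or_ge 1 N.index with h | h
          · exact h
          · exfalso
            have h3 : N.index ≠ 0 := Subgroup.index_ne_zero_of_finite
            have h4 : N.index = 1 := by omega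
            exact hNtop (Subgroup.index_eq_one.1 h4)
        have h3 : 0 < Nat.card N := Nat.card_pos
        nlinarith
      have hQlt : Nat.card (H ⧸ N) < n := by
        rw [← hn]
        have h1 := Subgroup.card_eq_card_quotient_mul_card_subgroup N
        have h2 : 1 < Nat.card N := (Subgroup.one_lt_card_iff_ne_bot N).2 hNbot
        have h3 : 0 < Nat.card (H ⧸ N) := Nat.card_pos
        nlinarith
      obtain ⟨k, hk⟩ := hidx
      have hN' : Group.IsSolvable N := by
        apply ih _ hNlt N rfl q hq (C.subgroupOf N)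
        · intro a ha b hb
          apply Subtype.ext
          exact hC _ ha _ hb
        · have hd : C.relIndex N ∣ q ^ k := by
            rw [← hk]
            exact relIndex_dvd_index C N
          obtain ⟨j, -, hj⟩ := (Nat.dvd_prime_pow hq).1 hd
          exact ⟨j, hj⟩
      have hQ' : Group.IsSolvable (H ⧸ N) := by
        apply ih _ hQlt (H ⧸ N) rfl q hq (C.map (QuotientGroup.mk' N))
        · rintro _ ⟨a, ha, rfl⟩ _ ⟨b, hb, rfl⟩
          rw [← map_mul, ← map_mul, hC a ha b hb]
        · have hd : (C.map (QuotientGroup.mk' N)).index ∣ q ^ k := by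
            rw [← hk]
            exact Subgroup.index_map_dvd _ (QuotientGroup.mk'_surjective N)
          obtain ⟨j, -, hj⟩ := (Nat.dvd_prime_pow hq).1 hd
          exact ⟨j, hj⟩
      apply solvable_of_ker_le_range N.subtype (QuotientGroup.mk' N)
      rw [QuotientGroup.ker_mk', Subgroup.range_subtype]
    · rw [not_nontrivial_iff_subsingleton] at hnt
      infer_instance

theorem main {H : Type u} [Group H] [Finite H] (S : Sylow 2 H) (C : Subgroup H) (hC : IsMulCommutative ↥C)
    (hSC : Subgroup.IsComplement' (S : Subgroup H) C) :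
    Group.IsSolvable H ∧
    (∀ L : Subgroup H, ∃ (P : Sylow 2 ↥L) (D : Subgroup ↥L), IsMulCommutative ↥D ∧
      Subgroup.IsComplement' (P : Subgroup ↥L) D) ∧
    (∀ (N : Subgroup H) [N.Normal], ∃ (P : Sylow 2 (H ⧸ N)) (D : Subgroup (H ⧸ N)),
      IsMulCommutative ↥D ∧ Subgroup.IsComplement' (P : Subgroup (H ⧸ N)) D) := by
  haveI : Fact (Nat.Prime 2) := ⟨Nat.prime_two⟩
  have hCc : ∀ a ∈ C, ∀ b ∈ C, a * b = b * a := fun a ha b hb => by
    have := hC.is_comm.comm (⟨a, ha⟩ : C) ⟨b, hb⟩
    exact congrArg Subtype.val this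
  have hidx : C.index = Nat.card (S : Subgroup H) := hSC.index_eq_card
  obtain ⟨k, hk⟩ := IsPGroup.iff_card.1 S.2
  have hsol : Group.IsSolvable H :=
    solvable_of_abelian_index _ H rfl 2 Nat.prime_two C hCc ⟨k, by rw [hidx, hk]⟩
  have hcard : Nat.card (S : Subgroup H) * Nat.card C = Nat.card H := hSC.card_mul
  have hCodd : (Nat.card C).Coprime 2 := by
    have h1 : ¬ 2 ∣ (S : Subgroup H).index := S.not_dvd_index
    have h2 : (S : Subgroup H).index = Nat.card C := hSC.symm.index_eq_card
    rw [h2] at h1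
    exact (Nat.Prime.coprime_iff_not_dvd Nat.prime_two).2 h1 |>.symm
  have hcop : (Nat.card C).Coprime (Nat.card (S : Subgroup H)) := by
    rw [hk]
    exact Nat.Coprime.pow_right k hCodd
  refine ⟨hsol, ?_, ?_⟩
  · intro L
    obtain ⟨P⟩ : Nonempty (Sylow 2 L) := inferInstance
    have hPcard : Nat.card (P : Subgroup L) * (P : Subgroup L).index = Nat.card L :=
      Subgroup.card_mul_index _
    obtain ⟨j, hj⟩ := IsPGroup.iff_card.1 P.2
    have hodd : ((P : Subgroup L).index).Coprime 2 :=
      ((Nat.Prime.coprime_iff_not_dvd Nat.prime_two).2 P.not_dvd_index).symm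
    have hLsol : Group.IsSolvable L := inferInstance
    obtain ⟨D, hDcard, -⟩ := CfsgLib.Solv.hall_containing _ L rfl (P : Subgroup L).index
      (Nat.card (P : Subgroup L)) (by rw [mul_comm]; exact hPcard.symm)
      (by rw [hj]; exact Nat.Coprime.pow_right j hodd) ⊥ (by simp)
    -- `D` is conjugate into `C`
    have hD' : Nat.card (D.map L.subtype) = Nat.card D :=
      Nat.card_congr (Subgroup.equivMapOfInjective D L.subtype L.subtype_injective).symm.toEquiv
    obtain ⟨H', hH'card, hDH'⟩ := CfsgLib.Solv.hall_containing _ H rfl (Nat.card C)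
      (Nat.card (S : Subgroup H)) (by rw [mul_comm]; exact hcard.symm) hcop (D.map L.subtype)
      (by
        rw [hD', hDcard, hk]
        exact Nat.Coprime.pow_right k hodd)
    obtain ⟨g, hg⟩ := CfsgLib.Solv.hall_conj _ H rfl (Nat.card C) (Nat.card (S : Subgroup H))
      (by rw [mul_comm]; exact hcard.symm) hcop H' C hH'card rfl
    have hH'c : ∀ a ∈ H', ∀ b ∈ H', a * b = b * a := by
      intro a ha b hb
      have h1 : g * a * g⁻¹ ∈ C := by
        rw [← hg]; exact ⟨a, ha, rfl⟩
      have h2 : g * b * g⁻¹ ∈ C := by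
        rw [← hg]; exact ⟨b, hb, rfl⟩
      have h3 := hCc _ h1 _ h2
      have h4 : g * (a * b) * g⁻¹ = g * (b * a) * g⁻¹ := by
        calc g * (a * b) * g⁻¹ = (g * a * g⁻¹) * (g * b * g⁻¹) := by group
          _ = (g * b * g⁻¹) * (g * a * g⁻¹) := h3
          _ = g * (b * a) * g⁻¹ := by group
      exact mul_left_cancel (mul_right_cancel h4)
    refine ⟨P, D, ⟨⟨fun a b => ?_⟩⟩, ?_⟩
    · apply Subtype.ext
      apply Subtype.ext
      exact hH'c _ (hDH' ⟨a.1, a.2, rfl⟩) _ (hDH' ⟨b.1, b.2, rfl⟩)
    · apply Subgroup.isComplement'_of_coprime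
      · rw [hDcard]; exact hPcard
      · rw [hDcard, hj]
        exact (Nat.Coprime.pow_right j hodd).symm
  · intro N _
    let π := QuotientGroup.mk' N
    have hπs : Function.Surjective π := QuotientGroup.mk'_surjective N
    refine ⟨S.mapSurjective hπs, C.map π, ⟨⟨?_⟩⟩, ?_⟩
    · rintro ⟨_, a, ha, rfl⟩ ⟨_, b, hb, rfl⟩
      apply Subtype.ext
      change π a * π b = π b * π a
      rw [← map_mul, ← map_mul, hCc a ha b hb]
    · apply Subgroup.isComplement'_of_disjoint_and_mul_eq_univ
      · apply Subgroup.disjoint_of_coprime_natCard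
        have h1 : Nat.card ((S.mapSurjective hπs : Sylow 2 (H ⧸ N)) : Subgroup (H ⧸ N)) ∣
            Nat.card (S : Subgroup H) := by
          rw [Sylow.coe_mapSurjective]
          exact Subgroup.card_map_dvd _ _ |> fun h => h
        have h2 : Nat.card (C.map π) ∣ Nat.card C := Subgroup.card_map_dvd _ _
        exact Nat.Coprime.coprime_dvd_left h1 (Nat.Coprime.coprime_dvd_right h2 hcop.symm)
      · rw [Set.eq_univ_iff_forall]
        intro q
        obtain ⟨g, rfl⟩ := hπs q
        obtain ⟨⟨s, c⟩, hsc⟩ := hSC.2 g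
        refine ⟨π s, ⟨s, s.2, rfl⟩, π c, ⟨c, c.2, rfl⟩, ?_⟩
        rw [← hsc]
        simp [map_mul]

end CfsgLib.AbComp
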