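import Cfsg.Agent.Lib.Local.Chains
import Cfsg.Agent.Lib.Local.Embedded3
import Cfsg.Agent.Lib.Local.CoprimeGen
import Cfsg.Agent.Lib.H3.PSolv
import Cfsg.Agent.Lib.H3.AlpGold
import Cfsg.Agent.Lib.H3.CycSyl
import Cfsg.Agent.Lib.SS.UniqueP
import Cfsg.Agent.Lib.SS.FPF

/-! # Groups whose Sylow `p`-subgroups are not chain-connected. -/

set_option autoImplicit false
set_option linter.unusedSectionVars false
set_option linter.unusedVariables false

namespace CfsgLib.ChainConn

open Subgroup Cfsg CfsgLib.Local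
open scoped commutatorElement

variable {G : Type*} [Group G] [Finite G] {p : ℕ} [hp : Fact p.Prime]

lemma comm_mem_left {N : Subgroup G} [hN : N.Normal] {a b : G} (ha : a ∈ N) : ⁅a, b⁆ ∈ N := by
  have e : ⁅a, b⁆ = a * (b * a⁻¹ * b⁻¹) := by rw [commutatorElement_def]; group
  rw [e]
  exact N.mul_mem ha (hN.conj_mem _ (N.inv_mem ha) b)

lemma comm_mem_right {N : Subgroup G} [hN : N.Normal] {a b : G} (hb : b ∈ N) : ⁅a, b⁆ ∈ N := by
  rw [commutatorElement_def]
  exact N.mul_mem (hN.conj_mem _ hb a) (N.inv_mem hb)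

/-- The Frattini argument for a Sylow subgroup of a normal subgroup. -/
lemma frattini_sylowIn {Q L : Subgroup G} [hL : L.Normal] (h : CfsgLib.Solv.IsSylowIn p Q L) :
    normalizer (Q : Set G) ⊔ L = ⊤ := by
  let T : Sylow p ↥L := IsPGroup.toSylow (P := Q.subgroupOf L) (IsPGroup.comap_subtype h.2.1) h.2.2
  have h1 := Sylow.normalizer_sup_eq_top T
  have h2 : ((T : Subgroup ↥L).map L.subtype) = Q := Subgroup.map_subgroupOf_eq_of_le h.1
  rwa [h2] at h1

lemma sylowIn_inf (S : Sylow p G) (N : Subgroup G) [hN : N.Normal] :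
    CfsgLib.Solv.IsSylowIn p ((S : Subgroup G) ⊓ N) N :=
  CfsgLib.AlpGold.isSylowIn_inf_normal (CfsgLib.CycSyl.isSylowIn_top S) le_top (by
    rw [Subgroup.normalizer_eq_top_iff.2 hN])

lemma dvd_inf (S : Sylow p G) (N : Subgroup G) [hN : N.Normal] (h : p ∣ Nat.card N) :
    p ∣ Nat.card ↥((S : Subgroup G) ⊓ N) := by
  have h1 := sylowIn_inf S N
  have h2 := CfsgLib.Trans.card_mul_relIndex h1.1
  rw [← h2] at h
  exact (hp.out.dvd_mul.1 h).resolve_right h1.2.2

lemma elem_of_commuting {a b : G} (hab : a * b = b * a) (ha : orderOf a = p) (hb : orderOf b = p)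
    (hn : a ∉ zpowers b) :
    IsElementaryAbelian p (zpowers a ⊔ zpowers b) ∧ ¬ IsCyclic ↥(zpowers a ⊔ zpowers b) := by
  have hza : IsElementaryAbelian p (zpowers a) := by
    refine ⟨inferInstance, ?_⟩
    rintro _ ⟨k, rfl⟩
    show (a ^ k) ^ p = 1
    rw [← zpow_natCast, zpow_comm, zpow_natCast, ← ha, pow_orderOf_eq_one, one_zpow]
  have hzb : IsElementaryAbelian p (zpowers b) := by
    refine ⟨inferInstance, ?_⟩
    rintro _ ⟨k, rfl⟩
    show (b ^ k) ^ p = 1
    rw [← zpow_natCast, zpow_comm, zpow_natCast, ← hb, pow_orderOf_eq_one, one_zpow]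
  have hE : IsElementaryAbelian p (zpowers a ⊔ zpowers b) := by
    apply CfsgLib.PLocal.elemAb_sup hza hzb
    rintro _ ⟨i, rfl⟩ _ ⟨j, rfl⟩
    exact (Commute.zpow_zpow (show Commute a b from hab) i j)
  refine ⟨hE, ?_⟩
  intro hc
  obtain ⟨⟨g, hg⟩, hgen⟩ := IsCyclic.exists_generator (α := ↥(zpowers a ⊔ zpowers b))
  have h1 : orderOf (⟨g, hg⟩ : ↥(zpowers a ⊔ zpowers b)) = Nat.card ↥(zpowers a ⊔ zpowers b) :=
    orderOf_eq_card_of_forall_mem_zpowers hgen
  have h2 : (⟨g, hg⟩ : ↥(zpowers a ⊔ zpowers b)) ^ p = 1 := Subtype.ext (hE.2 g hg)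
  have h3 : Nat.card ↥(zpowers a ⊔ zpowers b) ∣ p := by
    rw [← h1]; exact orderOf_dvd_of_pow_eq_one h2
  have h4 : Nat.card (zpowers b) = p := by rw [Nat.card_zpowers, hb]
  have hle : zpowers b ≤ zpowers a ⊔ zpowers b := le_sup_right
  have h5 : zpowers a ⊔ zpowers b = zpowers b := by
    symm
    apply Subgroup.eq_of_le_of_card_ge hle
    rw [h4]
    exact Nat.le_of_dvd hp.out.pos h3
  apply hn
  rw [← h5]
  exact mem_sup_left (mem_zpowers a)

/-- The embedding property for elements of order `p`. -/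
lemma se_of_classical {H : Subgroup G} (hse : ∀ g : G, g ∉ H → ¬ p ∣ Nat.card ↥(H ⊓ H.map (MulAut.conj g).toMonoidHom))
    {g x : G} (hx : x ∈ H) (ho : orderOf x = p) (hgx : g * x * g⁻¹ ∈ H) : g ∈ H := by
  by_contra hg
  apply hse g hg
  have h1 : g * x * g⁻¹ ∈ H ⊓ H.map (MulAut.conj g).toMonoidHom := ⟨hgx, x, hx, rfl⟩
  refine dvd_card_of_order_p h1 ?_
  rw [← ho]
  have : g * x * g⁻¹ = (MulAut.conj g) x := rfl
  rw [this]
  exact MulEquiv.orderOf_eq _ _

/-- `K ≤ H` for a normal `p'`-subgroup when `S ≤ H` has a rank two subgroup. -/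
lemma core_le {H : Subgroup G} (hse : ∀ g : G, g ∉ H → ¬ p ∣ Nat.card ↥(H ⊓ H.map (MulAut.conj g).toMonoidHom))
    {a b : G} (haH : a ∈ H) (hbH : b ∈ H) (hab : a * b = b * a) (ha : orderOf a = p) (hb : orderOf b = p)
    (hn : a ∉ zpowers b) (K : Subgroup G) [hK : K.Normal] (hKp : ¬ p ∣ Nat.card K) : K ≤ H := by
  obtain ⟨hE, hnc⟩ := elem_of_commuting hab ha hb hn
  have hEH : zpowers a ⊔ zpowers b ≤ H := sup_le (zpowers_le.2 haH) (zpowers_le.2 hbH)
  apply CfsgLib.Local.gen_centralizers (p := p) _ K H hE hnc hKp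
  · rw [Subgroup.normalizer_eq_top_iff.2 hK]; exact le_top
  · rintro u hu hu1 y ⟨hyK, hyC⟩
    have hup : u ^ p = 1 := hE.2 u hu
    have huo : orderOf u = p := orderOf_eq_prime hup hu1
    have huH := hEH hu
    apply se_of_classical hse huH huo
    have := mem_centralizer_iff.1 hyC u rfl
    rw [← this]
    simpa using huH

/-- S3058. -/
theorem inter_dvd (hG : ¬ IsSylowChainConnected p G) (N M : Subgroup G) [hN : N.Normal] [hM : M.Normal]
    (hpN : p ∣ Nat.card N) (hpM : p ∣ Nat.card M) : p ∣ Nat.card ↥(N ⊓ M) := by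
  by_contra hK
  obtain ⟨H, hH, hpH, hse⟩ := not_chainConnected_iff.1 hG
  have hnorm : ∀ A : Subgroup G, A ≤ H → IsPGroup p A → A ≠ ⊥ → normalizer (A : Set G) ≤ H := by
    intro A hA hAp hA0
    exact normalizer_le_of_classical hse hA hAp hA0
  obtain ⟨S, hSH⟩ := exists_sylow_le_of_normalizer hpH hnorm
  obtain ⟨a, ⟨haS, haN⟩, hao⟩ := exists_order_p (dvd_inf S N hpN)
  obtain ⟨b, ⟨hbS, hbM⟩, hbo⟩ := exists_order_p (dvd_inf S M hpM)
  haveI hKn : (N ⊓ M).Normal := inferInstance
  have hKcop : ∀ x ∈ (S : Subgroup G), x ∈ N ⊓ M → x = 1 := by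
    intro x hxS hxK
    by_contra hx1
    have h1 : (S : Subgroup G) ⊓ (N ⊓ M) ≠ ⊥ := by
      intro h
      have : x ∈ (S : Subgroup G) ⊓ (N ⊓ M) := ⟨hxS, hxK⟩
      rw [h] at this
      exact hx1 (Subgroup.mem_bot.1 this)
    have h2 : IsPGroup p ↥((S : Subgroup G) ⊓ (N ⊓ M)) := S.isPGroup'.to_le inf_le_left
    have h3 := dvd_card_of_ne_bot h2 h1
    exact hK (h3.trans (Subgroup.card_dvd_of_le inf_le_right))
  have hcomm : a * b = b * a := by
    have h1 : ⁅a, b⁆ ∈ N ⊓ M := ⟨comm_mem_left haN, comm_mem_right hbM⟩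
    have h2 : ⁅a, b⁆ ∈ (S : Subgroup G) := by
      rw [commutatorElement_def]
      exact Subgroup.mul_mem _ (Subgroup.mul_mem _ (Subgroup.mul_mem _ haS hbS) (Subgroup.inv_mem _ haS))
        (Subgroup.inv_mem _ hbS)
    exact commutatorElement_eq_one_iff_mul_comm.1 (hKcop _ h2 h1)
  have hind : a ∉ zpowers b := by
    intro h
    have h1 : a ∈ M := (zpowers_le.2 hbM) h
    have h2 := hKcop a haS ⟨haN, h1⟩
    rw [h2, orderOf_one] at hao
    exact hp.out.one_lt.ne hao
  have hKH : N ⊓ M ≤ H := core_le hse (hSH haS) (hSH hbS) hcomm hao hbo hind (N ⊓ M) hK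
  have hMH : M ≤ H := by
    intro g hg
    apply se_of_classical hse (hSH haS) hao
    have h1 : ⁅g, a⁆ ∈ N ⊓ M := ⟨comm_mem_right haN, comm_mem_left hg⟩
    have h2 : g * a * g⁻¹ = ⁅g, a⁆ * a := by
      rw [commutatorElement_def]; group
    rw [h2]
    exact H.mul_mem (hKH h1) (hSH haS)
  have hFr := frattini_sylowIn (sylowIn_inf S M)
  have hQ0 : (S : Subgroup G) ⊓ M ≠ ⊥ := by
    intro h
    have : b ∈ (S : Subgroup G) ⊓ M := ⟨hbS, hbM⟩
    rw [h, Subgroup.mem_bot] at this
    rw [this, orderOf_one] at hbo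
    exact hp.out.one_lt.ne hbo
  have hle : normalizer (((S : Subgroup G) ⊓ M : Subgroup G) : Set G) ≤ H :=
    hnorm _ (inf_le_left.trans hSH) (S.isPGroup'.to_le inf_le_left) hQ0
  apply hH
  rw [eq_top_iff, ← hFr]
  exact sup_le hle hMH

/-- A `p`-solvable group: the preimage of `O_p(G/O_{p'}(G))` is larger than `O_{p'}(G)`, generated by `O_{p'}(G)` and a Sylow
subgroup of itself, and so a group with `G = N_G(Q) L` is covered. -/
theorem noE (hsol : IsPSolvable p G) (hdiv : p ∣ Nat.card G) {H : Subgroup G}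
    (hH : H ≠ ⊤) (hse : ∀ g : G, g ∉ H → ¬ p ∣ Nat.card ↥(H ⊓ H.map (MulAut.conj g).toMonoidHom))
    (S : Sylow p G) (hSH : (S : Subgroup G) ≤ H) {a b : G} (haS : a ∈ (S : Subgroup G)) (hbS : b ∈ (S : Subgroup G))
    (hab : a * b = b * a) (hao : orderOf a = p) (hbo : orderOf b = p) (hn : a ∉ zpowers b) : False := by
  set K := pPrimeCore p G with hK
  haveI hKn : K.Normal := CfsgLib.Solv.pPrimeCore_normal' p
  have hKp : ¬ p ∣ Nat.card K := by
    rw [← Nat.Prime.coprime_iff_not_dvd hp.out]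
    exact (CfsgLib.Solv.pPrimeCore_coprime p).symm
  have hKH : K ≤ H := core_le hse (hSH haS) (hSH hbS) hab hao hbo hn K hKp
  have hKne : K ≠ ⊤ := by
    intro h
    apply hKp
    rw [h, Subgroup.card_top]
    exact hdiv
  -- the quotient
  have hQsol : IsPSolvable p (G ⧸ K) := CfsgLib.PSolv.quotient hp.out hsol K
  haveI hnt : Nontrivial (G ⧸ K) := QuotientGroup.nontrivial_iff.2 hKne
  have hO0 : pPrimeCore p (G ⧸ K) = ⊥ := CfsgLib.Solv.pPrimeCore_quotient_eq_bot p
  have hD0 : pCore p (G ⧸ K) ≠ ⊥ := by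
    rcases CfsgLib.PSolv.core_ne_bot hQsol with h | h
    · exact h
    · exact absurd hO0 h
  set D := pCore p (G ⧸ K) with hD
  haveI hDn : D.Normal := CfsgLib.Solv.pCore_normal' p
  have hDp : IsPGroup p ↥D := CfsgLib.Solv.pCore_isPGroup p
  set π := QuotientGroup.mk' K with hπ
  have hπs : Function.Surjective π := QuotientGroup.mk'_surjective K
  set L := D.comap π with hL
  haveI hLn : L.Normal := Subgroup.Normal.comap hDn _
  have hKL : K ≤ L := by
    intro x hx
    show π x ∈ D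
    have : π x = 1 := (QuotientGroup.eq_one_iff x).2 hx
    rw [this]; exact one_mem _
  -- the index of `K` in `L`
  have hidx : K.relIndex L = Nat.card D := by
    set f : ↥L →* G ⧸ K := π.comp L.subtype with hf
    have hfk : f.ker = K.subgroupOf L := by
      ext k
      rw [MonoidHom.mem_ker, Subgroup.mem_subgroupOf]
      exact QuotientGroup.eq_one_iff (k : G)
    have hfr : f.range = D := by
      rw [hf, MonoidHom.range_comp, Subgroup.range_subtype, hL, Subgroup.map_comap_eq_self_of_surjective hπs]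
    rw [Subgroup.relIndex, ← hfk, Subgroup.index_ker, hfr]
  -- the Sylow subgroup
  set Q := (S : Subgroup G) ⊓ L with hQ
  have hQs : CfsgLib.Solv.IsSylowIn p Q L := sylowIn_inf S L
  have hFr := frattini_sylowIn hQs
  have hKQ : K ⊔ Q = L := by
    have hle : K ⊔ Q ≤ L := sup_le hKL hQs.1
    obtain ⟨m, hm⟩ := IsPGroup.iff_card.1 hDp
    have h1 : (K ⊔ Q).relIndex L ∣ K.relIndex L := Subgroup.relIndex_dvd_of_le_left L le_sup_left
    have h2 : (K ⊔ Q).relIndex L ∣ Q.relIndex L := Subgroup.relIndex_dvd_of_le_left L le_sup_right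
    rw [hidx, hm] at h1
    obtain ⟨j, -, hj⟩ := (Nat.dvd_prime_pow hp.out).1 h1
    have hj0 : j = 0 := by
      by_contra hj0
      apply hQs.2.2
      refine dvd_trans ?_ h2
      rw [hj]
      exact dvd_pow_self p hj0
    rw [hj0, pow_zero] at hj
    have h3 := (Subgroup.relIndex_eq_one).1 hj
    exact le_antisymm hle h3
  have hQ0 : Q ≠ ⊥ := by
    intro h
    rw [h, sup_bot_eq] at hKQ
    apply hD0
    have h1 : K.relIndex L = 1 := by
      rw [Subgroup.relIndex_eq_one]
      exact hKQ.ge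
    rw [hidx] at h1
    exact Subgroup.eq_bot_of_card_eq _ h1
  have hnormQ : normalizer (Q : Set G) ≤ H :=
    normalizer_le_of_classical hse (inf_le_left.trans hSH) (S.isPGroup'.to_le inf_le_left) hQ0
  apply hH
  rw [eq_top_iff, ← hFr]
  refine sup_le hnormQ ?_
  rw [← hKQ]
  exact sup_le hKH (inf_le_left.trans hSH)

/-- S3057. -/
theorem main_iff (hdiv : p ∣ Nat.card G) (hsol : IsPSolvable p G) (P : Sylow p G) :
    ¬ IsSylowChainConnected p G ↔
      pCore p G = ⊥ ∧ (IsCyclic ↥P ∨ (p = 2 ∧ ∃ n : ℕ, Nonempty (↥P ≃* QuaternionGroup (2 ^ n)))) := by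
  have hP0 : (P : Subgroup G) ≠ ⊥ := P.ne_bot_of_dvd_card hdiv
  constructor
  · intro hG
    obtain ⟨H, hH, hpH, hse⟩ := not_chainConnected_iff.1 hG
    have hnorm : ∀ A : Subgroup G, A ≤ H → IsPGroup p A → A ≠ ⊥ → normalizer (A : Set G) ≤ H := by
      intro A hA hAp hA0
      exact normalizer_le_of_classical hse hA hAp hA0
    obtain ⟨S, hSH⟩ := exists_sylow_le_of_normalizer hpH hnorm
    refine ⟨?_, ?_⟩
    · by_contra h0
      have hle : pCore p G ≤ (S : Subgroup G) := (CfsgLib.Solv.pCore_isPGroup p).le_sylow_of_normal S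
      have h1 := hnorm (pCore p G) (hle.trans hSH) (CfsgLib.Solv.pCore_isPGroup p) h0
      rw [Subgroup.normalizer_eq_top_iff.2 (CfsgLib.Solv.pCore_normal' p)] at h1
      exact hH (top_le_iff.1 h1)
    · obtain ⟨g, hg⟩ := MulAction.exists_smul_eq G S P
      have hnoP : ∀ a ∈ (P : Subgroup G), ∀ b ∈ (P : Subgroup G), a * b = b * a → orderOf a = p → orderOf b = p →
          a ∉ zpowers b → False := by
        intro a ha b hb hab hao hbo hn
        have hmem : ∀ x ∈ (P : Subgroup G), g⁻¹ * x * g ∈ (S : Subgroup G) := by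
          intro x hx
          rw [← hg] at hx
          exact (CfsgLib.Trans.mem_sylow_smul g S x).1 hx
        have hord : ∀ x : G, orderOf (g⁻¹ * x * g) = orderOf x := by
          intro x
          have : g⁻¹ * x * g = (MulAut.conj g⁻¹) x := by simp [MulAut.conj_apply]
          rw [this]
          exact MulEquiv.orderOf_eq _ _
        refine noE hsol hdiv hH hse S hSH (hmem a ha) (hmem b hb) ?_ (by rw [hord, hao]) (by rw [hord, hbo]) ?_
        · calc g⁻¹ * a * g * (g⁻¹ * b * g) = g⁻¹ * (a * b) * g := by group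
            _ = g⁻¹ * (b * a) * g := by rw [hab]
            _ = _ := by group
        · rintro ⟨k, hk⟩
          apply hn
          refine ⟨k, ?_⟩
          have h1 : (g⁻¹ * b * g) ^ k = g⁻¹ * b ^ k * g := by
            have := conj_zpow (a := g⁻¹) (b := b) (i := k)
            simpa using this
          have h2 : (fun x => x ^ k) (g⁻¹ * b * g) = g⁻¹ * a * g := hk
          simp only [h1] at h2
          have h3 := congrArg (fun y => g * y * g⁻¹) h2
          simpa [mul_assoc] using h3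
      haveI hPnt : Nontrivial ↥(P : Subgroup G) := (Subgroup.nontrivial_iff_ne_bot _).2 hP0
      have hPg : IsPGroup p ↥(P : Subgroup G) := P.isPGroup'
      haveI hcnt : Nontrivial ↥(center ↥(P : Subgroup G)) := hPg.center_nontrivial
      have hc0 : center ↥(P : Subgroup G) ≠ ⊥ := (Subgroup.nontrivial_iff_ne_bot _).1 hcnt
      obtain ⟨z, hzc, hzo⟩ := exists_order_p (dvd_card_of_ne_bot (IsPGroup.to_subgroup hPg _) hc0)
      have hzo' : orderOf (z : G) = p := by rw [Subgroup.orderOf_coe]; exact hzo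
      have key : ∀ A : Subgroup ↥(P : Subgroup G), Nat.card A = p → A = zpowers z := by
        intro A hA
        haveI : IsCyclic A := isCyclic_of_prime_card hA
        obtain ⟨⟨h, hhA⟩, hgen⟩ := IsCyclic.exists_generator (α := A)
        have h1 : orderOf (⟨h, hhA⟩ : A) = Nat.card A := orderOf_eq_card_of_forall_mem_zpowers hgen
        have h2 : orderOf h = p := by
          rw [Subgroup.orderOf_mk] at h1
          rw [h1, hA]
        have h2' : orderOf (h : G) = p := by rw [Subgroup.orderOf_coe]; exact h2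
        have hmem : h ∈ zpowers z := by
          by_contra hn
          refine hnoP h.1 h.2 z.1 z.2 ?_ h2' hzo' ?_
          · have := mem_center_iff.1 hzc h
            exact congrArg Subtype.val this
          · rintro ⟨k, hk⟩
            apply hn
            refine ⟨k, Subtype.ext ?_⟩
            exact hk
        have hAle : A ≤ zpowers z := by
          intro y hy
          obtain ⟨k, hk⟩ := Subgroup.mem_zpowers_iff.1 (hgen ⟨y, hy⟩)
          have h3 : y = h ^ k := by
            have := congrArg Subtype.val hk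
            simpa using this.symm
          rw [h3]
          exact Subgroup.zpow_mem _ hmem k
        apply Subgroup.eq_of_le_of_card_ge hAle
        rw [hA, Nat.card_zpowers, hzo]
      have huniq : ∀ A B : Subgroup ↥(P : Subgroup G), Nat.card A = p → Nat.card B = p → A = B := by
        intro A B hA hB
        rw [key A hA, key B hB]
      exact CfsgLib.SS.unique_prime_subgroup p hPg huniq
  · rintro ⟨hO, hT⟩
    have hT' : IsCyclic ↥(P : Subgroup G) ∨ ∃ n : ℕ, Nonempty (↥(P : Subgroup G) ≃* QuaternionGroup n) := by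
      rcases hT with h | ⟨-, n, he⟩
      · exact Or.inl h
      · exact Or.inr ⟨2 ^ n, he⟩
    have h1 := normalizer_omegaOne_embedded_package hO P hP0 hT'
    obtain ⟨h2, h3, h4⟩ := classical_of_strongly h1
    exact not_chainConnected_iff.2 ⟨_, h2, h3, h4⟩

end CfsgLib.ChainConn
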