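import Cfsg.Agent.Lib.H3.Comp2
import Cfsg.Agent.Lib.SS.Sub2

/-! An abelian normal subgroup of a Sylow 2-subgroup moving a component forces abelian Sylow
2-subgroups of the component modulo its centre. -/

namespace CfsgLib.CompAb

open scoped Pointwise commutatorElement

variable {X : Type*} [Group X] [Finite X]

theorem main (K : Subgroup X) (hK : Cfsg.IsComponent K) (T : Sylow 2 X) (Y : Subgroup X)
    (hYT : Y ≤ (T : Subgroup X)) (hYn : (Y.subgroupOf (T : Subgroup X)).Normal)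
    (hYab : IsMulCommutative ↥Y) (hnot : ¬ Y ≤ Subgroup.normalizer (K : Set X))
    (P : Sylow 2 (↥K ⧸ Subgroup.center ↥K)) :
    IsMulCommutative ↥(P : Subgroup (↥K ⧸ Subgroup.center ↥K)) := by
  classical
  -- a moving element
  obtain ⟨y, hyY, hyn⟩ := Set.not_subset.1 hnot
  -- conjugate component
  set K' : Subgroup X := K.map (MulAut.conj y).toMonoidHom with hK'
  have hK'c : Cfsg.IsComponent K' := CfsgLib.Comp.component_conj hK y
  have hne : K ≠ K' := by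
    intro h
    apply hyn
    have := Fintype.ofFinite X
    refine SetLike.mem_coe.2 (Subgroup.mem_normalizer_fintype ?_)
    intro k hk
    have : (MulAut.conj y).toMonoidHom k ∈ K' := ⟨k, hk, rfl⟩
    rw [← h] at this
    simpa [MulAut.conj_apply] using this
  have hcomm : ⁅K, K'⁆ = ⊥ := CfsgLib.Comp.components_commute hK hK'c hne
  have hcm : ∀ a ∈ K, ∀ b ∈ K', a * b = b * a := by
    intro a ha b hb
    have : ⁅a, b⁆ ∈ ⁅K, K'⁆ := Subgroup.commutator_mem_commutator ha hb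
    rw [hcomm, Subgroup.mem_bot] at this
    exact commutatorElement_eq_one_iff_mul_comm.1 this
  -- the key commutation
  have key : ∀ r₁ ∈ (T : Subgroup X) ⊓ K, ∀ r₂ ∈ (T : Subgroup X) ⊓ K,
      (r₂ * r₁)⁻¹ * (r₁ * r₂) ∈ K ⊓ K' := by
    intro r₁ hr₁ r₂ hr₂
    have hyT : y ∈ (T : Subgroup X) := hYT hyY
    have hconj : ∀ r ∈ (T : Subgroup X), r * y * r⁻¹ ∈ Y := by
      intro r hr
      have h := hYn.conj_mem (⟨y, hyT⟩ : (T : Subgroup X))
        (Subgroup.mem_subgroupOf.2 hyY) ⟨r, hr⟩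
      exact Subgroup.mem_subgroupOf.1 h
    set s₁ : X := y * r₁⁻¹ * y⁻¹ with hs₁
    set s₂ : X := y * r₂⁻¹ * y⁻¹ with hs₂
    have hs₁K : s₁ ∈ K' := ⟨r₁⁻¹, K.inv_mem hr₁.2, by simp [MulAut.conj_apply, hs₁]⟩
    have hs₂K : s₂ ∈ K' := ⟨r₂⁻¹, K.inv_mem hr₂.2, by simp [MulAut.conj_apply, hs₂]⟩
    have ha : r₁ * s₁ ∈ Y := by
      have : r₁ * s₁ = (r₁ * y * r₁⁻¹) * y⁻¹ := by simp [hs₁, mul_assoc]
      rw [this]
      exact Y.mul_mem (hconj r₁ hr₁.1) (Y.inv_mem hyY)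
    have hb : r₂ * s₂ ∈ Y := by
      have : r₂ * s₂ = (r₂ * y * r₂⁻¹) * y⁻¹ := by simp [hs₂, mul_assoc]
      rw [this]
      exact Y.mul_mem (hconj r₂ hr₂.1) (Y.inv_mem hyY)
    have hab : (r₁ * s₁) * (r₂ * s₂) = (r₂ * s₂) * (r₁ * s₁) := by
      have := hYab.is_comm.comm (⟨_, ha⟩ : Y) ⟨_, hb⟩
      exact congrArg Subtype.val this
    have h12 : s₁ * r₂ = r₂ * s₁ := (hcm r₂ hr₂.2 s₁ hs₁K).symm
    have h21 : s₂ * r₁ = r₁ * s₂ := (hcm r₁ hr₁.2 s₂ hs₂K).symm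
    have hL : (r₁ * s₁) * (r₂ * s₂) = (r₁ * r₂) * (s₁ * s₂) := by
      calc (r₁ * s₁) * (r₂ * s₂) = r₁ * (s₁ * r₂) * s₂ := by group
        _ = r₁ * (r₂ * s₁) * s₂ := by rw [h12]
        _ = _ := by group
    have hR : (r₂ * s₂) * (r₁ * s₁) = (r₂ * r₁) * (s₂ * s₁) := by
      calc (r₂ * s₂) * (r₁ * s₁) = r₂ * (s₂ * r₁) * s₁ := by group
        _ = r₂ * (r₁ * s₂) * s₁ := by rw [h21]
        _ = _ := by group
    have heq : (r₂ * r₁)⁻¹ * (r₁ * r₂) = (s₂ * s₁) * (s₁ * s₂)⁻¹ := by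
      have h := hab
      rw [hL, hR] at h
      rw [inv_mul_eq_iff_eq_mul, ← mul_assoc, eq_mul_inv_iff_mul_eq]
      exact h
    refine ⟨K.mul_mem (K.inv_mem (K.mul_mem hr₂.2 hr₁.2)) (K.mul_mem hr₁.2 hr₂.2), ?_⟩
    rw [heq]
    exact K'.mul_mem (K'.mul_mem hs₂K hs₁K) (K'.inv_mem (K'.mul_mem hs₁K hs₂K))
  -- elements of K ∩ K' are central in K
  have hcentral : ∀ z (hz : z ∈ K ⊓ K'), (⟨z, hz.1⟩ : K) ∈ Subgroup.center K := by
    intro z hz
    rw [Subgroup.mem_center_iff]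
    intro k
    apply Subtype.ext
    exact hcm k.1 k.2 z hz.2
  -- image of T ∩ K
  obtain ⟨Q, hQ⟩ := CfsgLib.SS.exists_sylow_subgroupOf T hK.1
  let f : K →* (↥K ⧸ Subgroup.center ↥K) := QuotientGroup.mk' _
  have hf : Function.Surjective f := QuotientGroup.mk'_surjective _
  let Q' : Sylow 2 (↥K ⧸ Subgroup.center ↥K) := Q.mapSurjective hf
  have hQ'ab : ∀ u ∈ (Q' : Subgroup (↥K ⧸ Subgroup.center ↥K)), ∀ v ∈ (Q' : Subgroup (↥K ⧸ Subgroup.center ↥K)), u * v = v * u := by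
    intro u hu v hv
    obtain ⟨r₁, hr₁, rfl⟩ := hu
    obtain ⟨r₂, hr₂, rfl⟩ := hv
    have h1 : (r₁ : X) ∈ (T : Subgroup X) ⊓ K := by
      have : r₁ ∈ (Q : Subgroup K) := hr₁
      rw [hQ, Subgroup.mem_subgroupOf] at this
      exact ⟨this, r₁.2⟩
    have h2 : (r₂ : X) ∈ (T : Subgroup X) ⊓ K := by
      have : r₂ ∈ (Q : Subgroup K) := hr₂
      rw [hQ, Subgroup.mem_subgroupOf] at this
      exact ⟨this, r₂.2⟩
    have hk := key _ h1 _ h2
    have hc := hcentral _ hk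
    rw [← map_mul, ← map_mul]
    refine ((QuotientGroup.eq).2 ?_).symm
    exact hc
  -- conjugacy
  obtain ⟨g, hg⟩ := MulAction.exists_smul_eq (↥K ⧸ Subgroup.center ↥K) Q' P
  refine ⟨⟨?_⟩⟩
  rintro ⟨u, hu⟩ ⟨v, hv⟩
  apply Subtype.ext
  rw [← hg] at hu hv
  show u * v = v * u
  obtain ⟨u', hu', rfl⟩ := Subgroup.mem_map.1 hu
  obtain ⟨v', hv', rfl⟩ := Subgroup.mem_map.1 hv
  have := hQ'ab u' hu' v' hv'
  simp only [MulDistribMulAction.toMonoidEnd_apply, MulDistribMulAction.toMonoidHom_apply]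
  rw [← smul_mul', ← smul_mul', this]

end CfsgLib.CompAb
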