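import Cfsg.Agent.Lib.Solv.CoprimeSylow
import Cfsg.Agent.Lib.Solv.SZ
import Cfsg.Agent.Lib.Solv.Nilp
import Cfsg.Agent.Lib.Solv.Hall
import Cfsg.Agent.Lib.Solv.Coprime
import Cfsg.Prelude.Def_Transfer

/-! # Complements with normal `p`-complements and no fixed points are conjugate. -/

set_option autoImplicit false
set_option linter.unusedSectionVars false

namespace CfsgLib.ConjCompl

open Subgroup Pointwise

universe u

variable {G : Type u} [Group G] [Finite G] {p : ℕ} [hp : Fact p.Prime]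

/-- A `p`-group acting on a nontrivial `p`-subgroup fixes a nontrivial element. -/
lemma exists_fixed_elem (C P : Subgroup G) (hC : IsPGroup p C) (hP : IsPGroup p P)
    (hPC : P ≤ normalizer (C : Set G)) (hne : C ≠ ⊥) :
    ∃ z ∈ C, z ≠ 1 ∧ ∀ x ∈ P, x * z * x⁻¹ = z := by
  set L := P ⊔ C with hL
  have hLp : IsPGroup p L := CfsgLib.Solv.isPGroup_sup_of_le_normalizer hP hC hPC
  haveI : Group.IsNilpotent L := hLp.isNilpotent
  have hCL : C ≤ L := le_sup_right
  have hPL : P ≤ L := le_sup_left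
  haveI hn : (C.subgroupOf L).Normal := by
    apply Subgroup.normal_subgroupOf_iff_le_normalizer hCL |>.2
    exact sup_le hPC le_normalizer
  have hne' : C.subgroupOf L ≠ ⊥ := by
    intro h
    apply hne
    rw [eq_bot_iff]
    intro x hx
    have h2 : (⟨x, hCL hx⟩ : L) ∈ C.subgroupOf L := hx
    rw [h, Subgroup.mem_bot] at h2
    simpa using congrArg Subtype.val h2
  have h1 := CfsgLib.Solv.normal_inf_center_ne_bot (C.subgroupOf L) hne'
  obtain ⟨⟨z, hz⟩, hz1⟩ := Subgroup.ne_bot_iff_exists_ne_one.1 h1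
  refine ⟨z.1, hz.1, ?_, ?_⟩
  · intro h
    apply hz1
    ext
    exact h
  · intro x hx
    have h3 := Subgroup.mem_center_iff.1 hz.2 ⟨x, hPL hx⟩
    have h4 : x * z.1 = z.1 * x := congrArg Subtype.val h3
    rw [h4, mul_inv_cancel_right]

/-- Transfer of a normal `p`-complement to the ambient group. -/
lemma exists_data (A : Subgroup G) (hAp : Cfsg.HasNormalPComplement p A) :
    ∃ K P : Subgroup G, K ≤ A ∧ P ≤ A ∧ A ≤ normalizer (K : Set G) ∧ (Nat.card K).Coprime p ∧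
      IsPGroup p P ∧ Nat.card K * Nat.card P = Nat.card A ∧
      (∀ a ∈ A, ∃ k ∈ K, ∃ x ∈ P, a = k * x) := by
  obtain ⟨P', K', hK'n, hc⟩ := hAp
  refine ⟨K'.map A.subtype, (P' : Subgroup A).map A.subtype, ?_, ?_, ?_, ?_, ?_, ?_, ?_⟩
  · exact Subgroup.map_subtype_le _
  · exact Subgroup.map_subtype_le _
  · intro a ha
    rw [Subgroup.mem_normalizer_iff]
    intro y
    constructor
    · rintro ⟨k, hk, rfl⟩
      exact ⟨⟨a, ha⟩ * k * ⟨a, ha⟩⁻¹, hK'n.conj_mem k hk _, by simp⟩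
    · rintro ⟨k, hk, hky⟩
      refine ⟨⟨a, ha⟩⁻¹ * k * ⟨a, ha⟩, ?_, ?_⟩
      · have := hK'n.conj_mem k hk ⟨a, ha⟩⁻¹
        simpa using this
      · simp only [subtype_apply, coe_mul, InvMemClass.coe_inv] at hky ⊢
        rw [hky]
        group
  · have h1 : Nat.card (K'.map A.subtype) = Nat.card K' :=
      Nat.card_congr (Subgroup.equivMapOfInjective K' A.subtype A.subtype_injective).symm.toEquiv
    rw [h1, ← hc.index_eq_card]
    exact ((Nat.Prime.coprime_iff_not_dvd hp.out).2 P'.not_dvd_index).symm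
  · have h1 := P'.isPGroup'
    exact h1.map A.subtype
  · have h1 : Nat.card (K'.map A.subtype) = Nat.card K' :=
      Nat.card_congr (Subgroup.equivMapOfInjective K' A.subtype A.subtype_injective).symm.toEquiv
    have h2 : Nat.card ((P' : Subgroup A).map A.subtype) = Nat.card (P' : Subgroup A) :=
      Nat.card_congr (Subgroup.equivMapOfInjective _ A.subtype A.subtype_injective).symm.toEquiv
    rw [h1, h2]
    exact hc.card_mul
  · intro a ha
    obtain ⟨⟨k, x⟩, hkx⟩ := hc.2 ⟨a, ha⟩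
    refine ⟨k.1, ⟨k.1, k.2, rfl⟩, x.1, ⟨x.1, x.2, rfl⟩, ?_⟩
    have := congrArg Subtype.val hkx
    exact this.symm

/-- The normal closure step. -/
lemma le_sup_of_coprime (N : Subgroup G) [hNn : N.Normal] (A K P L : Subgroup G)
    (hA : A.IsComplement' N) (hKA : K ≤ A) (hAK : A ≤ normalizer (K : Set G))
    (hcard : Nat.card K * Nat.card P = Nat.card A) (hP : IsPGroup p P)
    (hL : (Nat.card L).Coprime p) : L ≤ K ⊔ N := by
  have hdisj : K ⊓ N = ⊥ := by
    rw [eq_bot_iff]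
    intro x hx
    have := hA.disjoint.le_bot ⟨hKA hx.1, hx.2⟩
    exact this
  haveI hMn : (K ⊔ N).Normal := by
    rw [← Subgroup.normalizer_eq_top_iff, eq_top_iff, ← hA.sup_eq_top]
    apply sup_le
    · intro a ha
      have h1 := hAK ha
      rw [CfsgLib.Solv.mem_normalizer_iff_conj_smul] at h1 ⊢
      have h2 : MulAut.conj a • N = N := CfsgLib.Solv.mem_normalizer_iff_conj_smul.1 (by
        rw [Subgroup.normalizer_eq_top]; trivial)
      rw [Subgroup.smul_sup, h1, h2]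
    · rw [Subgroup.le_normalizer_iff]
      intro m hm y hy
      have h1 : m * y * m⁻¹ * y⁻¹ ∈ N := by
        have h2 : m * y * m⁻¹ * y⁻¹ = m * (y * m⁻¹ * y⁻¹) := by group
        rw [h2]
        exact mul_mem hm (hNn.conj_mem _ (inv_mem hm) y)
      have h3 : m * y * m⁻¹ = (m * y * m⁻¹ * y⁻¹) * y := by group
      rw [h3]
      exact mul_mem ((le_sup_right : N ≤ K ⊔ N) h1) hy
  have hcardM : Nat.card (K ⊔ N : Subgroup G) = Nat.card K * Nat.card N := by
    have := CfsgLib.Solv.card_sup_mul_card_inf K N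
    rwa [hdisj, Subgroup.card_bot, mul_one] at this
  have hidx : (K ⊔ N).index = Nat.card P := by
    have h1 := Subgroup.card_mul_index (K ⊔ N)
    have h2 : Nat.card A * Nat.card N = Nat.card G := hA.card_mul
    rw [hcardM, ← h2, ← hcard] at h1
    have h3 : 0 < Nat.card K * Nat.card N := Nat.mul_pos Nat.card_pos Nat.card_pos
    have h4 : Nat.card K * Nat.card N * (K ⊔ N).index = Nat.card K * Nat.card N * Nat.card P := by
      rw [h1]; ring
    exact Nat.eq_of_mul_eq_mul_left h3 h4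
  intro g hg
  obtain ⟨t, ht⟩ := IsPGroup.iff_card.1 hP
  have h1 : g ^ (2 ^ 0 * Nat.card P) ∈ K ⊔ N := by
    rw [pow_zero, one_mul, ← hidx]
    exact Subgroup.pow_index_mem _ g
  have h2 : (Nat.card P).Coprime (orderOf g) := by
    rw [ht]
    apply Nat.Coprime.pow_left
    have h3 : orderOf g ∣ Nat.card L := by
      have := orderOf_dvd_natCard (⟨g, hg⟩ : L)
      rwa [Subgroup.orderOf_mk] at this
    exact (Nat.Coprime.coprime_dvd_right h3 hL.symm)
  obtain ⟨m, hm⟩ := exists_pow_eq_self_of_coprime h2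
  rw [← hm]
  apply pow_mem
  simpa using h1

/-- The key step: the normalizer of the `p'`-part lies in `A`. -/
lemma normalizer_le (N : Subgroup G) [hNn : N.Normal] (hN : IsPGroup p N) (A K P : Subgroup G)
    (hA : A.IsComplement' N) (hKA : K ≤ A) (hPA : P ≤ A) (hAK : A ≤ normalizer (K : Set G))
    (hP : IsPGroup p P) (hdec : ∀ a ∈ A, ∃ k ∈ K, ∃ x ∈ P, a = k * x)
    (hC : ∀ n : G, n ∈ N → (∀ a : G, a ∈ A → a * n * a⁻¹ = n) → n = 1) :
    normalizer (K : Set G) ≤ A := by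
  have hdisj : ∀ x, x ∈ K → x ∈ N → x = 1 := fun x hx hx' =>
    hA.disjoint.le_bot ⟨hKA hx, hx'⟩
  set C := N ⊓ centralizer (K : Set G) with hCdef
  have hCp : IsPGroup p C := hN.to_le inf_le_left
  have hPC : P ≤ normalizer (C : Set G) := by
    rw [Subgroup.le_normalizer_iff]
    intro x hx c hc
    refine ⟨hNn.conj_mem _ hc.1 x, ?_⟩
    change _ ∈ centralizer (K : Set G)
    rw [Subgroup.mem_centralizer_iff]
    intro k hk
    have h1 : x⁻¹ * k * x ∈ K := by
      have h2 := (Subgroup.le_normalizer_iff.1 hAK) x⁻¹ (inv_mem (hPA hx)) k hk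
      simpa using h2
    have h3 := Subgroup.mem_centralizer_iff.1 hc.2 _ h1
    calc k * (x * c * x⁻¹) = x * ((x⁻¹ * k * x) * c) * x⁻¹ := by group
      _ = x * (c * (x⁻¹ * k * x)) * x⁻¹ := by rw [h3]
      _ = x * c * x⁻¹ * k := by group
  have hCbot : C = ⊥ := by
    by_contra hne
    obtain ⟨z, hz, hz1, hzP⟩ := exists_fixed_elem C P hCp hP hPC hne
    apply hz1
    apply hC z hz.1
    intro a ha
    obtain ⟨k, hk, x, hx, rfl⟩ := hdec a ha
    have h1 := Subgroup.mem_centralizer_iff.1 hz.2 k hk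
    calc k * x * z * (k * x)⁻¹ = k * (x * z * x⁻¹) * k⁻¹ := by group
      _ = k * z * k⁻¹ := by rw [hzP x hx]
      _ = z := by rw [h1]; group
  intro g hg
  have hgtop : g ∈ A ⊔ N := by rw [hA.sup_eq_top]; trivial
  rw [← SetLike.mem_coe, Subgroup.mul_normal, Set.mem_mul] at hgtop
  obtain ⟨a, ha, m, hm, rfl⟩ := hgtop
  have hmn : m ∈ normalizer (K : Set G) := by
    have h1 := mul_mem (inv_mem (hAK ha)) hg
    simpa using h1
  have hmC : m ∈ C := by
    refine ⟨hm, ?_⟩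
    change _ ∈ centralizer (K : Set G)
    rw [Subgroup.mem_centralizer_iff]
    intro k hk
    have h1 : m * k * m⁻¹ ∈ K := (Subgroup.le_normalizer_iff.1 (zpowers_le.2 hmn)) m (mem_zpowers m) k hk
    have h2 : m * k * m⁻¹ * k⁻¹ ∈ K := mul_mem h1 (inv_mem hk)
    have h3 : m * k * m⁻¹ * k⁻¹ ∈ N := by
      have h4 : m * k * m⁻¹ * k⁻¹ = m * (k * m⁻¹ * k⁻¹) := by group
      rw [h4]
      exact mul_mem hm (hNn.conj_mem _ (inv_mem hm) k)
    have h5 := hdisj _ h2 h3
    have h6 : m * k * m⁻¹ = k := by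
      rwa [mul_inv_eq_one] at h5
    rw [mul_inv_eq_iff_eq_mul] at h6
    exact h6.symm
  rw [hCbot, Subgroup.mem_bot] at hmC
  rw [hmC, mul_one]
  exact ha

theorem main (N : Subgroup G) [hNn : N.Normal] (hN : IsPGroup p N) (A A₁ : Subgroup G)
    (hA : A.IsComplement' N) (hA₁ : A₁.IsComplement' N)
    (hAp : Cfsg.HasNormalPComplement p A) (hA₁p : Cfsg.HasNormalPComplement p A₁)
    (hC : ∀ n : G, n ∈ N → (∀ a : G, a ∈ A → a * n * a⁻¹ = n) → n = 1) :
    ∃ n : G, n ∈ N ∧ A₁ = A.map (MulAut.conj n).toMonoidHom := by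
  obtain ⟨K, P, hKA, hPA, hAK, hKc, hP, hcard, hdec⟩ := exists_data A hAp
  obtain ⟨K₁, P₁, hKA₁, hPA₁, hAK₁, hKc₁, hP₁, hcard₁, -⟩ := exists_data A₁ hA₁p
  have hle1 : K₁ ≤ K ⊔ N := le_sup_of_coprime N A K P K₁ hA hKA hAK hcard hP hKc₁
  have hle2 : K ≤ K₁ ⊔ N := le_sup_of_coprime N A₁ K₁ P₁ K hA₁ hKA₁ hAK₁ hcard₁ hP₁ hKc
  have hsup : K₁ ⊔ N = K ⊔ N := le_antisymm (sup_le hle1 le_sup_right) (sup_le hle2 le_sup_right)
  have hdisj : K ⊓ N = ⊥ := by
    rw [eq_bot_iff]
    intro x hx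
    exact hA.disjoint.le_bot ⟨hKA hx.1, hx.2⟩
  have hdisj₁ : K₁ ⊓ N = ⊥ := by
    rw [eq_bot_iff]
    intro x hx
    exact hA₁.disjoint.le_bot ⟨hKA₁ hx.1, hx.2⟩
  have hcardM : Nat.card (K ⊔ N : Subgroup G) = Nat.card K * Nat.card N := by
    have := CfsgLib.Solv.card_sup_mul_card_inf K N
    rwa [hdisj, Subgroup.card_bot, mul_one] at this
  have hcardM₁ : Nat.card (K₁ ⊔ N : Subgroup G) = Nat.card K₁ * Nat.card N := by
    have := CfsgLib.Solv.card_sup_mul_card_inf K₁ N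
    rwa [hdisj₁, Subgroup.card_bot, mul_one] at this
  have hNpos : 0 < Nat.card N := Nat.card_pos
  have hKK₁ : Nat.card K₁ = Nat.card K := by
    rw [hsup, hcardM] at hcardM₁
    exact (Nat.eq_of_mul_eq_mul_right hNpos hcardM₁).symm
  have hrel : N.relIndex (K ⊔ N) = Nat.card K := by
    have h1 := Subgroup.card_mul_index (N.subgroupOf (K ⊔ N))
    rw [CfsgLib.Solv.card_subgroupOf_of_le (le_sup_right : N ≤ K ⊔ N), hcardM, mul_comm (Nat.card K)] at h1
    exact Nat.eq_of_mul_eq_mul_left hNpos h1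
  obtain ⟨s, hs⟩ := IsPGroup.iff_card.1 hN
  obtain ⟨n, hnN, hn⟩ := CfsgLib.Solv.sz_conj_in N (K ⊔ N) K K₁ le_sup_right
    (sup_le (le_of_eq_of_le (by rfl) le_top |>.trans (by rw [Subgroup.normalizer_eq_top])) le_normalizer)
    (by rw [hrel, hs]; exact (Nat.Coprime.pow_left s hKc.symm)) le_sup_left hle1
    (by rw [hrel]) (by rw [hrel, hKK₁]) (Or.inl (by
      haveI : Group.IsNilpotent N := hN.isNilpotent
      infer_instance))
  refine ⟨n, hnN, ?_⟩
  have hnorm := normalizer_le N hN A K P hA hKA hPA hAK hP hdec hC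
  have hle : A₁ ≤ A.map (MulAut.conj n).toMonoidHom := by
    intro x hx
    have h1 : x ∈ normalizer (K₁ : Set G) := hAK₁ hx
    rw [← hn] at h1
    have h2 : n⁻¹ * x * n ∈ normalizer (K : Set G) := by
      rw [CfsgLib.Solv.mem_normalizer_iff_conj_smul] at h1 ⊢
      have e : n⁻¹ * x * n = n⁻¹ * (x * n) := by group
      rw [e, CfsgLib.Solv.conj_mul_smul, CfsgLib.Solv.conj_mul_smul, h1, CfsgLib.Solv.conj_inv_smul_smul]
    refine ⟨n⁻¹ * x * n, hnorm h2, ?_⟩
    simp [MulAut.conj_apply]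
    group
  have hcardEq : Nat.card (A.map (MulAut.conj n).toMonoidHom) ≤ Nat.card A₁ := by
    have h1 : Nat.card (A.map (MulAut.conj n).toMonoidHom) = Nat.card A :=
      Nat.card_congr (Subgroup.equivMapOfInjective A _ (MulAut.conj n).injective).symm.toEquiv
    have h2 : Nat.card A * Nat.card N = Nat.card G := hA.card_mul
    have h3 : Nat.card A₁ * Nat.card N = Nat.card G := hA₁.card_mul
    rw [h1]
    exact le_of_eq (Nat.eq_of_mul_eq_mul_right hNpos (h2.trans h3.symm))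
  exact Subgroup.eq_of_le_of_card_ge hle hcardEq

end CfsgLib.ConjCompl
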