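import Cfsg.Agent.Lib.H3.AlpGold
import Cfsg.Agent.Lib.H3.PSolv3
import Cfsg.Agent.Lib.PLocal.RankTwo
import Cfsg.Agent.Lib.H3.Signal3

/-! Groups in which `p`-subgroups of the same order are conjugate. -/

set_option linter.style.haveILetI false
set_option linter.unusedSectionVars false

namespace CfsgLib.ConjPSub

open Subgroup CfsgLib.CT1 CfsgLib.Solv CfsgLib.AlpGold

section abstract

variable {R : Type*} [Group R] [Finite R] {p : ℕ} [hpp : Fact p.Prime]

/-- A subgroup unique of its order contains every subgroup of smaller order. -/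
lemma le_of_unique (hR : IsPGroup p R) {V : Subgroup R}
    (hV : ∀ W : Subgroup R, Nat.card W = Nat.card V → W = V) {Y : Subgroup R}
    (hY : Nat.card Y ≤ Nat.card V) : Y ≤ V := by
  obtain ⟨m, hm⟩ := IsPGroup.iff_card.1 (hR.to_subgroup V)
  obtain ⟨n, hn⟩ := IsPGroup.iff_card.1 (hR.to_subgroup Y)
  have hnm : n ≤ m := by
    rw [hm, hn] at hY
    exact (Nat.pow_le_pow_iff_right hpp.out.one_lt).1 hY
  have hdvd : p ^ m ∣ Nat.card R := by
    rw [← hm]
    exact Subgroup.card_subgroup_dvd_card V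
  obtain ⟨K, hK, hYK⟩ := Sylow.exists_subgroup_card_pow_prime_le p hdvd Y hn hnm
  have := hV K (by rw [hK, hm])
  rwa [this] at hYK

/-- If a nontrivial proper subgroup is the unique one of its order, the `p`-group is cyclic. -/
theorem isCyclic_of_unique (hodd : p ≠ 2) (hR : IsPGroup p R) {V : Subgroup R} (hV1 : V ≠ ⊥) (hV2 : V ≠ ⊤)
    (hV : ∀ W : Subgroup R, Nat.card W = Nat.card V → W = V) : IsCyclic R := by
  by_contra hnc
  have hnc' : ¬ IsCyclic (⊤ : Subgroup R) := by
    intro h
    exact hnc (isCyclic_of_surjective (Subgroup.topEquiv.toMonoidHom) Subgroup.topEquiv.surjective)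
  obtain ⟨A, -, -, hA, hAc⟩ := CfsgLib.PLocal.exists_normal_rank_two hodd hR _ ⊤ rfl inferInstance hnc'
  have hVcard : 1 < Nat.card V := by
    rw [Subgroup.one_lt_card_iff_ne_bot]
    exact hV1
  obtain ⟨m, hm⟩ := IsPGroup.iff_card.1 (hR.to_subgroup V)
  have hm0 : 1 ≤ m := by
    rcases Nat.eq_zero_or_pos m with h | h
    · rw [hm, h, pow_zero] at hVcard
      omega
    · exact h
  -- an element outside `V`
  obtain ⟨x, hx⟩ : ∃ x, x ∉ V := by
    by_contra hc
    push Not at hc
    exact hV2 (eq_top_iff.2 fun y _ => hc y)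
  have hxcard : Nat.card V < Nat.card (zpowers x) := by
    by_contra hc
    exact hx (le_of_unique hR hV (not_lt.1 hc) (mem_zpowers x))
  -- `V` lies in the cyclic group `⟨x⟩`
  have hVx : V ≤ zpowers x := by
    have hZ : IsPGroup p (zpowers x) := hR.to_subgroup _
    obtain ⟨k, hk⟩ := IsPGroup.iff_card.1 hZ
    have hmk : p ^ m ∣ Nat.card (zpowers x) := by
      rw [hk]
      refine pow_dvd_pow _ ?_
      rw [hm, hk] at hxcard
      exact ((Nat.pow_lt_pow_iff_right hpp.out.one_lt).1 hxcard).le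
    obtain ⟨W, hW⟩ := Sylow.exists_subgroup_card_pow_prime p hmk
    have h1 : W.map (zpowers x).subtype = V := by
      apply hV
      rw [Subgroup.card_map_of_injective (zpowers x).subtype_injective, hW, hm]
    rw [← h1]
    exact Subgroup.map_subtype_le _
  -- `A` lies in `V`
  have hAV : A ≤ V := by
    intro a ha
    have h1 : a ^ p = 1 := hA.2 a ha
    have h2 : Nat.card (zpowers a) ≤ p := by
      rw [Nat.card_zpowers]
      exact Nat.le_of_dvd hpp.out.pos (orderOf_dvd_of_pow_eq_one h1)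
    have h3 : p ≤ Nat.card V := by
      rw [hm]
      exact Nat.le_self_pow (by omega) p
    exact le_of_unique hR hV (h2.trans h3) (mem_zpowers a)
  -- but an elementary abelian group of rank two is not cyclic
  haveI hcyc : IsCyclic A := by
    have hAx : A ≤ zpowers x := hAV.trans hVx
    haveI h1 : IsCyclic (A.subgroupOf (zpowers x)) := Subgroup.isCyclic _
    exact isCyclic_of_surjective (Subgroup.subgroupOfEquivOfLe hAx).toMonoidHom
      (Subgroup.subgroupOfEquivOfLe hAx).surjective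
  obtain ⟨⟨g, hg⟩, hgen⟩ := hcyc
  have h1 : orderOf (⟨g, hg⟩ : A) = p ^ 2 := by
    rw [orderOf_eq_card_of_forall_mem_zpowers hgen, hAc]
  have h2 : (⟨g, hg⟩ : A) ^ p = 1 := Subtype.ext (hA.2 g hg)
  have h3 := orderOf_dvd_of_pow_eq_one h2
  rw [h1] at h3
  have h4 := Nat.le_of_dvd hpp.out.pos h3
  have h5 := hpp.out.two_le
  nlinarith

end abstract

section ambient

variable {G : Type*} [Group G] [Finite G] {p : ℕ} [hpp : Fact p.Prime]

/-- Same-order subgroups conjugate in the normalizer force commutativity. -/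
theorem comm_of_conj (hodd : p ≠ 2) (P : Sylow p G)
    (hC : ∀ W W' : Subgroup G, W ≤ (P : Subgroup G) → W' ≤ (P : Subgroup G) → Nat.card W = Nat.card W' →
      ∃ n ∈ normalizer ((P : Subgroup G) : Set G), W' = W.map (cj n)) :
    ∀ x ∈ (P : Subgroup G), ∀ y ∈ (P : Subgroup G), x * y = y * x := by
  have hPp : IsPGroup p (P : Subgroup G) := P.isPGroup'
  have hpp' : p.Prime := hpp.out
  -- trivial `P`
  by_cases hbot : (P : Subgroup G) = ⊥
  · intro x hx y hy
    rw [hbot, Subgroup.mem_bot] at hx hy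
    rw [hx, hy]
  haveI : Nontrivial (P : Subgroup G) := (Subgroup.nontrivial_iff_ne_bot _).2 hbot
  -- a central element of order `p`
  obtain ⟨z₀, hz₀⟩ : ∃ z₀ : (center (P : Subgroup G)), orderOf z₀ = p := by
    have h1 : Nontrivial (center (P : Subgroup G)) := hPp.center_nontrivial
    have h2 : IsPGroup p (center (P : Subgroup G)) := hPp.to_subgroup _
    obtain ⟨n, hn⟩ := IsPGroup.iff_card.1 h2
    have h3 : p ∣ Nat.card (center (P : Subgroup G)) := by
      rw [hn]
      refine dvd_pow_self p ?_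
      rintro rfl
      rw [pow_zero] at hn
      exact (Finite.one_lt_card (α := center (P : Subgroup G))).ne' hn
    exact exists_prime_orderOf_dvd_card' p h3
  obtain ⟨z₁, hz₁⟩ : ∃ z₁ : G, z₁ = ((z₀ : (P : Subgroup G)) : G) := ⟨_, rfl⟩
  have hz₁P : z₁ ∈ (P : Subgroup G) := hz₁ ▸ (z₀ : (P : Subgroup G)).2
  have hz₁c : ∀ x ∈ (P : Subgroup G), x * z₁ = z₁ * x := by
    intro x hx
    have h1 := (Subgroup.mem_center_iff.1 z₀.2) ⟨x, hx⟩
    have h2 := congrArg Subtype.val h1
    rw [hz₁]
    exact h2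
  have hz₁o : orderOf z₁ = p := by
    rw [hz₁, Subgroup.orderOf_coe, Subgroup.orderOf_coe]
    exact hz₀
  -- every element of order `p` is central
  have hcent : ∀ z ∈ (P : Subgroup G), orderOf z = p → ∀ x ∈ (P : Subgroup G), x * z = z * x := by
    intro z hz hzo x hx
    obtain ⟨n, hn, hn2⟩ := hC (zpowers z₁) (zpowers z) (Subgroup.zpowers_le.2 hz₁P)
      (Subgroup.zpowers_le.2 hz) (by rw [Nat.card_zpowers, Nat.card_zpowers, hz₁o, hzo])
    have h1 : z ∈ (zpowers z₁).map (cj n) := hn2 ▸ mem_zpowers z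
    obtain ⟨w, hw, hwz⟩ := h1
    obtain ⟨k, rfl⟩ := Subgroup.mem_zpowers_iff.1 hw
    have h2 : n⁻¹ * x * n ∈ (P : Subgroup G) := by
      have := CfsgLib.CT.conj_mem_of_mem_normalizer (Subgroup.inv_mem _ hn) hx
      simpa using this
    have h3 : (n⁻¹ * x * n) * z₁ ^ k = z₁ ^ k * (n⁻¹ * x * n) := by
      have h4 : Commute (n⁻¹ * x * n) z₁ := hz₁c _ h2
      exact (h4.zpow_right k).eq
    have h5 : z = n * z₁ ^ k * n⁻¹ := hwz.symm
    rw [h5]
    calc x * (n * z₁ ^ k * n⁻¹) = n * ((n⁻¹ * x * n) * z₁ ^ k) * n⁻¹ := by group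
      _ = n * (z₁ ^ k * (n⁻¹ * x * n)) * n⁻¹ := by rw [h3]
      _ = n * z₁ ^ k * n⁻¹ * x := by group
  by_cases hsq : ∃ y ∈ (P : Subgroup G), orderOf y = p ^ 2
  · -- cyclic case
    obtain ⟨y, hy, hyo⟩ := hsq
    have hcyc : IsCyclic (P : Subgroup G) := by
      by_contra hnc
      have hnc' : ¬ IsCyclic (⊤ : Subgroup (P : Subgroup G)) := by
        intro h
        exact hnc (isCyclic_of_surjective (Subgroup.topEquiv.toMonoidHom) Subgroup.topEquiv.surjective)
      obtain ⟨A, -, -, hA, hAc⟩ := CfsgLib.PLocal.exists_normal_rank_two hodd hPp _ ⊤ rfl inferInstance hnc'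
      obtain ⟨n, hn, hn2⟩ := hC (zpowers y) (A.map (P : Subgroup G).subtype) (Subgroup.zpowers_le.2 hy)
        (Subgroup.map_subtype_le _) (by
          rw [Nat.card_zpowers, hyo, Subgroup.card_map_of_injective (P : Subgroup G).subtype_injective, hAc])
      have h1 : n * y * n⁻¹ ∈ A.map (P : Subgroup G).subtype := by
        rw [hn2]
        exact ⟨y, mem_zpowers y, rfl⟩
      obtain ⟨a, ha, hae⟩ := h1
      have h2 : a ^ p = 1 := hA.2 a ha
      have h3 : (n * y * n⁻¹) ^ p = 1 := by
        rw [← hae]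
        have := congrArg Subtype.val h2
        simpa using this
      rw [conj_pow, conj_eq_one_iff] at h3
      have h4 := orderOf_dvd_of_pow_eq_one h3
      rw [hyo] at h4
      have h5 := Nat.le_of_dvd hpp'.pos h4
      have h6 := hpp'.two_le
      nlinarith
    intro x hx y hy
    have h1 := (IsCyclic.isMulCommutative (α := (P : Subgroup G))).is_comm.comm ⟨x, hx⟩ ⟨y, hy⟩
    exact congrArg Subtype.val h1
  · -- exponent `p`
    push Not at hsq
    have hexp : ∀ x ∈ (P : Subgroup G), x = 1 ∨ orderOf x = p := by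
      intro x hx
      obtain ⟨k, hk⟩ := IsPGroup.iff_orderOf.1 hPp ⟨x, hx⟩
      rw [Subgroup.orderOf_mk] at hk
      rcases k with _ | _ | k
      · left
        simpa using hk
      · right
        simpa using hk
      · exfalso
        apply hsq (x ^ p ^ k) (Subgroup.pow_mem _ hx _)
        rw [orderOf_pow' x (pow_ne_zero _ hpp'.ne_zero), hk, Nat.gcd_eq_right (pow_dvd_pow _ (by omega)),
          Nat.pow_div (by omega) hpp'.pos]
        congr 1
        omega
    intro x hx y hy
    rcases hexp y hy with h | h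
    · rw [h]; simp
    · exact hcent y hy h x hx

lemma relIndex_comap_quot {X : Type*} [Group X] (M : Subgroup X) [M.Normal] (Q : Subgroup (X ⧸ M)) :
    M.relIndex (Q.comap (QuotientGroup.mk' M)) = Nat.card Q := by
  have h3 := Subgroup.relIndex_comap (H := (⊥ : Subgroup (X ⧸ M))) (QuotientGroup.mk' M) (Q.comap (QuotientGroup.mk' M))
  rw [MonoidHom.comap_bot, QuotientGroup.ker_mk', Subgroup.map_comap_eq_self_of_surjective (QuotientGroup.mk'_surjective _),
    Subgroup.relIndex_bot_left] at h3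
  exact h3

lemma relIndex_O1_O2_eq (H : Subgroup G) :
    (O1 p H).relIndex (O2 p H) = Nat.card (Cfsg.pCore p (H ⧸ Cfsg.pPrimeCore p H)) := by
  unfold O1 O2
  rw [Subgroup.relIndex_map_map_of_injective _ _ H.subtype_injective]
  haveI : (Cfsg.pPrimeCore p H).Normal := CfsgLib.Solv.pPrimeCore_normal' p
  exact relIndex_comap_quot _ _

/-- A `p`-solvable subgroup of order divisible by `p` has `p ∣ |O_{p',p}|`. -/
lemma dvd_card_O2 (H : Subgroup G) (hsolv : Cfsg.IsPSolvable p H) (hdiv : p ∣ Nat.card H) :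
    p ∣ Nat.card (O2 p H) := by
  by_contra hnd
  have hpp' := hpp.out
  haveI : (Cfsg.pPrimeCore p H).Normal := CfsgLib.Solv.pPrimeCore_normal' p
  have h1 : Cfsg.pCore p (H ⧸ Cfsg.pPrimeCore p H) = ⊥ := by
    have hc := relIndex_O1_O2_eq (p := p) H
    have h2 : Nat.card (Cfsg.pCore p (H ⧸ Cfsg.pPrimeCore p H)) ∣ Nat.card (O2 p H) := by
      rw [← hc]
      exact Subgroup.relIndex_dvd_card _ _
    obtain ⟨k, hk⟩ := IsPGroup.iff_card.1 (CfsgLib.Solv.pCore_isPGroup (G := H ⧸ Cfsg.pPrimeCore p H) p)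
    rcases Nat.eq_zero_or_pos k with h0 | h0
    · rw [h0, pow_zero] at hk
      exact Subgroup.card_eq_one.1 hk
    · exfalso
      apply hnd
      rw [hk] at h2
      exact (dvd_pow_self p (by omega)).trans h2
  have h2 : Cfsg.pPrimeCore p (H ⧸ Cfsg.pPrimeCore p H) = ⊥ := CfsgLib.Solv.pPrimeCore_quotient_eq_bot p
  have h3 : ¬ Nontrivial (H ⧸ Cfsg.pPrimeCore p H) := by
    intro hnt
    rcases CfsgLib.PSolv.core_ne_bot (CfsgLib.PSolv.quotient hpp' hsolv (Cfsg.pPrimeCore p H)) with h | h
    · exact h h1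
    · exact h h2
  have h4 : Cfsg.pPrimeCore p H = ⊤ := by
    rw [← Subgroup.index_eq_one, ← Nat.card_eq_one_iff_unique.2 ⟨not_nontrivial_iff_subsingleton.1 h3, inferInstance⟩]
    rfl
  have h5 := CfsgLib.Solv.pPrimeCore_coprime (G := H) p
  rw [h4, Subgroup.card_top] at h5
  exact (Nat.Prime.coprime_iff_not_dvd hpp').1 h5.symm hdiv

/-- The main theorem. -/
theorem main (hp : p ≠ 2) (hC : ∀ H K : Subgroup G, IsPGroup p H → IsPGroup p K → Nat.card H = Nat.card K →
      ∃ g : G, K = H.map (MulAut.conj g).toMonoidHom) (P : Sylow p G)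
    (H : Subgroup G) [hHn : H.Normal] (hsolv : Cfsg.IsPSolvable p H) (hdiv : p ∣ Nat.card H) :
    (∀ x ∈ (P : Subgroup G), ∀ y ∈ (P : Subgroup G), x * y = y * x) ∧
      ((P : Subgroup G) ≤ H ∨ IsCyclic (P : Subgroup G)) := by
  have hpp' := hpp.out
  have hPp : IsPGroup p (P : Subgroup G) := P.isPGroup'
  haveI : (Cfsg.pPrimeCore p H).Characteristic := CfsgLib.Comp.pPrimeCore_char p
  haveI : (Cfsg.pPrimePCore p H).Characteristic := CfsgLib.Signal.pPrimePCore_char p
  have hKn : (O1 p H).Normal := CfsgLib.Comp.char_map_normal_of_normal hHn _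
  have hVn : (O2 p H).Normal := CfsgLib.Comp.char_map_normal_of_normal hHn _
  have hVtop : normalizer ((O2 p H : Subgroup G) : Set G) = ⊤ := Subgroup.normalizer_eq_top_iff.2 hVn
  have hKtop : normalizer ((O1 p H : Subgroup G) : Set G) = ⊤ := Subgroup.normalizer_eq_top_iff.2 hKn
  have hPtop : IsSylowIn p (P : Subgroup G) ⊤ := by
    refine ⟨le_top, hPp, ?_⟩
    rw [Subgroup.relIndex_top_right]
    exact P.not_dvd_index
  have hVsyl : IsSylowIn p ((P : Subgroup G) ⊓ O2 p H) (O2 p H) :=
    isSylowIn_inf_normal hPtop le_top (hVtop ▸ le_refl _)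
  have hVne : (P : Subgroup G) ⊓ O2 p H ≠ ⊥ := by
    intro hb
    have h1 := dvd_card_O2 H hsolv hdiv
    apply hVsyl.2.2
    rw [hb, Subgroup.relIndex_bot_left]
    exact h1
  by_cases hPV : (P : Subgroup G) ≤ O2 p H
  · have hP : IsSylowIn p (P : Subgroup G) (O2 p H) := by
      have := hVsyl
      rwa [inf_eq_left.2 hPV] at this
    have hbot : (O1 p H) ⊓ (P : Subgroup G) = ⊥ := O1_inf_bot H hPp
    have hdecomp : ∀ g : G, ∃ k ∈ O1 p H, ∃ n ∈ normalizer ((P : Subgroup G) : Set G), g = k * n := by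
      intro g
      obtain ⟨y, hy, hyg⟩ := frattini hP (hVtop ▸ Subgroup.mem_top g : g ∈ normalizer ((O2 p H : Subgroup G) : Set G))
      have hPK : (P : Subgroup G) ≤ normalizer ((O1 p H : Subgroup G) : Set G) := hKtop ▸ le_top
      obtain ⟨k, hk, d, hd, rfl⟩ := CfsgLib.Signal.mem_sup_mul hPK (O2_le_sup hP hy)
      refine ⟨k, hk, d * ((k * d)⁻¹ * g), Subgroup.mul_mem _ (Subgroup.le_normalizer hd) hyg, by group⟩
    have hC' : ∀ W W' : Subgroup G, W ≤ (P : Subgroup G) → W' ≤ (P : Subgroup G) → Nat.card W = Nat.card W' →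
        ∃ n ∈ normalizer ((P : Subgroup G) : Set G), W' = W.map (cj n) := by
      intro W W' hW hW' hcard
      obtain ⟨g, hg⟩ := hC W W' (hPp.to_le hW) (hPp.to_le hW') hcard
      obtain ⟨k, hk, n, hn, rfl⟩ := hdecomp g
      refine ⟨n, hn, ?_⟩
      have h1 : W' = (W.map (cj n)).map (cj k) := by
        rw [hg, ← map_cj_mul]
      have hW₁ : W.map (cj n) ≤ (P : Subgroup G) := by
        rw [← map_cj_of_mem_normalizer hn]
        exact Subgroup.map_mono hW
      have h2 : ∀ w ∈ W.map (cj n), k * w * k⁻¹ = w := by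
        intro w hw
        have h3 : k * w * k⁻¹ ∈ W' := by
          rw [h1]
          exact ⟨w, hw, rfl⟩
        have h4 : k * w * k⁻¹ * w⁻¹ ∈ O1 p H ⊓ (P : Subgroup G) := by
          constructor
          · have h5 : k * w * k⁻¹ * w⁻¹ = k * (w * k⁻¹ * w⁻¹) := by group
            rw [h5]
            exact Subgroup.mul_mem _ hk (hKn.conj_mem _ (Subgroup.inv_mem _ hk) w)
          · exact Subgroup.mul_mem _ (hW' h3) (Subgroup.inv_mem _ (hW₁ hw))
        rw [hbot, Subgroup.mem_bot, mul_inv_eq_one] at h4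
        exact h4
      rw [h1]
      ext x
      constructor
      · rintro ⟨w, hw, rfl⟩
        have := h2 w hw
        change k * w * k⁻¹ ∈ _
        rw [this]
        exact hw
      · intro hx
        exact ⟨x, hx, h2 x hx⟩
    exact ⟨comm_of_conj hp P hC', Or.inl (hPV.trans (O2_le H))⟩
  · -- the cyclic case
    have hcyc : IsCyclic (P : Subgroup G) := by
      refine isCyclic_of_unique (p := p) (V := ((P : Subgroup G) ⊓ O2 p H).subgroupOf (P : Subgroup G)) hp hPp ?_ ?_ ?_
      · intro hb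
        apply hVne
        rw [Subgroup.subgroupOf_eq_bot] at hb
        rw [eq_bot_iff]
        exact (le_inf le_rfl inf_le_left).trans hb.le_bot
      · intro ht
        apply hPV
        rw [Subgroup.subgroupOf_eq_top] at ht
        exact ht.trans inf_le_right
      · intro W hW
        have hc1 : Nat.card (((P : Subgroup G) ⊓ O2 p H).subgroupOf (P : Subgroup G)) =
            Nat.card ((P : Subgroup G) ⊓ O2 p H : Subgroup G) :=
          CfsgLib.Solv.card_subgroupOf_of_le inf_le_left
        have hc2 : Nat.card (W.map (P : Subgroup G).subtype) = Nat.card W :=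
          Subgroup.card_map_of_injective (P : Subgroup G).subtype_injective
        obtain ⟨g, hg⟩ := hC ((P : Subgroup G) ⊓ O2 p H) (W.map (P : Subgroup G).subtype)
          (hPp.to_le inf_le_left) (hPp.to_le (Subgroup.map_subtype_le _)) (by rw [hc2, hW, hc1])
        have hle : W.map (P : Subgroup G).subtype ≤ (P : Subgroup G) ⊓ O2 p H := by
          refine le_inf (Subgroup.map_subtype_le _) ?_
          rw [hg]
          rintro _ ⟨v, hv, rfl⟩
          exact hVn.conj_mem _ hv.2 g
        have heq : W.map (P : Subgroup G).subtype = (P : Subgroup G) ⊓ O2 p H := by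
          apply Subgroup.eq_of_le_of_card_ge hle
          rw [hc2, hW, hc1]
        apply Subgroup.map_injective (P : Subgroup G).subtype_injective
        rw [heq, Subgroup.subgroupOf_map_subtype, inf_eq_left.2 inf_le_left]
    refine ⟨?_, Or.inr hcyc⟩
    intro x hx y hy
    have h1 := (IsCyclic.isMulCommutative (α := (P : Subgroup G))).is_comm.comm ⟨x, hx⟩ ⟨y, hy⟩
    exact congrArg Subtype.val h1

end ambient

end CfsgLib.ConjPSub
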