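import Mathlib
import Cfsg.Agent.Lib.H3.FrobSpec

/-! Frobenius groups `W ⋊ C_p`, with `W` a minimal `C_p`-invariant elementary abelian `r`-group:
the properties needed for critical groups. -/

set_option autoImplicit false

namespace CfsgLib.CritFrob

open CfsgLib.FrobSpec

/-- The properties of the Frobenius group used below. -/
structure Crit (r p : ℕ) (F : Type) [Group F] : Prop where
  orders : ∀ x : F, orderOf x = 1 ∨ orderOf x = r ∨ orderOf x = p
  ex_r : ∃ u : F, orderOf u = r
  ex_p : ∃ u : F, orderOf u = p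
  gen : ∀ S : Subgroup F, (∃ u ∈ S, orderOf u = r) → (∃ w ∈ S, orderOf w = p) → S = ⊤
  norm : ∀ T : Subgroup F, T.Normal → T ≠ ⊥ → ∀ u : F, orderOf u = r → u ∈ T
  comm : ∀ u v : F, orderOf u = r → orderOf v = r → u * v = v * u
  noncomm : ∃ u v : F, orderOf u = p ∧ orderOf v = p ∧ u * v ≠ v * u

section data

variable {r p : ℕ} [Fact r.Prime] [Fact p.Prime]

/-- Cyclic group of order `p`, multiplicatively. -/
abbrev Qp (p : ℕ) := Multiplicative (ZMod p)

theorem Qp_pow (g : Qp p) : g ^ p = 1 := by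
  have h : p • (Multiplicative.toAdd g) = 0 := by
    simp
  exact congrArg Multiplicative.ofAdd h

theorem Qp_order (g : Qp p) (hg : g ≠ 1) : orderOf g = p :=
  orderOf_eq_prime (Qp_pow g) hg

theorem Qp_exists_ne : ∃ g : Qp p, g ≠ 1 := by
  refine ⟨Multiplicative.ofAdd 1, ?_⟩
  intro h
  have h1 : (1 : ZMod p) = 0 := congrArg Multiplicative.toAdd h
  exact one_ne_zero h1

/-- Every element is a power of a nontrivial one. -/
theorem Qp_generated (g q : Qp p) (hg : g ≠ 1) : ∃ k : ℕ, q = g ^ k := by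
  have hg' : Multiplicative.toAdd g ≠ 0 := fun h => hg (congrArg Multiplicative.ofAdd h)
  refine ⟨(Multiplicative.toAdd q / Multiplicative.toAdd g).val, ?_⟩
  have h1 : Multiplicative.toAdd (g ^ (Multiplicative.toAdd q / Multiplicative.toAdd g).val) = Multiplicative.toAdd q := by
    rw [toAdd_pow, nsmul_eq_mul, ZMod.natCast_zmod_val, div_mul_cancel₀ _ hg']
  exact (congrArg Multiplicative.ofAdd h1).symm

variable {W : Type} [AddCommGroup W] [DistribMulAction (Qp p) W]

theorem conj_v (x : Aff W (Qp p)) (a : W) : x * ⟨a, 1⟩ * x⁻¹ = ⟨x.q • a, 1⟩ := by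
  apply Aff.ext'
  · simp [smul_add, smul_neg, smul_smul]
  · simp

theorem v_mul (a b : W) : ((⟨a, 1⟩ : Aff W (Qp p)) * ⟨b, 1⟩) = ⟨a + b, 1⟩ := by
  apply Aff.ext'
  · simp
  · simp

section

variable (hrW : ∀ v : W, r • v = 0)
  (hfpf : ∀ g : Qp p, g ≠ 1 → ∀ v : W, g • v = v → v = 0)
  (hirr : ∀ A : AddSubgroup W, A ≠ ⊥ → (∀ (q : Qp p) (a : W), a ∈ A → q • a ∈ A) → A = ⊤)
  (v0 : W) (hv0 : v0 ≠ 0) (hrp : r ≠ p)

include hrW in
theorem ord_v (v : W) (hv : v ≠ 0) : orderOf (⟨v, 1⟩ : Aff W (Qp p)) = r := by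
  apply orderOf_eq_prime
  · apply Aff.ext'
    · rw [pow_v]
      simp [hrW]
    · rw [pow_q]
      simp
  · intro h
    exact hv (congrArg Aff.v h)

include hrW hfpf in
theorem ord_cases (x : Aff W (Qp p)) :
    (x = 1 ∧ orderOf x = 1) ∨ (x.q = 1 ∧ x.v ≠ 0 ∧ orderOf x = r) ∨ (x.q ≠ 1 ∧ orderOf x = p) := by
  by_cases hq : x.q = 1
  · by_cases hv : x.v = 0
    · left
      have : x = 1 := Aff.ext' hv hq
      exact ⟨this, by rw [this, orderOf_one]⟩
    · right; left
      refine ⟨hq, hv, ?_⟩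
      have : x = ⟨x.v, 1⟩ := Aff.ext' rfl hq
      rw [this]
      exact ord_v hrW _ hv
  · right; right
    refine ⟨hq, ?_⟩
    haveI : Finite (Qp p) := inferInstance
    rw [orderOf_of_ne hfpf hq, Qp_order _ hq]

include hrW hfpf hirr hv0 hrp in
/-- The Frobenius group has the required properties. -/
theorem crit_of_data : Crit r p (Aff W (Qp p)) := by
  haveI : Finite (Qp p) := inferInstance
  have hp : p.Prime := Fact.out
  have hr : r.Prime := Fact.out
  obtain ⟨g0, hg0⟩ := Qp_exists_ne (p := p)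
  have hcases := ord_cases hrW hfpf
  -- elements of order `r`
  have hr_form : ∀ u : Aff W (Qp p), orderOf u = r → u.q = 1 ∧ u.v ≠ 0 := by
    intro u hu
    rcases hcases u with ⟨_, h⟩ | ⟨h1, h2, _⟩ | ⟨_, h⟩
    · exact absurd (hu.symm.trans h) hr.ne_one
    · exact ⟨h1, h2⟩
    · exact absurd (hu.symm.trans h) hrp
  have hp_form : ∀ u : Aff W (Qp p), orderOf u = p → u.q ≠ 1 := by
    intro u hu
    rcases hcases u with ⟨_, h⟩ | ⟨_, _, h⟩ | ⟨h1, _⟩
    · exact absurd (hu.symm.trans h) hp.ne_one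
    · exact absurd (hu.symm.trans h) hrp.symm
    · exact h1
  have hform : ∀ u : Aff W (Qp p), u.q = 1 → u = ⟨u.v, 1⟩ := fun u hu => Aff.ext' rfl hu
  have ord_p : ∀ (a : W) (g : Qp p), g ≠ 1 → orderOf (⟨a, g⟩ : Aff W (Qp p)) = p := by
    intro a g hg
    rcases hcases ⟨a, g⟩ with ⟨h, _⟩ | ⟨h, _, _⟩ | ⟨_, h⟩
    · exact absurd (congrArg Aff.q h) hg
    · exact absurd h hg
    · exact h
  refine ⟨?_, ⟨⟨v0, 1⟩, ord_v hrW _ hv0⟩, ⟨⟨0, g0⟩, ord_p _ _ hg0⟩, ?_, ?_, ?_, ⟨⟨0, g0⟩, ⟨v0, g0⟩, ord_p _ _ hg0, ord_p _ _ hg0, ?_⟩⟩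
  · intro x
    rcases hcases x with ⟨_, h⟩ | ⟨_, _, h⟩ | ⟨_, h⟩
    · exact Or.inl h
    · exact Or.inr (Or.inl h)
    · exact Or.inr (Or.inr h)
  · -- generation
    rintro S ⟨u, huS, hu⟩ ⟨w, hwS, hw⟩
    obtain ⟨hu1, hu2⟩ := hr_form u hu
    have hwq := hp_form w hw
    let A : AddSubgroup W :=
      { carrier := {a | (⟨a, 1⟩ : Aff W (Qp p)) ∈ S}
        zero_mem' := S.one_mem
        add_mem' := by
          intro a b ha hb
          have := S.mul_mem ha hb
          rwa [v_mul] at this
        neg_mem' := by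
          intro a ha
          have h1 := S.inv_mem ha
          have h2 : (⟨a, 1⟩ : Aff W (Qp p))⁻¹ = ⟨-a, 1⟩ := by
            apply Aff.ext'
            · simp
            · simp
          rwa [h2] at h1 }
    have hA : A = ⊤ := by
      apply hirr
      · intro h
        have h1 : u.v ∈ A := by
          show (⟨u.v, 1⟩ : Aff W (Qp p)) ∈ S
          rw [← hform u hu1]
          exact huS
        rw [h] at h1
        exact hu2 (AddSubgroup.mem_bot.1 h1)
      · intro q a ha
        obtain ⟨k, rfl⟩ := Qp_generated w.q q hwq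
        induction k with
        | zero =>
          rw [pow_zero, one_smul]
          exact ha
        | succ k ih =>
          rw [pow_succ', mul_smul]
          show (⟨w.q • (w.q ^ k • a), 1⟩ : Aff W (Qp p)) ∈ S
          rw [← conj_v]
          exact S.mul_mem (S.mul_mem hwS ih) (S.inv_mem hwS)
    have hall : ∀ a : W, (⟨a, 1⟩ : Aff W (Qp p)) ∈ S := by
      intro a
      have : a ∈ A := by rw [hA]; trivial
      exact this
    have h0w : (⟨0, w.q⟩ : Aff W (Qp p)) ∈ S := by
      have h1 := S.mul_mem (hall (-w.v)) hwS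
      have h2 : (⟨-w.v, 1⟩ : Aff W (Qp p)) * w = ⟨0, w.q⟩ := by
        apply Aff.ext'
        · simp
        · simp
      rwa [h2] at h1
    have h0q : ∀ q : Qp p, (⟨0, q⟩ : Aff W (Qp p)) ∈ S := by
      intro q
      obtain ⟨k, rfl⟩ := Qp_generated w.q q hwq
      have h3 : (⟨0, w.q ^ k⟩ : Aff W (Qp p)) = (⟨0, w.q⟩ : Aff W (Qp p)) ^ k := by
        exact map_pow (iHom : Qp p →* Aff W (Qp p)) w.q k
      rw [h3]
      exact S.pow_mem h0w k
    rw [eq_top_iff]
    intro x _
    have h4 : x = (⟨x.v, 1⟩ : Aff W (Qp p)) * ⟨0, x.q⟩ := by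
      apply Aff.ext'
      · simp
      · simp
    rw [h4]
    exact S.mul_mem (hall _) (h0q _)
  · -- normal subgroups
    intro T hT hne u hu
    obtain ⟨hu1, _⟩ := hr_form u hu
    let A : AddSubgroup W :=
      { carrier := {a | (⟨a, 1⟩ : Aff W (Qp p)) ∈ T}
        zero_mem' := T.one_mem
        add_mem' := by
          intro a b ha hb
          have := T.mul_mem ha hb
          rwa [v_mul] at this
        neg_mem' := by
          intro a ha
          have h1 := T.inv_mem ha
          have h2 : (⟨a, 1⟩ : Aff W (Qp p))⁻¹ = ⟨-a, 1⟩ := by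
            apply Aff.ext'
            · simp
            · simp
          rwa [h2] at h1 }
    have hA : A = ⊤ := by
      apply hirr
      · obtain ⟨y, hy⟩ := Subgroup.ne_bot_iff_exists_ne_one.1 hne
        have hx : (y : Aff W (Qp p)) ∈ T := y.2
        have hx1 : (y : Aff W (Qp p)) ≠ 1 := fun h => hy (Subtype.ext h)
        generalize (y : Aff W (Qp p)) = x at hx hx1
        · by_cases hq : x.q = 1
          · intro h
            have hv : x.v ≠ 0 := fun hv => hx1 (Aff.ext' hv hq)
            have h1 : x.v ∈ A := by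
              show (⟨x.v, 1⟩ : Aff W (Qp p)) ∈ T
              rw [← hform x hq]
              exact hx
            rw [h] at h1
            exact hv (AddSubgroup.mem_bot.1 h1)
          · intro h
            have h1 : x.q • v0 - v0 ∈ A := by
              show (⟨x.q • v0 - v0, 1⟩ : Aff W (Qp p)) ∈ T
              have h3 : (x * (⟨v0, 1⟩ : Aff W (Qp p)) * x⁻¹) * (⟨v0, 1⟩ : Aff W (Qp p))⁻¹ = ⟨x.q • v0 - v0, 1⟩ := by
                rw [conj_v]
                apply Aff.ext'
                · simp [sub_eq_add_neg]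
                · simp
              rw [← h3]
              have h4 : (⟨v0, 1⟩ : Aff W (Qp p)) * x⁻¹ * (⟨v0, 1⟩ : Aff W (Qp p))⁻¹ ∈ T :=
                hT.conj_mem _ (T.inv_mem hx) _
              have h5 : (x * (⟨v0, 1⟩ : Aff W (Qp p)) * x⁻¹) * (⟨v0, 1⟩ : Aff W (Qp p))⁻¹ =
                  x * ((⟨v0, 1⟩ : Aff W (Qp p)) * x⁻¹ * (⟨v0, 1⟩ : Aff W (Qp p))⁻¹) := by group
              rw [h5]
              exact T.mul_mem hx h4
            rw [h] at h1
            have h6 : x.q • v0 = v0 := sub_eq_zero.1 (AddSubgroup.mem_bot.1 h1)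
            exact hv0 (hfpf _ hq _ h6)
      · intro q a ha
        have h1 := hT.conj_mem _ ha (⟨0, q⟩ : Aff W (Qp p))
        rw [conj_v] at h1
        exact h1
    have h7 : u.v ∈ A := by rw [hA]; trivial
    rw [hform u hu1]
    exact h7
  · -- commuting
    intro u v hu hv
    obtain ⟨hu1, _⟩ := hr_form u hu
    obtain ⟨hv1, _⟩ := hr_form v hv
    rw [hform u hu1, hform v hv1, v_mul, v_mul, add_comm]
  · -- noncommuting
    intro h
    have h1 := congrArg Aff.v h
    simp only [mul_v, zero_add, smul_zero, add_zero] at h1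
    exact hv0 (hfpf _ hg0 _ h1)

end

end data

section exist

variable {r p : ℕ} [Fact r.Prime] [Fact p.Prime]

/-- Functions on `Z/p` with values in `Z/r`. -/
abbrev Fn (r p : ℕ) := ZMod p → ZMod r

instance (r p : ℕ) : DistribMulAction (Qp p) (Fn r p) where
  smul q f := fun x => f (x - Multiplicative.toAdd q)
  one_smul f := by
    funext x
    show f (x - 0) = f x
    rw [sub_zero]
  mul_smul q q' f := by
    funext x
    show f (x - (Multiplicative.toAdd q + Multiplicative.toAdd q')) =
      f (x - Multiplicative.toAdd q - Multiplicative.toAdd q')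
    congr 1
    ring
  smul_zero q := rfl
  smul_add q f g := rfl

theorem smul_apply' (q : Qp p) (f : Fn r p) (x : ZMod p) :
    (q • f) x = f (x - Multiplicative.toAdd q) := rfl

/-- Functions with sum zero. -/
def V0 (r p : ℕ) [Fact p.Prime] : AddSubgroup (Fn r p) where
  carrier := {f | ∑ x, f x = 0}
  zero_mem' := by
    show ∑ x : ZMod p, (0 : ZMod r) = 0
    simp
  add_mem' := by
    intro f g hf hg
    show ∑ x, (f x + g x) = 0
    rw [Finset.sum_add_distrib]
    rw [show (∑ x, f x) = 0 from hf, show (∑ x, g x) = 0 from hg, add_zero]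
  neg_mem' := by
    intro f hf
    show ∑ x, (-(f x)) = 0
    rw [Finset.sum_neg_distrib]
    rw [show (∑ x, f x) = 0 from hf, neg_zero]

/-- Invariance under the group. -/
def Inv' (A : AddSubgroup (Fn r p)) : Prop := ∀ (q : Qp p) (a : Fn r p), a ∈ A → q • a ∈ A

theorem V0_inv : Inv' (V0 r p) := by
  intro q a ha
  show ∑ x, (q • a) x = 0
  simp only [smul_apply']
  rw [← show (∑ x, a x) = 0 from ha]
  exact Equiv.sum_comp (Equiv.subRight (Multiplicative.toAdd q)) (fun x => a x)

theorem V0_ne : V0 r p ≠ ⊥ := by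
  classical
  have hp : p.Prime := Fact.out
  have h01 : (0 : ZMod p) ≠ 1 := zero_ne_one
  let f : Fn r p := fun x => (Pi.single 0 1 : ZMod p → ZMod r) x - (Pi.single 1 1 : ZMod p → ZMod r) x
  have hf : f ∈ V0 r p := by
    show ∑ x, f x = 0
    simp only [f]
    rw [Finset.sum_sub_distrib, Finset.sum_pi_single', Finset.sum_pi_single']
    simp
  intro h
  rw [h] at hf
  have h0 : f = 0 := AddSubgroup.mem_bot.1 hf
  have h1 : f 0 = 0 := congrFun h0 0
  simp only [f, Pi.single_eq_same] at h1
  rw [Pi.single_eq_of_ne h01, sub_zero] at h1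
  exact one_ne_zero h1

theorem exists_min : ∃ A : AddSubgroup (Fn r p), A ≠ ⊥ ∧ A ≤ V0 r p ∧ Inv' A ∧
    ∀ B : AddSubgroup (Fn r p), B ≠ ⊥ → B ≤ A → Inv' B → B = A := by
  haveI : Finite (AddSubgroup (Fn r p)) := Finite.of_injective (fun A => (A : Set (Fn r p)))
    SetLike.coe_injective
  let S : Set (AddSubgroup (Fn r p)) := {A | A ≠ ⊥ ∧ A ≤ V0 r p ∧ Inv' A}
  have hne : S.Nonempty := ⟨V0 r p, V0_ne, le_rfl, V0_inv⟩
  obtain ⟨A, hA⟩ := (Set.toFinite S).exists_minimal hne
  refine ⟨A, hA.1.1, hA.1.2.1, hA.1.2.2, ?_⟩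
  intro B hB hBA hBinv
  exact le_antisymm hBA (hA.2 ⟨hB, hBA.trans hA.1.2.1, hBinv⟩ hBA)

theorem exists_crit (hrp : r ≠ p) : ∃ (F : Type) (_ : Group F) (_ : Fintype F), Crit r p F := by
  classical
  have hp : p.Prime := Fact.out
  have hr : r.Prime := Fact.out
  obtain ⟨A, hA0, hAV, hAinv, hAmin⟩ := exists_min (r := r) (p := p)
  letI act : DistribMulAction (Qp p) ↥A :=
    { smul := fun q a => ⟨q • a.1, hAinv q a.1 a.2⟩
      one_smul := fun a => Subtype.ext (one_smul _ a.1)
      mul_smul := fun q q' a => Subtype.ext (mul_smul q q' a.1)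
      smul_zero := fun q => Subtype.ext (smul_zero q)
      smul_add := fun q a b => Subtype.ext (smul_add q a.1 b.1) }
  have hsmul : ∀ (q : Qp p) (a : ↥A), ((q • a : ↥A) : Fn r p) = q • (a : Fn r p) := fun _ _ => rfl
  obtain ⟨v0, hv0⟩ := (AddSubgroup.ne_bot_iff_exists_ne_zero).1 hA0
  refine ⟨Aff ↥A (Qp p), inferInstance, Fintype.ofFinite _, crit_of_data (r := r) ?_ ?_ ?_ v0 hv0 hrp⟩
  · -- exponent
    intro v
    apply Subtype.ext
    funext x
    show r • ((v : Fn r p) x) = 0
    rw [nsmul_eq_mul, ZMod.natCast_self, zero_mul]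
  · -- fixed-point-free
    intro g hg v hv
    apply Subtype.ext
    have hfix : ∀ q : Qp p, q • (v : Fn r p) = v := by
      intro q
      obtain ⟨k, rfl⟩ := Qp_generated g q hg
      have hg' : g • (v : Fn r p) = v := by
        have := congrArg Subtype.val hv
        exact this
      induction k with
      | zero => rw [pow_zero, one_smul]
      | succ k ih => rw [pow_succ', mul_smul, ih, hg']
    have hconst : ∀ y : ZMod p, (v : Fn r p) y = (v : Fn r p) 0 := by
      intro y
      have := congrFun (hfix (Multiplicative.ofAdd (-y))) 0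
      rw [smul_apply'] at this
      simpa using this
    have hsum : ∑ x, (v : Fn r p) x = 0 := hAV v.2
    simp only [hconst, Finset.sum_const, Finset.card_univ, ZMod.card, nsmul_eq_mul] at hsum
    have hpr : ((p : ℕ) : ZMod r) ≠ 0 := by
      intro h
      rw [ZMod.natCast_eq_zero_iff] at h
      exact hrp ((Nat.prime_dvd_prime_iff_eq hr hp).1 h)
    have h0 := (mul_eq_zero.1 hsum).resolve_left hpr
    funext x
    rw [hconst]
    exact h0
  · -- irreducible
    intro B hB hBinv
    have h1 := hAmin (B.map A.subtype) (by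
      intro h
      apply hB
      rw [AddSubgroup.map_eq_bot_iff_of_injective _ A.subtype_injective] at h
      exact h)
      (AddSubgroup.map_subtype_le B)
      (by
        rintro q _ ⟨b, hb, rfl⟩
        exact ⟨q • b, hBinv q b hb, rfl⟩)
    rw [eq_top_iff]
    intro a _
    have h2 : (a : Fn r p) ∈ B.map A.subtype := by rw [h1]; exact a.2
    obtain ⟨b, hb, hba⟩ := h2
    have : b = a := Subtype.ext hba
    rwa [← this]

end exist

section prod

variable {J : Type} [Fintype J] [DecidableEq J] (F : J → Type) [∀ j, Group (F j)]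
  (r p : J → ℕ) (hr : ∀ j, (r j).Prime) (hp : ∀ j, (p j).Prime) (hrp : ∀ j, r j ≠ p j)
  (hdist : ∀ j k, j ≠ k → r j ≠ r k ∧ r j ≠ p k ∧ p j ≠ r k ∧ p j ≠ p k)
  (hc : ∀ j, Crit (r j) (p j) (F j))

/-- The set of orders of the product. -/
def OmegaF : Set ℕ := {m | ∃ c : J → ℕ, (∀ j, c j = 1 ∨ c j = r j ∨ c j = p j) ∧ m = ∏ j, c j}

include hr hp hc in
theorem pow_e (j : J) (x : F j) : x ^ (r j * p j) = 1 := by
  apply orderOf_dvd_iff_pow_eq_one.1
  rcases (hc j).orders x with h | h | h <;> rw [h]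
  · exact one_dvd _
  · exact dvd_mul_right _ _
  · exact dvd_mul_left _ _

/-- The product of the exponents of the other factors. -/
def MM (j : J) : ℕ := ∏ k ∈ Finset.univ.erase j, (r k * p k)

include hr hp hdist in
theorem coprime_MM (j : J) (π : ℕ) (hπ : π = r j ∨ π = p j) : Nat.Coprime (MM r p j) π := by
  apply Nat.Coprime.prod_left
  intro k hk
  have hkj : k ≠ j := Finset.ne_of_mem_erase hk
  obtain ⟨h1, h2, h3, h4⟩ := hdist k j hkj
  rcases hπ with rfl | rfl
  · exact Nat.Coprime.mul_left ((Nat.coprime_primes (hr k) (hr j)).2 h1) ((Nat.coprime_primes (hp k) (hr j)).2 h3)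
  · exact Nat.Coprime.mul_left ((Nat.coprime_primes (hr k) (hp j)).2 h2) ((Nat.coprime_primes (hp k) (hp j)).2 h4)

include hr hp hc in
theorem pow_MM (j : J) (x : ∀ k, F k) : x ^ (MM r p j) = Pi.mulSingle j (x j ^ (MM r p j)) := by
  funext k
  by_cases hk : k = j
  · subst hk
    simp
  · rw [Pi.mulSingle_eq_of_ne hk, Pi.pow_apply]
    apply orderOf_dvd_iff_pow_eq_one.1
    have h1 : r k * p k ∣ MM r p j := Finset.dvd_prod_of_mem _ (Finset.mem_erase.2 ⟨hk, Finset.mem_univ k⟩)
    exact (orderOf_dvd_of_pow_eq_one (pow_e F r p hr hp hc k (x k))).trans h1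

theorem orderOf_single (j : J) (u : F j) : orderOf (Pi.mulSingle j u : ∀ k, F k) = orderOf u :=
  orderOf_injective (MonoidHom.mulSingle F j) (Pi.mulSingle_injective j) u

include hr hp hrp hdist hc in
theorem orderOf_pi (x : ∀ k, F k) : orderOf x = ∏ k, orderOf (x k) := by
  have hcop : ∀ j k, j ≠ k → Nat.Coprime (orderOf (x j)) (orderOf (x k)) := by
    intro j k hjk
    obtain ⟨h1, h2, h3, h4⟩ := hdist j k hjk
    rcases (hc j).orders (x j) with a | a | a <;> rcases (hc k).orders (x k) with b | b | b <;> rw [a, b]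
    all_goals first
      | exact Nat.coprime_one_left _
      | exact Nat.coprime_one_right _
      | exact (Nat.coprime_primes (hr j) (hr k)).2 h1
      | exact (Nat.coprime_primes (hr j) (hp k)).2 h2
      | exact (Nat.coprime_primes (hp j) (hr k)).2 h3
      | exact (Nat.coprime_primes (hp j) (hp k)).2 h4
  apply Nat.dvd_antisymm
  · apply orderOf_dvd_of_pow_eq_one
    funext k
    rw [Pi.pow_apply, Pi.one_apply]
    exact orderOf_dvd_iff_pow_eq_one.1 (Finset.dvd_prod_of_mem _ (Finset.mem_univ k))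
  · apply Finset.prod_dvd_of_isRelPrime
    · intro j _ k _ hjk
      exact (Nat.coprime_iff_isRelPrime).1 (hcop j k hjk)
    · intro k _
      have h1 := pow_orderOf_eq_one x
      apply orderOf_dvd_of_pow_eq_one
      have := congrFun h1 k
      simpa using this

include hr hp hrp hdist hc in
theorem range_pi : Set.range (orderOf : (∀ k, F k) → ℕ) = OmegaF r p := by
  classical
  ext m
  constructor
  · rintro ⟨x, rfl⟩
    exact ⟨fun k => orderOf (x k), fun k => (hc k).orders (x k), orderOf_pi F r p hr hp hrp hdist hc x⟩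
  · rintro ⟨c, hc1, rfl⟩
    have hex : ∀ k, ∃ u : F k, orderOf u = c k := by
      intro k
      rcases hc1 k with h | h | h <;> rw [h]
      · exact ⟨1, orderOf_one⟩
      · exact (hc k).ex_r
      · exact (hc k).ex_p
    choose u hu using hex
    refine ⟨u, ?_⟩
    rw [orderOf_pi F r p hr hp hrp hdist hc u]
    exact Finset.prod_congr rfl (fun k _ => hu k)

include hr hp hdist hc in
theorem comm_r (j : J) (u v : ∀ k, F k) (hu : orderOf u = r j) (hv : orderOf v = r j) :
    u * v = v * u := by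
  have key : ∀ w : ∀ k, F k, orderOf w = r j → w = Pi.mulSingle j (w j) ∧ orderOf (w j) = r j := by
    intro w hw
    have h1 : w = Pi.mulSingle j (w j) := by
      funext k
      by_cases hk : k = j
      · subst hk
        simp
      · rw [Pi.mulSingle_eq_of_ne hk]
        have h2 : w k ^ r j = 1 := by
          have := congrFun (hw ▸ pow_orderOf_eq_one w) k
          simpa using this
        obtain ⟨h3, h4, h5, h6⟩ := hdist k j hk
        have h7 := orderOf_dvd_of_pow_eq_one h2
        rcases (hc k).orders (w k) with a | a | a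
        · exact orderOf_eq_one_iff.1 a
        · rw [a] at h7
          exact absurd ((Nat.prime_dvd_prime_iff_eq (hr k) (hr j)).1 h7) h3
        · rw [a] at h7
          exact absurd ((Nat.prime_dvd_prime_iff_eq (hp k) (hr j)).1 h7) h5
    refine ⟨h1, ?_⟩
    rw [← orderOf_single F j (w j), ← h1, hw]
  obtain ⟨h1, h2⟩ := key u hu
  obtain ⟨h3, h4⟩ := key v hv
  rw [h1, h3, ← Pi.mulSingle_mul, ← Pi.mulSingle_mul, (hc j).comm _ _ h2 h4]

include hc in
theorem noncomm_p (j : J) : ∃ u v : ∀ k, F k, orderOf u = p j ∧ orderOf v = p j ∧ u * v ≠ v * u := by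
  obtain ⟨u, v, hu, hv, huv⟩ := (hc j).noncomm
  refine ⟨Pi.mulSingle j u, Pi.mulSingle j v, by rw [orderOf_single, hu], by rw [orderOf_single, hv], ?_⟩
  intro h
  rw [← Pi.mulSingle_mul, ← Pi.mulSingle_mul] at h
  exact huv (Pi.mulSingle_injective j h)

include hr hp hrp hdist hc in
/-- Criticality of the product. -/
theorem critical (H : Subgroup (∀ k, F k)) (N : Subgroup ↥H) [hN : N.Normal]
    (hΩ : Set.range (orderOf : (↥H ⧸ N) → ℕ) = OmegaF r p) : H = ⊤ ∧ N = ⊥ := by
  classical
  have hin : ∀ j π, (π = r j ∨ π = p j) → π ∈ OmegaF r p := by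
    intro j π hπ
    refine ⟨fun k => if k = j then π else 1, ?_, ?_⟩
    · intro k
      by_cases hk : k = j
      · subst hk
        simp only [if_true]
        exact Or.inr hπ
      · simp [hk]
    · simp
  have L1 : ∀ j π, (π = r j ∨ π = p j) → ∃ u : F j, orderOf u = π ∧
      ∃ hu : (Pi.mulSingle j u : ∀ k, F k) ∈ H,
        (((⟨Pi.mulSingle j u, hu⟩ : ↥H) : ↥H) : ↥H ⧸ N) ≠ 1 := by
    intro j π hπ
    have hpr : π.Prime := by
      rcases hπ with rfl | rfl
      · exact hr j
      · exact hp j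
    have h1 := hin j π hπ
    rw [← hΩ] at h1
    obtain ⟨xb, hxb⟩ := h1
    obtain ⟨x, rfl⟩ := QuotientGroup.mk_surjective xb
    have hcop := coprime_MM r p hr hp hdist j π hπ
    set M := MM r p j with hM
    set u : F j := (x : ∀ k, F k) j ^ M with hu
    have hy : ((x ^ M : ↥H) : ∀ k, F k) = Pi.mulSingle j u := by
      rw [Subgroup.coe_pow]
      exact pow_MM F r p hr hp hc j _
    have humem : (Pi.mulSingle j u : ∀ k, F k) ∈ H := by
      rw [← hy]
      exact (x ^ M).2
    have hye : (⟨Pi.mulSingle j u, humem⟩ : ↥H) = x ^ M := Subtype.ext hy.symm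
    have hord : orderOf (((x ^ M : ↥H)) : ↥H ⧸ N) = π := by
      have h2 : (((x ^ M : ↥H)) : ↥H ⧸ N) = ((x : ↥H) : ↥H ⧸ N) ^ M := rfl
      rw [h2, Nat.Coprime.orderOf_pow (by rw [hxb]; exact hcop.symm), hxb]
    have hne : (((x ^ M : ↥H)) : ↥H ⧸ N) ≠ 1 := by
      intro h
      rw [h, orderOf_one] at hord
      exact hpr.one_lt.ne hord
    refine ⟨u, ?_, humem, by rw [hye]; exact hne⟩
    -- the order of `u`
    have hdvd : π ∣ orderOf u := by
      rw [← hord]
      apply orderOf_dvd_of_pow_eq_one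
      have h3 : (x ^ M : ↥H) ^ orderOf u = 1 := by
        apply Subtype.ext
        rw [Subgroup.coe_pow, hy, ← Pi.mulSingle_pow, pow_orderOf_eq_one]
        simp
      have h4 : (((x ^ M : ↥H)) : ↥H ⧸ N) ^ orderOf u = (((x ^ M : ↥H) ^ orderOf u : ↥H) : ↥H ⧸ N) := rfl
      rw [h4, h3]
      rfl
    rcases (hc j).orders u with a | a | a
    · rw [a] at hdvd
      exact absurd (Nat.dvd_one.1 hdvd) hpr.ne_one
    · rw [a] at hdvd ⊢
      exact ((Nat.prime_dvd_prime_iff_eq hpr (hr j)).1 hdvd).symm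
    · rw [a] at hdvd ⊢
      exact ((Nat.prime_dvd_prime_iff_eq hpr (hp j)).1 hdvd).symm
  have hall : ∀ j (a : F j), (Pi.mulSingle j a : ∀ k, F k) ∈ H := by
    intro j a
    obtain ⟨u, hu, hu1, -⟩ := L1 j (r j) (Or.inl rfl)
    obtain ⟨w, hw, hw1, -⟩ := L1 j (p j) (Or.inr rfl)
    have htop := (hc j).gen (H.comap (MonoidHom.mulSingle F j)) ⟨u, hu1, hu⟩ ⟨w, hw1, hw⟩
    have : a ∈ H.comap (MonoidHom.mulSingle F j) := by rw [htop]; trivial
    exact this
  have hHtop : H = ⊤ := by
    rw [eq_top_iff]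
    intro x _
    have key : ∀ S : Finset J, ∀ x : ∀ k, F k, (∀ k, k ∉ S → x k = 1) → x ∈ H := by
      intro S
      induction S using Finset.induction_on with
      | empty =>
        intro x hx
        have : x = 1 := by
          funext k
          exact hx k (by simp)
        rw [this]
        exact H.one_mem
      | insert j S hj ih =>
        intro x hx
        have h1 : x = Pi.mulSingle j (x j) * Function.update x j 1 := by
          funext k
          by_cases hk : k = j
          · subst hk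
            simp
          · simp [hk, Pi.mulSingle_eq_of_ne hk]
        rw [h1]
        apply H.mul_mem (hall j _)
        apply ih
        intro k hk
        by_cases hkj : k = j
        · subst hkj
          simp
        · rw [Function.update_of_ne hkj]
          exact hx k (by simp [hkj, hk])
    exact key Finset.univ x (by simp)
  refine ⟨hHtop, ?_⟩
  rw [eq_bot_iff]
  intro n hn
  by_contra hne
  have hne' : (n : ∀ k, F k) ≠ 1 := fun h => hne (by
    rw [Subgroup.mem_bot]
    exact Subtype.ext h)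
  obtain ⟨j, hj⟩ : ∃ j, (n : ∀ k, F k) j ≠ 1 := by
    by_contra hall'
    push Not at hall'
    exact hne' (funext hall')
  set M := MM r p j with hM
  set u : F j := (n : ∀ k, F k) j ^ M with hu
  have hy : ((n ^ M : ↥H) : ∀ k, F k) = Pi.mulSingle j u := by
    rw [Subgroup.coe_pow]
    exact pow_MM F r p hr hp hc j _
  have hu1 : u ≠ 1 := by
    intro h
    have h2 : orderOf u = orderOf ((n : ∀ k, F k) j) := by
      rw [hu]
      apply Nat.Coprime.orderOf_pow
      rcases (hc j).orders ((n : ∀ k, F k) j) with a | a | a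
      · rw [a]; exact Nat.coprime_one_left _
      · rw [a]; exact (coprime_MM r p hr hp hdist j (r j) (Or.inl rfl)).symm
      · rw [a]; exact (coprime_MM r p hr hp hdist j (p j) (Or.inr rfl)).symm
    rw [h, orderOf_one] at h2
    exact hj (orderOf_eq_one_iff.1 h2.symm)
  let ι' : F j →* ↥H := (MonoidHom.mulSingle F j).codRestrict H (hall j)
  have hTn : (N.comap ι').Normal := inferInstance
  have hTne : N.comap ι' ≠ ⊥ := by
    intro h
    have h2 : u ∈ N.comap ι' := by
      show ι' u ∈ N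
      have h3 : ι' u = n ^ M := Subtype.ext hy.symm
      rw [h3]
      exact N.pow_mem hn M
    rw [h] at h2
    exact hu1 (Subgroup.mem_bot.1 h2)
  obtain ⟨v, hv, hv1, hv2⟩ := L1 j (r j) (Or.inl rfl)
  have h5 := (hc j).norm _ hTn hTne v hv
  apply hv2
  rw [QuotientGroup.eq_one_iff]
  have h6 : (⟨Pi.mulSingle j v, hv1⟩ : ↥H) = ι' v := rfl
  rw [h6]
  exact h5

end prod

end CfsgLib.CritFrob
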