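import Cfsg.Agent.Lib.H3.BenderMax
import Cfsg.Agent.Lib.H3.PComp
import Cfsg.Agent.Lib.Trans.Basic
import Cfsg.Agent.Lib.SS.FPF
import Cfsg.Agent.Lib.Solv.CoprimeSylow

/-! # Groups with cyclic Sylow `p`-subgroups and `O_{p'}(G) = 1`. -/

set_option autoImplicit false
set_option linter.unusedSectionVars false
set_option linter.style.haveILetI false

namespace CfsgLib.CycSyl2

open Subgroup

universe u

variable {G : Type u} [Group G] [Finite G] {p : ℕ} [hpp : Fact p.Prime]

lemma all_cyclic (P T : Sylow p G) (hP : IsCyclic (P : Subgroup G)) : IsCyclic (T : Subgroup G) := by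
  obtain ⟨g, hg⟩ := MulAction.exists_smul_eq G P T
  have hT : (T : Subgroup G) = (P : Subgroup G).map (MulAut.conj g).toMonoidHom := by
    rw [← hg]; rfl
  rw [hT]
  exact isCyclic_of_surjective ((MulAut.conj g).toMonoidHom.subgroupMap (P : Subgroup G))
    ((MulAut.conj g).toMonoidHom.subgroupMap_surjective _)

lemma pgroup_cyclic (P : Sylow p G) (hP : IsCyclic (P : Subgroup G)) (Q : Subgroup G) (hQ : IsPGroup p Q) :
    IsCyclic Q := by
  obtain ⟨T, hT⟩ := hQ.exists_le_sylow
  haveI := all_cyclic P T hP
  exact isCyclic_of_injective (Subgroup.inclusion hT) (Subgroup.inclusion_injective hT)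

lemma comm_of_cyclic (T : Subgroup G) (hT : IsCyclic T) : IsMulCommutative T := by
  letI := IsCyclic.commGroup (α := T)
  exact ⟨⟨fun a b => mul_comm a b⟩⟩

/-- Dichotomy for a cyclic Sylow subgroup. -/
lemma dich (T : Sylow p G) (hT : IsCyclic (T : Subgroup G)) :
    ⁅(T : Subgroup G), normalizer (T : Set G)⁆ = T ∨ ⁅(T : Subgroup G), normalizer (T : Set G)⁆ = ⊥ := by
  have hc : IsMulCommutative T := comm_of_cyclic _ hT
  obtain ⟨h1, h2⟩ := CfsgLib.Trans.abelian_sylow_decomp T hc
  have hle : ⁅(T : Subgroup G), normalizer (T : Set G)⁆ ≤ T := CfsgLib.Trans.commutator_sylow_le_self T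
  rcases CfsgLib.Trans.cyclic_indecomposable hT T.isPGroup' hle inf_le_left h2 with h | h
  · exact Or.inl h
  · right
    rw [h] at h1
    rw [inf_eq_left.2 hle] at h1
    exact h1

lemma dichotomy (T : Sylow p G) (hT : IsCyclic (T : Subgroup G)) :
    commutator G ⊓ (T : Subgroup G) = ⊥ ∨ (T : Subgroup G) ≤ commutator G := by
  have hc : IsMulCommutative T := comm_of_cyclic _ hT
  rcases dich T hT with h | h
  · right
    rw [← h, commutator_def]
    exact Subgroup.commutator_mono le_top le_top
  · left
    obtain ⟨K, -, h2, -, h4, -⟩ := CfsgLib.Trans.exists_kernel_abelian_sylow T hc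
    rw [h] at h2
    rw [eq_bot_iff, ← h2]
    exact inf_le_inf_right _ h4

/-- A perfect group with cyclic Sylow `p`-subgroups has centre prime to `p`. -/
lemma not_dvd_center (hperf : commutator G = ⊤) (P : Sylow p G) (hP : IsCyclic (P : Subgroup G)) :
    ¬ p ∣ Nat.card (center G) := by
  intro hd
  obtain ⟨x, hx⟩ := exists_prime_orderOf_dvd_card' p hd
  have hxo : orderOf (x : G) = p := (Subgroup.orderOf_coe x).trans hx
  have hx1 : (x : G) ≠ 1 := by
    intro h
    rw [h, orderOf_one] at hxo
    exact (Fact.out : p.Prime).one_lt.ne hxo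
  have hzp : IsPGroup p (zpowers (x : G)) := by
    apply IsPGroup.of_card (n := 1)
    rw [Nat.card_zpowers, hxo, pow_one]
  obtain ⟨T, hT⟩ := hzp.exists_le_sylow
  have hxT : (x : G) ∈ (T : Subgroup G) := hT (mem_zpowers _)
  have hTc := all_cyclic P T hP
  have hc : IsMulCommutative T := comm_of_cyclic _ hTc
  rcases dichotomy T hTc with h | h
  · rw [hperf, top_inf_eq] at h
    rw [h] at hxT
    exact hx1 hxT
  · rcases dich T hTc with h2 | h2
    · obtain ⟨h3, -⟩ := CfsgLib.Trans.abelian_sylow_decomp T hc
      rw [h2] at h3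
      have h4 : (x : G) ∈ (T : Subgroup G) ⊓ ((T : Subgroup G) ⊓ centralizer (normalizer (T : Set G) : Set G)) := by
        refine ⟨hxT, hxT, ?_⟩
        change (x : G) ∈ centralizer _
        rw [Subgroup.mem_centralizer_iff]
        intro g _
        exact Subgroup.mem_center_iff.1 x.2 g
      rw [h3] at h4
      exact hx1 h4
    · obtain ⟨K, -, h3, h5, h4, -⟩ := CfsgLib.Trans.exists_kernel_abelian_sylow T hc
      rw [h2] at h3
      have h6 : K = ⊤ := by
        rw [eq_top_iff, ← hperf]; exact h4
      rw [h6, top_inf_eq] at h3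
      rw [h3] at hxT
      exact hx1 hxT

/-- Commuting elements of order `p` generate the same subgroup. -/
lemma rank_one (P : Sylow p G) (hP : IsCyclic (P : Subgroup G)) {x y : G} (hx : orderOf x = p) (hy : orderOf y = p)
    (hxy : x * y = y * x) : y ∈ zpowers x := by
  have hzx : IsPGroup p (zpowers x) := by
    apply IsPGroup.of_card (n := 1)
    rw [Nat.card_zpowers, hx, pow_one]
  have hzy : IsPGroup p (zpowers y) := by
    apply IsPGroup.of_card (n := 1)
    rw [Nat.card_zpowers, hy, pow_one]
  have hn : zpowers x ≤ normalizer (zpowers y : Set G) := by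
    rw [zpowers_le]
    apply CfsgLib.CT.mem_normalizer_of_conj_le
    intro a ha
    obtain ⟨k, rfl⟩ := mem_zpowers_iff.1 ha
    have : x * y ^ k * x⁻¹ = y ^ k := by
      have hc : Commute x (y ^ k) := (Commute.zpow_right hxy k)
      rw [hc.eq]; group
    rw [this]
    exact zpow_mem (mem_zpowers y) k
  have hsup := CfsgLib.Solv.isPGroup_sup_of_le_normalizer hzx hzy hn
  haveI hcyc := pgroup_cyclic P hP _ hsup
  have h1 : (zpowers x).subgroupOf (zpowers x ⊔ zpowers y) = (zpowers y).subgroupOf (zpowers x ⊔ zpowers y) := by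
    apply CfsgLib.SS.cyclic_subgroup_eq_of_card
    rw [Nat.card_congr (Subgroup.subgroupOfEquivOfLe (le_sup_left : zpowers x ≤ zpowers x ⊔ zpowers y)).toEquiv,
      Nat.card_congr (Subgroup.subgroupOfEquivOfLe (le_sup_right : zpowers y ≤ zpowers x ⊔ zpowers y)).toEquiv,
      Nat.card_zpowers, Nat.card_zpowers, hx, hy]
  have h2 : zpowers x = zpowers y := by
    have h3 := congrArg (fun M => M.map (zpowers x ⊔ zpowers y).subtype) h1
    rwa [Subgroup.map_subgroupOf_eq_of_le (le_sup_left : zpowers x ≤ zpowers x ⊔ zpowers y),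
      Subgroup.map_subgroupOf_eq_of_le (le_sup_right : zpowers y ≤ zpowers x ⊔ zpowers y)] at h3
  rw [h2]
  exact mem_zpowers y

/-- The main theorem. -/
theorem main (hp : p ∣ Nat.card G) (hO : Cfsg.pPrimeCore p G = ⊥) (P : Sylow p G) (hP : IsCyclic (P : Subgroup G)) :
    ((P : Subgroup G).Normal ∧ Subgroup.centralizer ((P : Subgroup G) : Set G) = (P : Subgroup G) ∧
      (∀ (_ : (P : Subgroup G).Normal), IsCyclic (G ⧸ (P : Subgroup G))) ∧ (P : Subgroup G).index ∣ p - 1) ∨
    (IsSimpleGroup ↥(Cfsg.generalizedFittingSubgroup G) ∧ ¬ IsMulCommutative ↥(Cfsg.generalizedFittingSubgroup G) ∧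
      ¬ p ∣ (Cfsg.generalizedFittingSubgroup G).index) := by
  classical
  have hpp' : p.Prime := hpp.out
  haveI hRn : (Cfsg.pCore p G).Normal := CfsgLib.Solv.pCore_normal' p
  have hRp : IsPGroup p (Cfsg.pCore p G) := CfsgLib.Solv.pCore_isPGroup p
  have hfit : Cfsg.fittingSubgroup G = Cfsg.pCore p G := by
    rw [CfsgLib.BMax.fit_decomp p, hO, inf_bot_eq, sup_bot_eq]
  by_cases hE : Cfsg.layer G = ⊥
  · left
    have hgf : Cfsg.generalizedFittingSubgroup G = Cfsg.pCore p G := by
      rw [Cfsg.generalizedFittingSubgroup, hE, bot_sup_eq, hfit]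
    have hC := CfsgLib.Comp.gfit_self_centralizing (G := G)
    rw [hgf] at hC
    have hRP : Cfsg.pCore p G ≤ P := hRp.le_sylow_of_normal P
    have hcP : IsMulCommutative P := comm_of_cyclic _ hP
    have hPC : (P : Subgroup G) ≤ centralizer ((P : Subgroup G) : Set G) := by
      intro a ha
      rw [Subgroup.mem_centralizer_iff]
      intro b hb
      exact congrArg Subtype.val (hcP.is_comm.comm (⟨b, hb⟩ : P) ⟨a, ha⟩)
    have hPR : (P : Subgroup G) ≤ Cfsg.pCore p G := by
      refine le_trans (le_trans hPC ?_) hC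
      exact Subgroup.centralizer_le hRP
    have hPeq : (P : Subgroup G) = Cfsg.pCore p G := le_antisymm hPR hRP
    have hPn : (P : Subgroup G).Normal := hPeq ▸ hRn
    have hCeq : centralizer ((P : Subgroup G) : Set G) = (P : Subgroup G) := by
      apply le_antisymm _ hPC
      rw [hPeq]
      exact hC
    haveI := hPn
    let f : G →* MulAut (P : Subgroup G) := MulAut.conjNormal
    have hfv : ∀ (g : G) (y : (P : Subgroup G)), ((f g y : (P : Subgroup G)) : G) = g * y * g⁻¹ :=
      fun g y => MulAut.conjNormal_apply g y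
    have hker' : f.ker = centralizer ((P : Subgroup G) : Set G) := by
      ext g
      rw [MonoidHom.mem_ker, Subgroup.mem_centralizer_iff]
      constructor
      · intro h y hy
        have h1 := congrArg (fun φ : MulAut (P : Subgroup G) => ((φ ⟨y, hy⟩ : (P : Subgroup G)) : G)) h
        simp only [hfv] at h1
        have h2 : g * y * g⁻¹ = y := h1
        exact (mul_inv_eq_iff_eq_mul.1 h2).symm
      · intro h
        ext y
        rw [hfv]
        have h1 := h y y.2
        change g * y * g⁻¹ = y
        rw [← h1]; group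
    have hker : f.ker = (P : Subgroup G) := hker'.trans hCeq
    obtain ⟨n, hn⟩ := IsPGroup.iff_card.1 P.isPGroup'
    have hidx : (P : Subgroup G).index ∣ p - 1 := by
      have h1 : (P : Subgroup G).index = Nat.card f.range := by
        have := Subgroup.index_ker f
        rwa [hker] at this
      have h2 : Nat.card f.range ∣ Nat.card (MulAut (P : Subgroup G)) := Subgroup.card_subgroup_dvd_card _
      rw [IsCyclic.card_mulAut, hn] at h2
      rw [← h1] at h2
      rcases Nat.eq_zero_or_pos n with rfl | hn0
      · simp only [pow_zero, Nat.totient_one, Nat.dvd_one] at h2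
        rw [h2]; exact one_dvd _
      · rw [Nat.totient_prime_pow hpp' hn0] at h2
        have h3 : Nat.Coprime (P : Subgroup G).index p :=
          ((Nat.Prime.coprime_iff_not_dvd hpp').2 P.not_dvd_index).symm
        exact (Nat.Coprime.pow_right _ h3).dvd_of_dvd_mul_left h2
    refine ⟨hPn, hCeq, ?_, hidx⟩
    intro hN
    by_cases hp2 : p = 2
    · have h1 : (P : Subgroup G).index = 1 := by
        subst hp2
        simpa using hidx
      haveI : Subsingleton (G ⧸ (P : Subgroup G)) := by
        apply Finite.card_le_one_iff_subsingleton.1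
        rw [← Subgroup.index_eq_card, h1]
      exact isCyclic_of_subsingleton
    · have hoddp : Odd p := hpp'.odd_of_ne_two hp2
      have hcy : IsCyclic (MulAut (P : Subgroup G)) := by
        have h1 : IsCyclic (ZMod (Nat.card (P : Subgroup G)))ˣ := by
          rw [ZMod.isCyclic_units_iff, hn]
          rcases Nat.eq_zero_or_pos n with rfl | hn0
          · simp
          · exact Or.inr (Or.inr (Or.inr (Or.inr ⟨p, n, hpp', hoddp, hn0, Or.inl rfl⟩)))
        exact isCyclic_of_injective (IsCyclic.mulAutMulEquiv (P : Subgroup G)).toMonoidHom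
          (IsCyclic.mulAutMulEquiv (P : Subgroup G)).injective
      let f' : G ⧸ (P : Subgroup G) →* MulAut (P : Subgroup G) := QuotientGroup.lift (P : Subgroup G) f (by
        intro x hx
        rw [← hker] at hx
        exact hx)
      have hinj : Function.Injective f' := by
        rw [injective_iff_map_eq_one]
        intro q hq
        obtain ⟨g, rfl⟩ := QuotientGroup.mk_surjective q
        have h1 : f g = 1 := hq
        have h2 : g ∈ f.ker := h1
        rw [hker] at h2
        exact (QuotientGroup.eq_one_iff g).2 h2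
      exact isCyclic_of_injective f' hinj
  · right
    obtain ⟨L, hL⟩ : ∃ L : Subgroup G, Cfsg.IsComponent L := by
      by_contra h
      push Not at h
      apply hE
      rw [eq_bot_iff]
      exact sSup_le (fun M hM => absurd hM (h M))
    have hdvd : ∀ L : Subgroup G, Cfsg.IsComponent L → p ∣ Nat.card L := by
      intro L hL
      by_contra h
      have hc : (Nat.card L).Coprime p := ((Nat.Prime.coprime_iff_not_dvd hpp').2 h).symm
      have h2 := CfsgLib.Comp.coprime_subnormal_le_pPrimeCore hL.1 hc
      rw [hO] at h2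
      exact CfsgLib.Comp.comp_ne_bot hL (le_bot_iff.1 h2)
    have hsyl : ∀ (L : Subgroup G) (S : Sylow p L), IsCyclic (S : Subgroup L) := by
      intro L S
      have h1 := pgroup_cyclic P hP (S.1.map L.subtype) (S.isPGroup'.map _)
      exact isCyclic_of_injective (Subgroup.equivMapOfInjective S.1 L.subtype L.subtype_injective).toMonoidHom
        (Subgroup.equivMapOfInjective S.1 L.subtype L.subtype_injective).injective
    have hZ : ∀ L : Subgroup G, Cfsg.IsComponent L → ¬ p ∣ Nat.card (center L) := by
      intro L hL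
      obtain ⟨S⟩ : Nonempty (Sylow p L) := inferInstance
      haveI := hL.2.1
      exact not_dvd_center Group.IsPerfect.commutator_eq_top S (hsyl L S)
    have hex : ∀ L : Subgroup G, Cfsg.IsComponent L → ∃ x ∈ L, orderOf x = p := by
      intro L hL
      obtain ⟨x, hx⟩ := exists_prime_orderOf_dvd_card' p (hdvd L hL)
      exact ⟨x, x.2, (Subgroup.orderOf_coe x).trans hx⟩
    have huniq : ∀ L₁ L₂ : Subgroup G, Cfsg.IsComponent L₁ → Cfsg.IsComponent L₂ → L₁ = L₂ := by
      intro L₁ L₂ h1 h2
      by_contra hne
      have hcomm := CfsgLib.Comp.components_commute h1 h2 hne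
      have hcc : ∀ a ∈ L₁, ∀ b ∈ L₂, a * b = b * a := by
        intro a ha b hb
        exact ((Subgroup.mem_centralizer_iff.1 (Subgroup.commutator_eq_bot_iff_le_centralizer.1 hcomm ha)) b hb).symm
      obtain ⟨x₁, hx₁, hxo₁⟩ := hex L₁ h1
      obtain ⟨x₂, hx₂, hxo₂⟩ := hex L₂ h2
      have h3 := rank_one P hP hxo₁ hxo₂ (hcc x₁ hx₁ x₂ hx₂)
      have h4 : x₂ ∈ L₁ := (zpowers_le.2 hx₁) h3
      have h5 : (⟨x₂, hx₂⟩ : L₂) ∈ center L₂ := by
        rw [Subgroup.mem_center_iff]
        intro g
        apply Subtype.ext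
        exact (hcc x₂ h4 g g.2).symm
      have h6 : orderOf (⟨⟨x₂, hx₂⟩, h5⟩ : center L₂) = p := by
        rw [Subgroup.orderOf_mk, Subgroup.orderOf_mk, hxo₂]
      apply hZ L₂ h2
      rw [← h6]
      exact orderOf_dvd_natCard _
    haveI hLn : L.Normal := ⟨fun x hx g => by
      have h1 := huniq _ _ (CfsgLib.Comp.component_conj hL g) hL
      rw [← h1]
      exact CfsgLib.CT.conj_mem_map hx⟩
    have hlayer : Cfsg.layer G = L :=
      le_antisymm (sSup_le fun M hM => (huniq M L hM hL).le) (CfsgLib.Comp.comp_le_layer hL)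
    -- the centre
    have hZb : center L = ⊥ := by
      haveI : (center L).Characteristic := inferInstance
      haveI hn := CfsgLib.Comp.char_map_normal_of_normal hLn (center L)
      have h1 : ((center L).map L.subtype) ≤ Cfsg.pPrimeCore p G := by
        apply CfsgLib.Solv.le_pPrimeCore'
        rw [Subgroup.card_map_of_injective L.subtype_injective]
        exact ((Nat.Prime.coprime_iff_not_dvd hpp').2 (hZ L hL)).symm
      rw [hO, le_bot_iff] at h1
      exact (Subgroup.map_eq_bot_iff_of_injective _ L.subtype_injective).1 h1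
    have hsimple : IsSimpleGroup L := by
      haveI := CfsgLib.Comp.nontrivial_of_quasi hL.2
      refine ⟨?_⟩
      intro N hN
      rcases CfsgLib.Comp.normal_eq_top_or_le_center hL.2 N with h | h
      · exact Or.inr h
      · left
        rw [hZb, le_bot_iff] at h
        exact h
    -- `O_p` is trivial
    have hRL : Cfsg.pCore p G ⊓ L = ⊥ := by
      have h1 : ((Cfsg.pCore p G).subgroupOf L).Normal := inferInstance
      rcases h1.eq_bot_or_eq_top with h | h
      · rw [Subgroup.subgroupOf_eq_bot] at h
        exact disjoint_iff.1 h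
      · exfalso
        rw [Subgroup.subgroupOf_eq_top] at h
        have h2 : IsPGroup p L := hRp.to_le h
        haveI := h2.isNilpotent
        exact CfsgLib.Comp.comp_not_solvable hL inferInstance
    have hR : Cfsg.pCore p G = ⊥ := by
      by_contra hne
      obtain ⟨k, hk⟩ := IsPGroup.iff_card.1 hRp
      have hk0 : k ≠ 0 := by
        rintro rfl
        apply hne
        exact Subgroup.eq_bot_of_card_eq _ (by simpa using hk)
      have hd : p ∣ Nat.card (Cfsg.pCore p G) := by
        rw [hk]; exact dvd_pow_self p hk0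
      obtain ⟨y, hy⟩ := exists_prime_orderOf_dvd_card' p hd
      have hyo : orderOf (y : G) = p := (Subgroup.orderOf_coe y).trans hy
      obtain ⟨x, hx, hxo⟩ := hex L hL
      have hc : (y : G) * x = x * y :=
        Subgroup.commute_of_normal_of_disjoint _ _ hRn hLn (disjoint_iff.2 hRL) y x y.2 hx
      have h1 := rank_one P hP hxo hyo hc.symm
      have h2 : (y : G) ∈ L := (zpowers_le.2 hx) h1
      have h3 : (y : G) ∈ Cfsg.pCore p G ⊓ L := ⟨y.2, h2⟩
      rw [hRL, Subgroup.mem_bot] at h3
      rw [h3, orderOf_one] at hyo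
      exact hpp'.one_lt.ne hyo
    have hgf : Cfsg.generalizedFittingSubgroup G = L := by
      rw [Cfsg.generalizedFittingSubgroup, hlayer, hfit, hR, sup_bot_eq]
    -- `P ≤ L`
    have hPL : (P : Subgroup G) ≤ L := by
      have hcP : IsMulCommutative P := comm_of_cyclic _ hP
      set Y := L ⊔ (P : Subgroup G) with hY
      have hPY : (P : Subgroup G) ≤ Y := le_sup_right
      have hLY : L ≤ Y := le_sup_left
      let SY : Sylow p Y := P.subtype hPY
      have hSYc : (SY : Subgroup Y) = (P : Subgroup G).subgroupOf Y := Sylow.coe_subtype P hPY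
      have hSYcyc : IsCyclic (SY : Subgroup Y) := hsyl Y SY
      have hcomm : ∀ a, a ∈ ⁅Y, Y⁆ → ∀ ha : a ∈ Y, (⟨a, ha⟩ : Y) ∈ commutator Y := by
        intro a ha hh
        rw [← Subgroup.map_subtype_commutator] at ha
        obtain ⟨c, hc, hca⟩ := ha
        have : c = ⟨a, hh⟩ := Subtype.ext hca
        rwa [← this]
      have hLc : L ≤ ⁅Y, Y⁆ := by
        conv_lhs => rw [← CfsgLib.Comp.comp_commutator hL]
        exact Subgroup.commutator_mono hLY hLY
      have hYL : ⁅Y, Y⁆ ≤ L := by
        have h1 : ⁅Y, Y⁆.map (QuotientGroup.mk' L) = ⊥ := by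
          rw [Subgroup.map_commutator, hY, Subgroup.map_sup]
          have h2 : L.map (QuotientGroup.mk' L) = ⊥ := by
            rw [Subgroup.map_eq_bot_iff, QuotientGroup.ker_mk']
          rw [h2, bot_sup_eq, ← Subgroup.map_commutator]
          have h3 : ⁅(P : Subgroup G), (P : Subgroup G)⁆ = ⊥ := by
            rw [Subgroup.commutator_eq_bot_iff_le_centralizer]
            intro a ha
            rw [Subgroup.mem_centralizer_iff]
            intro b hb
            exact congrArg Subtype.val (hcP.is_comm.comm (⟨b, hb⟩ : P) ⟨a, ha⟩)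
          rw [h3, Subgroup.map_bot]
        rw [Subgroup.map_eq_bot_iff, QuotientGroup.ker_mk'] at h1
        exact h1
      rcases dichotomy SY hSYcyc with h | h
      · exfalso
        -- a nontrivial element of `P ∩ L`
        obtain ⟨x, hx, hxo⟩ := hex L hL
        have hzp : IsPGroup p (zpowers x) := by
          apply IsPGroup.of_card (n := 1)
          rw [Nat.card_zpowers, hxo, pow_one]
        obtain ⟨T, hT⟩ := hzp.exists_le_sylow
        obtain ⟨g, hg⟩ := MulAction.exists_smul_eq G T P
        have hP' : (P : Subgroup G) = (T : Subgroup G).map (MulAut.conj g).toMonoidHom := by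
          rw [← hg]; rfl
        have hxT : x ∈ (T : Subgroup G) := hT (mem_zpowers x)
        have hzP : g * x * g⁻¹ ∈ (P : Subgroup G) := by
          rw [hP']
          exact CfsgLib.CT.conj_mem_map hxT
        have hzL : g * x * g⁻¹ ∈ L := hLn.conj_mem x hx g
        have hmem : (⟨g * x * g⁻¹, hLY hzL⟩ : Y) ∈ commutator Y ⊓ (SY : Subgroup Y) := by
          refine ⟨hcomm _ (hLc hzL) _, ?_⟩
          change _ ∈ (SY : Subgroup Y)
          rw [hSYc]
          exact Subgroup.mem_subgroupOf.2 hzP
        rw [h, Subgroup.mem_bot] at hmem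
        have h1 : g * x * g⁻¹ = 1 := congrArg Subtype.val hmem
        have h2 : x = 1 := by
          have h3 : x = g⁻¹ * (g * x * g⁻¹) * g := by group
          rw [h3, h1]; group
        rw [h2, orderOf_one] at hxo
        exact hpp'.one_lt.ne hxo
      · intro a ha
        have h1 : (⟨a, hPY ha⟩ : Y) ∈ (SY : Subgroup Y) := by
          rw [hSYc]
          exact Subgroup.mem_subgroupOf.2 ha
        have h2 := h h1
        have h3 : a ∈ ⁅Y, Y⁆ := by
          rw [← Subgroup.map_subtype_commutator]
          exact ⟨_, h2, rfl⟩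
        exact hYL h3
    refine ⟨by rw [hgf]; exact hsimple, by rw [hgf]; exact CfsgLib.Comp.comp_not_comm hL, ?_⟩
    rw [hgf]
    intro hd
    exact P.not_dvd_index (hd.trans (Subgroup.index_dvd_of_le hPL))

end CfsgLib.CycSyl2
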