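import Cfsg.Agent.Lib.PLocal.BestOffender
import Cfsg.Agent.Lib.PLocal.CardSup
import Cfsg.Agent.Lib.PLocal.Misc
import Cfsg.Agent.Lib.Local.Isolated
import Cfsg.Agent.Lib.Solv.Nilp
import Cfsg.Prelude.Def_DStar
import Cfsg.Prelude.Def_PLocal

/-! # Glauberman's `D*` subgroup: `Z(S) ≤ D*(S) ≤ Z(J(S))`. -/

set_option autoImplicit false
set_option linter.unusedSectionVars false
set_option linter.unusedVariables false

namespace CfsgLib.DStarThm

open Subgroup Cfsg CfsgLib.PLocal
open scoped commutatorElement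

variable {S : Type*} [Group S]

lemma comm_closure_le (X : Set S) (W : Subgroup S) (hWc : ∀ w ∈ W, ∀ g ∈ closure X, w * g = g * w)
    (hX : ∀ a ∈ X, ∀ b ∈ X, ⁅a, b⁆ ∈ W) : ⁅closure X, closure X⁆ ≤ W := by
  have hconj : ∀ w ∈ W, ∀ g ∈ closure X, g * w * g⁻¹ = w := by
    intro w hw g hg
    rw [← hWc w hw g hg]; group
  have hconj' : ∀ w ∈ W, ∀ g ∈ closure X, g⁻¹ * w * g = w := by
    intro w hw g hg
    have := hconj w hw g⁻¹ ((closure X).inv_mem hg)
    simpa using this
  have h1 : ∀ a ∈ X, ∀ h ∈ closure X, ⁅a, h⁆ ∈ W := by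
    intro a ha h hh
    induction hh using Subgroup.closure_induction with
    | mem x hx => exact hX a ha x hx
    | one => simp
    | mul x y hx hy h₁ h₂ =>
      have e : ⁅a, x * y⁆ = ⁅a, x⁆ * (x * ⁅a, y⁆ * x⁻¹) := by
        simp only [commutatorElement_def]; group
      rw [e, hconj _ h₂ x hx]
      exact W.mul_mem h₁ h₂
    | inv x hx h₁ =>
      have e : ⁅a, x⁻¹⁆ = x⁻¹ * (⁅a, x⁆)⁻¹ * x := by
        simp only [commutatorElement_def]; group
      rw [e, hconj' _ (W.inv_mem h₁) x hx]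
      exact W.inv_mem h₁
  rw [Subgroup.commutator_le]
  intro g hg h hh
  induction hg using Subgroup.closure_induction with
  | mem x hx => exact h1 x hx h hh
  | one => simp
  | mul x y hx hy h₁ h₂ =>
    have e : ⁅x * y, h⁆ = (x * ⁅y, h⁆ * x⁻¹) * ⁅x, h⁆ := by
      simp only [commutatorElement_def]; group
    rw [e, hconj _ h₂ x hx]
    exact W.mul_mem h₂ h₁
  | inv x hx h₁ =>
    have e : ⁅x⁻¹, h⁆ = x⁻¹ * (⁅x, h⁆)⁻¹ * x := by
      simp only [commutatorElement_def]; group
    rw [e, hconj' _ (W.inv_mem h₁) x hx]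
    exact W.inv_mem h₁

/-- The class two criterion. -/
lemma class_two (V W : Subgroup S) (x : S) (hVc : ∀ a ∈ V, ∀ b ∈ V, a * b = b * a)
    (hWV : ∀ w ∈ W, ∀ v ∈ V, w * v = v * w) (hWx : ∀ w ∈ W, w * x = x * w) (hvx : ∀ v ∈ V, ⁅v, x⁆ ∈ W) :
    ⁅⁅V ⊔ zpowers x, V ⊔ zpowers x⁆, V ⊔ zpowers x⁆ = ⊥ := by
  have hY : V ⊔ zpowers x = closure ((V : Set S) ∪ {x}) := by
    rw [Subgroup.closure_union, closure_eq, Subgroup.zpowers_eq_closure]
  have hWc : ∀ w ∈ W, ∀ g ∈ V ⊔ zpowers x, w * g = g * w := by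
    intro w hw g hg
    have h1 : V ⊔ zpowers x ≤ centralizer ({w} : Set S) := by
      apply sup_le
      · intro v hv
        rw [mem_centralizer_iff]
        intro z hz
        rw [Set.mem_singleton_iff] at hz
        rw [hz]
        exact hWV w hw v hv
      · rw [zpowers_le, mem_centralizer_iff]
        intro z hz
        rw [Set.mem_singleton_iff] at hz
        rw [hz]
        exact hWx w hw
    exact mem_centralizer_iff.1 (h1 hg) w rfl
  have hle : ⁅V ⊔ zpowers x, V ⊔ zpowers x⁆ ≤ W := by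
    rw [hY]
    apply comm_closure_le
    · rw [← hY]; exact hWc
    · rintro a (ha | ha) b (hb | hb)
      · rw [commutatorElement_eq_one_iff_mul_comm.2 (hVc a ha b hb)]
        exact one_mem _
      · rw [Set.mem_singleton_iff] at hb
        rw [hb]
        exact hvx a ha
      · rw [Set.mem_singleton_iff] at ha
        rw [ha, ← commutatorElement_inv]
        exact W.inv_mem (hvx b hb)
      · rw [Set.mem_singleton_iff] at ha hb
        rw [ha, hb, commutatorElement_self]
        exact one_mem _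
  rw [eq_bot_iff, Subgroup.commutator_le]
  intro w hw g hg
  rw [commutatorElement_eq_one_iff_mul_comm.2 (hWc w (hle hw) g hg)]
  exact one_mem _

lemma comm_of_fam {A : Subgroup S} (hA : A ∈ dStarFamily S) : ∀ a ∈ A, ∀ b ∈ A, a * b = b * a := by
  intro a ha b hb
  have := hA.1.is_comm.comm ⟨a, ha⟩ ⟨b, hb⟩
  exact congrArg Subtype.val this

/-- The family is invariant under conjugation. -/
lemma fam_conj {A : Subgroup S} (hA : A ∈ dStarFamily S) (h : S) :
    A.map (MulAut.conj h).toMonoidHom ∈ dStarFamily S := by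
  have hc := comm_of_fam hA
  refine ⟨⟨⟨?_⟩⟩, ?_⟩
  · rintro ⟨_, a, ha, rfl⟩ ⟨_, b, hb, rfl⟩
    apply Subtype.ext
    show h * a * h⁻¹ * (h * b * h⁻¹) = h * b * h⁻¹ * (h * a * h⁻¹)
    calc h * a * h⁻¹ * (h * b * h⁻¹) = h * (a * b) * h⁻¹ := by group
      _ = h * (b * a) * h⁻¹ := by rw [hc a ha b hb]
      _ = _ := by group
  · intro x hx
    set φ : S →* S := (MulAut.conj h).toMonoidHom with hφ
    have hinj : Function.Injective φ := (MulAut.conj h).injective
    set x₀ := h⁻¹ * x * h with hx₀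
    have hφx : φ x₀ = x := by
      show h * (h⁻¹ * x * h) * h⁻¹ = x
      group
    have hT : A.map φ ⊔ zpowers x = (A ⊔ zpowers x₀).map φ := by
      rw [Subgroup.map_sup, MonoidHom.map_zpowers, hφx]
    rw [hT, ← Subgroup.map_commutator, ← Subgroup.map_commutator,
      Subgroup.map_eq_bot_iff_of_injective _ hinj] at hx
    have h2 := hA.2 x₀ hx
    rintro _ ⟨a, ha, rfl⟩
    have h3 : φ (a * x₀) = φ (x₀ * a) := congrArg φ (h2 a ha)
    rw [map_mul φ a x₀, map_mul φ x₀ a, hφx] at h3
    exact h3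

variable [Finite S] {p : ℕ} [hp : Fact p.Prime]

/-- Existence of abelian subgroups of largest order in a subgroup. -/
lemma exists_max_abelian (H : Subgroup S) :
    ∃ B ≤ H, (∀ a ∈ B, ∀ b ∈ B, a * b = b * a) ∧
      ∀ E ≤ H, (∀ a ∈ E, ∀ b ∈ E, a * b = b * a) → Nat.card E ≤ Nat.card B := by
  let F : Set (Subgroup S) := {B | B ≤ H ∧ ∀ a ∈ B, ∀ b ∈ B, a * b = b * a}
  have hF : F.Nonempty := ⟨⊥, bot_le, fun a ha b hb => by
    rw [Subgroup.mem_bot.1 ha, Subgroup.mem_bot.1 hb]⟩
  obtain ⟨B, hB, hmax⟩ := Set.exists_max_image F (fun B => Nat.card B) (Set.toFinite F) hF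
  exact ⟨B, hB.1, hB.2, fun E hE hEc => hmax E ⟨hE, hEc⟩⟩

/-- A member of the family contained in `H` lies in every abelian subgroup of largest order of `H`. -/
theorem fam_le_max (hS : IsPGroup p S) : ∀ (n : ℕ) (H : Subgroup S), Nat.card H = n →
    ∀ A ∈ dStarFamily S, A ≤ H → ∀ B ≤ H, (∀ a ∈ B, ∀ b ∈ B, a * b = b * a) →
      (∀ E ≤ H, (∀ a ∈ E, ∀ b ∈ E, a * b = b * a) → Nat.card E ≤ Nat.card B) → A ≤ B := by
  intro n
  induction n using Nat.strong_induction_on with
  | _ n ih =>
  intro H hHn A hA hAH B hBH hBc hBmax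
  have hAc := comm_of_fam hA
  by_cases hAeq : A = H
  · subst hAeq
    have h1 := hBmax A le_rfl hAc
    have h2 : B = A := Subgroup.eq_of_le_of_card_ge hBH h1
    rw [h2]
  have hAlt : A < H := lt_of_le_of_ne hAH hAeq
  -- a proper normal subgroup of `H` containing `A`
  obtain ⟨M, hAM, hMlt, hMn⟩ : ∃ M, A ≤ M ∧ M < H ∧ H ≤ normalizer (M : Set S) := by
    let Fam : Set (Subgroup S) := {M | A ≤ M ∧ M < H}
    obtain ⟨M, ⟨hAM, hMH⟩, hMmax⟩ := Set.exists_max_image Fam (fun M => Nat.card M) (Set.toFinite Fam) ⟨A, le_rfl, hAlt⟩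
    refine ⟨M, hAM, hMH, ?_⟩
    obtain ⟨t, htH, htM, htn⟩ := CfsgLib.Local.exists_normalizing (IsPGroup.to_subgroup hS H) hMH
    have heq : M ⊔ zpowers t = H := by
      by_contra hne
      have hle : M ⊔ zpowers t ≤ H := sup_le hMH.le (zpowers_le.2 htH)
      have h1 := hMmax (M ⊔ zpowers t) ⟨hAM.trans le_sup_left, lt_of_le_of_ne hle hne⟩
      have h2 : M = M ⊔ zpowers t := Subgroup.eq_of_le_of_card_ge le_sup_left h1
      apply htM
      rw [h2]
      exact mem_sup_right (mem_zpowers t)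
    rw [← heq]
    exact sup_le Subgroup.le_normalizer (zpowers_le.2 htn)
  have hMcard : Nat.card M < n := by
    rw [← hHn]
    exact lt_of_le_of_ne (Subgroup.card_le_of_le hMlt.le) (fun h => hMlt.ne (Subgroup.eq_of_le_of_card_ge hMlt.le h.ge))
  obtain ⟨B₀, hB₀M, hB₀c, hB₀max⟩ := exists_max_abelian M
  have hconjA : ∀ h ∈ H, A.map (MulAut.conj h).toMonoidHom ≤ M := by
    rintro h hh _ ⟨a, ha, rfl⟩
    exact (mem_normalizer_iff.1 (hMn hh) a).1 (hAM ha)
  have hconjB : ∀ h ∈ H, A.map (MulAut.conj h).toMonoidHom ≤ B₀ := fun h hh =>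
    ih _ hMcard M rfl _ (fam_conj hA h) (hconjA h hh) B₀ hB₀M hB₀c hB₀max
  -- the normal closure of `A` in `H`
  set V : Subgroup S := closure {y | ∃ h ∈ H, ∃ a ∈ A, y = h * a * h⁻¹} with hV
  have hgenV : ∀ h ∈ H, ∀ a ∈ A, h * a * h⁻¹ ∈ V := fun h hh a ha => subset_closure ⟨h, hh, a, ha, rfl⟩
  have hVB₀ : V ≤ B₀ := by
    rw [hV, closure_le]
    rintro _ ⟨h, hh, a, ha, rfl⟩
    exact hconjB h hh ⟨a, ha, rfl⟩
  have hVc : ∀ a ∈ V, ∀ b ∈ V, a * b = b * a := fun a ha b hb => hB₀c a (hVB₀ ha) b (hVB₀ hb)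
  have hVH : V ≤ H := hVB₀.trans (hB₀M.trans hMlt.le)
  have hAV : A ≤ V := by
    intro a ha
    have := hgenV 1 (one_mem _) a ha
    simpa using this
  have hVn : H ≤ normalizer (V : Set S) := by
    intro g hg
    apply Subgroup.mem_normalizer_fintype
    intro v hv
    have h1 : V ≤ V.comap (MulAut.conj g).toMonoidHom := by
      rw [hV, closure_le]
      rintro _ ⟨h, hh, a, ha, rfl⟩
      show g * (h * a * h⁻¹) * g⁻¹ ∈ V
      have := hgenV (g * h) (H.mul_mem hg hh) a ha
      have e : g * h * a * (g * h)⁻¹ = g * (h * a * h⁻¹) * g⁻¹ := by group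
      rwa [e] at this
    exact h1 hv
  have hBn : B ≤ normalizer (V : Set S) := hBH.trans hVn
  have hact : AbAct V B := by
    refine ⟨hVc, fun a ha v hv => (mem_normalizer_iff.1 (hBn ha) v).1 hv, ?_⟩
    intro a ha b hb v hv
    calc a * (b * v * b⁻¹) * a⁻¹ = (a * b) * v * (a * b)⁻¹ := by group
      _ = (b * a) * v * (b * a)⁻¹ := by rw [hBc a ha b hb]
      _ = _ := by group
  -- the offender inequality
  have hfm : ∀ E : Subgroup S, E ≤ B → fmV V E ≤ fmV V B := by
    intro E hE
    set W := V ⊓ centralizer (E : Set S) with hW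
    set D := B ⊓ centralizer (W : Set S) with hD
    have hcomm : ∀ w ∈ W, ∀ d ∈ D, w * d = d * w := fun w hw d hd => mem_centralizer_iff.1 hd.2 w hw
    have c := card_sup_mul_card_inf_of_commute W D hcomm
    have hsupc : ∀ a ∈ W ⊔ D, ∀ b ∈ W ⊔ D, a * b = b * a := by
      apply CfsgLib.PLocal.comm_sup
      · exact fun a ha b hb => hVc a ha.1 b hb.1
      · exact fun a ha b hb => hBc a ha.1 b hb.1
      · exact hcomm
    have h1 : Nat.card ↥(W ⊔ D) ≤ Nat.card B :=
      hBmax _ (sup_le (inf_le_left.trans hVH) (inf_le_left.trans hBH)) hsupc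
    have h2 : W ⊓ D ≤ V ⊓ centralizer (B : Set S) := by
      intro x hx
      refine ⟨hx.1.1, mem_centralizer_iff.2 fun a ha => ?_⟩
      exact hBc a ha x hx.2.1
    have h3 : E ≤ D := by
      intro b hb
      refine ⟨hE hb, mem_centralizer_iff.2 fun w hw => ?_⟩
      exact (mem_centralizer_iff.1 hw.2 b hb).symm
    calc fmV V E = Nat.card E * Nat.card W := rfl
      _ ≤ Nat.card D * Nat.card W := Nat.mul_le_mul_right _ (Subgroup.card_le_of_le h3)
      _ = Nat.card ↥(W ⊔ D) * Nat.card ↥(W ⊓ D) := by rw [c]; ring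
      _ ≤ Nat.card B * Nat.card ↥(V ⊓ centralizer (B : Set S)) :=
        Nat.mul_le_mul h1 (Subgroup.card_le_of_le h2)
  obtain ⟨-, hfix⟩ := replacement_core hact hfm (U := V) le_rfl
  set W := ⁅V, B⁆ with hW
  have hWV : W ≤ V := by
    rw [hW, Subgroup.commutator_le]
    intro v hv b hb
    exact cm_mem hact hv hb
  -- `B ⊓ C(W)` centralizes `V`
  have hcentr : ∀ x ∈ B ⊓ centralizer (W : Set S), ∀ v ∈ V, v * x = x * v := by
    rintro x ⟨hxB, hxW⟩
    have hcl := class_two V W x hVc (fun w hw v hv => hVc w (hWV hw) v hv)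
      (fun w hw => mem_centralizer_iff.1 hxW w hw)
      (fun v hv => Subgroup.commutator_mem_commutator hv hxB)
    have hall : ∀ h ∈ H, ∀ a ∈ A, (h * a * h⁻¹) * x = x * (h * a * h⁻¹) := by
      intro h hh a ha
      have hfam := fam_conj hA h
      have hT : A.map (MulAut.conj h).toMonoidHom ⊔ zpowers x ≤ V ⊔ zpowers x := by
        apply sup_le_sup_right
        rintro _ ⟨b, hb, rfl⟩
        exact hgenV h hh b hb
      have hbot : ⁅⁅A.map (MulAut.conj h).toMonoidHom ⊔ zpowers x, A.map (MulAut.conj h).toMonoidHom ⊔ zpowers x⁆,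
          A.map (MulAut.conj h).toMonoidHom ⊔ zpowers x⁆ = ⊥ := by
        rw [eq_bot_iff, ← hcl]
        exact Subgroup.commutator_mono (Subgroup.commutator_mono hT hT) hT
      exact hfam.2 x hbot _ ⟨a, ha, rfl⟩
    have hle : V ≤ centralizer ({x} : Set S) := by
      rw [hV, closure_le]
      rintro _ ⟨h, hh, a, ha, rfl⟩
      rw [SetLike.mem_coe, mem_centralizer_iff]
      intro z hz
      rw [Set.mem_singleton_iff] at hz
      rw [hz]
      exact (hall h hh a ha).symm
    intro v hv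
    exact (mem_centralizer_iff.1 (hle hv) x rfl).symm
  have hVX : V ≤ W ⊔ (V ⊓ centralizer (B : Set S)) := by
    rw [← hfix]
    intro v hv
    refine ⟨hv, mem_centralizer_iff.2 fun a' ha' => ?_⟩
    exact (hcentr a' ha' v hv).symm
  have hTV : ⁅W, B⁆ ≤ V := by
    rw [Subgroup.commutator_le]
    intro v hv b hb
    exact cm_mem hact (hWV hv) hb
  have hXS : W ⊔ (V ⊓ centralizer (B : Set S)) ≤ commSub hact ⁅W, B⁆ hTV := by
    refine sup_le ?_ ?_
    · intro x hx
      exact ⟨hWV hx, fun a ha => Subgroup.commutator_mem_commutator hx ha⟩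
    · intro x hx
      refine ⟨hx.1, fun a ha => ?_⟩
      rw [commutatorElement_eq_one_iff_mul_comm.2 (mem_centralizer_iff.1 hx.2 a ha).symm]
      exact one_mem _
  have hle : W ≤ ⁅W, B⁆ := by
    rw [hW, Subgroup.commutator_le]
    intro v hv a ha
    exact (hXS (hVX hv)).2 a ha
  have hW0 : W = ⊥ := eq_bot_of_le_commutator (p := p) (IsPGroup.to_subgroup hS W) (IsPGroup.to_subgroup hS B)
    (comm_self_normalized hact) hle
  -- finish
  have hcomm : ∀ v ∈ V, ∀ b ∈ B, v * b = b * v := by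
    intro v hv b hb
    have : ⁅v, b⁆ ∈ W := Subgroup.commutator_mem_commutator hv hb
    rw [hW0, Subgroup.mem_bot] at this
    exact commutatorElement_eq_one_iff_mul_comm.1 this
  have hsup := CfsgLib.PLocal.comm_sup hVc hBc hcomm
  have h1 := hBmax _ (sup_le hVH hBH) hsup
  have h2 : B = V ⊔ B := Subgroup.eq_of_le_of_card_ge le_sup_right h1
  calc A ≤ V := hAV
    _ ≤ V ⊔ B := le_sup_left
    _ = B := h2.symm

/-- S3062. -/
theorem main (hS : IsPGroup p S) :
    center S ≤ dStar S ∧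
    dStar S ≤ thompsonSubgroupA S ⊓ centralizer (thompsonSubgroupA S : Set S) ∧
    ∀ A : Subgroup S, A.Normal → IsMulCommutative A →
      (∀ B : Subgroup S, B.Normal → IsMulCommutative B → A ≤ B → B = A) → dStar S ≤ A := by
  refine ⟨?_, ?_, ?_⟩
  · apply le_sSup
    refine ⟨inferInstance, ?_⟩
    intro x _ a ha
    exact (mem_center_iff.1 ha x).symm
  · apply sSup_le
    intro A hA
    have hAc := comm_of_fam hA
    have hAB : ∀ B ∈ maxAbelianSubgroups S, A ≤ B := by
      intro B hB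
      apply fam_le_max hS _ ⊤ rfl A hA le_top B le_top
      · intro a ha b hb
        have := hB.1.is_comm.comm ⟨a, ha⟩ ⟨b, hb⟩
        exact congrArg Subtype.val this
      · intro E _ hE
        exact hB.2 E ⟨⟨fun a b => Subtype.ext (hE a a.2 b b.2)⟩⟩
    obtain ⟨B, -, hBc, hBmax⟩ := exists_max_abelian (⊤ : Subgroup S)
    have hBm : B ∈ maxAbelianSubgroups S := by
      refine ⟨⟨⟨fun a b => Subtype.ext (hBc a a.2 b b.2)⟩⟩, ?_⟩
      intro E hE
      apply hBmax E le_top
      intro a ha b hb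
      have := hE.is_comm.comm ⟨a, ha⟩ ⟨b, hb⟩
      exact congrArg Subtype.val this
    refine le_inf ((hAB B hBm).trans (le_sSup hBm)) ?_
    have hJ : thompsonSubgroupA S ≤ centralizer (A : Set S) := by
      apply sSup_le
      intro B' hB' b hb
      refine mem_centralizer_iff.2 fun a ha => ?_
      have := hB'.1.is_comm.comm ⟨a, hAB B' hB' ha⟩ ⟨b, hb⟩
      exact congrArg Subtype.val this
    intro a ha
    refine mem_centralizer_iff.2 fun j hj => ?_
    exact (mem_centralizer_iff.1 (hJ hj) a ha).symm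
  · intro M hMn hMc hMmax
    apply sSup_le
    intro Q hQ
    haveI := hMn
    haveI := hMc
    haveI hnil : Group.IsNilpotent S := hS.isNilpotent
    have hself := CfsgLib.Solv.maximal_abelian_normal_self_centralizing M hMmax
    have hQc := comm_of_fam hQ
    have hMcomm : ∀ a ∈ M, ∀ b ∈ M, a * b = b * a := by
      intro a ha b hb
      have := hMc.is_comm.comm ⟨a, ha⟩ ⟨b, hb⟩
      exact congrArg Subtype.val this
    -- `Q` centralizes `M`
    have hQM : M ≤ centralizer (Q : Set S) := by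
      by_contra hnot
      set P := M ⊔ Q with hP
      set D := centralizer (Q : Set S) ⊓ P with hD
      have hDP : D < P := by
        refine lt_of_le_of_ne inf_le_right ?_
        intro h
        apply hnot
        have : P ≤ centralizer (Q : Set S) := by
          rw [← h]; exact inf_le_left
        exact le_sup_left.trans this
      obtain ⟨t, htP, htD, htn⟩ := CfsgLib.Local.exists_normalizing (IsPGroup.to_subgroup hS P) hDP
      have htP' := htP
      rw [hP, ← SetLike.mem_coe, Subgroup.normal_mul] at htP'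
      obtain ⟨y, hy, q, hq, rfl⟩ := Set.mem_mul.1 htP'
      have hQD : ∀ q ∈ Q, q ∈ D := fun q hq =>
        ⟨mem_centralizer_iff.2 fun a ha => hQc a ha q hq, mem_sup_right hq⟩
      have hyD : y ∉ D := fun h => htD (D.mul_mem h (hQD q hq))
      have hyn : y ∈ normalizer (D : Set S) := by
        have e : y = (y * q) * q⁻¹ := by group
        rw [e]
        exact Subgroup.mul_mem _ htn (Subgroup.inv_mem _ (Subgroup.le_normalizer (hQD q hq)))
      -- commutators
      have hcm : ∀ a ∈ Q, ⁅a, y⁆ ∈ M ⊓ centralizer (Q : Set S) := by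
        intro a ha
        have h1 : y * a * y⁻¹ ∈ D := (mem_normalizer_iff.1 hyn a).1 (hQD a ha)
        have h2 : ⁅y, a⁆ ∈ D := by
          rw [commutatorElement_def]
          exact D.mul_mem h1 (D.inv_mem (hQD a ha))
        have h3 : ⁅y, a⁆ ∈ M := by
          rw [commutatorElement_def, mul_assoc, mul_assoc]
          refine M.mul_mem hy ?_
          have := hMn.conj_mem _ (M.inv_mem hy) a
          simpa [mul_assoc] using this
        rw [← commutatorElement_inv]
        exact Subgroup.inv_mem _ ⟨h3, h2.1⟩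
      have hcl := class_two Q (M ⊓ centralizer (Q : Set S)) y hQc
        (fun w hw v hv => (mem_centralizer_iff.1 hw.2 v hv).symm)
        (fun w hw => hMcomm w hw.1 y hy) hcm
      have h4 := hQ.2 y hcl
      apply hyD
      refine ⟨mem_centralizer_iff.2 fun a ha => h4 a ha, mem_sup_left hy⟩
    intro q hq
    have : q ∈ centralizer (M : Set S) :=
      mem_centralizer_iff.2 fun m hm => (mem_centralizer_iff.1 (hQM hm) q hq).symm
    rw [hself] at this
    exact this

end CfsgLib.DStarThm
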