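import Mathlib
import Cfsg.Agent.Lib.H3.DStarThm
import Cfsg.Agent.Lib.PLocal.Core
import Cfsg.Agent.Lib.Solv.Core

/-! # The `D*`-theorem: normality of `D*(S)` in a `p`-stable group. -/

set_option autoImplicit false
set_option linter.unusedSectionVars false
set_option linter.unusedVariables false

namespace CfsgLib.DStarNorm

open Subgroup Cfsg
open scoped commutatorElement

variable {G : Type*} [Group G]

/-- Elementwise form of membership in the family. -/
structure Good (S A : Subgroup G) : Prop where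
  le : A ≤ S
  comm : ∀ a ∈ A, ∀ b ∈ A, a * b = b * a
  prop : ∀ x ∈ S, (∀ a ∈ A, ∀ b ∈ A, ⁅x, a⁆ * b = b * ⁅x, a⁆) →
    (∀ a ∈ A, ⁅x, a⁆ * x = x * ⁅x, a⁆) → ∀ a ∈ A, a * x = x * a

theorem good_of_mem (S : Subgroup G) (T : Subgroup S) (hT : T ∈ dStarFamily S) :
    Good S (T.map S.subtype) := by
  have hc := CfsgLib.DStarThm.comm_of_fam hT
  refine ⟨?_, ?_, ?_⟩
  · rintro _ ⟨a, -, rfl⟩
    exact a.2
  · rintro _ ⟨a, ha, rfl⟩ _ ⟨b, hb, rfl⟩
    exact congrArg Subtype.val (hc a ha b hb)
  · intro x hx h1 h2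
    set x' : S := ⟨x, hx⟩ with hx'
    have h3 := hT.2 x' (by
      apply CfsgLib.DStarThm.class_two T
        (centralizer (T : Set S) ⊓ centralizer ({x'} : Set S)) x' hc
      · intro w hw v hv
        exact (mem_centralizer_iff.1 hw.1 v hv).symm
      · intro w hw
        exact (mem_centralizer_iff.1 hw.2 x' rfl).symm
      · intro v hv
        have hinv : ⁅v, x'⁆ = ⁅x', v⁆⁻¹ := (commutatorElement_inv _ _).symm
        rw [hinv]
        refine inv_mem (mem_inf.2 ⟨?_, ?_⟩)
        · rw [mem_centralizer_iff]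
          intro b hb
          apply Subtype.ext
          exact (h1 (v : G) ⟨v, hv, rfl⟩ (b : G) ⟨b, hb, rfl⟩).symm
        · rw [mem_centralizer_iff]
          intro b hb
          rw [Set.mem_singleton_iff] at hb
          subst hb
          apply Subtype.ext
          exact (h2 (v : G) ⟨v, hv, rfl⟩).symm)
    rintro _ ⟨a, ha, rfl⟩
    exact congrArg Subtype.val (h3 a ha)

theorem mem_of_good {S A : Subgroup G} (h : Good S A) : A.subgroupOf S ∈ dStarFamily S := by
  refine ⟨⟨⟨?_⟩⟩, ?_⟩
  · rintro ⟨a, ha⟩ ⟨b, hb⟩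
    apply Subtype.ext
    apply Subtype.ext
    exact h.comm _ ha _ hb
  · intro x hx a ha
    have key : ∀ b ∈ A.subgroupOf S, ⁅x, b⁆ ∈ ⁅A.subgroupOf S ⊔ zpowers x, A.subgroupOf S ⊔ zpowers x⁆ := by
      intro b hb
      apply commutator_mem_commutator
      · exact (le_sup_right : zpowers x ≤ _) (mem_zpowers x)
      · exact (le_sup_left : _ ≤ A.subgroupOf S ⊔ zpowers x) hb
    have h3 := h.prop x x.2 (by
      intro a' ha' b hb
      have ha2 : (⟨a', h.le ha'⟩ : S) ∈ A.subgroupOf S := ha'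
      have hb2 : (⟨b, h.le hb⟩ : S) ∈ A.subgroupOf S := hb
      have h4 : ⁅⁅x, (⟨a', h.le ha'⟩ : S)⁆, (⟨b, h.le hb⟩ : S)⁆ ∈
          ⁅⁅A.subgroupOf S ⊔ zpowers x, A.subgroupOf S ⊔ zpowers x⁆, A.subgroupOf S ⊔ zpowers x⁆ :=
        commutator_mem_commutator (key _ ha2) ((le_sup_left : _ ≤ A.subgroupOf S ⊔ zpowers x) hb2)
      rw [hx, mem_bot, commutatorElement_eq_one_iff_mul_comm] at h4
      exact congrArg Subtype.val h4)
      (by
      intro a' ha'
      have ha2 : (⟨a', h.le ha'⟩ : S) ∈ A.subgroupOf S := ha'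
      have h4 : ⁅⁅x, (⟨a', h.le ha'⟩ : S)⁆, x⁆ ∈
          ⁅⁅A.subgroupOf S ⊔ zpowers x, A.subgroupOf S ⊔ zpowers x⁆, A.subgroupOf S ⊔ zpowers x⁆ :=
        commutator_mem_commutator (key _ ha2) ((le_sup_right : zpowers x ≤ _) (mem_zpowers x))
      rw [hx, mem_bot, commutatorElement_eq_one_iff_mul_comm] at h4
      exact congrArg Subtype.val h4)
      (a : G) ha
    exact Subtype.ext h3

section series

variable [Finite G] {p : ℕ} [hp : Fact p.Prime]

/-- The series argument. -/
theorem comm_of_series {S A M : Subgroup G} (hS : IsPGroup p S) (hA : Good S A) (hMS : M ≤ S)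
    (hinv : ∀ m ∈ M, ∀ a ∈ A, a * m * a⁻¹ ∈ M)
    (hM : ∀ x ∈ M, ∀ a ∈ A, (∀ b ∈ A, ⁅x, a⁆ * b = b * ⁅x, a⁆) → ⁅x, a⁆ * x = x * ⁅x, a⁆) :
    ∀ m ∈ M, ∀ a ∈ A, a * m = m * a := by
  haveI : Group.IsNilpotent S := hS.isNilpotent
  obtain ⟨n, hn⟩ := Group.IsNilpotent.nilpotent S
  have key : ∀ i : ℕ, ∀ x (hx : x ∈ M), (⟨x, hMS hx⟩ : S) ∈ Subgroup.upperCentralSeries S i →
      ∀ a ∈ A, a * x = x * a := by
    intro i
    induction i with
    | zero =>
      intro x hx hxi a ha
      have h1 : (⟨x, hMS hx⟩ : S) = 1 := by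
        simpa using hxi
      have h2 : x = 1 := congrArg Subtype.val h1
      rw [h2, mul_one, one_mul]
    | succ i ih =>
      intro x hx hxi
      rw [Subgroup.mem_upperCentralSeries_succ_iff] at hxi
      have hcom : ∀ a ∈ A, ⁅x, a⁆ ∈ M := by
        intro a ha
        have : ⁅x, a⁆ = x * (a * x⁻¹ * a⁻¹) := by
          rw [commutatorElement_def]
          group
        rw [this]
        exact M.mul_mem hx (hinv _ (M.inv_mem hx) a ha)
      have h1 : ∀ a ∈ A, ∀ b ∈ A, ⁅x, a⁆ * b = b * ⁅x, a⁆ := by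
        intro a ha b hb
        have h2 := hxi ⟨a, hA.le ha⟩
        have h3 := ih ⁅x, a⁆ (hcom a ha) h2 b hb
        exact h3.symm
      apply hA.prop x (hMS hx) h1
      intro a ha
      exact hM x hx a ha (h1 a ha)
  intro m hm a ha
  refine key n m hm ?_ a ha
  rw [hn]
  trivial

/-- Abelian invariant subgroups are centralized. -/
theorem comm_of_abelian {S A V : Subgroup G} (hS : IsPGroup p S) (hA : Good S A) (hVS : V ≤ S)
    (hinv : ∀ m ∈ V, ∀ a ∈ A, a * m * a⁻¹ ∈ V) (hV : ∀ u ∈ V, ∀ v ∈ V, u * v = v * u) :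
    ∀ m ∈ V, ∀ a ∈ A, a * m = m * a := by
  apply comm_of_series hS hA hVS hinv
  intro x hx a ha _
  apply hV
  have : ⁅x, a⁆ = x * (a * x⁻¹ * a⁻¹) := by
    rw [commutatorElement_def]
    group
  rw [this]
  exact V.mul_mem hx (hinv _ (V.inv_mem hx) a ha)
  exact hx

/-- Quadratic action on a subgroup of class two. -/
theorem quadratic_of_class_two {S A N : Subgroup G} (hS : IsPGroup p S) (hA : Good S A) (hNS : N ≤ S)
    (hinv : ∀ m ∈ N, ∀ a ∈ A, a * m * a⁻¹ ∈ N)
    (hN2 : ∀ u ∈ N, ∀ v ∈ N, ∀ w ∈ N, ⁅u, v⁆ * w = w * ⁅u, v⁆)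
    (hAN : ∀ u ∈ N, ∀ v ∈ N, ∀ a ∈ A, a * ⁅u, v⁆ = ⁅u, v⁆ * a) :
    ∀ n ∈ N, ∀ a ∈ A, ∀ b ∈ A, b * ⁅n, a⁆ = ⁅n, a⁆ * b := by
  have hMN : ⁅N, A⁆ ≤ N := by
    rw [commutator_le]
    intro n hn a ha
    have : ⁅n, a⁆ = n * (a * n⁻¹ * a⁻¹) := by
      rw [commutatorElement_def]
      group
    rw [this]
    exact N.mul_mem hn (hinv _ (N.inv_mem hn) a ha)
  have hMinv : ∀ m ∈ ⁅N, A⁆, ∀ a ∈ A, a * m * a⁻¹ ∈ ⁅N, A⁆ := by
    intro m hm a ha
    rw [Subgroup.commutator_def] at hm ⊢
    induction hm using closure_induction with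
    | mem x hx =>
      obtain ⟨n, hn, b, hb, rfl⟩ := hx
      apply Subgroup.subset_closure
      refine ⟨a * n * a⁻¹, hinv n hn a ha, b, hb, ?_⟩
      have hab := hA.comm a ha b hb
      have hb' : a * b * a⁻¹ = b := by
        rw [hab]
        group
      have h5 : ⁅a * n * a⁻¹, a * b * a⁻¹⁆ = a * ⁅n, b⁆ * a⁻¹ := by
        simp only [commutatorElement_def]
        group
      rw [hb'] at h5
      exact h5
    | one => simp
    | mul x y _ _ h1 h2 =>
      have : a * (x * y) * a⁻¹ = (a * x * a⁻¹) * (a * y * a⁻¹) := by group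
      rw [this]
      exact mul_mem h1 h2
    | inv x _ h1 =>
      have : a * x⁻¹ * a⁻¹ = (a * x * a⁻¹)⁻¹ := by group
      rw [this]
      exact inv_mem h1
  have key := comm_of_series hS hA (hMN.trans hNS) hMinv (by
    intro x hx a ha hy
    set y := ⁅x, a⁆ with hydef
    have hyN : y ∈ N := by
      have : ⁅x, a⁆ = x * (a * x⁻¹ * a⁻¹) := by
        rw [commutatorElement_def]
        group
      rw [hydef, this]
      exact N.mul_mem (hMN hx) (hinv _ (N.inv_mem (hMN hx)) a ha)
    -- `y` centralizes the commutator subgroup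
    have hyc : ⁅N, A⁆ ≤ centralizer ({y} : Set G) := by
      rw [commutator_le]
      intro w hw b hb
      rw [mem_centralizer_iff]
      intro z hz
      rw [Set.mem_singleton_iff] at hz
      subst hz
      set w₂ := b * w * b⁻¹ with hw₂
      have hw₂N : w₂ ∈ N := hinv w hw b hb
      have hc : ⁅y, w₂⁆ = ⁅y, w⁆ := by
        have h3 : ⁅y, w₂⁆ = b * ⁅y, w⁆ * b⁻¹ := by
          have hyb : b * y * b⁻¹ = y := by
            rw [← hy b hb]
            group
          have h5 : ⁅b * y * b⁻¹, b * w * b⁻¹⁆ = b * ⁅y, w⁆ * b⁻¹ := by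
            simp only [commutatorElement_def]
            group
          rw [hyb] at h5
          exact h5
        rw [h3, hAN y hyN w hw b hb]
        group
      set c := ⁅y, w⁆ with hcdef
      have e1 : y * w * y⁻¹ = c * w := by
        rw [hcdef, commutatorElement_def]
        group
      have e2 : y * w₂ * y⁻¹ = c * w₂ := by
        rw [← hc, commutatorElement_def]
        group
      have e3 : ⁅w, b⁆ = w * w₂⁻¹ := by
        rw [hw₂, commutatorElement_def]
        group
      have hcN : c * (w * w₂⁻¹) = (w * w₂⁻¹) * c := hN2 y hyN w hw _ (N.mul_mem hw (N.inv_mem hw₂N))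
      rw [e3]
      have e4 : y * (w * w₂⁻¹) * y⁻¹ = w * w₂⁻¹ := by
        calc y * (w * w₂⁻¹) * y⁻¹ = (y * w * y⁻¹) * (y * w₂ * y⁻¹)⁻¹ := by group
          _ = c * w * (c * w₂)⁻¹ := by rw [e1, e2]
          _ = c * (w * w₂⁻¹) * c⁻¹ := by group
          _ = w * w₂⁻¹ := by rw [hcN]; group
      calc y * (w * w₂⁻¹) = (y * (w * w₂⁻¹) * y⁻¹) * y := by group
        _ = (w * w₂⁻¹) * y := by rw [e4]
    have := mem_centralizer_iff.1 (hyc hx) y rfl
    exact this)
  intro n hn a ha b hb
  exact key _ (commutator_mem_commutator hn ha) b hb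

/-- Quadraticity criterion. -/
theorem quad_of_comm {V : Subgroup G} (hV : V.Normal) (a : G) (h : ∀ v ∈ V, ⁅v, a⁆ * a = a * ⁅v, a⁆) :
    ⁅⁅V, zpowers a⁆, zpowers a⁆ = ⊥ := by
  have hle : ⁅V, zpowers a⁆ ≤ V ⊓ centralizer ({a} : Set G) := by
    rw [commutator_le]
    intro v hv y hy
    obtain ⟨k, rfl⟩ := (mem_powers_iff_mem_zpowers).2 hy
    have hra : ∀ v ∈ V, ⁅v, a⁆ ∈ V := by
      intro v hv
      have : ⁅v, a⁆ = v * (a * v⁻¹ * a⁻¹) := by
        rw [commutatorElement_def]
        group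
      rw [this]
      exact V.mul_mem hv (hV.conj_mem _ (V.inv_mem hv) a)
    set r := ⁅v, a⁆ with hr
    have hcomm : Commute r a := h v hv
    have e1 : v * a * v⁻¹ = r * a := by
      rw [hr, commutatorElement_def]
      group
    have e2 : ⁅v, a ^ k⁆ = r ^ k := by
      rw [commutatorElement_def]
      have h3 : v * a ^ k * v⁻¹ = (v * a * v⁻¹) ^ k := (conj_pow).symm
      rw [h3, e1, hcomm.mul_pow]
      group
    simp only [] at e2 ⊢
    rw [e2]
    refine mem_inf.2 ⟨V.pow_mem (hra v hv) k, ?_⟩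
    rw [mem_centralizer_iff]
    intro z hz
    rw [Set.mem_singleton_iff] at hz
    subst hz
    exact ((hcomm.pow_left k).eq).symm
  rw [eq_bot_iff, commutator_le]
  intro x hx y hy
  have hx' := (mem_inf.1 (hle hx)).2
  obtain ⟨k, rfl⟩ := mem_zpowers_iff.1 hy
  have h5 : Commute x a := (mem_centralizer_iff.1 hx' a rfl).symm
  rw [mem_bot, commutatorElement_eq_one_iff_mul_comm]
  exact (h5.zpow_right k).eq

end series

section main

variable [Finite G] {p : ℕ} [hp : Fact p.Prime]

/-- The generating family. -/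
def conjFam (S : Subgroup G) : Set (Subgroup G) :=
  {B | ∃ (A : Subgroup G) (g : G), Good S A ∧ B = A.map (MulAut.conj g).toMonoidHom}

/-- The normal closure. -/
def U (S : Subgroup G) : Subgroup G := sSup (conjFam S)

theorem U_normal (S : Subgroup G) : (U S).Normal := by
  constructor
  intro u hu g
  have hle : U S ≤ (U S).comap (MulAut.conj g).toMonoidHom := by
    apply sSup_le
    rintro B ⟨A, h, hA, rfl⟩ _ ⟨a, ha, rfl⟩
    have hmem : A.map (MulAut.conj (g * h)).toMonoidHom ∈ conjFam S := ⟨A, g * h, hA, rfl⟩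
    refine le_sSup hmem ⟨a, ha, ?_⟩
    show g * h * a * (g * h)⁻¹ = g * (h * a * h⁻¹) * g⁻¹
    group
  exact hle hu

theorem good_le_U {S A : Subgroup G} (hA : Good S A) : A ≤ U S := by
  intro a ha
  have hmem : A.map (MulAut.conj (1 : G)).toMonoidHom ∈ conjFam S := ⟨A, 1, hA, rfl⟩
  exact le_sSup hmem ⟨a, ha, by simp⟩

/-- The action on normal `p`-subgroups is a `p`-action. -/
theorem acts_p (S : Sylow p G) (hst : ∀ (P : Subgroup G) [P.Normal], IsPGroup p P → IsPStableOn p P) :
    ∀ (n : ℕ) (N : Subgroup G) (hN : N.Normal), Nat.card N = n → IsPGroup p N →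
      ∀ u ∈ U (S : Subgroup G), ∃ k : ℕ, u ^ (p ^ k) ∈ centralizer (N : Set G) := by
  intro n
  induction n using Nat.strong_induction_on with
  | _ n ih =>
  intro N hN hcard hNp u hu
  classical
  by_cases hbot : N = ⊥
  · subst hbot
    refine ⟨0, ?_⟩
    rw [mem_centralizer_iff]
    intro h hh
    have : h = 1 := by simpa using hh
    rw [this]
    group
  -- the family of proper normal subgroups
  let F : Set (Subgroup G) := {R | R.Normal ∧ R < N}
  have hFne : F.Nonempty := ⟨⊥, inferInstance, bot_lt_iff_ne_bot.2 hbot⟩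
  obtain ⟨R, hR, hRmax⟩ := Set.exists_max_image F (fun R => Nat.card R) (Set.toFinite F) hFne
  have hIH : ∀ R' ∈ F, ∀ u ∈ U (S : Subgroup G), ∃ k : ℕ, u ^ (p ^ k) ∈ centralizer (R' : Set G) := by
    intro R' hR' u hu
    have hlt : Nat.card R' < n := by
      rw [← hcard]
      exact (Subgroup.card_le_of_le hR'.2.le).lt_of_ne
        (fun h => hR'.2.ne (Subgroup.eq_of_le_of_card_ge hR'.2.le h.ge))
    exact ih _ hlt R' hR'.1 rfl (hNp.to_le hR'.2.le) u hu
  haveI hRn : R.Normal := hR.1
  by_cases hcase : ∃ R' ∈ F, ¬ R' ≤ R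
  · -- two different maximal subgroups
    obtain ⟨R', hR', hnle⟩ := hcase
    haveI hRn' : R'.Normal := hR'.1
    have hsup : R ⊔ R' = N := by
      by_contra hne
      have hlt : R ⊔ R' < N := lt_of_le_of_ne (sup_le hR.2.le hR'.2.le) hne
      have h1 := hRmax (R ⊔ R') ⟨inferInstance, hlt⟩
      have h2 : R = R ⊔ R' := Subgroup.eq_of_le_of_card_ge le_sup_left h1
      exact hnle (by rw [h2]; exact le_sup_right)
    obtain ⟨k₁, hk₁⟩ := hIH R hR u hu
    obtain ⟨k₂, hk₂⟩ := hIH R' hR' u hu
    refine ⟨k₁ + k₂, ?_⟩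
    have h3 : u ^ (p ^ (k₁ + k₂)) ∈ centralizer (R : Set G) := by
      rw [pow_add, pow_mul]
      exact (centralizer (R : Set G)).pow_mem hk₁ _
    have h4 : u ^ (p ^ (k₁ + k₂)) ∈ centralizer (R' : Set G) := by
      rw [pow_add, mul_comm, pow_mul]
      exact (centralizer (R' : Set G)).pow_mem hk₂ _
    set c := u ^ (p ^ (k₁ + k₂)) with hc
    have h5 : R ⊔ R' ≤ centralizer ({c} : Set G) := by
      apply sup_le
      · intro r hr
        rw [mem_centralizer_iff]
        intro z hz
        rw [Set.mem_singleton_iff] at hz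
        subst hz
        exact (mem_centralizer_iff.1 h3 r hr).symm
      · intro r hr
        rw [mem_centralizer_iff]
        intro z hz
        rw [Set.mem_singleton_iff] at hz
        subst hz
        exact (mem_centralizer_iff.1 h4 r hr).symm
    rw [mem_centralizer_iff]
    intro h hh
    rw [← hsup] at hh
    exact ((mem_centralizer_iff.1 (h5 hh) c rfl)).symm
  · push Not at hcase
    -- the centralizer of `R` in `N`
    set Cn : Subgroup G := N ⊓ centralizer (R : Set G) with hCn
    haveI hCnn : Cn.Normal := by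
      rw [hCn]
      infer_instance
    by_cases hCnN : Cn = N
    · -- class two
      have hRZ : ∀ r ∈ R, ∀ n ∈ N, r * n = n * r := by
        intro r hr n hn
        have : n ∈ Cn := by rw [hCnN]; exact hn
        exact mem_centralizer_iff.1 (mem_inf.1 this).2 r hr
      have hNS : N ≤ (S : Subgroup G) := by
        have h1 := CfsgLib.PLocal.le_pCore_of_normal N hN hNp
        exact h1.trans (CfsgLib.PLocal.pCore_le_sylow S)
      have hSp : IsPGroup p (S : Subgroup G) := S.isPGroup'
      have hcommlt : ⁅N, N⁆ ≠ N := by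
        intro h0
        exact hbot (CfsgLib.PLocal.eq_bot_of_le_commutator (p := p) hNp hNp le_normalizer h0.ge)
      have hcommF : ⁅N, N⁆ ∈ F := by
        refine ⟨inferInstance, lt_of_le_of_ne ?_ hcommlt⟩
        exact commutator_le_self N
      have hcommR : ⁅N, N⁆ ≤ R := hcase _ hcommF
      have hN2 : ∀ u ∈ N, ∀ v ∈ N, ∀ w ∈ N, ⁅u, v⁆ * w = w * ⁅u, v⁆ := by
        intro u hu v hv w hw
        exact hRZ _ (hcommR (commutator_mem_commutator hu hv)) w hw
      have hquad : ∀ A : Subgroup G, Good (S : Subgroup G) A → ∀ n ∈ N, ∀ a ∈ A, ∀ b ∈ A,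
          b * ⁅n, a⁆ = ⁅n, a⁆ * b := by
        intro A hA
        have hinv : ∀ m ∈ N, ∀ a ∈ A, a * m * a⁻¹ ∈ N := fun m hm a _ => hN.conj_mem m hm a
        refine quadratic_of_class_two hSp hA hNS hinv hN2 ?_
        intro u hu v hv a ha
        have h1 := comm_of_abelian hSp hA (V := ⁅N, N⁆)
          ((commutator_le_self N).trans hNS)
          (fun m hm a _ => (inferInstance : (⁅N, N⁆).Normal).conj_mem m hm a)
          (by
            intro x hx y hy
            exact hRZ x (hcommR hx) y ((commutator_le_self N) hy))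
        exact h1 _ (commutator_mem_commutator hu hv) a ha
      haveI hCc : (centralizer (N : Set G)).Normal := inferInstance
      let W' : Subgroup G := (pCore p (G ⧸ centralizer (N : Set G))).comap (QuotientGroup.mk' _)
      haveI hW'n : W'.Normal := by
        haveI : (pCore p (G ⧸ centralizer (N : Set G))).Normal := CfsgLib.PLocal.pCore_normal'
        exact Subgroup.Normal.comap inferInstance _
      have hUW : U (S : Subgroup G) ≤ W' := by
        apply sSup_le
        rintro B ⟨A, g, hA, rfl⟩ _ ⟨a, ha, rfl⟩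
        have h1 : a ∈ W' := by
          haveI := hN
          apply hst N hNp a
          apply quad_of_comm hN a
          intro v hv
          exact (hquad A hA v hv a ha a ha).symm
        exact hW'n.conj_mem a h1 g
      have h2 := hUW hu
      obtain ⟨k, hk⟩ := CfsgLib.Solv.pCore_isPGroup p (G := G ⧸ centralizer (N : Set G)) ⟨_, h2⟩
      refine ⟨k, ?_⟩
      have h3 : ((u ^ (p ^ k) : G) : G ⧸ centralizer (N : Set G)) = 1 := by
        have := congrArg Subtype.val hk
        simpa using this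
      exact (QuotientGroup.eq_one_iff _).1 h3
    · -- `C_N(R) ≤ R`
      have hCnF : Cn ∈ F := ⟨hCnn, lt_of_le_of_ne inf_le_left hCnN⟩
      have hCnR : Cn ≤ R := hcase _ hCnF
      obtain ⟨k, hk⟩ := hIH R hR u hu
      set c := u ^ (p ^ k) with hc
      -- commutators with `c` lie in `R`
      have hCR : ⁅centralizer (R : Set G), R⁆ = ⊥ := commutator_eq_bot_iff_le_centralizer.2 le_rfl
      have hrot : ⁅⁅N, centralizer (R : Set G)⁆, R⁆ = ⊥ := by
        apply commutator_commutator_eq_bot_of_rotate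
        · rw [hCR, commutator_bot_left]
        · rw [eq_bot_iff]
          calc ⁅⁅R, N⁆, centralizer (R : Set G)⁆ ≤ ⁅R, centralizer (R : Set G)⁆ :=
                commutator_mono (commutator_le_left R N) le_rfl
            _ = ⊥ := by rw [commutator_comm, hCR]
      have hRp : IsPGroup p R := hNp.to_le hR.2.le
      obtain ⟨t, ht⟩ := IsPGroup.iff_card.1 hRp
      refine ⟨k + t, ?_⟩
      rw [pow_add, pow_mul, ← hc, ← ht]
      rw [mem_centralizer_iff]
      intro x hx
      have hrR : ⁅c, x⁆ ∈ R := by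
        apply hCnR
        have h1 : ⁅c, x⁆ = ⁅x, c⁆⁻¹ := (commutatorElement_inv _ _).symm
        rw [h1]
        refine inv_mem (mem_inf.2 ⟨?_, ?_⟩)
        · have : ⁅x, c⁆ = x * (c * x⁻¹ * c⁻¹) := by
            rw [commutatorElement_def]
            group
          rw [this]
          exact N.mul_mem hx (hN.conj_mem _ (N.inv_mem hx) c)
        · rw [mem_centralizer_iff]
          intro z hz
          have h2 : ⁅⁅x, c⁆, z⁆ ∈ ⁅⁅N, centralizer (R : Set G)⁆, R⁆ :=
            commutator_mem_commutator (commutator_mem_commutator hx hk) hz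
          rw [hrot, mem_bot, commutatorElement_eq_one_iff_mul_comm] at h2
          exact h2.symm
      set r := ⁅c, x⁆ with hr
      have hcr : Commute c r := (mem_centralizer_iff.1 hk r hrR).symm
      have hpow : ∀ m : ℕ, c ^ m * x = r ^ m * x * c ^ m := by
        intro m
        induction m with
        | zero => simp
        | succ m ihm =>
          have e1 : c * x = r * x * c := by
            rw [hr, commutatorElement_def]
            group
          calc c ^ (m + 1) * x = c * (c ^ m * x) := by rw [pow_succ']; group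
            _ = c * (r ^ m * x * c ^ m) := by rw [ihm]
            _ = (c * r ^ m) * x * c ^ m := by group
            _ = (r ^ m * c) * x * c ^ m := by rw [(hcr.pow_right m).eq]
            _ = r ^ m * (c * x) * c ^ m := by group
            _ = r ^ m * (r * x * c) * c ^ m := by rw [e1]
            _ = r ^ (m + 1) * x * c ^ (m + 1) := by
                rw [pow_succ r m, pow_succ' c m]
                group
      have h6 := hpow (Nat.card R)
      have h7 : r ^ Nat.card R = 1 := by
        have := pow_card_eq_one' (G := R) (x := ⟨r, hrR⟩)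
        exact congrArg Subtype.val this
      rw [h7, one_mul] at h6
      exact h6.symm

/-- Step one. -/
theorem U_le_core (S : Sylow p G) (hc : centralizer (pCore p G : Set G) ≤ pCore p G)
    (hst : ∀ (P : Subgroup G) [P.Normal], IsPGroup p P → IsPStableOn p P) :
    U (S : Subgroup G) ≤ pCore p G := by
  haveI hUn := U_normal (S : Subgroup G)
  apply CfsgLib.PLocal.le_pCore_of_normal _ hUn
  have hQp : IsPGroup p (pCore p G) := CfsgLib.PLocal.pCore_isPGroup
  intro u
  obtain ⟨k, hk⟩ := acts_p S hst _ (pCore p G) CfsgLib.PLocal.pCore_normal' rfl hQp u.1 u.2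
  obtain ⟨m, hm⟩ := hQp ⟨_, hc hk⟩
  refine ⟨k + m, ?_⟩
  apply Subtype.ext
  have h1 : ((u.1 ^ (p ^ k)) ^ (p ^ m) : G) = 1 := congrArg Subtype.val hm
  show u.1 ^ (p ^ (k + m)) = 1
  rw [pow_add, pow_mul]
  exact h1

theorem conj_good {Q S A : Subgroup G} (hQn : Q.Normal) (hQS : Q ≤ S) (hA : Good S A) (hAQ : A ≤ Q) (g : G) :
    Good Q (A.map (MulAut.conj g).toMonoidHom) := by
  set φ : G →* G := (MulAut.conj g).toMonoidHom with hφ
  have hinj : Function.Injective φ := (MulAut.conj g).injective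
  refine ⟨?_, ?_, ?_⟩
  · rintro _ ⟨a, ha, rfl⟩
    exact hQn.conj_mem a (hAQ ha) g
  · rintro _ ⟨a, ha, rfl⟩ _ ⟨b, hb, rfl⟩
    rw [← map_mul, ← map_mul, hA.comm a ha b hb]
  · intro x hx h1 h2
    set x' := g⁻¹ * x * g with hx'
    have hxQ : x' ∈ Q := by
      have := hQn.conj_mem x hx g⁻¹
      simpa [hx'] using this
    have hφx : φ x' = x := by
      show g * (g⁻¹ * x * g) * g⁻¹ = x
      group
    have h3 := hA.prop x' (hQS hxQ) (by
      intro a ha b hb
      apply hinj
      have := h1 (φ a) ⟨a, ha, rfl⟩ (φ b) ⟨b, hb, rfl⟩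
      rw [← hφx, ← map_commutatorElement, ← map_mul, ← map_mul] at this
      exact this) (by
      intro a ha
      apply hinj
      have := h2 (φ a) ⟨a, ha, rfl⟩
      rw [← hφx, ← map_commutatorElement, ← map_mul, ← map_mul] at this
      exact this)
    rintro _ ⟨a, ha, rfl⟩
    have h4 : φ (a * x') = φ (x' * a) := congrArg φ (h3 a ha)
    rw [map_mul φ a x', map_mul φ x' a, hφx] at h4
    exact h4

/-- Step two: the normal closure is abelian. -/
theorem U_comm (S : Sylow p G) (hc : centralizer (pCore p G : Set G) ≤ pCore p G)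
    (hst : ∀ (P : Subgroup G) [P.Normal], IsPGroup p P → IsPStableOn p P) :
    ∀ x ∈ U (S : Subgroup G), ∀ y ∈ U (S : Subgroup G), x * y = y * x := by
  have hle := U_le_core S hc hst
  set Q := pCore p G with hQ
  have hQn : Q.Normal := CfsgLib.PLocal.pCore_normal'
  have hQp : IsPGroup p Q := CfsgLib.PLocal.pCore_isPGroup
  have hQS : Q ≤ (S : Subgroup G) := CfsgLib.PLocal.pCore_le_sylow S
  have hmain := (CfsgLib.DStarThm.main (S := Q) hQp).2.1
  have hsub : U (S : Subgroup G) ≤ (dStar Q).map Q.subtype := by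
    apply sSup_le
    rintro B ⟨A, g, hA, rfl⟩
    have hAQ : A ≤ Q := (good_le_U hA).trans hle
    have hgood := conj_good hQn hQS hA hAQ g
    have h1 := mem_of_good hgood
    have h2 : (A.map (MulAut.conj g).toMonoidHom).subgroupOf Q ≤ dStar Q := le_sSup h1
    intro b hb
    exact ⟨⟨b, hgood.le hb⟩, h2 hb, rfl⟩
  intro x hx y hy
  obtain ⟨x', hx', rfl⟩ := hsub hx
  obtain ⟨y', hy', rfl⟩ := hsub hy
  have h1 := hmain hx'
  have h2 := hmain hy'
  have h3 := mem_centralizer_iff.1 (mem_inf.1 h2).2 x' (mem_inf.1 h1).1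
  have h4 : x' * y' = y' * x' := h3
  exact congrArg Subtype.val h4

/-- Step three: the normal closure is good. -/
theorem U_good (S : Sylow p G) (hc : centralizer (pCore p G : Set G) ≤ pCore p G)
    (hst : ∀ (P : Subgroup G) [P.Normal], IsPGroup p P → IsPStableOn p P) :
    Good (S : Subgroup G) (U (S : Subgroup G)) := by
  classical
  have hle := U_le_core S hc hst
  have hcomm := U_comm S hc hst
  have hQS : pCore p G ≤ (S : Subgroup G) := CfsgLib.PLocal.pCore_le_sylow S
  set V := U (S : Subgroup G) with hV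
  haveI hVn : V.Normal := U_normal _
  have hVp : IsPGroup p V := CfsgLib.PLocal.pCore_isPGroup.to_le hle
  refine ⟨hle.trans hQS, hcomm, ?_⟩
  intro x hx h1 h2
  -- `x` lies in the stable subgroup
  have hq : ⁅⁅V, zpowers x⁆, zpowers x⁆ = ⊥ := by
    apply quad_of_comm hVn
    intro v hv
    have h3 := h2 v hv
    have h4 : ⁅v, x⁆ = ⁅x, v⁆⁻¹ := (commutatorElement_inv _ _).symm
    rw [h4]
    have h5 : Commute ⁅x, v⁆ x := h3
    exact h5.inv_left
  have hxW := hst V hVp x hq
  haveI hcore : (pCore p (G ⧸ centralizer (V : Set G))).Normal := CfsgLib.PLocal.pCore_normal'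
  let π : G →* G ⧸ centralizer (V : Set G) := QuotientGroup.mk' _
  have hπ : Function.Surjective π := QuotientGroup.mk'_surjective _
  let S' : Sylow p (G ⧸ centralizer (V : Set G)) := S.mapSurjective hπ
  have hS' : pCore p (G ⧸ centralizer (V : Set G)) ≤ (S' : Subgroup _) :=
    CfsgLib.PLocal.pCore_le_sylow S'
  have hS'' : (S' : Subgroup _) = (S : Subgroup G).map π := Sylow.coe_mapSurjective _ _
  -- it suffices to commute with the generators
  have hgen : ∀ B ∈ conjFam (S : Subgroup G), ∀ b ∈ B, b * x = x * b := by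
    rintro B ⟨A, g, hA, rfl⟩ _ ⟨a, ha, rfl⟩
    have hAV : A ≤ V := good_le_U hA
    set x' := g⁻¹ * x * g with hx'
    have hmem : π x' ∈ pCore p (G ⧸ centralizer (V : Set G)) := by
      have h3 := hcore.conj_mem _ hxW (π g⁻¹)
      have e : π g⁻¹ * (x : G ⧸ centralizer (V : Set G)) * (π g⁻¹)⁻¹ = π x' := by
        rw [hx', map_mul, map_mul, map_inv]
        simp [π]
      rw [e] at h3
      exact h3
    have hmem' := hS' hmem
    rw [hS''] at hmem'
    obtain ⟨t, ht, hte⟩ := hmem'
    set c := t⁻¹ * x' with hcdef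
    have hcC : c ∈ centralizer (V : Set G) := by
      have : (t : G ⧸ centralizer (V : Set G)) = (x' : G ⧸ centralizer (V : Set G)) := hte
      exact QuotientGroup.eq.1 this
    have hx'e : x' = t * c := by
      rw [hcdef]
      group
    have hcV : ∀ v ∈ V, c * v = v * c := fun v hv => (mem_centralizer_iff.1 hcC v hv).symm
    -- transport the hypothesis on `x`
    have hconjV : ∀ v ∈ V, g * v * g⁻¹ ∈ V := fun v hv => hVn.conj_mem v hv g
    have hcomm' : ∀ v ∈ V, ⁅x', v⁆ * x' = x' * ⁅x', v⁆ := by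
      intro v hv
      have h3 := h2 _ (hconjV v hv)
      have e1 : ⁅x, g * v * g⁻¹⁆ = g * ⁅x', v⁆ * g⁻¹ := by
        simp only [commutatorElement_def, hx']
        group
      rw [e1] at h3
      have e2 : x = g * x' * g⁻¹ := by
        rw [hx']
        group
      have h4 : g * (⁅x', v⁆ * x') * g⁻¹ = g * (x' * ⁅x', v⁆) * g⁻¹ := by
        calc g * (⁅x', v⁆ * x') * g⁻¹ = g * ⁅x', v⁆ * g⁻¹ * (g * x' * g⁻¹) := by group
          _ = g * ⁅x', v⁆ * g⁻¹ * x := by rw [← e2]
          _ = x * (g * ⁅x', v⁆ * g⁻¹) := h3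
          _ = (g * x' * g⁻¹) * (g * ⁅x', v⁆ * g⁻¹) := by rw [← e2]
          _ = _ := by group
      have h5 := mul_left_cancel (mul_right_cancel h4)
      exact h5
    have hcomx : ∀ v ∈ V, ⁅x', v⁆ = ⁅t, v⁆ := by
      intro v hv
      rw [hx'e]
      simp only [commutatorElement_def]
      have := hcV v hv
      calc t * c * v * (t * c)⁻¹ * v⁻¹ = t * (c * v) * c⁻¹ * t⁻¹ * v⁻¹ := by group
        _ = t * (v * c) * c⁻¹ * t⁻¹ * v⁻¹ := by rw [this]
        _ = _ := by group
    have htV : ∀ v ∈ V, ⁅t, v⁆ ∈ V := by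
      intro v hv
      have : ⁅t, v⁆ = (t * v * t⁻¹) * v⁻¹ := by
        rw [commutatorElement_def]
      rw [this]
      exact V.mul_mem (hVn.conj_mem v hv t) (V.inv_mem hv)
    have h6 := hA.prop t ht (by
      intro a ha b hb
      exact hcomm _ (htV a (hAV ha)) b (hAV hb)) (by
      intro a ha
      have h7 := hcomm' a (hAV ha)
      rw [hcomx a (hAV ha), hx'e] at h7
      have h8 := hcV _ (htV a (hAV ha))
      -- cancel `c`
      have h9 : ⁅t, a⁆ * t * c = t * ⁅t, a⁆ * c := by
        calc ⁅t, a⁆ * t * c = ⁅t, a⁆ * (t * c) := by group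
          _ = t * c * ⁅t, a⁆ := h7
          _ = t * (c * ⁅t, a⁆) := by group
          _ = t * (⁅t, a⁆ * c) := by rw [h8]
          _ = _ := by group
      exact mul_right_cancel h9)
    have h10 : a * x' = x' * a := by
      rw [hx'e]
      calc a * (t * c) = (a * t) * c := by group
        _ = (t * a) * c := by rw [h6 a ha]
        _ = t * (a * c) := by group
        _ = t * (c * a) := by rw [hcV a (hAV ha)]
        _ = _ := by group
    show g * a * g⁻¹ * x = x * (g * a * g⁻¹)
    have e2 : x = g * x' * g⁻¹ := by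
      rw [hx']
      group
    rw [e2]
    calc g * a * g⁻¹ * (g * x' * g⁻¹) = g * (a * x') * g⁻¹ := by group
      _ = g * (x' * a) * g⁻¹ := by rw [h10]
      _ = _ := by group
  have hUc : V ≤ centralizer ({x} : Set G) := by
    apply sSup_le
    intro B hB b hb
    rw [mem_centralizer_iff]
    intro z hz
    rw [Set.mem_singleton_iff] at hz
    subst hz
    exact (hgen B hB b hb).symm
  intro a ha
  exact (mem_centralizer_iff.1 (hUc ha) x rfl).symm

/-- The `D*`-theorem. -/
theorem dStarOf_normal (S : Sylow p G) (hc : centralizer (pCore p G : Set G) ≤ pCore p G)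
    (hst : ∀ (P : Subgroup G) [P.Normal], IsPGroup p P → IsPStableOn p P) :
    (dStarOf (S : Subgroup G)).Normal := by
  have hgood := U_good S hc hst
  have heq : dStarOf (S : Subgroup G) = U (S : Subgroup G) := by
    apply le_antisymm
    · unfold dStarOf dStar
      rw [Subgroup.map_le_iff_le_comap]
      apply sSup_le
      intro T hT t ht
      exact good_le_U (good_of_mem _ T hT) ⟨t, ht, rfl⟩
    · intro u hu
      have h1 := mem_of_good hgood
      have h2 : (U (S : Subgroup G)).subgroupOf (S : Subgroup G) ≤ dStar (S : Subgroup G) := le_sSup h1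
      exact ⟨⟨u, hgood.le hu⟩, h2 hu, rfl⟩
  rw [heq]
  exact U_normal _

end main

end CfsgLib.DStarNorm
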