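import Cfsg.Agent.Lib.H3.DihFus2
import Cfsg.Agent.Lib.SS.Split
import Cfsg.Agent.Lib.Invol.DihedralIso

/-! Involution classes of groups with dihedral Sylow `2`-subgroups. -/

set_option autoImplicit false
set_option linter.unusedSectionVars false

namespace CfsgLib.DihCl

open Subgroup Cfsg CfsgLib.DihFus

variable {G : Type*} [Group G] [Finite G]

theorem card_classes_of_reps {n : ℕ} (a : Fin n → G) (ho : ∀ i, orderOf (a i) = 2)
    (hne : ∀ i j, IsConj (a i) (a j) → i = j) (hcov : ∀ t : G, orderOf t = 2 → ∃ i, IsConj (a i) t) :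
    Nat.card {C : ConjClasses G // ∃ g : G, ConjClasses.mk g = C ∧ orderOf g = 2} = n := by
  let f : Fin n → {C : ConjClasses G // ∃ g : G, ConjClasses.mk g = C ∧ orderOf g = 2} :=
    fun i => ⟨ConjClasses.mk (a i), a i, rfl, ho i⟩
  have hb : Function.Bijective f := by
    constructor
    · intro i j hij
      apply hne
      exact ConjClasses.mk_eq_mk_iff_isConj.1 (congrArg Subtype.val hij)
    · rintro ⟨C, g, rfl, hg⟩
      obtain ⟨i, hi⟩ := hcov g hg
      exact ⟨i, Subtype.ext (ConjClasses.mk_eq_mk_iff_isConj.2 hi)⟩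
  rw [← Nat.card_eq_of_bijective f hb, Nat.card_fin]

/-- With no normal subgroup of index 2 (in the form `O²(H) = H`), dihedral Sylow `2`-subgroups of
order at least 4 give a single class of involutions. -/
theorem one_class {H : Type*} [Group H] [Finite H] (T : Sylow 2 H) (hO : pResidual 2 H = ⊤) (k : ℕ)
    (hk : 1 ≤ k) (e : (T : Subgroup H) ≃* DihedralGroup (2 ^ k)) (a b : H) (ha : orderOf a = 2)
    (hb : orderOf b = 2) : IsConj a b := by
  haveI : Fact (Nat.Prime 2) := ⟨Nat.prime_two⟩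
  by_cases hk2 : 2 ≤ k
  · obtain ⟨g, hg⟩ := CfsgLib.Trans.dihedral_one_class T k hk2 ⟨e⟩ hO a b ha hb
    exact isConj_iff.2 ⟨g, hg⟩
  · have hk1 : k = 1 := by omega
    subst hk1
    have hall : ∀ x : DihedralGroup (2 ^ 1), x ^ 2 = 1 := by decide
    have hTc : Nat.card (T : Subgroup H) = 4 := by
      rw [Nat.card_congr e.toEquiv, DihedralGroup.nat_card]
      norm_num
    have hK : IsKleinFour (T : Subgroup H) := by
      apply klein_of_sq hTc
      intro x
      apply e.injective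
      rw [map_pow, hall, map_one]
    have hone : Nat.card {C : ConjClasses H // ∃ t : H, orderOf t = 2 ∧ ConjClasses.mk t = C} = 1 := by
      rcases CfsgLib.Invol.klein_one_or_three T hK with h | h
      · exact h
      · exfalso
        obtain ⟨N, hN, hc⟩ := (CfsgLib.Invol.klein_three_iff T hK).1 h
        haveI := hN
        obtain ⟨-, h2⟩ := CfsgLib.Trans.card_index_of_complement T N hc
        rw [hTc] at h2
        have h3 : pResidual 2 H ≤ N :=
          CfsgLib.Trans.pResidual_le_of_index N (k := 2) (by rw [h2]; norm_num)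
        rw [hO, top_le_iff] at h3
        rw [h3, Subgroup.index_top] at h2
        norm_num at h2
    obtain ⟨hss, -⟩ := (Nat.card_eq_one_iff_unique).1 hone
    have := hss.elim (⟨ConjClasses.mk a, a, ha, rfl⟩) (⟨ConjClasses.mk b, b, hb, rfl⟩)
    exact ConjClasses.mk_eq_mk_iff_isConj.1 (congrArg Subtype.val this)

/-- Cyclic Sylow `2`-subgroups and `O²(H) = H` force odd order. -/
theorem bot_of_cyclic {H : Type*} [Group H] [Finite H] (T : Sylow 2 H) (hc : IsCyclic (T : Subgroup H))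
    (hO : pResidual 2 H = ⊤) : (T : Subgroup H) = ⊥ := by
  haveI : Fact (Nat.Prime 2) := ⟨Nat.prime_two⟩
  by_contra hne
  have hd : 2 ∣ Nat.card H := by
    obtain ⟨⟨x, hx⟩, hx1⟩ := Subgroup.ne_bot_iff_exists_ne_one.1 hne
    obtain ⟨j, hj⟩ := IsPGroup.iff_card.1 T.2
    have hj0 : j ≠ 0 := by
      rintro rfl
      have : Nat.card (T : Subgroup H) = 1 := by simpa using hj
      rw [Subgroup.card_eq_one] at this
      exact hne this
    have h1 : 2 ∣ Nat.card (T : Subgroup H) := by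
      rw [hj]; exact dvd_pow_self 2 hj0
    exact h1.trans (Subgroup.card_subgroup_dvd_card _)
  have hmin : (Nat.card H).minFac = 2 := (Nat.minFac_eq_two_iff _).2 hd
  have hcomp := IsCyclic.isComplement' hmin hc
  set N := (MonoidHom.transferSylow T (hc.normalizer_le_centralizer hmin)).ker with hN
  haveI hNn : N.Normal := MonoidHom.normal_ker _
  obtain ⟨-, h2⟩ := CfsgLib.Trans.card_index_of_complement T N hcomp
  obtain ⟨j, hj⟩ := IsPGroup.iff_card.1 T.2
  have h3 : pResidual 2 H ≤ N := CfsgLib.Trans.pResidual_le_of_index N (k := j) (by rw [h2, hj])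
  rw [hO, top_le_iff] at h3
  rw [h3] at hcomp
  exact hne (Subgroup.isComplement'_top_left.1 hcomp)

section data

variable {S : Subgroup G} {r : G} (D : DData S r)
include D

theorem refl_sq {u : G} (hu : u ∈ S) (hur : u ∉ zpowers r) : u * u = 1 := by
  rcases D.cases u hu with h | h
  · exact absurd h hur
  · rwa [pow_two] at h

theorem refl_mul {u : G} (hu : u ∈ S) (hur : u ∉ zpowers r) (j : ℤ) : u * r ^ j ∉ zpowers r := by
  intro h
  apply hur
  have := Subgroup.mul_mem _ h (Subgroup.inv_mem _ (Subgroup.zpow_mem _ (mem_zpowers r) j))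
  simpa using this

theorem refl_mem {u : G} (hu : u ∈ S) (j : ℤ) : u * r ^ j ∈ S :=
  S.mul_mem hu (S.zpow_mem D.mem j)

/-- A reflection inverts the generator. -/
theorem refl_conj {u : G} (hu : u ∈ S) (hur : u ∉ zpowers r) : u * r * u⁻¹ = r⁻¹ := by
  have h1 := refl_sq D hu hur
  have hur' : u * r ∉ zpowers r := by
    have := refl_mul D hu hur 1
    simpa using this
  have h2 := refl_sq D (S.mul_mem hu D.mem) hur'
  have hinv : u⁻¹ = u := inv_eq_of_mul_eq_one_left h1
  rw [hinv]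
  apply eq_inv_of_mul_eq_one_left
  calc u * r * u * r = (u * r) * (u * r) := by group
    _ = 1 := h2

theorem refl_zpow {u : G} (hu : u ∈ S) (hur : u ∉ zpowers r) (j : ℤ) : u * r ^ j * u⁻¹ = r ^ (-j) := by
  rw [← conj_zpow, refl_conj D hu hur, inv_zpow, zpow_neg]

/-- Commuting a power of `r` past a reflection. -/
theorem zpow_refl {u : G} (hu : u ∈ S) (hur : u ∉ zpowers r) (i : ℤ) : r ^ i * u = u * r ^ (-i) := by
  have h1 := refl_zpow D hu hur (-i)
  rw [neg_neg] at h1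
  calc r ^ i * u = u * r ^ (-i) * u⁻¹ * u := by rw [h1]
    _ = u * r ^ (-i) := by group

theorem conj_refl {u : G} (hu : u ∈ S) (hur : u ∉ zpowers r) (i j : ℤ) :
    r ^ i * (u * r ^ j) * (r ^ i)⁻¹ = u * r ^ (j - 2 * i) := by
  have h := zpow_refl D hu hur i
  calc r ^ i * (u * r ^ j) * (r ^ i)⁻¹ = (r ^ i * u) * r ^ j * r ^ (-i) := by
        rw [zpow_neg]; group
    _ = u * r ^ (-i) * r ^ j * r ^ (-i) := by rw [h]
    _ = u * (r ^ (-i) * r ^ j * r ^ (-i)) := by group
    _ = u * r ^ (j - 2 * i) := by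
        rw [← zpow_add, ← zpow_add]
        congr 2
        ring

theorem exists_rep {u y : G} (hu : u ∈ S) (hur : u ∉ zpowers r) (hy : y ∈ S) (hyr : y ∉ zpowers r) :
    ∃ j : ℤ, u = y * r ^ j := by
  have h1 := D.prod y hy u hu hyr hur
  obtain ⟨j, hj⟩ := h1
  change r ^ j = y * u at hj
  refine ⟨j, ?_⟩
  rw [hj, ← mul_assoc, refl_sq D hy hyr, one_mul]

theorem exists_rep' {u y : G} (hu : u ∈ S) (hy : y ∈ S) (hyr : y ∉ zpowers r) :
    (∃ j : ℤ, u = r ^ j) ∨ ∃ j : ℤ, u = y * r ^ j := by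
  by_cases hur : u ∈ zpowers r
  · left
    obtain ⟨j, hj⟩ := hur
    exact ⟨j, hj.symm⟩
  · right
    exact exists_rep D hu hur hy hyr

theorem conj_even {y : G} (hy : y ∈ S) (hyr : y ∉ zpowers r) (l : ℤ) :
    IsConj y (y * r ^ (2 * l)) := by
  rw [isConj_iff]
  refine ⟨r ^ (-l), ?_⟩
  have h1 := conj_refl D hy hyr (-l) 0
  rw [zpow_zero, mul_one] at h1
  rw [h1]
  congr 2
  ring

theorem conj_odd {y : G} (hy : y ∈ S) (hyr : y ∉ zpowers r) (l : ℤ) :
    IsConj (y * r) (y * r ^ (2 * l + 1)) := by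
  rw [isConj_iff]
  refine ⟨r ^ (-l), ?_⟩
  have h1 := conj_refl D hy hyr (-l) 1
  rw [zpow_one] at h1
  rw [h1]
  congr 2
  ring

/-- Conjugates by elements of `S` of a reflection have the same parity. -/
theorem not_conj_parity {s t : G} (hs : s ∈ S) (hsr : s ∉ zpowers r) (ht : t ∈ S) {m : ℕ}
    (hm : orderOf r = 2 ^ (m + 1)) : t * s * t⁻¹ ≠ s * r := by
  have hodd : ∀ i : ℤ, r ^ (2 * i + 1) ≠ 1 := by
    intro i h
    have h1 := orderOf_dvd_iff_zpow_eq_one.2 h
    rw [hm] at h1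
    have h2 : (2 : ℤ) ∣ 2 * i + 1 := by
      refine dvd_trans ?_ h1
      rw [pow_succ]
      push_cast
      exact Dvd.intro_left _ rfl
    omega
  have key : ∀ i : ℤ, r ^ i * s * (r ^ i)⁻¹ ≠ s * r := by
    intro i he
    have h1 := conj_refl D hs hsr i 0
    rw [zpow_zero, mul_one] at h1
    rw [h1] at he
    have h2 := mul_left_cancel he
    apply hodd (i)
    have e : r ^ (2 * i + 1) = r ^ (2 * i) * r := by rw [zpow_add_one]
    rw [e]
    nth_rewrite 2 [← h2]
    rw [← zpow_add]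
    have e2 : 2 * i + ((0 : ℤ) - 2 * i) = 0 := by ring
    rw [e2, zpow_zero]
  rcases exists_rep' D ht hs hsr with ⟨i, rfl⟩ | ⟨i, rfl⟩
  · exact key i
  · have e : s * r ^ i = r ^ (-i) * s := (zpow_refl D hs hsr (-i)).symm ▸ by rw [neg_neg]
    rw [e]
    have hss := refl_sq D hs hsr
    have e2 : r ^ (-i) * s * s * (r ^ (-i) * s)⁻¹ = r ^ (-i) * s * (r ^ (-i))⁻¹ := by
      have hinv : s⁻¹ = s := inv_eq_of_mul_eq_one_left hss
      calc r ^ (-i) * s * s * (r ^ (-i) * s)⁻¹ = r ^ (-i) * (s * s) * s⁻¹ * (r ^ (-i))⁻¹ := by group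
        _ = r ^ (-i) * s * (r ^ (-i))⁻¹ := by rw [hss, mul_one, hinv]
    rw [e2]
    exact key (-i)

theorem conj_cyc {t u : G} (ht : t ∈ S) (hu : u ∈ zpowers r) : t * u * t⁻¹ ∈ zpowers r := by
  obtain ⟨j, rfl⟩ := hu
  change t * r ^ j * t⁻¹ ∈ zpowers r
  by_cases htr : t ∈ zpowers r
  · have : t * r ^ j * t⁻¹ = r ^ j := by
      obtain ⟨i, rfl⟩ := htr
      change r ^ i * r ^ j * (r ^ i)⁻¹ = r ^ j
      rw [← zpow_add, ← zpow_neg, ← zpow_add]
      congr 1
      ring
    rw [this]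
    exact Subgroup.zpow_mem _ (mem_zpowers r) j
  · rw [refl_zpow D ht htr]
    exact Subgroup.zpow_mem _ (mem_zpowers r) _

/-- The unique involution of the cyclic part. -/
theorem inv_in_cyc {m : ℕ} (hm : orderOf r = 2 ^ (m + 1)) {t : G} (ht : t ∈ zpowers r)
    (h2 : t * t = 1) (h1 : t ≠ 1) : t = r ^ (2 ^ m) := by
  obtain ⟨j, rfl⟩ := ht
  change r ^ j * r ^ j = 1 at h2
  change r ^ j ≠ 1 at h1
  change r ^ j = _
  have hz2 : (r ^ (2 ^ m)) ^ 2 = 1 := by
    rw [← pow_mul, ← pow_succ, ← hm, pow_orderOf_eq_one]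
  rw [← zpow_add] at h2
  have h3 := orderOf_dvd_iff_zpow_eq_one.2 h2
  rw [hm] at h3
  have h4 : ((2 : ℤ) ^ m) ∣ j := by
    have e : ((2 ^ (m + 1) : ℕ) : ℤ) = 2 ^ m * 2 := by
      push_cast
      rw [pow_succ]
    rw [e] at h3
    have e2 : j + j = j * 2 := by ring
    rw [e2] at h3
    exact Int.dvd_of_mul_dvd_mul_right (by norm_num) h3
  obtain ⟨l, rfl⟩ := h4
  have e3 : r ^ ((2 : ℤ) ^ m * l) = (r ^ (2 ^ m)) ^ l := by
    rw [zpow_mul]
    congr 1
    exact_mod_cast zpow_natCast r (2 ^ m)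
  rw [e3] at h1 ⊢
  rcases Int.even_or_odd' l with ⟨q, rfl | rfl⟩
  · exfalso
    apply h1
    rw [zpow_mul, zpow_ofNat, hz2, one_zpow]
  · rw [zpow_add, zpow_mul, zpow_ofNat, hz2, one_zpow, one_mul, zpow_one]

end data

end CfsgLib.DihCl
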