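import Cfsg.Agent.Lib.H3.DihClasses
import Cfsg.Agent.Lib.H3.RelFrob

/-! Involution classes of groups with dihedral Sylow `2`-subgroups: the trichotomy. -/

set_option autoImplicit false
set_option linter.unusedSectionVars false

namespace CfsgLib.DihCl

open Subgroup Cfsg CfsgLib.DihFus

variable {G : Type*} [Group G] [Finite G]

theorem main (P : Sylow 2 G) (k : ℕ) (hk : 1 ≤ k)
    (eS : (P : Subgroup G) ≃* DihedralGroup (2 ^ (k + 1))) :
    (Nat.card {C : ConjClasses G // ∃ g : G, ConjClasses.mk g = C ∧ orderOf g = 2} = 1 ∧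
        ∀ N : Subgroup G, N.Normal → N.index ≠ 2) ∨
    (Nat.card {C : ConjClasses G // ∃ g : G, ConjClasses.mk g = C ∧ orderOf g = 2} = 2 ∧
        (∃ N : Subgroup G, N.Normal ∧ N.index = 2) ∧ ∀ N : Subgroup G, N.Normal → N.index ≠ 4) ∨
    (Nat.card {C : ConjClasses G // ∃ g : G, ConjClasses.mk g = C ∧ orderOf g = 2} = 3 ∧
        HasNormalPComplement 2 G) := by
  classical
  haveI : Fact (Nat.Prime 2) := ⟨Nat.prime_two⟩
  haveI : NeZero (2 ^ (k + 1)) := ⟨by positivity⟩
  set r : G := ((eS.symm (DihedralGroup.r 1) : (P : Subgroup G)) : G) with hr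
  have D : DData (P : Subgroup G) r := data_of_equiv (by
      calc 2 = 2 ^ 1 := by norm_num
        _ ≤ 2 ^ (k + 1) := Nat.pow_le_pow_right (by norm_num) (by omega)) (P : Subgroup G) eS P.2
  have hro : orderOf r = 2 ^ (k + 1) := by
    rw [hr, Subgroup.orderOf_coe, MulEquiv.orderOf_eq, DihedralGroup.orderOf_r_one]
  have hcardS : Nat.card (P : Subgroup G) = 2 * 2 ^ (k + 1) := by
    rw [Nat.card_congr eS.toEquiv, DihedralGroup.nat_card]
  obtain ⟨s, hsS, hsr⟩ : ∃ s ∈ (P : Subgroup G), s ∉ zpowers r := by
    by_contra hcon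
    push Not at hcon
    have := Subgroup.card_le_of_le (show (P : Subgroup G) ≤ zpowers r from hcon)
    rw [hcardS, Nat.card_zpowers, hro] at this
    have h0 : 0 < 2 ^ (k + 1) := by positivity
    omega
  have hconjS : ∀ t : G, orderOf t = 2 → ∃ g : G, g * t * g⁻¹ ∈ (P : Subgroup G) := by
    intro t ht
    exact exists_conj_sylow P (by rw [← ht]; exact pow_orderOf_eq_one t)
  have hord : ∀ u : G, u * u = 1 → u ≠ 1 → orderOf u = 2 :=
    fun u h1 h2 => orderOf_eq_prime (by rw [pow_two]; exact h1) h2
  have hne1 : ∀ u : G, u ∉ zpowers r → u ≠ 1 := by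
    rintro u hu rfl
    exact hu (Subgroup.one_mem _)
  have hrefl : ∀ u ∈ (P : Subgroup G), u ∉ zpowers r → orderOf u = 2 :=
    fun u hu hur => hord u (refl_sq D hu hur) (hne1 u hur)
  have hsrr : s * r ∉ zpowers r := by
    have := refl_mul D hsS hsr 1
    simpa using this
  have hsrS : s * r ∈ (P : Subgroup G) := Subgroup.mul_mem _ hsS D.mem
  have hordconj : ∀ g t : G, orderOf (g * t * g⁻¹) = orderOf t := fun g t => CfsgLib.RelFrob.orderOf_conj' g t
  set K := pResidual 2 G with hKdef
  haveI hKn : K.Normal := CfsgLib.Tr.pResidual_normal 2 G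
  obtain ⟨a, ha⟩ := CfsgLib.SS.index_pResidual (G := G) (p := 2)
  have hKK : pResidual 2 K = ⊤ := CfsgLib.SS.pResidual_pResidual
  obtain ⟨R, hR⟩ := CfsgLib.Fusion.sylow_inf_normal P K
  have hsup : (P : Subgroup G) ⊔ K = ⊤ := by
    have h1 : ((P : Subgroup G) ⊔ K).index ∣ (P : Subgroup G).index :=
      Subgroup.index_dvd_of_le le_sup_left
    have h2 : ((P : Subgroup G) ⊔ K).index ∣ K.index := Subgroup.index_dvd_of_le le_sup_right
    rw [ha] at h2
    obtain ⟨j, -, hj⟩ := (Nat.dvd_prime_pow Nat.prime_two).1 h2
    have hj0 : j = 0 := by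
      by_contra hj0
      apply P.not_dvd_index
      exact (dvd_pow_self 2 hj0).trans (hj ▸ h1)
    rw [hj0, pow_zero] at hj
    exact Subgroup.index_eq_one.1 hj
  have hrel : ((P : Subgroup G) ⊓ K).relIndex (P : Subgroup G) = K.index := by
    rw [Subgroup.inf_relIndex_left, ← Subgroup.relIndex_sup_right, hsup, Subgroup.relIndex_top_right]
  by_cases hSK : (P : Subgroup G) ≤ K
  · -- `O²(G) = G`
    left
    have hK1 : K.index = 1 := by
      rw [← hrel, inf_eq_left.2 hSK, Subgroup.relIndex_self]
    have hO : pResidual 2 G = ⊤ := Subgroup.index_eq_one.1 hK1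
    refine ⟨?_, ?_⟩
    · apply card_classes_of_reps (n := 1) (fun _ => s)
      · intro _
        exact hrefl s hsS hsr
      · intro i j _
        exact Subsingleton.elim i j
      · intro t ht
        exact ⟨0, one_class P hO (k + 1) (by omega) eS s t (hrefl s hsS hsr) ht⟩
    · intro N hN hi
      haveI := hN
      have h1 : pResidual 2 G ≤ N := CfsgLib.Trans.pResidual_le_of_index N (k := 1) (by rw [hi]; norm_num)
      rw [hO, top_le_iff] at h1
      rw [h1, Subgroup.index_top] at hi
      omega
  by_cases hcyc : (P : Subgroup G) ⊓ K ≤ zpowers r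
  · -- normal `2`-complement
    right
    right
    have hRc : IsCyclic (R : Subgroup K) := by
      rw [hR]
      haveI : IsCyclic ↥((P : Subgroup G) ⊓ K) := Subgroup.isCyclic_of_le hcyc
      let e := Subgroup.subgroupOfEquivOfLe (inf_le_right : (P : Subgroup G) ⊓ K ≤ K)
      exact isCyclic_of_surjective e.symm e.symm.surjective
    have hRb := bot_of_cyclic R hRc hKK
    have hodd : ¬ 2 ∣ Nat.card K := by
      have := R.not_dvd_index
      rwa [hRb, Subgroup.index_bot] at this
    have hinf : ∀ x ∈ (P : Subgroup G), x ∈ K → x = 1 := by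
      intro x hx hxK
      have h1 : (⟨x, hxK⟩ : K) ∈ (R : Subgroup K) := by
        rw [hR]
        exact Subgroup.mem_subgroupOf.2 ⟨hx, hxK⟩
      rw [hRb, Subgroup.mem_bot] at h1
      exact congrArg Subtype.val h1
    refine ⟨?_, CfsgLib.Trans.hasNormalPComplement_iff.2 ⟨K, hKn, ?_, a, ha⟩⟩
    swap
    · exact ((Nat.Prime.coprime_iff_not_dvd Nat.prime_two).2 hodd).symm
    have hfus : ∀ u ∈ (P : Subgroup G), ∀ v ∈ (P : Subgroup G), IsConj u v →
        ∃ t ∈ (P : Subgroup G), t * u * t⁻¹ = v := by
      intro u hu v hv hc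
      obtain ⟨g, hg⟩ := isConj_iff.1 hc
      have hgm : g ∈ (P : Subgroup G) ⊔ K := by rw [hsup]; trivial
      obtain ⟨t, ht, c, hcK, rfl⟩ := CfsgLib.RelFrob.mem_sup_of_le_normalizer (by
        rw [Subgroup.normalizer_eq_top_iff.2 hKn]; exact le_top) hgm
      refine ⟨t, ht, ?_⟩
      set v' := t⁻¹ * v * t with hv'
      have hv'P : v' ∈ (P : Subgroup G) :=
        Subgroup.mul_mem _ (Subgroup.mul_mem _ (Subgroup.inv_mem _ ht) hv) ht
      have e1 : v' = c * u * c⁻¹ := by
        rw [hv', ← hg]; group
      have h2 : v' * u⁻¹ ∈ K := by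
        rw [e1]
        have e2 : c * u * c⁻¹ * u⁻¹ = c * (u * c⁻¹ * u⁻¹) := by group
        rw [e2]
        exact K.mul_mem hcK (hKn.conj_mem _ (K.inv_mem hcK) u)
      have h3 := hinf _ (Subgroup.mul_mem _ hv'P (Subgroup.inv_mem _ hu)) h2
      have h4 : v' = u := by
        have := mul_inv_eq_one.1 h3
        exact this
      rw [← h4, hv']
      group
    set z := r ^ (2 ^ k) with hz
    have hz2 : z * z = 1 := by
      rw [hz, ← pow_add, ← two_mul, ← pow_succ', ← hro, pow_orderOf_eq_one]
    have hz1 : z ≠ 1 := by
      intro h0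
      have h1 := orderOf_dvd_of_pow_eq_one h0
      rw [hro] at h1
      have h2 := Nat.le_of_dvd (by positivity) h1
      rw [pow_succ] at h2
      have h3 : 0 < 2 ^ k := by positivity
      omega
    have hzr : z ∈ zpowers r := by
      rw [hz]
      exact npow_mem_zpowers _ _
    apply card_classes_of_reps (n := 3) ![z, s, s * r]
    · intro i
      fin_cases i
      · exact hord z hz2 hz1
      · exact hrefl s hsS hsr
      · exact hrefl _ hsrS hsrr
    · have hz_s : ∀ v ∈ (P : Subgroup G), v ∉ zpowers r → ¬ IsConj z v := by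
        intro v hv hvr hc
        obtain ⟨t, ht, hte⟩ := hfus z (D.mem |> fun h => (zpowers_le.2 h) hzr) v hv hc
        apply hvr
        rw [← hte]
        exact conj_cyc D ht hzr
      have hpar : ¬ IsConj s (s * r) := by
        intro hc
        obtain ⟨t, ht, hte⟩ := hfus s hsS _ hsrS hc
        exact not_conj_parity D hsS hsr ht hro hte
      intro i j hij
      fin_cases i <;> fin_cases j <;>
        first
          | rfl
          | exact absurd hij (hz_s s hsS hsr)
          | exact absurd hij (hz_s _ hsrS hsrr)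
          | exact absurd hij.symm (hz_s s hsS hsr)
          | exact absurd hij.symm (hz_s _ hsrS hsrr)
          | exact absurd hij hpar
          | exact absurd hij.symm hpar
    · intro t ht
      obtain ⟨g, hg⟩ := hconjS t ht
      set t' := g * t * g⁻¹ with ht'
      have htt' : IsConj t' t := by
        rw [isConj_iff]
        exact ⟨g⁻¹, by rw [ht']; group⟩
      by_cases htr : t' ∈ zpowers r
      · have ht'2 : t' * t' = 1 := by
          rw [← pow_two]
          have : orderOf t' = 2 := by rw [ht', hordconj, ht]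
          rw [← this]
          exact pow_orderOf_eq_one t'
        have ht'1 : t' ≠ 1 := by
          intro h0
          have : orderOf t' = 2 := by rw [ht', hordconj, ht]
          rw [h0, orderOf_one] at this
          omega
        have he := inv_in_cyc D hro htr ht'2 ht'1
        refine ⟨0, ?_⟩
        have : (![z, s, s * r] : Fin 3 → G) 0 = t' := he.symm
        rw [this]
        exact htt'
      · obtain ⟨j, hj⟩ := exists_rep D hg htr hsS hsr
        rcases Int.even_or_odd' j with ⟨l, rfl | rfl⟩
        · refine ⟨1, ?_⟩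
          have h1 := conj_even D hsS hsr l
          rw [← hj] at h1
          exact h1.trans htt'
        · refine ⟨2, ?_⟩
          have h1 := conj_odd D hsS hsr l
          rw [← hj] at h1
          exact h1.trans htt'
  · -- index two, one class inside
    right
    left
    obtain ⟨y, hy, hyr⟩ := Set.not_subset.1 hcyc
    obtain ⟨hyP, hyK⟩ := Subgroup.mem_inf.1 hy
    have hyo := hrefl y hyP hyr
    have hr2K : r * r ∈ K := by
      have h1 := K.mul_mem (hKn.conj_mem y hyK r) (K.inv_mem hyK)
      have h2 := refl_zpow D hyP hyr (-1)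
      rw [zpow_neg_one, neg_neg, zpow_one] at h2
      have e : r * y * r⁻¹ * y⁻¹ = r * (y * r⁻¹ * y⁻¹) := by group
      rw [e, h2] at h1
      exact h1
    have hrK : r ∉ K := by
      intro hrK
      apply hSK
      intro u hu
      rcases exists_rep' D hu hyP hyr with ⟨j, rfl⟩ | ⟨j, rfl⟩
      · exact K.zpow_mem hrK j
      · exact K.mul_mem hyK (K.zpow_mem hrK j)
    have hpar : ∀ j : ℤ, r ^ j ∈ K ↔ Even j := by
      intro j
      rcases Int.even_or_odd' j with ⟨l, rfl | rfl⟩
      · constructor
        · intro _
          exact even_two_mul l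
        · intro _
          rw [zpow_mul]
          apply K.zpow_mem
          rw [zpow_ofNat, pow_two]
          exact hr2K
      · constructor
        · intro h1
          exfalso
          apply hrK
          have h2 : r ^ (2 * l) ∈ K := by
            rw [zpow_mul]
            apply K.zpow_mem
            rw [zpow_ofNat, pow_two]
            exact hr2K
          have h3 := K.mul_mem (K.inv_mem h2) h1
          have e : (r ^ (2 * l))⁻¹ * r ^ (2 * l + 1) = r := by
            rw [zpow_add_one]
            group
          rwa [e] at h3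
        · intro h1
          exfalso
          have : ¬ Even (2 * l + 1) := by
            rw [Int.not_even_iff_odd]
            exact odd_two_mul_add_one l
          exact this h1
    have hmemyK : ∀ j : ℤ, y * r ^ j ∈ K ↔ Even j := by
      intro j
      rw [Subgroup.mul_mem_cancel_left _ hyK, hpar]
    have hidx : ((P : Subgroup G) ⊓ K).relIndex (P : Subgroup G) = 2 := by
      rw [Subgroup.relIndex, Subgroup.index_eq_two_iff]
      refine ⟨⟨r, D.mem⟩, ?_⟩
      rintro ⟨b, hb⟩
      have hmem : ∀ w : (P : Subgroup G), w ∈ ((P : Subgroup G) ⊓ K).subgroupOf (P : Subgroup G) ↔ (w : G) ∈ K := by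
        intro w
        rw [Subgroup.mem_subgroupOf]
        exact ⟨fun h => h.2, fun h => ⟨w.2, h⟩⟩
      rw [hmem, hmem]
      change Xor' (b * r ∈ K) (b ∈ K)
      rcases exists_rep' D hb hyP hyr with ⟨j, rfl⟩ | ⟨j, rfl⟩
      · have e : r ^ j * r = r ^ (j + 1) := (zpow_add_one r j).symm
        rw [e, hpar, hpar, Int.even_add_one]
        by_cases hj : Even j <;> simp [Xor', hj]
      · have e : y * r ^ j * r = y * r ^ (j + 1) := by rw [zpow_add_one, mul_assoc]
        rw [e, hmemyK, hmemyK, Int.even_add_one]
        by_cases hj : Even j <;> simp [Xor', hj]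
    have hKidx : K.index = 2 := by rw [← hrel, hidx]
    have hcardQ : Nat.card ↥((P : Subgroup G) ⊓ K) = 2 ^ (k + 1) := by
      have h1 := ((P : Subgroup G) ⊓ K).subgroupOf (P : Subgroup G) |>.card_mul_index
      have h2 : Nat.card (((P : Subgroup G) ⊓ K).subgroupOf (P : Subgroup G)) = Nat.card ↥((P : Subgroup G) ⊓ K) :=
        Nat.card_congr (Subgroup.subgroupOfEquivOfLe inf_le_left).toEquiv
      rw [h2, hcardS] at h1
      change _ * ((P : Subgroup G) ⊓ K).relIndex (P : Subgroup G) = _ at h1
      rw [hidx] at h1
      omega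
    -- the Sylow subgroup of `K` is dihedral
    set u := y * r ^ (2 : ℤ) with hu
    have hur : u ∉ zpowers r := refl_mul D hyP hyr 2
    have huP : u ∈ (P : Subgroup G) := refl_mem D hyP 2
    have huK : u ∈ K := (hmemyK 2).2 (by decide)
    have huo := hrefl u huP hur
    have hr2o : orderOf (r ^ (2 : ℤ)) = 2 ^ k := by
      have e : r ^ (2 : ℤ) = r ^ 2 := zpow_ofNat r 2
      rw [e, orderOf_pow' r (by norm_num), hro]
      have h1 : Nat.gcd (2 ^ (k + 1)) 2 = 2 := Nat.gcd_eq_right (dvd_pow_self 2 (by omega))
      rw [h1, pow_succ]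
      simp
    have hyu : y * u = r ^ (2 : ℤ) := by
      rw [hu, ← mul_assoc, refl_sq D hyP hyr, one_mul]
    have hne : y ≠ u := by
      intro he
      have h1 := hyu
      rw [← he, refl_sq D hyP hyr] at h1
      rw [← h1, orderOf_one] at hr2o
      have : 1 < 2 ^ k := Nat.one_lt_two_pow (by omega)
      omega
    obtain ⟨e⟩ := CfsgLib.Invol.closure_iso hyo huo hne
    rw [hyu, hr2o] at e
    have hcl : closure ({y, u} : Set G) = (P : Subgroup G) ⊓ K := by
      apply Subgroup.eq_of_le_of_card_ge
      · rw [Subgroup.closure_le]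
        rintro v (rfl | rfl)
        · exact hy
        · exact ⟨huP, huK⟩
      · rw [hcardQ, Nat.card_congr e.toEquiv, DihedralGroup.nat_card, pow_succ, mul_comm]
    have eR : (R : Subgroup K) ≃* DihedralGroup (2 ^ k) := by
      rw [hR]
      refine (Subgroup.subgroupOfEquivOfLe (inf_le_right : (P : Subgroup G) ⊓ K ≤ K)).trans ?_
      exact (MulEquiv.subgroupCongr hcl).symm.trans e
    have hKcl : ∀ v w : G, v ∈ K → w ∈ K → orderOf v = 2 → orderOf w = 2 → IsConj v w := by
      intro v w hv hw hvo hwo
      have h1 := one_class R hKK k hk eR ⟨v, hv⟩ ⟨w, hw⟩ (by rw [Subgroup.orderOf_mk]; exact hvo)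
        (by rw [Subgroup.orderOf_mk]; exact hwo)
      obtain ⟨c, hc⟩ := isConj_iff.1 h1
      rw [isConj_iff]
      exact ⟨c, congrArg Subtype.val hc⟩
    have hyrr : y * r ∉ zpowers r := by
      have := refl_mul D hyP hyr 1
      simpa using this
    have hyrP : y * r ∈ (P : Subgroup G) := Subgroup.mul_mem _ hyP D.mem
    refine ⟨?_, ⟨K, hKn, hKidx⟩, ?_⟩
    · apply card_classes_of_reps (n := 2) ![y, y * r]
      · intro i
        fin_cases i
        · exact hyo
        · exact hrefl _ hyrP hyrr
      · have hnc : ¬ IsConj y (y * r) := by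
          intro hc
          obtain ⟨g, hg⟩ := isConj_iff.1 hc
          apply hrK
          have h1 : y * r ∈ K := by
            rw [← hg]
            exact hKn.conj_mem y hyK g
          exact (Subgroup.mul_mem_cancel_left _ hyK).1 h1
        intro i j hij
        fin_cases i <;> fin_cases j <;>
          first
            | rfl
            | exact absurd hij hnc
            | exact absurd hij.symm hnc
      · intro t ht
        by_cases htK : t ∈ K
        · exact ⟨0, hKcl y t hyK htK hyo ht⟩
        · refine ⟨1, ?_⟩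
          obtain ⟨g, hg⟩ := hconjS t ht
          set t' := g * t * g⁻¹ with ht'
          have htt' : IsConj t' t := by
            rw [isConj_iff]
            exact ⟨g⁻¹, by rw [ht']; group⟩
          have ht'K : t' ∉ K := by
            intro h1
            apply htK
            have h2 := hKn.conj_mem _ h1 g⁻¹
            have e3 : g⁻¹ * t' * g⁻¹⁻¹ = t := by rw [ht']; group
            rwa [e3] at h2
          have ht'o : orderOf t' = 2 := by rw [ht', hordconj, ht]
          have ht'r : t' ∉ zpowers r := by
            intro htr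
            apply ht'K
            have ht'2 : t' * t' = 1 := by
              rw [← pow_two, ← ht'o]
              exact pow_orderOf_eq_one t'
            have ht'1 : t' ≠ 1 := by
              intro h0
              rw [h0, orderOf_one] at ht'o
              omega
            have he := inv_in_cyc D hro htr ht'2 ht'1
            rw [he]
            have e4 := (hpar ((2 : ℤ) ^ k)).2 (by
              rw [Int.even_pow' (by omega)]
              decide)
            have e5 : r ^ ((2 : ℤ) ^ k) = r ^ (2 ^ k) := by
              exact_mod_cast zpow_natCast r (2 ^ k)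
            rwa [e5] at e4
          obtain ⟨j, hj⟩ := exists_rep D hg ht'r hyP hyr
          rcases Int.even_or_odd' j with ⟨l, rfl | rfl⟩
          · exfalso
            apply ht'K
            rw [hj]
            exact (hmemyK _).2 (even_two_mul l)
          · have h1 := conj_odd D hyP hyr l
            rw [← hj] at h1
            exact h1.trans htt'
    · intro N hN hi
      haveI := hN
      have h1 : pResidual 2 G ≤ N := CfsgLib.Trans.pResidual_le_of_index N (k := 2) (by rw [hi]; norm_num)
      have h2 := Subgroup.index_dvd_of_le h1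
      rw [hi, hKidx] at h2
      omega

end CfsgLib.DihCl
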