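import Cfsg.Agent.Lib.H3.SplitSL
import Cfsg.Agent.Lib.H3.Comp2
import Cfsg.Agent.Lib.Solv.CoprimeSylow
import Cfsg.Agent.Lib.Solv.Core
import Cfsg.Agent.Lib.SS.Misc

/-! # The centre of an extraspecial Sylow subgroup of order `p³` and exponent `p²` is strongly closed: the core. -/

set_option autoImplicit false
set_option linter.unusedSectionVars false
set_option linter.unusedVariables false

namespace CfsgLib.ExtraClosed

open Subgroup Cfsg
open scoped commutatorElement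

variable {N : Type*} [Group N] [Finite N] {p : ℕ} [hp : Fact p.Prime]

/-- The core contradiction: an element inverting `V` forces a complement of `V` modulo `O_{p'}(C(V))`. -/
theorem core_contra (hp2 : p ≠ 2) (V : Subgroup N) [hVn : V.Normal]
    (hVc : ∀ a ∈ V, ∀ b ∈ V, a * b = b * a) (hcard : Nat.card V = p ^ 2) (hexp : ∀ v ∈ V, v ^ p = 1)
    (hVS : CfsgLib.Solv.IsSylowIn p V (centralizer (V : Set N)))
    (P : Subgroup N) (hVP : V ≤ P) (hpow : ∀ x ∈ P, x ^ p ∈ V) (hom : ∀ x ∈ P, x ^ p = 1 → x ∈ V)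
    (y : N) (hyP : y ∈ P) (hyV : y ∉ V)
    (τ : N) (hτ : ∀ v ∈ V, τ * v * τ⁻¹ = v⁻¹)
    (g h : N) (hgh : g * h * g⁻¹ * h⁻¹ ∉ centralizer (V : Set N)) : False := by
  set C := centralizer (V : Set N) with hC
  haveI hCn : C.Normal := Subgroup.normal_centralizer
  have hVC : V ≤ C := hVS.1
  set V₀ := V.subgroupOf C with hV₀
  haveI hV₀n : V₀.Normal := Subgroup.Normal.subgroupOf inferInstance C
  have hV₀card : Nat.card V₀ = p ^ 2 := by
    rw [hV₀, ← hcard]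
    exact Nat.card_congr (Subgroup.subgroupOfEquivOfLe hVC).toEquiv
  have hidxp : ¬ p ∣ V₀.index := hVS.2.2
  have hcop : (Nat.card V₀).Coprime V₀.index := by
    rw [hV₀card]
    exact Nat.Coprime.pow_left 2 ((Nat.Prime.coprime_iff_not_dvd hp.out).2 hidxp)
  obtain ⟨K₁, hK₁⟩ := Subgroup.exists_right_complement'_of_coprime hcop
  have hcentr : ∀ n ∈ V₀, ∀ k' : ↥C, n * k' = k' * n := by
    intro n hn k'
    have h1 : ((n : ↥C) : N) ∈ V := hn
    have h2 := mem_centralizer_iff.1 k'.2 _ h1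
    apply Subtype.ext
    exact h2
  have hK₁n : K₁.Normal := by
    constructor
    intro n hn g'
    obtain ⟨⟨a, b⟩, hab⟩ := hK₁.2 g'
    have hab' : (a : ↥C) * (b : ↥C) = g' := hab
    have : g' * n * g'⁻¹ = (b : ↥C) * n * (b : ↥C)⁻¹ := by
      have h1 := hcentr a a.2 ((b : ↥C) * n * (b : ↥C)⁻¹)
      rw [← hab']
      calc (a : ↥C) * (b : ↥C) * n * ((a : ↥C) * (b : ↥C))⁻¹
          = (a : ↥C) * ((b : ↥C) * n * (b : ↥C)⁻¹) * (a : ↥C)⁻¹ := by group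
        _ = ((b : ↥C) * n * (b : ↥C)⁻¹) * (a : ↥C) * (a : ↥C)⁻¹ := by rw [h1]
        _ = _ := by group
    rw [this]
    exact K₁.mul_mem (K₁.mul_mem b.2 hn) (K₁.inv_mem b.2)
  have hK₁c : (Nat.card K₁).Coprime p := by
    rw [← hK₁.symm.index_eq_card]
    exact ((Nat.Prime.coprime_iff_not_dvd hp.out).2 hidxp).symm
  set D := pPrimeCore p ↥C with hD
  haveI hDchar : D.Characteristic := CfsgLib.Comp.pPrimeCore_char p
  have hK₁D : K₁ ≤ D := by
    haveI := hK₁n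
    exact CfsgLib.Solv.le_pPrimeCore' K₁ hK₁c
  set K₀ := D.map C.subtype with hK₀
  haveI hK₀n : K₀.Normal := CfsgLib.Comp.char_map_normal_of_normal hCn D
  have hK₀C : K₀ ≤ C := map_subtype_le D
  have hK₀cop : (Nat.card K₀).Coprime p := by
    rw [hK₀, Subgroup.card_map_of_injective C.subtype_injective]
    exact CfsgLib.Solv.pPrimeCore_coprime p
  have hVK : ∀ x ∈ V, x ∈ K₀ → x = 1 := by
    intro x hxV hxK
    have h1 : x ^ Nat.card K₀ = 1 := by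
      have := pow_card_eq_one' (G := ↥K₀) (x := ⟨x, hxK⟩)
      exact congrArg Subtype.val this
    have h2 := pow_gcd_eq_one.2 ⟨h1, hexp x hxV⟩
    rwa [Nat.Coprime.gcd_eq_one hK₀cop, pow_one] at h2
  have hCdec : ∀ c ∈ C, ∃ v ∈ V, ∃ k ∈ K₀, c = v * k := by
    intro c hc
    obtain ⟨⟨a, b⟩, hab⟩ := hK₁.2 ⟨c, hc⟩
    have hab' : (a : ↥C) * (b : ↥C) = ⟨c, hc⟩ := hab
    refine ⟨((a : ↥C) : N), a.2, ((b : ↥C) : N), ⟨(b : ↥C), hK₁D b.2, rfl⟩, ?_⟩
    exact (congrArg Subtype.val hab').symm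
  -- the quotient
  set π := QuotientGroup.mk' K₀ with hπ
  have hπs : Function.Surjective π := QuotientGroup.mk'_surjective K₀
  have hπ1 : ∀ x, π x = 1 ↔ x ∈ K₀ := fun x => QuotientGroup.eq_one_iff x
  set A := V.map π with hA
  haveI hAn : A.Normal := Subgroup.Normal.map hVn π hπs
  have hm : ∀ x, π x ∈ A ↔ x ∈ C := by
    intro x
    constructor
    · rintro ⟨v, hv, hvx⟩
      have h1 : π (v⁻¹ * x) = 1 := by rw [map_mul, map_inv, hvx]; simp
      have h2 : v⁻¹ * x ∈ K₀ := (hπ1 _).1 h1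
      have h3 : x = v * (v⁻¹ * x) := by group
      rw [h3]
      exact C.mul_mem (hVC hv) (hK₀C h2)
    · intro hx
      obtain ⟨v, hv, k, hk, rfl⟩ := hCdec x hx
      refine ⟨v, hv, ?_⟩
      rw [map_mul, (hπ1 k).2 hk, mul_one]
  have hAc : ∀ a ∈ A, ∀ b ∈ A, a * b = b * a := by
    rintro _ ⟨a, ha, rfl⟩ _ ⟨b, hb, rfl⟩
    rw [← map_mul, ← map_mul, hVc a ha b hb]
  have hAcard : Nat.card A = p ^ 2 := by
    rw [← hcard]
    set f : ↥V →* N ⧸ K₀ := π.comp V.subtype with hf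
    have hfr : f.range = A := by
      rw [hf, MonoidHom.range_comp, Subgroup.range_subtype]
    have hfk : f.ker = ⊥ := by
      rw [eq_bot_iff]
      intro v hv
      have h1 : π (v : N) = 1 := hv
      have h2 := hVK v v.2 ((hπ1 _).1 h1)
      exact Subgroup.mem_bot.2 (Subtype.ext h2)
    have := Subgroup.index_ker f
    rw [hfk, hfr, Subgroup.index_bot] at this
    exact this.symm
  have hAexp : ∀ a ∈ A, a ^ p = 1 := by
    rintro _ ⟨v, hv, rfl⟩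
    rw [← map_pow, hexp v hv, map_one]
  have hself : ∀ g' : N ⧸ K₀, (∀ a ∈ A, g' * a = a * g') → g' ∈ A := by
    intro g' hg'
    obtain ⟨x, rfl⟩ := hπs g'
    rw [hm]
    rw [hC, mem_centralizer_iff]
    intro v hv
    have h1 := hg' (π v) ⟨v, hv, rfl⟩
    have h2 : π (x * v * x⁻¹ * v⁻¹) = 1 := by
      rw [map_mul, map_mul, map_mul, map_inv, map_inv, h1]
      group
    have h3 := (hπ1 _).1 h2
    have h4 : x * v * x⁻¹ * v⁻¹ ∈ V := V.mul_mem (hVn.conj_mem v hv x) (V.inv_mem hv)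
    have h5 := hVK _ h4 h3
    rw [mul_inv_eq_one, mul_inv_eq_iff_eq_mul] at h5
    exact h5.symm
  have hnab : ¬ ∀ g' h' : N ⧸ K₀, g' * h' * g'⁻¹ * h'⁻¹ ∈ A := by
    intro hall
    apply hgh
    rw [← hm]
    have := hall (π g) (π h)
    simpa [map_mul, map_inv] using this
  have hτmem : ∀ v ∈ V, τ⁻¹ * v * τ = v⁻¹ := by
    intro v hv
    have h1 := hτ (τ⁻¹ * v * τ) (by
      have := hVn.conj_mem v hv τ⁻¹
      simpa using this)
    have h2 : τ * (τ⁻¹ * v * τ) * τ⁻¹ = v := by group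
    rw [h2] at h1
    exact inv_eq_iff_eq_inv.1 h1.symm
  have hw : π τ ∉ A := by
    rw [hm]
    intro hτC
    have h1 : ∀ v ∈ V, v = 1 := by
      intro v hv
      have h2 := hτ v hv
      have h3 := mem_centralizer_iff.1 hτC v hv
      rw [← h3] at h2
      have h4 : v = v⁻¹ := by
        rw [← h2]; group
      have h5 : v ^ 2 = 1 := by
        rw [sq]
        nth_rewrite 1 [h4]
        simp
      have h9 : (2 : ℕ).Coprime p := (Nat.coprime_primes Nat.prime_two hp.out).2 (Ne.symm hp2)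
      have h10 := pow_gcd_eq_one.2 ⟨h5, hexp v hv⟩
      rwa [Nat.Coprime.gcd_eq_one h9, pow_one] at h10
    have h2 : V = ⊥ := by
      rw [eq_bot_iff]
      intro v hv
      exact Subgroup.mem_bot.2 (h1 v hv)
    rw [h2, Subgroup.card_bot] at hcard
    have h3 : 1 < p ^ 2 := Nat.one_lt_pow (by norm_num) hp.out.one_lt
    omega
  have hw2 : (π τ) ^ 2 ∈ A := by
    rw [← map_pow, hm, hC, mem_centralizer_iff]
    intro v hv
    have h1 : τ ^ 2 * v * (τ ^ 2)⁻¹ = τ * (τ * v * τ⁻¹) * τ⁻¹ := by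
      rw [sq]; group
    have h2 := hτ v⁻¹ (V.inv_mem hv)
    have h3 : τ * (τ * v * τ⁻¹) * τ⁻¹ = v := by
      rw [hτ v hv, h2, inv_inv]
    rw [h3] at h1
    rw [mul_inv_eq_iff_eq_mul] at h1
    exact h1.symm
  have hwc : ∀ g' : N ⧸ K₀, g' * π τ * g'⁻¹ * (π τ)⁻¹ ∈ A := by
    intro g'
    obtain ⟨x, rfl⟩ := hπs g'
    have e : π x * π τ * (π x)⁻¹ * (π τ)⁻¹ = π (x * τ * x⁻¹ * τ⁻¹) := by
      simp [map_mul, map_inv]
    rw [e, hm, hC, mem_centralizer_iff]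
    intro v hv
    have hv' : x⁻¹ * v * x ∈ V := by
      have := hVn.conj_mem v hv x⁻¹
      simpa using this
    have h1 : (x * τ * x⁻¹ * τ⁻¹) * v * (x * τ * x⁻¹ * τ⁻¹)⁻¹
        = x * (τ * (x⁻¹ * (τ⁻¹ * v * τ) * x) * τ⁻¹) * x⁻¹ := by group
    rw [hτmem v hv] at h1
    have h2 : x⁻¹ * v⁻¹ * x = (x⁻¹ * v * x)⁻¹ := by group
    rw [h2, hτ _ (V.inv_mem hv'), inv_inv] at h1
    have h3 : x * (x⁻¹ * v * x) * x⁻¹ = v := by group
    rw [h3, mul_inv_eq_iff_eq_mul] at h1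
    exact h1.symm
  obtain ⟨U, hU1, hU2⟩ := CfsgLib.SplitSL.split_of_central hp2 A hAc hAcard hAexp hself hnab (π τ) hw hw2 hwc
  obtain ⟨a, ha, ū, hū, hdec⟩ := CfsgLib.SS.exists_mul_of_sup_eq_top hU2 (π y)
  obtain ⟨v, hv, rfl⟩ := ha
  set y₁ := v⁻¹ * y with hy₁
  have hy₁P : y₁ ∈ P := P.mul_mem (P.inv_mem (hVP hv)) hyP
  have hy₁V : y₁ ∉ V := by
    intro h
    apply hyV
    have : y = v * y₁ := by rw [hy₁]; group
    rw [this]
    exact V.mul_mem hv h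
  have hπy₁ : π y₁ = ū := by
    rw [hy₁, map_mul, map_inv, hdec]
    group
  have h1 : π (y₁ ^ p) ∈ U := by
    rw [map_pow, hπy₁]
    exact U.pow_mem hū p
  have h2 : π (y₁ ^ p) ∈ A := ⟨_, hpow y₁ hy₁P, rfl⟩
  have h3 : π (y₁ ^ p) ∈ A ⊓ U := ⟨h2, h1⟩
  rw [hU1, Subgroup.mem_bot] at h3
  have h4 := hVK _ (hpow y₁ hy₁P) ((hπ1 _).1 h3)
  exact hy₁V (hom y₁ hy₁P h4)

/-- The version with explicit transvections. -/
theorem core_transv (hp2 : p ≠ 2) (V : Subgroup N) [hVn : V.Normal]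
    (hVc : ∀ a ∈ V, ∀ b ∈ V, a * b = b * a) (hcard : Nat.card V = p ^ 2) (hexp : ∀ v ∈ V, v ^ p = 1)
    (hVS : CfsgLib.Solv.IsSylowIn p V (centralizer (V : Set N)))
    (P : Subgroup N) (hVP : V ≤ P) (hpow : ∀ x ∈ P, x ^ p ∈ V) (hom : ∀ x ∈ P, x ^ p = 1 → x ∈ V)
    (y : N) (hyP : y ∈ P) (hyV : y ∉ V)
    (z u e f : N) (hz : z ∈ V) (hu : u ∈ V) (hz1 : z ≠ 1) (hdec : ∀ v ∈ V, ∃ i j : ℤ, v = z ^ i * u ^ j)
    (hez : e * z * e⁻¹ = z) (heu : e * u * e⁻¹ = u * z) (hfz : f * z * f⁻¹ = z * u) (hfu : f * u * f⁻¹ = u) : False := by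
  have hzu : z * u = u * z := hVc z hz u hu
  -- inverse of `f`
  have hfiu : f⁻¹ * u * f = u := by
    nth_rewrite 1 [← hfu]; group
  have hfiz : f⁻¹ * z * f = z * u⁻¹ := by
    have h1 : f⁻¹ * (z * u) * f = z := by
      rw [← hfz]; group
    have h2 : f⁻¹ * (z * u) * f = (f⁻¹ * z * f) * (f⁻¹ * u * f) := by group
    rw [h2, hfiu] at h1
    exact eq_mul_inv_of_mul_eq h1
  set w := e * f⁻¹ * e with hw
  have hwz : w * z * w⁻¹ = u⁻¹ := by
    calc w * z * w⁻¹ = e * (f⁻¹ * (e * z * e⁻¹) * f) * e⁻¹ := by rw [hw]; group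
      _ = e * (z * u⁻¹) * e⁻¹ := by rw [hez, hfiz]
      _ = (e * z * e⁻¹) * (e * u * e⁻¹)⁻¹ := by group
      _ = z * (u * z)⁻¹ := by rw [hez, heu]
      _ = u⁻¹ := by group
  have hwu : w * u * w⁻¹ = z := by
    calc w * u * w⁻¹ = e * (f⁻¹ * (e * u * e⁻¹) * f) * e⁻¹ := by rw [hw]; group
      _ = e * (f⁻¹ * (u * z) * f) * e⁻¹ := by rw [heu]
      _ = e * ((f⁻¹ * u * f) * (f⁻¹ * z * f)) * e⁻¹ := by group
      _ = e * (u * (z * u⁻¹)) * e⁻¹ := by rw [hfiu, hfiz]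
      _ = e * ((u * z) * u⁻¹) * e⁻¹ := by group
      _ = e * ((z * u) * u⁻¹) * e⁻¹ := by rw [hzu]
      _ = e * z * e⁻¹ := by group
      _ = z := hez
  set τ := w * w with hτ
  have hτz : τ * z * τ⁻¹ = z⁻¹ := by
    calc τ * z * τ⁻¹ = w * (w * z * w⁻¹) * w⁻¹ := by rw [hτ]; group
      _ = w * u⁻¹ * w⁻¹ := by rw [hwz]
      _ = (w * u * w⁻¹)⁻¹ := by group
      _ = z⁻¹ := by rw [hwu]
  have hτu : τ * u * τ⁻¹ = u⁻¹ := by
    calc τ * u * τ⁻¹ = w * (w * u * w⁻¹) * w⁻¹ := by rw [hτ]; group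
      _ = w * z * w⁻¹ := by rw [hwu]
      _ = u⁻¹ := hwz
  have hinv : ∀ v ∈ V, τ * v * τ⁻¹ = v⁻¹ := by
    intro v hv
    obtain ⟨i, j, rfl⟩ := hdec v hv
    have h1 : τ * (z ^ i * u ^ j) * τ⁻¹ = (τ * z ^ i * τ⁻¹) * (τ * u ^ j * τ⁻¹) := by group
    rw [h1, ← conj_zpow, ← conj_zpow, hτz, hτu, mul_inv_rev, inv_zpow, inv_zpow]
    exact hVc _ (V.inv_mem (V.zpow_mem hz i)) _ (V.inv_mem (V.zpow_mem hu j))
  apply core_contra hp2 V hVc hcard hexp hVS P hVP hpow hom y hyP hyV τ hinv e f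
  intro hcom
  have h1 := mem_centralizer_iff.1 hcom z hz
  -- `e f z = z² u`, `f e z = z u`
  have h2 : (e * f) * z * (e * f)⁻¹ = z * (u * z) := by
    calc (e * f) * z * (e * f)⁻¹ = e * (f * z * f⁻¹) * e⁻¹ := by group
      _ = e * (z * u) * e⁻¹ := by rw [hfz]
      _ = (e * z * e⁻¹) * (e * u * e⁻¹) := by group
      _ = z * (u * z) := by rw [hez, heu]
  have h3 : (f * e) * z * (f * e)⁻¹ = z * u := by
    calc (f * e) * z * (f * e)⁻¹ = f * (e * z * e⁻¹) * f⁻¹ := by group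
      _ = z * u := by rw [hez, hfz]
  have h4 : (e * f * e⁻¹ * f⁻¹) * ((f * e) * z * (f * e)⁻¹) * (e * f * e⁻¹ * f⁻¹)⁻¹ = (e * f) * z * (e * f)⁻¹ := by
    group
  rw [h2, h3] at h4
  have h5 : (e * f * e⁻¹ * f⁻¹) * (z * u) * (e * f * e⁻¹ * f⁻¹)⁻¹ = z * u := by
    have := mem_centralizer_iff.1 hcom (z * u) (V.mul_mem hz hu)
    rw [← this]; group
  rw [h5] at h4
  -- `z u = z u z`
  have h7 : u = u * z := mul_left_cancel h4
  exact hz1 (mul_left_cancel (a := u) (by rw [mul_one]; exact h7.symm))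

end CfsgLib.ExtraClosed
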