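import Cfsg.Agent.Lib.H3.ExtraClosed
import Cfsg.Agent.Lib.H3.AlpGold
import Cfsg.Agent.Lib.H3.CycSyl
import Cfsg.Agent.Lib.Trans.PGrp
import Cfsg.Agent.Lib.Trans.Basic
import Cfsg.Agent.Lib.Lead.SylowConj
import Cfsg.Agent.Lib.FGS.IdxP
import Cfsg.Agent.Lib.OOL.ES
import Cfsg.Prelude.Def_TwoFusion

/-! # The centre of an extraspecial Sylow subgroup of order `p³` and exponent `p²` is strongly closed. -/

set_option autoImplicit false
set_option linter.unusedSectionVars false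
set_option linter.unusedVariables false

namespace CfsgLib.ExtraClosed

open Subgroup Cfsg
open scoped commutatorElement

section Q

variable {Q : Type*} [Group Q] [Finite Q] {p : ℕ} [hp : Fact p.Prime]

/-- The subgroup `Ω₁` and its basic properties. -/
theorem omega_props (hp2 : p ≠ 2) (hE : IsExtraspecial p Q) (hcard : Nat.card Q = p ^ 3)
    (hexp : Monoid.exponent Q = p ^ 2) :
    (∀ w ∈ closure {x : Q | x ^ p = 1}, w ^ p = 1) ∧ (closure {x : Q | x ^ p = 1}).index = p ∧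
      Nat.card (closure {x : Q | x ^ p = 1}) = p ^ 2 ∧ (∀ x : Q, x ^ p ∈ center Q) ∧ (∀ z ∈ center Q, z ^ p = 1) := by
  obtain ⟨h1, h2⟩ := CfsgLib.Trans.extraspecial_omega hp2 hE
  set W := closure {x : Q | x ^ p = 1} with hW
  have hpp := hp.out
  have hi1 : W.index ≠ 1 := by
    intro hi
    have htop : W = ⊤ := Subgroup.index_eq_one.1 hi
    have h3 : ∀ x : Q, x ^ p = 1 := fun x => h2 x (htop ▸ mem_top x)
    have h4 : Monoid.exponent Q ∣ p := Monoid.exponent_dvd_of_forall_pow_eq_one h3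
    rw [hexp] at h4
    have h5 := Nat.le_of_dvd hpp.pos h4
    have h6 : p < p ^ 2 := by nlinarith [hpp.two_le]
    omega
  have hmul := W.index_mul_card
  have hdvd : W.index ∣ p ^ 3 := by
    rw [← hcard]; exact Subgroup.index_dvd_card W
  obtain ⟨i, hi, hi'⟩ := (Nat.dvd_prime_pow hpp).1 hdvd
  have hidx : W.index = p := by
    have hile : i ≤ 1 := by
      by_contra hge
      have : p ^ 2 ≤ p ^ i := Nat.pow_le_pow_right hpp.pos (by omega)
      have h6 : p < p ^ 2 := by nlinarith [hpp.two_le]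
      rw [hi'] at h1
      omega
    interval_cases i
    · exfalso; apply hi1; simpa using hi'
    · simpa using hi'
  have hWcard : Nat.card W = p ^ 2 := by
    rw [hidx, hcard] at hmul
    have : p * Nat.card W = p * p ^ 2 := by rw [hmul]; ring
    exact Nat.eq_of_mul_eq_mul_left hpp.pos this
  refine ⟨h2, hidx, hWcard, ?_, ?_⟩
  · intro x
    exact CfsgLib.Trans.special_pow_central hE.1 x
  · intro z hz
    have : (⟨z, hz⟩ : ↥(center Q)) ^ p = 1 := by
      rw [← hE.2]; exact pow_card_eq_one'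
    exact congrArg Subtype.val this

end Q

section Act

variable {G : Type*} [Group G]

/-- Powers act by powers. -/
lemma pow_action {f a t : G} (h1 : f * a * f⁻¹ = a * t) (h2 : f * t * f⁻¹ = t) (n : ℕ) :
    f ^ n * a * (f ^ n)⁻¹ = a * t ^ n := by
  induction n with
  | zero => simp
  | succ n ih =>
    have h3 : f * t ^ n * f⁻¹ = t ^ n := by rw [← conj_pow, h2]
    calc f ^ (n + 1) * a * (f ^ (n + 1))⁻¹ = f * (f ^ n * a * (f ^ n)⁻¹) * f⁻¹ := by
          rw [pow_succ']; group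
      _ = (f * a * f⁻¹) * (f * t ^ n * f⁻¹) := by rw [ih]; group
      _ = a * t * t ^ n := by rw [h1, h3]
      _ = a * t ^ (n + 1) := by rw [pow_succ', mul_assoc]

end Act

section Main

lemma conj_zpow_inv_aux {G : Type*} [Group G] (h z : G) (s : ℤ) : h⁻¹ * z ^ s * h = (h⁻¹ * z * h) ^ s := by
  have := conj_zpow (a := h⁻¹) (b := z) (i := s)
  simpa using this.symm

variable {G : Type*} [Group G] [Finite G] {p : ℕ} [hp : Fact p.Prime]

theorem main (hp2 : p ≠ 2) (P : Sylow p G) (hE : IsExtraspecial p ↥P) (hcard : Nat.card P = p ^ 3)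
    (hexp : Monoid.exponent ↥P = p ^ 2) :
    IsStronglyClosed ((center ↥P).map (P : Subgroup G).subtype) (P : Subgroup G) := by
  have hpp := hp.out
  set P₀ : Subgroup G := (P : Subgroup G) with hP₀
  have hE' : IsExtraspecial p ↥P₀ := hE
  have hcard' : Nat.card ↥P₀ = p ^ 3 := hcard
  obtain ⟨hW1, hWi, hWc, hWpow, hZp⟩ := omega_props hp2 hE' hcard' hexp
  set W := closure {x : ↥P₀ | x ^ p = 1} with hW
  set V₀ := W.map P₀.subtype with hV₀
  set Z₀ := (center ↥P₀).map P₀.subtype with hZ₀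
  have hV₀P : V₀ ≤ P₀ := map_subtype_le W
  have hV₀card : Nat.card V₀ = p ^ 2 := by
    rw [hV₀, Subgroup.card_map_of_injective P₀.subtype_injective, hWc]
  have hV₀exp : ∀ v ∈ V₀, v ^ p = 1 := by
    rintro _ ⟨w, hw, rfl⟩
    exact congrArg Subtype.val (hW1 w hw)
  have hV₀om : ∀ x ∈ P₀, x ^ p = 1 → x ∈ V₀ := by
    intro x hx hxp
    exact ⟨⟨x, hx⟩, subset_closure (Subtype.ext hxp), rfl⟩
  have hZ₀exp : ∀ z ∈ Z₀, z ^ p = 1 := by
    rintro _ ⟨w, hw, rfl⟩
    exact congrArg Subtype.val (hZp w hw)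
  have hZ₀P : Z₀ ≤ P₀ := map_subtype_le _
  have hZV : Z₀ ≤ V₀ := fun z hz => hV₀om z (hZ₀P hz) (hZ₀exp z hz)
  have hV₀pow : ∀ x ∈ P₀, x ^ p ∈ V₀ := by
    intro x hx
    apply hZV
    exact ⟨⟨x, hx⟩ ^ p, hWpow _, rfl⟩
  have hV₀p : IsPGroup p ↥V₀ := P.isPGroup'.to_le hV₀P
  have hV₀c : ∀ a ∈ V₀, ∀ b ∈ V₀, a * b = b * a := by
    have h1 : ∀ a b : ↥V₀, a * b = b * a := IsPGroup.commutative_of_card_eq_prime_sq hV₀card
    intro a ha b hb
    exact congrArg Subtype.val (h1 ⟨a, ha⟩ ⟨b, hb⟩)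
  have hP₀N : P₀ ≤ normalizer (V₀ : Set G) := by
    intro x hx
    apply Subgroup.mem_normalizer_fintype
    intro v hv
    apply hV₀om _ (P₀.mul_mem (P₀.mul_mem hx (hV₀P hv)) (P₀.inv_mem hx))
    rw [conj_pow, hV₀exp v hv]
    simp
  have hcoat : IsCoatom W := CfsgLib.FGS.isCoatom_of_index_p W hWi
  have hcomZ : ∀ x ∈ P₀, ∀ y ∈ P₀, ⁅x, y⁆ ∈ Z₀ := by
    intro x hx y hy
    refine ⟨⁅(⟨x, hx⟩ : ↥P₀), ⟨y, hy⟩⁆, ?_, rfl⟩
    rw [← hE'.1.2.2, _root_.commutator_def]
    exact Subgroup.commutator_mem_commutator (mem_top _) (mem_top _)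
  have hZc : ∀ z ∈ Z₀, ∀ x ∈ P₀, z * x = x * z := by
    rintro _ ⟨w, hw, rfl⟩ x hx
    have := mem_center_iff.1 hw ⟨x, hx⟩
    exact (congrArg Subtype.val this).symm
  -- non-commuting
  have hnc : ∀ y ∈ P₀, y ∉ V₀ → ∀ u ∈ V₀, u ∉ Z₀ → y * u ≠ u * y := by
    intro y hy hyV u hu huZ hcomm
    apply huZ
    have hy' : (⟨y, hy⟩ : ↥P₀) ∉ W := fun h => hyV ⟨_, h, rfl⟩
    have hsup : W ⊔ zpowers (⟨y, hy⟩ : ↥P₀) = ⊤ := by
      apply hcoat.2
      refine lt_of_le_of_ne le_sup_left ?_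
      intro h
      apply hy'
      rw [h]
      exact mem_sup_right (mem_zpowers _)
    obtain ⟨u₀, hu₀, rfl⟩ := hu
    refine ⟨u₀, mem_center_iff.2 ?_, rfl⟩
    intro g
    have hle : W ⊔ zpowers (⟨y, hy⟩ : ↥P₀) ≤ centralizer ({u₀} : Set ↥P₀) := by
      apply sup_le
      · intro w hw
        rw [mem_centralizer_iff]
        intro t ht
        rw [Set.mem_singleton_iff] at ht
        rw [ht]
        apply Subtype.ext
        exact hV₀c _ ⟨u₀, hu₀, rfl⟩ _ ⟨w, hw, rfl⟩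
      · rw [zpowers_le, mem_centralizer_iff]
        intro t ht
        rw [Set.mem_singleton_iff] at ht
        rw [ht]
        apply Subtype.ext
        exact hcomm.symm
    rw [hsup] at hle
    exact (mem_centralizer_iff.1 (hle (mem_top g)) u₀ rfl).symm
  have hES := CfsgLib.OOL.ES.isES_of_extraspecial hE'
  have hZgen : ∀ z ∈ Z₀, z ≠ 1 → ∀ z' ∈ Z₀, z' ∈ zpowers z := by
    rintro _ ⟨w, hw, rfl⟩ hw1 _ ⟨w', hw', rfl⟩
    have hw1' : w ≠ 1 := fun h => hw1 (by rw [h]; rfl)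
    obtain ⟨k, hk⟩ := CfsgLib.OOL.ES.center_gen hES hw hw1' hw'
    refine ⟨k, ?_⟩
    show ((w : G)) ^ k = _
    rw [← hk]
    rfl
  have hord : ∀ x : G, x ≠ 1 → x ^ p = 1 → orderOf x = p := fun x h1 h2 => orderOf_eq_prime h2 h1
  have hstrong : Z₀ ≤ P₀ := hZ₀P
  refine ⟨hZ₀P, ?_⟩
  intro z hz g hgP
  by_contra hnot
  set u := g * z * g⁻¹ with hu
  have hz1 : z ≠ 1 := by
    intro h
    apply hnot
    rw [hu, h]
    simp [one_mem]
  have hzp := hZ₀exp z hz
  have hup : u ^ p = 1 := by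
    rw [hu, conj_pow, hzp]; simp
  have huV : u ∈ V₀ := hV₀om u hgP hup
  have hu1 : u ≠ 1 := by
    intro h
    apply hnot
    rw [h]; exact one_mem _
  -- Step 1: `h`
  have hUle : ((g • P : Sylow p G) : Subgroup G) ≤ centralizer ({u} : Set G) := by
    intro x hx
    have h1 := (CfsgLib.Trans.mem_sylow_smul g P x).1 hx
    have h2 := hZc z hz _ h1
    rw [mem_centralizer_iff]
    intro t ht
    rw [Set.mem_singleton_iff] at ht
    rw [ht, hu]
    calc g * z * g⁻¹ * x = g * (z * (g⁻¹ * x * g)) * g⁻¹ := by group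
      _ = g * ((g⁻¹ * x * g) * z) * g⁻¹ := by rw [h2]
      _ = x * (g * z * g⁻¹) := by group
  have hVu : V₀ ≤ centralizer ({u} : Set G) := by
    intro v hv
    rw [mem_centralizer_iff]
    intro t ht
    rw [Set.mem_singleton_iff] at ht
    rw [ht]
    exact hV₀c u huV v hv
  obtain ⟨c, hc, hcB⟩ := CfsgLib.Lead.exists_conj_into_sylow (g • P) (centralizer ({u} : Set G)) hUle V₀ hVu hV₀p
  set h := g⁻¹ * c⁻¹ with hh
  have hhP : ∀ b ∈ V₀, h * b * h⁻¹ ∈ P₀ := by
    intro b hb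
    have h1 := (CfsgLib.Trans.mem_sylow_smul g P _).1 (hcB b hb)
    have e1 : h * b * h⁻¹ = g⁻¹ * (c⁻¹ * b * c) * g := by rw [hh]; group
    rw [e1]
    exact h1
  have hhV : ∀ b ∈ V₀, h * b * h⁻¹ ∈ V₀ := by
    intro b hb
    apply hV₀om _ (hhP b hb)
    rw [conj_pow, hV₀exp b hb]
    simp
  have hhN : h ∈ normalizer (V₀ : Set G) := Subgroup.mem_normalizer_fintype hhV
  have hhu : h * u * h⁻¹ = z := by
    have h1 := mem_centralizer_iff.1 hc u rfl
    calc h * u * h⁻¹ = g⁻¹ * (c⁻¹ * (u * c)) * g := by rw [hh]; group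
      _ = g⁻¹ * (c⁻¹ * (c * u)) * g := by rw [h1]
      _ = g⁻¹ * u * g := by group
      _ = z := by rw [hu]; group
  have hhu' : h⁻¹ * z * h = u := by
    rw [← hhu]; group
  -- Step 2: `e`
  obtain ⟨y, hyP, hyV⟩ : ∃ y ∈ P₀, y ∉ V₀ := by
    by_contra hcon
    push Not at hcon
    have h1 : Nat.card P₀ ≤ Nat.card V₀ := Subgroup.card_le_of_le hcon
    rw [hcard', hV₀card] at h1
    have h2 : p ^ 2 < p ^ 3 := Nat.pow_lt_pow_right hpp.one_lt (by norm_num)
    omega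
  have hc₁Z : ⁅y, u⁆ ∈ Z₀ := hcomZ y hyP u (hV₀P huV)
  have hc₁1 : ⁅y, u⁆ ≠ 1 := by
    intro h1
    exact hnc y hyP hyV u huV hnot (commutatorElement_eq_one_iff_mul_comm.1 h1)
  set c₁ := ⁅y, u⁆ with hc₁
  have hzc₁ : z ∈ zpowers c₁ := hZgen c₁ hc₁Z hc₁1 z hz
  rw [← mem_powers_iff_mem_zpowers] at hzc₁
  obtain ⟨b, hb⟩ := hzc₁
  have hb' : c₁ ^ b = z := hb
  set e := y ^ b with he
  have heP : e ∈ P₀ := P₀.pow_mem hyP b
  have heu : e * u * e⁻¹ = u * z := by
    have h1 : y * u * y⁻¹ = u * c₁ := by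
      have h2 := hZc c₁ hc₁Z u (hV₀P huV)
      rw [← h2, hc₁, commutatorElement_def]
      group
    have h2 : y * c₁ * y⁻¹ = c₁ := by
      rw [(hZc c₁ hc₁Z y hyP).symm]; group
    have := pow_action h1 h2 b
    rw [hb'] at this
    exact this
  have hez : e * z * e⁻¹ = z := by
    rw [(hZc z hz e heP).symm]; group
  have heV : e ∉ V₀ := by
    intro hev
    have h1 := hV₀c e hev u huV
    have h2 : e * u * e⁻¹ = u := by rw [h1]; group
    rw [heu] at h2
    exact hz1 (mul_left_cancel (a := u) (by rw [mul_one]; exact h2))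
  -- Step 3: `f`
  set z' := h * z * h⁻¹ with hz'
  have hz'V : z' ∈ V₀ := hhV z (hZV hz)
  have hz'1 : z' ≠ 1 := by
    intro h1
    apply hz1
    have : z = h⁻¹ * z' * h := by rw [hz']; group
    rw [this, h1]; group
  have hz'Z : z' ∉ Z₀ := by
    intro hmem
    have h1 := hZgen z' hmem hz'1 z hz
    obtain ⟨k, hk⟩ := h1
    have hk' : z' ^ k = z := hk
    apply hnot
    have h2 : u = z ^ k := by
      have h3 : h * z ^ k * h⁻¹ = z := by
        rw [← conj_zpow]; exact hk'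
      calc u = h⁻¹ * z * h := hhu'.symm
        _ = h⁻¹ * (h * z ^ k * h⁻¹) * h := by rw [h3]
        _ = z ^ k := by group
    rw [h2]
    exact Z₀.zpow_mem hz k
  have hc₂Z : ⁅e, z'⁆ ∈ Z₀ := hcomZ e heP z' (hV₀P hz'V)
  have hc₂1 : ⁅e, z'⁆ ≠ 1 := fun h1 =>
    hnc e heP heV z' hz'V hz'Z (commutatorElement_eq_one_iff_mul_comm.1 h1)
  set c₂ := ⁅e, z'⁆ with hc₂
  set f₀ := h⁻¹ * e * h with hf₀
  set t := h⁻¹ * c₂ * h with ht
  have hf₀u : f₀ * u * f₀⁻¹ = u := by
    calc f₀ * u * f₀⁻¹ = h⁻¹ * (e * (h * u * h⁻¹) * e⁻¹) * h := by rw [hf₀]; group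
      _ = h⁻¹ * z * h := by rw [hhu, hez]
      _ = u := hhu'
  have het : e * z' * e⁻¹ = c₂ * z' := by
    rw [hc₂, commutatorElement_def]; group
  -- `t` is a power of `u`
  obtain ⟨s, hs⟩ := hZgen z hz hz1 c₂ hc₂Z
  have hs' : z ^ s = c₂ := hs
  have hts : t = u ^ s := by
    rw [← hhu', ← conj_zpow_inv_aux h z s, hs']
  have htV : t ∈ V₀ := by
    rw [hts]; exact V₀.zpow_mem huV s
  have ht1 : t ≠ 1 := by
    intro h1
    apply hc₂1
    have : c₂ = h * t * h⁻¹ := by rw [ht]; group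
    rw [this, h1]; group
  have hf₀z : f₀ * z * f₀⁻¹ = z * t := by
    calc f₀ * z * f₀⁻¹ = h⁻¹ * (e * z' * e⁻¹) * h := by rw [hf₀, hz']; group
      _ = h⁻¹ * (c₂ * z') * h := by rw [het]
      _ = t * z := by rw [ht, hz']; group
      _ = z * t := hV₀c t htV z (hZV hz)
  have hf₀t : f₀ * t * f₀⁻¹ = t := by
    rw [hts, ← conj_zpow, hf₀u]
  have hto : orderOf t = p := hord t ht1 (hV₀exp t htV)
  have huo : orderOf u = p := hord u hu1 hup
  have hzo : orderOf z = p := hord z hz1 hzp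
  have hut : u ∈ zpowers t := by
    have hle : zpowers t ≤ zpowers u := by
      rw [zpowers_le, hts]
      exact Subgroup.zpow_mem _ (mem_zpowers u) s
    have heq : zpowers t = zpowers u := by
      apply Subgroup.eq_of_le_of_card_ge hle
      rw [Nat.card_zpowers, Nat.card_zpowers, hto, huo]
    rw [heq]
    exact mem_zpowers u
  rw [← mem_powers_iff_mem_zpowers] at hut
  obtain ⟨r, hr⟩ := hut
  have hr' : t ^ r = u := hr
  set f := f₀ ^ r with hf
  have hfz : f * z * f⁻¹ = z * u := by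
    have := pow_action hf₀z hf₀t r
    rwa [hr'] at this
  have hfu : f * u * f⁻¹ = u := by
    have h1 : f₀ * u * f₀⁻¹ = u * 1 := by rw [hf₀u, mul_one]
    have h2 : f₀ * (1 : G) * f₀⁻¹ = 1 := by group
    have := pow_action h1 h2 r
    rwa [one_pow, mul_one] at this
  -- Step 4: `V₀ = ⟨z, u⟩`
  have hZz : zpowers z ≤ Z₀ := zpowers_le.2 hz
  have huz : u ∉ zpowers z := fun h1 => hnot (hZz h1)
  have hS : zpowers z ⊔ zpowers u = V₀ := by
    have hle : zpowers z ⊔ zpowers u ≤ V₀ := sup_le (hZz.trans hZV) (zpowers_le.2 huV)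
    have hd : Nat.card ↥(zpowers z ⊔ zpowers u) ∣ p ^ 2 := by
      rw [← hV₀card]; exact Subgroup.card_dvd_of_le hle
    obtain ⟨i, hi, hi'⟩ := (Nat.dvd_prime_pow hpp).1 hd
    have hzle : zpowers z ≤ zpowers z ⊔ zpowers u := le_sup_left
    have hcz : Nat.card (zpowers z) = p := by rw [Nat.card_zpowers, hzo]
    interval_cases i
    · exfalso
      have h1 : zpowers z ⊔ zpowers u = ⊥ := Subgroup.eq_bot_of_card_eq _ (by simpa using hi')
      apply hz1
      have : z ∈ zpowers z ⊔ zpowers u := hzle (mem_zpowers z)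
      rw [h1] at this
      exact Subgroup.mem_bot.1 this
    · exfalso
      have h1 : zpowers z = zpowers z ⊔ zpowers u := by
        apply Subgroup.eq_of_le_of_card_ge hzle
        rw [hi', hcz, pow_one]
      apply huz
      rw [h1]
      exact mem_sup_right (mem_zpowers u)
    · apply Subgroup.eq_of_le_of_card_ge hle
      rw [hV₀card, hi']
  have hdec : ∀ v ∈ V₀, ∃ i j : ℤ, v = z ^ i * u ^ j := by
    intro v hv
    rw [← hS] at hv
    obtain ⟨a, ha, b, hb, rfl⟩ := CfsgLib.Comp.mem_sup_of_commute (fun a ha b hb =>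
      hV₀c a (hZV (hZz ha)) b ((zpowers_le.2 huV) hb)) hv
    obtain ⟨i, rfl⟩ := Subgroup.mem_zpowers_iff.1 ha
    obtain ⟨j, rfl⟩ := Subgroup.mem_zpowers_iff.1 hb
    exact ⟨i, j, rfl⟩
  -- Step 5: the normalizer
  set N := normalizer (V₀ : Set G) with hN
  have hV₀N : V₀ ≤ N := Subgroup.le_normalizer
  have heN : e ∈ N := hP₀N heP
  have hf₀N : f₀ ∈ N := N.mul_mem (N.mul_mem (N.inv_mem hhN) heN) hhN
  have hfN : f ∈ N := N.pow_mem hf₀N r
  have hyN : y ∈ N := hP₀N hyP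
  have hzN : z ∈ N := hV₀N (hZV hz)
  have huN : u ∈ N := hV₀N huV
  haveI hV'n : (V₀.subgroupOf N).Normal := Subgroup.normal_in_normalizer
  have hVc' : ∀ a ∈ V₀.subgroupOf N, ∀ b ∈ V₀.subgroupOf N, a * b = b * a := by
    intro a ha b hb
    exact Subtype.ext (hV₀c _ ha _ hb)
  have hcard'' : Nat.card (V₀.subgroupOf N) = p ^ 2 := by
    rw [← hV₀card]
    exact Nat.card_congr (Subgroup.subgroupOfEquivOfLe hV₀N).toEquiv
  have hexp' : ∀ v ∈ V₀.subgroupOf N, v ^ p = 1 := by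
    intro v hv
    exact Subtype.ext (hV₀exp _ hv)
  have hsyl : CfsgLib.Solv.IsSylowIn p (V₀.subgroupOf N) (centralizer ((V₀.subgroupOf N : Subgroup ↥N) : Set ↥N)) := by
    haveI hC : (centralizer ((V₀.subgroupOf N : Subgroup ↥N) : Set ↥N)).Normal := Subgroup.normal_centralizer
    have htop : CfsgLib.Solv.IsSylowIn p (P₀.subgroupOf N) ⊤ := by
      refine ⟨le_top, IsPGroup.comap_subtype P.isPGroup', ?_⟩
      rw [Subgroup.relIndex_top_right]
      intro hd
      apply P.not_dvd_index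
      have h1 := Subgroup.relIndex_mul_index hP₀N
      rw [← h1]
      exact Dvd.dvd.mul_right hd _
    have h1 := CfsgLib.AlpGold.isSylowIn_inf_normal htop (le_top (a := centralizer ((V₀.subgroupOf N : Subgroup ↥N) : Set ↥N)))
      (by rw [Subgroup.normalizer_eq_top_iff.2 hC])
    have h2 : P₀.subgroupOf N ⊓ centralizer ((V₀.subgroupOf N : Subgroup ↥N) : Set ↥N) = V₀.subgroupOf N := by
      apply le_antisymm
      · rintro x ⟨hxP, hxC⟩
        by_contra hxV
        refine hnc (x : G) hxP hxV u huV hnot ?_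
        have := mem_centralizer_iff.1 hxC ⟨u, huN⟩ huV
        exact (congrArg Subtype.val this).symm
      · intro x hx
        refine ⟨hV₀P hx, mem_centralizer_iff.2 ?_⟩
        intro w hw
        exact Subtype.ext (hV₀c _ hw _ hx)
    rwa [h2] at h1
  refine core_transv hp2 (V₀.subgroupOf N) hVc' hcard'' hexp' hsyl (P₀.subgroupOf N) ?_ ?_ ?_
    ⟨y, hyN⟩ hyP hyV ⟨z, hzN⟩ ⟨u, huN⟩ ⟨e, heN⟩ ⟨f, hfN⟩ (hZV hz) huV ?_ ?_ ?_ ?_ ?_ ?_
  · intro x hx
    exact hV₀P hx
  · intro x hx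
    exact hV₀pow x hx
  · intro x hx hxp
    exact hV₀om x hx (congrArg Subtype.val hxp)
  · intro h1
    exact hz1 (congrArg Subtype.val h1)
  · intro v hv
    obtain ⟨i, j, hij⟩ := hdec v hv
    refine ⟨i, j, Subtype.ext ?_⟩
    exact hij
  · exact Subtype.ext hez
  · exact Subtype.ext heu
  · exact Subtype.ext hfz
  · exact Subtype.ext hfu

end Main

end CfsgLib.ExtraClosed
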