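import Cfsg.Agent.Lib.Fusion.Alperin2
import Cfsg.Agent.Lib.Fusion.Central
import Cfsg.Agent.Lib.Fusion.Normal
import Cfsg.Agent.Lib.Fusion.Core

set_option autoImplicit false

namespace CfsgLib.FusZ

open Subgroup Cfsg Cfsg.FusionSystem CfsgLib.Fusion

/-- Transfer splitting: the fixed points of `A` are a direct factor of the fixed points of `T`. -/
theorem split {A V : Type*} [Group A] [Finite A] [Group V] [Finite V]
    (hV : ∀ a b : V, a * b = b * a) (act : A → V →* V)
    (h1 : ∀ v, act 1 v = v) (hmul : ∀ α β v, act (α * β) v = act α (act β v))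
    (T : Subgroup A) (Z₀ : Subgroup V) (hZ₀ : ∀ z ∈ Z₀, ∀ t ∈ T, act t z = z)
    (hfix : ∀ v, (∀ α, act α v = v) → v ∈ Z₀) (hcop : (Nat.card V).Coprime T.index) :
    ∃ K : Subgroup V, K ≤ Z₀ ∧ (∀ v ∈ K, (∀ α, act α v = v) → v = 1) ∧
      ∀ z ∈ Z₀, ∃ y k, (∀ α, act α y = y) ∧ k ∈ K ∧ z = y * k := by
  classical
  letI : CommGroup V := { ‹Group V› with mul_comm := hV }
  haveI : Fintype (A ⧸ T) := Fintype.ofFinite _
  have hwell : ∀ (z : Z₀) (a b : A), (QuotientGroup.leftRel T) a b → act a z = act b z := by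
    intro z a b hab
    have h2 : a⁻¹ * b ∈ T := QuotientGroup.leftRel_apply.1 hab
    have h3 : act (a * (a⁻¹ * b)) z = act a (act (a⁻¹ * b) z) := hmul _ _ _
    rw [hZ₀ z z.2 _ h2, mul_inv_cancel_left] at h3
    exact h3.symm
  let f : Z₀ → A ⧸ T → V := fun z c => Quotient.lift (fun α => act α z) (hwell z) c
  have hf : ∀ (z : Z₀) (α : A), f z (α : A ⧸ T) = act α z := fun z α => rfl
  have hfmul : ∀ (z w : Z₀) (c : A ⧸ T), f (z * w) c = f z c * f w c := by
    intro z w c
    induction c using QuotientGroup.induction_on with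
    | H x =>
      rw [hf, hf, hf]
      show act x ((z : V) * w) = _
      rw [map_mul]
  have hfone : ∀ c : A ⧸ T, f 1 c = 1 := by
    intro c
    induction c using QuotientGroup.induction_on with
    | H x =>
      rw [hf]
      show act x 1 = 1
      rw [map_one]
  have hfact : ∀ (z : Z₀) (β : A) (c : A ⧸ T), f z (β • c) = act β (f z c) := by
    intro z β c
    induction c using QuotientGroup.induction_on with
    | H x =>
      show f z ((β * x : A) : A ⧸ T) = act β (f z (x : A ⧸ T))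
      rw [hf, hf, hmul]
  let tr : Z₀ →* V :=
    { toFun := fun z => ∏ c : A ⧸ T, f z c
      map_one' := by simp [hfone]
      map_mul' := by
        intro z w
        simp [hfmul, Finset.prod_mul_distrib] }
  have htr : ∀ z, tr z = ∏ c : A ⧸ T, f z c := fun z => rfl
  have htrfix : ∀ (z : Z₀) (β : A), act β (tr z) = tr z := by
    intro z β
    rw [htr, map_prod]
    calc ∏ c : A ⧸ T, act β (f z c) = ∏ c : A ⧸ T, f z (β • c) :=
          Finset.prod_congr rfl (fun c _ => (hfact z β c).symm)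
      _ = ∏ c : A ⧸ T, f z c :=
          Equiv.prod_comp (MulAction.toPerm β : Equiv.Perm (A ⧸ T)) (f z)
  have hcard : Fintype.card (A ⧸ T) = T.index := by
    rw [Subgroup.index, Nat.card_eq_fintype_card]
  have htrpow : ∀ (z : Z₀), (∀ β, act β (z : V) = z) → tr z = (z : V) ^ T.index := by
    intro z hz
    rw [htr]
    have : ∀ c : A ⧸ T, f z c = (z : V) := by
      intro c
      induction c using QuotientGroup.induction_on with
      | H x => rw [hf, hz]
    simp [this, hcard]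
  have hinj := (powCoprime hcop).injective
  have hsurj := (powCoprime hcop).surjective
  refine ⟨tr.ker.map Z₀.subtype, ?_, ?_, ?_⟩
  · rintro _ ⟨z, -, rfl⟩
    exact z.2
  · rintro _ ⟨z, hz, rfl⟩ hfixv
    have h2 := htrpow z hfixv
    rw [MonoidHom.mem_ker.1 hz] at h2
    apply hinj
    show ((z : V)) ^ T.index = (1 : V) ^ T.index
    rw [← h2, one_pow]
  · intro z hz
    obtain ⟨y, hy⟩ := hsurj (tr ⟨z, hz⟩)
    have hy' : y ^ T.index = tr ⟨z, hz⟩ := hy
    have hyfix : ∀ α, act α y = y := by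
      intro α
      apply hinj
      show (act α y) ^ T.index = y ^ T.index
      rw [← map_pow, hy', htrfix]
    have hyZ : y ∈ Z₀ := hfix y hyfix
    refine ⟨y, y⁻¹ * z, hyfix, ⟨⟨y⁻¹ * z, Z₀.mul_mem (Z₀.inv_mem hyZ) hz⟩, ?_, rfl⟩, by group⟩
    rw [SetLike.mem_coe, MonoidHom.mem_ker]
    have e : (⟨y⁻¹ * z, Z₀.mul_mem (Z₀.inv_mem hyZ) hz⟩ : Z₀) = (⟨y, hyZ⟩ : Z₀)⁻¹ * ⟨z, hz⟩ := rfl
    rw [e, map_mul, map_inv, htrpow ⟨y, hyZ⟩ hyfix]
    show (y ^ T.index)⁻¹ * tr ⟨z, hz⟩ = 1
    rw [hy']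
    group

/-- An automorphism restricted to the centre. -/
def actOn {Q : Type*} [Group Q] (α : MulAut Q) : center Q →* center Q where
  toFun z := ⟨α z, by
    rw [Subgroup.mem_center_iff]
    intro g
    obtain ⟨h, rfl⟩ := α.surjective g
    rw [← map_mul, ← map_mul, (Subgroup.mem_center_iff.1 z.2) h]⟩
  map_one' := by
    apply Subtype.ext
    simp
  map_mul' := by
    intro a b
    apply Subtype.ext
    simp

variable {Ω : Type*} [Group Ω] {S : Subgroup Ω} [Finite S] {p : ℕ} [hp : Fact p.Prime]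

theorem main (hS : IsPGroup p S) (F : FusionSystem S) (hF : F.IsSaturated p)
    (hZ : (S ⊓ Subgroup.centralizer (S : Set Ω)) ≤ F.core) :
    ∃ K : Subgroup Ω, K ≤ (S ⊓ Subgroup.centralizer (S : Set Ω)) ∧ F.center ⊓ K = ⊥ ∧
      F.center ⊔ K = (S ⊓ Subgroup.centralizer (S : Set Ω)) := by
  classical
  set Q := F.core with hQdef
  have hQn : F.IsNormal Q := isNormal_core F
  have hQS : Q ≤ S := hQn.1
  haveI : Finite Q := finite_of_le hQS
  have hsc : F.StronglyClosed Q := stronglyClosed_of_isNormal F hQn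
  have hwc := weaklyClosed_of_stronglyClosed F hsc
  obtain ⟨Q', ⟨φ, hφ, rfl⟩, hfa, -⟩ := hF Q hQS
  have hφr : φ.range = Q := hwc.2 φ hφ
  rw [hφr] at hfa
  obtain ⟨-, R, hR⟩ := hfa
  haveI : Finite (MulAut Q) := finite_mulAut _
  haveI : Finite (F.autGroup Q) := inferInstance
  let V := center ↥Q
  let i : V →* Ω := Q.subtype.comp V.subtype
  have hi : Function.Injective i := fun a b hab =>
    Subtype.ext (Subtype.ext hab)
  let act : F.autGroup Q → V →* V := fun α => actOn α.1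
  have hact : ∀ (α : F.autGroup Q) (v : V), i (act α v) = ((α.1 (v : Q) : Q) : Ω) := fun _ _ => rfl
  have hcop : (Nat.card V).Coprime (R : Subgroup (F.autGroup Q)).index := by
    have hVp : IsPGroup p V := IsPGroup.of_injective (hS.to_le hQS) V.subtype V.subtype_injective
    obtain ⟨n, hn⟩ := IsPGroup.iff_card.1 hVp
    rw [hn]
    apply Nat.Coprime.pow_left
    exact (Nat.Prime.coprime_iff_not_dvd hp.out).2 R.not_dvd_index
  have hc := isCentral_center F
  have hcenterS : F.center ≤ S ⊓ Subgroup.centralizer (S : Set Ω) :=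
    le_inf hc.1 F.center_le_centralizer
  have hF1 : ∀ v : V, (∀ α, act α v = v) → i v ∈ F.center := by
    intro v hv
    have hvQ : i v ∈ Q := (v : Q).2
    have hcent : F.IsCentral (zpowers (i v)) := by
      rw [isCentral_iff hS F hF]
      refine ⟨(zpowers_le.2 (hQS hvQ)), ?_⟩
      rintro x hx y ⟨φ, hφ, hy⟩
      have hxQ : x ∈ Q := (zpowers_le.2 hvQ) hx
      obtain ⟨ψ, hψ, h1, h2⟩ := hQn.2 (zpowers x) φ hφ
      have hρ := restrict_mem F hψ (le_sup_right : Q ≤ zpowers x ⊔ Q)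
      have hr : (ψ.comp (Subgroup.inclusion (le_sup_right : Q ≤ zpowers x ⊔ Q))).range = Q := by
        apply le_antisymm
        · rintro _ ⟨q, rfl⟩
          exact h2.le ⟨_, mem_subgroupOf.2 q.2, rfl⟩
        · intro q hq
          obtain ⟨w, hw, rfl⟩ := h2.ge hq
          exact ⟨⟨w, mem_subgroupOf.1 hw⟩, rfl⟩
      obtain ⟨χ, hχ, hχ2⟩ := exists_aut_of_map F hρ hr
      have hv' : χ (v : Q) = (v : Q) := congrArg Subtype.val (hv ⟨χ, hχ⟩)
      obtain ⟨k, hk⟩ := Subgroup.mem_zpowers_iff.1 hx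
      have hxe : (⟨x, hxQ⟩ : Q) = (v : Q) ^ k := by
        apply Subtype.ext
        show x = _
        rw [← hk]
        rfl
      have hfixx : χ ⟨x, hxQ⟩ = ⟨x, hxQ⟩ := by
        rw [hxe, map_zpow, hv']
      have e1 := hχ2 ⟨x, hxQ⟩
      rw [hfixx] at e1
      have e2 := h1 ⟨x, mem_zpowers x⟩
      have e3 : (Subgroup.inclusion (le_sup_left : zpowers x ≤ zpowers x ⊔ Q) ⟨x, mem_zpowers x⟩) =
          Subgroup.inclusion (le_sup_right : Q ≤ zpowers x ⊔ Q) ⟨x, hxQ⟩ := Subtype.ext rfl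
      rw [e3] at e2
      rw [← hy, ← e2]
      exact e1.symm
    exact (le_sSup hcent : zpowers (i v) ≤ F.center) (mem_zpowers _)
  have hF2 : ∀ v : V, i v ∈ F.center → ∀ α, act α v = v := by
    intro v hv α
    apply hi
    have hα : Q.subtype.comp α.1.toMonoidHom ∈ F.Hom Q := (mem_autGroup_iff F hQS).1 α.2
    obtain ⟨ψ, -, h1, h2⟩ := hc.2 Q _ hα
    have e1 := h1 (v : Q)
    have e2 := h2 ⟨i v, hv⟩
    have e3 : Subgroup.inclusion (le_sup_left : Q ≤ Q ⊔ F.center) (v : Q) =
        Subgroup.inclusion (le_sup_right : F.center ≤ Q ⊔ F.center) ⟨i v, hv⟩ := Subtype.ext rfl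
    rw [e3, e2] at e1
    exact e1.symm
  obtain ⟨K, hK, hK1, hK2⟩ := split (V := V)
    (fun a b => Subtype.ext ((Subgroup.mem_center_iff.1 b.2) (a : Q))) act
    (fun v => Subtype.ext rfl) (fun α β v => Subtype.ext rfl) (R : Subgroup (F.autGroup Q))
    ((S ⊓ Subgroup.centralizer (S : Set Ω)).comap i)
    (by
      intro z hz t ht
      rw [hR, mem_subgroupOf] at ht
      obtain ⟨g, hg, hga⟩ := mem_autInducedBy.1 ht
      apply hi
      rw [hact, hga]
      have h3 : g * i z = i z * g := Subgroup.mem_centralizer_iff.1 hz.2 g hg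
      show g * i z * g⁻¹ = i z
      rw [h3]; group)
    (fun v hv => hcenterS (hF1 v hv)) hcop
  have hK' : K.map i ≤ S ⊓ Subgroup.centralizer (S : Set Ω) := by
    rintro _ ⟨k, hk, rfl⟩
    exact hK hk
  refine ⟨K.map i, hK', ?_, ?_⟩
  · rw [eq_bot_iff]
    rintro x ⟨hx, ⟨k, hk, rfl⟩⟩
    have := hK1 k hk (hF2 k hx)
    rw [this, map_one]
    exact one_mem _
  · apply le_antisymm
    · exact sup_le hcenterS hK'
    · intro z hz
      have hzQ : z ∈ Q := hZ hz
      have hzc : (⟨z, hzQ⟩ : Q) ∈ center Q := by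
        rw [Subgroup.mem_center_iff]
        intro g
        apply Subtype.ext
        exact Subgroup.mem_centralizer_iff.1 hz.2 g (hQS g.2)
      have hz' : (⟨⟨z, hzQ⟩, hzc⟩ : V) ∈ (S ⊓ Subgroup.centralizer (S : Set Ω)).comap i := hz
      obtain ⟨y, k, hy, hk, he⟩ := hK2 _ hz'
      have hz2 : z = i y * i k := by
        rw [← map_mul, ← he]
        rfl
      rw [hz2]
      exact Subgroup.mul_mem _ (Subgroup.mem_sup_left (hF1 y hy)) (Subgroup.mem_sup_right ⟨k, hk, rfl⟩)

end CfsgLib.FusZ
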