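import Cfsg.Agent.Lib.H3.GenQuat
import Cfsg.Agent.Lib.FGS.Elem
import Cfsg.Prelude.Def_TwoFusion

/-! Central extensions of generalized quaternion groups. -/

namespace CfsgLib.GenQuat

open QuaternionGroup Subgroup
open scoped commutatorElement

section CommCyc

variable {S Q : Type*} [Group S] [Group Q]

/-- If `S` is a central extension of a group with a cyclic subgroup of index two then the
commutator subgroup of `S` is cyclic. -/
theorem commutator_cyclic [Finite S] (π : S →* Q) (hπ : Function.Surjective π)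
    (hker : π.ker ≤ Subgroup.center S) (g : Q) (hidx : (Subgroup.zpowers g).index = 2) :
    IsCyclic (commutator S) := by
  classical
  obtain ⟨a, rfl⟩ := hπ g
  set A : Subgroup S := (Subgroup.zpowers (π a)).comap π with hA
  have hAidx : A.index = 2 := by
    rw [hA, Subgroup.index_comap_of_surjective _ hπ]; exact hidx
  have hAn : A.Normal := Subgroup.normal_of_index_eq_two hAidx
  have haA : a ∈ A := Subgroup.mem_comap.2 (Subgroup.mem_zpowers _)
  have hdec : ∀ x ∈ A, ∃ (i : ℤ) (z : S), z ∈ Subgroup.center S ∧ x = a ^ i * z := by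
    intro x hx
    obtain ⟨i, hi⟩ := Subgroup.mem_zpowers_iff.1 (Subgroup.mem_comap.1 hx)
    refine ⟨i, (a ^ i)⁻¹ * x, hker ?_, by group⟩
    rw [MonoidHom.mem_ker, map_mul, map_inv, map_zpow, hi, inv_mul_cancel]
  have hAc : ∀ x ∈ A, ∀ y ∈ A, x * y = y * x := by
    intro x hx y hy
    obtain ⟨i, z, hz, rfl⟩ := hdec x hx
    obtain ⟨j, w, hw, rfl⟩ := hdec y hy
    have h1 : z * (a ^ j * w) = (a ^ j * w) * z := (Subgroup.mem_center_iff.1 hz _).symm
    have h2 : w * (a ^ i) = (a ^ i) * w := (Subgroup.mem_center_iff.1 hw _).symm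
    have h3 : a ^ i * a ^ j = a ^ j * a ^ i := (zpow_mul_comm a i j)
    have h4 : z * w = w * z := (Subgroup.mem_center_iff.1 hz _).symm
    have h5 : z * a ^ j = a ^ j * z := (Subgroup.mem_center_iff.1 hz _).symm
    calc a ^ i * z * (a ^ j * w) = a ^ i * (z * a ^ j) * w := by simp only [mul_assoc]
      _ = (a ^ i * a ^ j) * (z * w) := by rw [h5]; simp only [mul_assoc]
      _ = (a ^ j * a ^ i) * (w * z) := by rw [h3, h4]
      _ = a ^ j * (a ^ i * w) * z := by simp only [mul_assoc]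
      _ = a ^ j * (w * a ^ i) * z := by rw [h2]
      _ = a ^ j * w * (a ^ i * z) := by simp only [mul_assoc]
  obtain ⟨b, hb⟩ : ∃ b, b ∉ A := by
    by_contra hall
    push Not at hall
    have : A = ⊤ := (eq_top_iff' A).2 hall
    rw [this, Subgroup.index_top] at hAidx
    omega
  have hbconj : ∀ x ∈ A, b * x * b⁻¹ ∈ A := fun x hx => hAn.conj_mem x hx b
  let φ : A →* S := MonoidHom.mk' (fun x => (x : S) * b * (x : S)⁻¹ * b⁻¹) (by
    rintro ⟨x, hx⟩ ⟨y, hy⟩
    show x * y * b * (x * y)⁻¹ * b⁻¹ = x * b * x⁻¹ * b⁻¹ * (y * b * y⁻¹ * b⁻¹)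
    have h1 := hAc y hy (b * x⁻¹ * b⁻¹) (hbconj _ (A.inv_mem hx))
    calc x * y * b * (x * y)⁻¹ * b⁻¹ = x * (y * (b * y⁻¹ * b⁻¹)) * (b * x⁻¹ * b⁻¹) := by group
      _ = x * (b * x⁻¹ * b⁻¹) * (y * (b * y⁻¹ * b⁻¹)) := by
        have h2 := hAc (y * (b * y⁻¹ * b⁻¹)) (A.mul_mem hy (hbconj _ (A.inv_mem hy)))
          (b * x⁻¹ * b⁻¹) (hbconj _ (A.inv_mem hx))
        rw [mul_assoc x, h2, mul_assoc x]
      _ = _ := by group)
  have hφ : ∀ x (hx : x ∈ A), φ ⟨x, hx⟩ = x * b * x⁻¹ * b⁻¹ := fun x hx => rfl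
  have hφA : ∀ x (hx : x ∈ A), x * b * x⁻¹ * b⁻¹ ∈ A := by
    intro x hx
    have : x * b * x⁻¹ * b⁻¹ = x * (b * x⁻¹ * b⁻¹) := by group
    rw [this]
    exact A.mul_mem hx (hbconj _ (A.inv_mem hx))
  set c : S := φ ⟨a, haA⟩ with hc
  have hφc : ∀ x (hx : x ∈ A), x * b * x⁻¹ * b⁻¹ ∈ Subgroup.zpowers c := by
    intro x hx
    obtain ⟨i, z, hz, hxe⟩ := hdec x hx
    have hzA : z ∈ A := by
      have : z = (a ^ i)⁻¹ * x := by rw [hxe]; group
      rw [this]
      exact A.mul_mem (A.inv_mem (A.zpow_mem haA i)) hx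
    have h1 : φ ⟨z, hzA⟩ = 1 := by
      rw [hφ]
      have : z * b = b * z := (Subgroup.mem_center_iff.1 hz _).symm
      rw [this]
      group
    have h2 : (⟨x, hx⟩ : A) = (⟨a, haA⟩ : A) ^ i * ⟨z, hzA⟩ := Subtype.ext (by
      simp [hxe])
    rw [← hφ x hx, h2, map_mul, map_zpow, h1, mul_one]
    exact Subgroup.mem_zpowers_iff.2 ⟨i, rfl⟩
  have hcases : ∀ u : S, u ∈ A ∨ u * b⁻¹ ∈ A := by
    intro u
    by_cases hu : u ∈ A
    · exact Or.inl hu
    · right
      rw [Subgroup.mul_mem_iff_of_index_two hAidx]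
      exact iff_of_false hu (fun h => hb (by simpa using A.inv_mem h))
  have hcomm : ∀ u v : S, u * v * u⁻¹ * v⁻¹ ∈ Subgroup.zpowers c := by
    -- first the mixed case
    have hmixed : ∀ x ∈ A, ∀ y ∈ A, x * (y * b) * x⁻¹ * (y * b)⁻¹ ∈ Subgroup.zpowers c := by
      intro x hx y hy
      have h1 := hAc y hy _ (hφA x hx)
      have h2 := hAc x hx y hy
      have : x * (y * b) * x⁻¹ * (y * b)⁻¹ = x * b * x⁻¹ * b⁻¹ := by
        calc x * (y * b) * x⁻¹ * (y * b)⁻¹ = (x * y) * b * x⁻¹ * b⁻¹ * y⁻¹ := by group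
          _ = (y * x) * b * x⁻¹ * b⁻¹ * y⁻¹ := by rw [h2]
          _ = y * (x * b * x⁻¹ * b⁻¹) * y⁻¹ := by group
          _ = (x * b * x⁻¹ * b⁻¹) * y * y⁻¹ := by rw [h1]
          _ = _ := by group
      rw [this]
      exact hφc x hx
    intro u v
    rcases hcases u with hu | hu <;> rcases hcases v with hv | hv
    · have := hAc u hu v hv
      rw [this]
      have : v * u * u⁻¹ * v⁻¹ = 1 := by group
      rw [this]
      exact Subgroup.one_mem _
    · have := hmixed u hu _ hv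
      have h2 : u * (v * b⁻¹ * b) * u⁻¹ * (v * b⁻¹ * b)⁻¹ = u * v * u⁻¹ * v⁻¹ := by group
      rwa [h2] at this
    · have := hmixed v hv _ hu
      have h2 : v * (u * b⁻¹ * b) * v⁻¹ * (u * b⁻¹ * b)⁻¹ = (u * v * u⁻¹ * v⁻¹)⁻¹ := by group
      rw [h2] at this
      simpa using Subgroup.inv_mem _ this
    · set x := u * b⁻¹ with hx
      set y := v * b⁻¹ with hy
      have hux : u = x * b := by rw [hx]; group
      have hvy : v = y * b := by rw [hy]; group
      have h1 := hφc (x * y⁻¹) (A.mul_mem hu (A.inv_mem hv))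
      have hcA : b * (y * x⁻¹) * b⁻¹ ∈ A := hbconj _ (A.mul_mem hv (A.inv_mem hu))
      have h2 := hAc _ hcA _ (A.inv_mem hv)
      have : u * v * u⁻¹ * v⁻¹ = x * y⁻¹ * b * (x * y⁻¹)⁻¹ * b⁻¹ := by
        rw [hux, hvy]
        calc x * b * (y * b) * (x * b)⁻¹ * (y * b)⁻¹
            = x * (b * (y * x⁻¹) * b⁻¹ * y⁻¹) := by group
          _ = x * (y⁻¹ * (b * (y * x⁻¹) * b⁻¹)) := by rw [h2]
          _ = _ := by group
      rw [this]
      exact h1
  have hle : commutator S ≤ Subgroup.zpowers c := by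
    rw [_root_.commutator_def, Subgroup.commutator_le]
    intro u _ v _
    exact hcomm u v
  exact Subgroup.isCyclic_of_le hle

end CommCyc

theorem index_zpowers_a_one (N : ℕ) [NeZero N] :
    (Subgroup.zpowers (a 1 : QuaternionGroup N)).index = 2 := by
  have h := Subgroup.index_mul_card (Subgroup.zpowers (a 1 : QuaternionGroup N))
  rw [Nat.card_zpowers, orderOf_a_one, Nat.card_eq_fintype_card, QuaternionGroup.card] at h
  have hN : 0 < N := Nat.pos_of_ne_zero (NeZero.ne N)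
  have : (Subgroup.zpowers (a 1 : QuaternionGroup N)).index * (2 * N) = 2 * (2 * N) := by
    rw [h]; ring
  exact Nat.eq_of_mul_eq_mul_right (by omega) this

theorem index_zpowers_symm {G : Type*} [Group G] (N : ℕ) [NeZero N] (e : G ≃* QuaternionGroup N) :
    (Subgroup.zpowers (e.symm (a 1))).index = 2 := by
  have h := Subgroup.index_map_of_bijective (f := e.symm.toMonoidHom) e.symm.bijective
    (Subgroup.zpowers (a 1 : QuaternionGroup N))
  have h2 : (Subgroup.zpowers (a 1 : QuaternionGroup N)).map e.symm.toMonoidHom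
      = Subgroup.zpowers (e.symm (a 1)) := MonoidHom.map_zpowers _ _
  rw [← h2, h, index_zpowers_a_one]

theorem s3202 {S : Type*} [Group S] [Finite S] (hS : IsPGroup 2 S)
    (D : Subgroup S) (hD : D ≤ Subgroup.center S) [D.Normal]
    (hna : ¬ IsMulCommutative (S ⧸ D)) (hun : ∃! x : S ⧸ D, orderOf x = 2) :
    ∃ C : Subgroup S, C ≠ ⊥ ∧ IsCyclic ↥C ∧ C.Characteristic := by
  classical
  have hG : IsPGroup 2 (S ⧸ D) := hS.to_quotient _
  obtain ⟨m, ⟨e⟩⟩ := exists_quat hG hna hun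
  refine ⟨commutator S, ?_, ?_, inferInstance⟩
  · intro hbot
    apply hna
    refine ⟨⟨?_⟩⟩
    intro x y
    obtain ⟨x, rfl⟩ := QuotientGroup.mk_surjective x
    obtain ⟨y, rfl⟩ := QuotientGroup.mk_surjective y
    have h : ⁅x, y⁆ ∈ commutator S := by
      rw [_root_.commutator_def]
      exact Subgroup.commutator_mem_commutator (Subgroup.mem_top _) (Subgroup.mem_top _)
    rw [hbot, Subgroup.mem_bot] at h
    have := commutatorElement_eq_one_iff_mul_comm.1 h
    rw [← QuotientGroup.mk_mul, ← QuotientGroup.mk_mul, this]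
  · refine commutator_cyclic (QuotientGroup.mk' D) (QuotientGroup.mk'_surjective D) ?_
      (e.symm (a 1)) (index_zpowers_symm _ e)
    rw [QuotientGroup.ker_mk']
    exact hD

end CfsgLib.GenQuat
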