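import Cfsg.Agent.Lib.H3.GenQuat2
import Cfsg.Agent.Lib.FGS.Elem

/-! A 2-group with central subgroups having quaternion quotients and trivial intersection splits. -/

namespace CfsgLib.GenQuat

open QuaternionGroup Subgroup

section Lift

variable {S : Type*} [Group S]

/-- The lift of a generalized quaternion presentation. -/
theorem exists_lift (N : ℕ) [NeZero N] (x y : S) (hx : x ^ (2 * N) = 1) (hy : y * y = x ^ N)
    (hxy : y * x * y⁻¹ = x⁻¹) :
    ∃ ψ : QuaternionGroup N →* S, (∀ i, ψ (a i) = x ^ i.val) ∧ (∀ i, ψ (xa i) = y * x ^ i.val) := by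
  classical
  have hNN : N < 2 * N := by
    have : 0 < N := Nat.pos_of_ne_zero (NeZero.ne N)
    omega
  let α : ZMod (2 * N) → S := fun i => x ^ i.val
  have hαadd : ∀ i j, α (i + j) = α i * α j := by
    intro i j
    show x ^ (i + j).val = x ^ i.val * x ^ j.val
    rw [ZMod.val_add, ← pow_eq_pow_mod _ hx, pow_add]
  have hα0 : α 0 = 1 := by
    show x ^ (0 : ZMod (2 * N)).val = 1
    rw [ZMod.val_zero, pow_zero]
  have hαneg : ∀ i, (α (-i))⁻¹ = α i := by
    intro i
    rw [inv_eq_iff_mul_eq_one, ← hαadd, neg_add_cancel, hα0]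
  have hconj : ∀ k : ℕ, y * x ^ k * y⁻¹ = (x ^ k)⁻¹ := by
    intro k
    rw [← conj_pow, hxy, inv_pow]
  have hαy : ∀ i, α i * y = y * α (-i) := by
    intro i
    have h1 := hconj (-i).val
    have h2 : y * α (-i) * y⁻¹ = α i := by
      rw [← hαneg i]
      exact h1
    rw [← h2]
    group
  have hαN : α (N : ZMod (2 * N)) = x ^ N := by
    show x ^ (N : ZMod (2 * N)).val = x ^ N
    rw [ZMod.val_natCast_of_lt hNN]
  let f : QuaternionGroup N → S := fun u => match u with
    | a i => α i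
    | xa i => y * α i
  have hmul : ∀ u v, f (u * v) = f u * f v := by
    rintro (i | i) (j | j)
    · show α (i + j) = α i * α j
      exact hαadd i j
    · show y * α (j - i) = α i * (y * α j)
      rw [← mul_assoc, hαy, mul_assoc, ← hαadd]
      congr 2
      ring
    · show y * α (i + j) = y * α i * α j
      rw [hαadd, mul_assoc]
    · show α ((N : ZMod (2 * N)) + j - i) = y * α i * (y * α j)
      have e1 : (N : ZMod (2 * N)) + j - i = (N : ZMod (2 * N)) + (-i + j) := by ring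
      rw [e1, hαadd, hαadd, hαN, ← hy]
      have := hαy i
      calc y * y * (α (-i) * α j) = y * (y * α (-i)) * α j := by group
        _ = y * (α i * y) * α j := by rw [this]
        _ = y * α i * (y * α j) := by group
  exact ⟨MonoidHom.mk' f hmul, fun i => rfl, fun i => rfl⟩

end Lift

theorem comap_comm {S Q : Type*} [Group S] [Group Q] (π : S →* Q)
    (hker : π.ker ≤ Subgroup.center S) (a' : S) :
    ∀ x ∈ (Subgroup.zpowers (π a')).comap π, ∀ y ∈ (Subgroup.zpowers (π a')).comap π,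
      x * y = y * x := by
  have hdec : ∀ x ∈ (Subgroup.zpowers (π a')).comap π, ∃ (i : ℤ) (z : S),
      z ∈ Subgroup.center S ∧ x = a' ^ i * z := by
    intro x hx
    obtain ⟨i, hi⟩ := Subgroup.mem_zpowers_iff.1 (Subgroup.mem_comap.1 hx)
    refine ⟨i, (a' ^ i)⁻¹ * x, hker ?_, by group⟩
    rw [MonoidHom.mem_ker, map_mul, map_inv, map_zpow, hi, inv_mul_cancel]
  intro x hx y hy
  obtain ⟨i, z, hz, rfl⟩ := hdec x hx
  obtain ⟨j, w, hw, rfl⟩ := hdec y hy
  have h2 : w * (a' ^ i) = (a' ^ i) * w := (Subgroup.mem_center_iff.1 hw _).symm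
  have h3 : a' ^ i * a' ^ j = a' ^ j * a' ^ i := (zpow_mul_comm a' i j)
  have h4 : z * w = w * z := (Subgroup.mem_center_iff.1 hz _).symm
  have h5 : z * a' ^ j = a' ^ j * z := (Subgroup.mem_center_iff.1 hz _).symm
  calc a' ^ i * z * (a' ^ j * w) = a' ^ i * (z * a' ^ j) * w := by simp only [mul_assoc]
    _ = (a' ^ i * a' ^ j) * (z * w) := by rw [h5]; simp only [mul_assoc]
    _ = (a' ^ j * a' ^ i) * (w * z) := by rw [h3, h4]
    _ = a' ^ j * (a' ^ i * w) * z := by simp only [mul_assoc]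
    _ = a' ^ j * (w * a' ^ i) * z := by rw [h2]
    _ = a' ^ j * w * (a' ^ i * z) := by simp only [mul_assoc]

theorem core {S ι : Type*} [Group S] [Finite S] (hS : IsPGroup 2 S) (D : ι → Subgroup S)
    [hDn : ∀ i, (D i).Normal] (hDZ : ∀ i, D i ≤ center S)
    (hcoat : ∀ i, ∀ z ∈ center S, ∀ z' ∈ center S, z ∉ D i → z' ∉ D i → z * z' ∈ D i)
    (hint : ∀ x, (∀ i, x ∈ D i) → x = 1)
    (hna : ∀ i, ¬ IsMulCommutative (S ⧸ D i)) (hun : ∀ i, ∃! x : S ⧸ D i, orderOf x = 2) (i₀ : ι) :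
    ∃ Q : Subgroup S, Cfsg.IsInternalDirectProduct (D i₀) Q ⊤ ∧ Cfsg.IsElementaryAbelian 2 (D i₀) ∧
      ¬ IsMulCommutative ↥Q ∧ ∃! x : ↥Q, orderOf x = 2 := by
  classical
  have hun₀ := hun i₀
  choose t ht htu using hun
  have hsq : ∀ i, ∀ z ∈ center S, z * z ∈ D i := by
    intro i z hz
    by_cases h : z ∈ D i
    · exact (D i).mul_mem h h
    · exact hcoat i z hz z hz h h
  have hcent2 : ∀ z ∈ center S, z * z = 1 := fun z hz => hint _ (fun i => hsq i z hz)
  have hG : ∀ i, IsPGroup 2 (S ⧸ D i) := fun i => hS.to_quotient _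
  have htne : ∀ i, t i ≠ 1 := by
    intro i h
    have := ht i
    rw [h, orderOf_one] at this
    omega
  have htt : ∀ i, t i * t i = 1 := by
    intro i
    rw [← pow_two, ← ht i]
    exact pow_orderOf_eq_one _
  have hcase2 : ∀ i (x : S ⧸ D i), x * x = 1 → x ≠ 1 → x = t i := by
    intro i x hx hx1
    haveI : Fact (Nat.Prime 2) := ⟨Nat.prime_two⟩
    apply htu
    exact orderOf_eq_prime (by rw [pow_two]; exact hx) hx1
  have hzt : ∀ i, ∀ z ∈ center S, z ∉ D i → ((z : S) : S ⧸ D i) = t i := by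
    intro i z hz hzn
    apply hcase2
    · rw [← QuotientGroup.mk_mul]
      exact (QuotientGroup.eq_one_iff _).2 (hsq i z hz)
    · intro h
      exact hzn ((QuotientGroup.eq_one_iff _).1 h)
  have htcent : ∀ i (g : S ⧸ D i), g * t i * g⁻¹ = t i := by
    intro i g
    apply htu
    have := MulEquiv.orderOf_eq (MulAut.conj g) (t i)
    rw [MulAut.conj_apply] at this
    rw [this, ht]
  -- quaternion structure of the distinguished quotient
  obtain ⟨m, ⟨e⟩⟩ := exists_quat (hG i₀) (hna i₀) hun₀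
  set N := 2 ^ (m + 1) with hN
  have hN2 : 2 ≤ N := by
    rw [hN, pow_succ]
    have := Nat.one_le_two_pow (n := m)
    omega
  haveI : NeZero N := ⟨by omega⟩
  set π : S →* S ⧸ D i₀ := QuotientGroup.mk' (D i₀) with hπ
  have hπs : Function.Surjective π := QuotientGroup.mk'_surjective _
  have hπker : π.ker = D i₀ := QuotientGroup.ker_mk' _
  obtain ⟨a', ha'⟩ := hπs (e.symm (a 1))
  obtain ⟨b', hb'⟩ := hπs (e.symm (xa 0))
  set A : Subgroup S := (Subgroup.zpowers (π a')).comap π with hA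
  have hidxB : (Subgroup.zpowers (π a')).index = 2 := by
    rw [ha']
    exact index_zpowers_symm _ e
  have hAidx : A.index = 2 := by
    rw [hA, Subgroup.index_comap_of_surjective _ hπs]
    exact hidxB
  have hAc : ∀ x ∈ A, ∀ y ∈ A, x * y = y * x :=
    comap_comm π (by rw [hπker]; exact hDZ i₀) a'
  have haA : a' ∈ A := Subgroup.mem_comap.2 (Subgroup.mem_zpowers _)
  -- value of t at i₀
  have hbB : π b' ∉ Subgroup.zpowers (π a') := by
    intro h
    rw [ha', hb'] at h
    rw [← mem_powers_iff_mem_zpowers] at h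
    obtain ⟨k, hk⟩ := h
    have hk' : (a 1 : QuaternionGroup N) ^ k = xa 0 := by
      apply e.symm.injective
      rw [map_pow]
      exact hk
    rw [a_one_pow] at hk'
    cases hk'
  have hbA : b' ∉ A := hbB
  have ht₀ : t i₀ = e.symm (a (N : ZMod (2 * N))) := by
    have hB : IsMulCommutative (Subgroup.zpowers (π a')) := by
      refine ⟨⟨?_⟩⟩
      rintro ⟨x, hx⟩ ⟨y, hy⟩
      apply Subtype.ext
      obtain ⟨i, rfl⟩ := Subgroup.mem_zpowers_iff.1 hx
      obtain ⟨j, rfl⟩ := Subgroup.mem_zpowers_iff.1 hy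
      exact zpow_mul_comm _ i j
    have h := (invert_of_index_two (hG i₀) (hna i₀) (ht i₀) (htu i₀) _ hB hidxB (π b') hbB).2
    rw [← h, hb', ← map_mul, xa_mul_xa]
    congr 2
    ring
  have hZA : ∀ z ∈ center S, z ∈ A := by
    intro z hz
    apply Subgroup.mem_comap.2
    by_cases h : z ∈ D i₀
    · have : π z = 1 := (QuotientGroup.eq_one_iff _).2 h
      rw [this]
      exact Subgroup.one_mem _
    · have h1 : π z = t i₀ := hzt i₀ z hz h
      rw [h1, ht₀, ha']
      have h2 : (a (N : ZMod (2 * N)) : QuaternionGroup N) = (a 1) ^ N := (a_one_pow N).symm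
      rw [h2, map_pow]
      exact Subgroup.pow_mem _ (Subgroup.mem_zpowers _) _
  -- the key facts in all quotients
  have hkey : ∀ i, (∀ u ∈ A, b' * u * b'⁻¹ * u ∈ D i) ∧ ((b' * b' : S) : S ⧸ D i) = t i := by
    intro i
    set f : S →* S ⧸ D i := QuotientGroup.mk' (D i) with hf
    have hfs : Function.Surjective f := QuotientGroup.mk'_surjective _
    have hfker : f.ker ≤ A := by
      rw [QuotientGroup.ker_mk']
      exact fun x hx => hZA x (hDZ i hx)
    have hBc : IsMulCommutative (A.map f) := by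
      refine ⟨⟨?_⟩⟩
      rintro ⟨x, u, hu, rfl⟩ ⟨y, v, hv, rfl⟩
      apply Subtype.ext
      show f u * f v = f v * f u
      rw [← map_mul, ← map_mul, hAc u hu v hv]
    have hBi : (A.map f).index = 2 := by
      rw [Subgroup.index_map_eq _ hfs hfker, hAidx]
    have hbn : f b' ∉ A.map f := by
      rintro ⟨x, hx, hxe⟩
      apply hbA
      have h1 : x⁻¹ * b' ∈ f.ker := by
        rw [MonoidHom.mem_ker, map_mul, map_inv, hxe, inv_mul_cancel]
      have h2 := A.mul_mem hx (hfker h1)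
      rwa [mul_inv_cancel_left] at h2
    obtain ⟨h1, h2⟩ := invert_of_index_two (hG i) (hna i) (ht i) (htu i) _ hBc hBi (f b') hbn
    refine ⟨fun u hu => ?_, ?_⟩
    · have h3 := h1 (f u) ⟨u, hu, rfl⟩
      have : f (b' * u * b'⁻¹ * u) = 1 := by
        rw [map_mul, map_mul, map_mul, map_inv, h3, inv_mul_cancel]
      have h4 : b' * u * b'⁻¹ * u ∈ f.ker := this
      rwa [QuotientGroup.ker_mk'] at h4
    · rw [← h2, ← map_mul]
      rfl
  have hinv : ∀ u ∈ A, b' * u * b'⁻¹ = u⁻¹ := by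
    intro u hu
    have : b' * u * b'⁻¹ * u = 1 := hint _ (fun i => (hkey i).1 u hu)
    exact eq_inv_of_mul_eq_one_left this
  set w : S := b' * b' with hw
  have hwt : ∀ i, ((w : S) : S ⧸ D i) = t i := fun i => (hkey i).2
  have hwn : ∀ i, w ∉ D i := by
    intro i h
    apply htne i
    rw [← hwt]
    exact (QuotientGroup.eq_one_iff _).2 h
  have hwZ : w ∈ center S := by
    rw [Subgroup.mem_center_iff]
    intro s
    have : s * w * s⁻¹ * w⁻¹ = 1 := by
      apply hint
      intro i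
      apply (QuotientGroup.eq_one_iff _).1
      rw [QuotientGroup.mk_mul, QuotientGroup.mk_mul, QuotientGroup.mk_mul, QuotientGroup.mk_inv,
        QuotientGroup.mk_inv, hwt, htcent, mul_inv_cancel]
    have h2 : s * w * s⁻¹ = w := mul_inv_eq_one.1 this
    calc s * w = s * w * s⁻¹ * s := by group
      _ = w * s := by rw [h2]
  have hww : w * w = 1 := hcent2 w hwZ
  -- the power of a'
  set x : S := a' ^ (2 ^ m) with hx
  have hxx : x * x = a' ^ N := by
    rw [hx, ← pow_add, hN, pow_succ]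
    congr 1
    ring
  have hπpow : ∀ k : ℕ, π (a' ^ k) = e.symm (a (k : ZMod (2 * N))) := by
    intro k
    rw [map_pow, ha', ← map_pow, a_one_pow]
  have hπN : π (x * x) = t i₀ := by
    rw [hxx, hπpow, ht₀]
  have hy : w⁻¹ * (x * x) ∈ D i₀ := by
    have : π (w⁻¹ * (x * x)) = 1 := by
      rw [map_mul, map_inv, hπN]
      have : π w = t i₀ := hwt i₀
      rw [this, inv_mul_cancel]
    exact (QuotientGroup.eq_one_iff _).1 this
  have hxxw : x * x = w := by
    by_contra hne
    have hy1 : w⁻¹ * (x * x) ≠ 1 := by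
      intro h
      apply hne
      have := inv_mul_eq_one.1 h
      exact this.symm
    have : ∃ i, w⁻¹ * (x * x) ∉ D i := by
      by_contra hall
      push Not at hall
      exact hy1 (hint _ hall)
    obtain ⟨i, hi⟩ := this
    have hyZ := hDZ i₀ hy
    have h1 : w * (w⁻¹ * (x * x)) ∈ D i := hcoat i w hwZ _ hyZ (hwn i) hi
    rw [mul_inv_cancel_left] at h1
    have hxZ : x ∈ center S := by
      have h2 : ((x : S) : S ⧸ D i) * ((x : S) : S ⧸ D i) = 1 := by
        rw [← QuotientGroup.mk_mul]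
        exact (QuotientGroup.eq_one_iff _).2 h1
      by_cases h3 : ((x : S) : S ⧸ D i) = 1
      · exact hDZ i ((QuotientGroup.eq_one_iff _).1 h3)
      · have h4 := hcase2 i _ h2 h3
        rw [← hwt i] at h4
        have h5 : x⁻¹ * w ∈ D i := (QuotientGroup.eq).1 h4
        have h6 := Subgroup.mul_mem _ hwZ (Subgroup.inv_mem _ (hDZ i h5))
        convert h6 using 1
        group
    have hx1 : x * x = 1 := hcent2 x hxZ
    rw [hx1, mul_one] at hy
    exact hwn i₀ (by simpa using (D i₀).inv_mem hy)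
  have haN : a' ^ N = b' * b' := by rw [← hxx, hxxw]
  have ha2N : a' ^ (2 * N) = 1 := by
    rw [two_mul, pow_add, haN]
    exact hww
  have hab : b' * a' * b'⁻¹ = a'⁻¹ := hinv a' haA
  obtain ⟨ψ, hψa, hψx⟩ := exists_lift N a' b' ha2N haN.symm hab
  have hπψ : ∀ u, π (ψ u) = e.symm u := by
    rintro (i | i)
    · rw [hψa, hπpow, ZMod.natCast_zmod_val]
    · rw [hψx, map_mul, hπpow, ZMod.natCast_zmod_val, hb', ← map_mul, xa_mul_a, zero_add]
  have hψinj : Function.Injective ψ := by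
    intro u v huv
    apply e.symm.injective
    rw [← hπψ, ← hπψ, huv]
  refine ⟨ψ.range, ⟨le_top, le_top, ?_, ?_, ?_⟩, ⟨⟨⟨?_⟩⟩, ?_⟩, ?_, ?_⟩
  · intro u hu v _
    exact (Subgroup.mem_center_iff.1 (hDZ i₀ hu) v).symm
  · rw [eq_bot_iff]
    rintro y ⟨hy1, u, rfl⟩
    have h1 : π (ψ u) = 1 := (QuotientGroup.eq_one_iff _).2 hy1
    rw [hπψ] at h1
    have h2 : u = 1 := by
      apply e.symm.injective
      rw [h1, map_one]
    rw [h2, map_one]
    exact Subgroup.one_mem _
  · rw [eq_top_iff]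
    intro s _
    set u := e (π s) with hu
    have h1 : π (ψ u) = π s := by rw [hπψ, hu, MulEquiv.symm_apply_apply]
    have h2 : s * (ψ u)⁻¹ ∈ D i₀ := by
      apply (QuotientGroup.eq_one_iff _).1
      have : π (s * (ψ u)⁻¹) = 1 := by rw [map_mul, map_inv, h1, mul_inv_cancel]
      exact this
    have h3 : s = (s * (ψ u)⁻¹) * ψ u := by group
    rw [h3]
    exact Subgroup.mul_mem_sup h2 ⟨u, rfl⟩
  · rintro ⟨u, hu⟩ ⟨v, hv⟩
    apply Subtype.ext
    exact Subgroup.mem_center_iff.1 (hDZ i₀ hv) u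
  · intro z hz
    rw [pow_two]
    exact hcent2 z (hDZ i₀ hz)
  · intro hc
    apply hna i₀
    refine ⟨⟨fun u v => ?_⟩⟩
    have h1 := hc.is_comm.comm (⟨ψ (e u), MonoidHom.mem_range.2 ⟨_, rfl⟩⟩ : ψ.range)
      ⟨ψ (e v), MonoidHom.mem_range.2 ⟨_, rfl⟩⟩
    have h2 : ψ (e u) * ψ (e v) = ψ (e v) * ψ (e u) := congrArg Subtype.val h1
    have h2' : ψ (e u * e v) = ψ (e v * e u) := by rw [map_mul, map_mul]; exact h2
    have h3 := hψinj h2'
    rw [← map_mul, ← map_mul] at h3
    exact e.injective h3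
  · have hordψ : ∀ u, orderOf (ψ u) = orderOf u := fun u => orderOf_injective ψ hψinj u
    refine ⟨⟨ψ (e (t i₀)), MonoidHom.mem_range.2 ⟨_, rfl⟩⟩, ?_, ?_⟩
    · show orderOf (⟨ψ (e (t i₀)), MonoidHom.mem_range.2 ⟨_, rfl⟩⟩ : ψ.range) = 2
      rw [Subgroup.orderOf_mk, hordψ, MulEquiv.orderOf_eq]
      exact ht i₀
    · rintro ⟨y, hy'⟩ hyo
      obtain ⟨u, rfl⟩ := MonoidHom.mem_range.1 hy'
      rw [Subgroup.orderOf_mk, hordψ] at hyo
      apply Subtype.ext
      show ψ u = ψ (e (t i₀))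
      congr 1
      have h1 : orderOf (e.symm u) = 2 := by rw [MulEquiv.orderOf_eq]; exact hyo
      have h2 := htu i₀ _ h1
      rw [← h2, MulEquiv.apply_symm_apply]

theorem s3201 {S : Type*} [Group S] [Finite S]
    (hS : IsPGroup 2 S) (n : ℕ) (hn : 2 ≤ n) (C : Fin n → Subgroup ↥(Subgroup.center S))
    (hCmax : ∀ i, IsCoatom (C i)) (hCint : ⨅ i, C i = ⊥)
    (hCq : ∀ i, ∃ (_ : ((C i).map (Subgroup.center S).subtype).Normal),
      ¬ IsMulCommutative (S ⧸ (C i).map (Subgroup.center S).subtype) ∧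
      ∃! x : S ⧸ (C i).map (Subgroup.center S).subtype, orderOf x = 2) :
    ∃ E Q : Subgroup S, Cfsg.IsInternalDirectProduct E Q ⊤ ∧ Cfsg.IsElementaryAbelian 2 E ∧
      ¬ IsMulCommutative ↥Q ∧ ∃! x : ↥Q, orderOf x = 2 := by
  classical
  haveI hN : ∀ i, ((C i).map (Subgroup.center S).subtype).Normal := fun i =>
    (hCq i).elim fun h _ => h
  have hZ2 : IsPGroup 2 (Subgroup.center S) := hS.to_subgroup _
  haveI : Fact (Nat.Prime 2) := ⟨Nat.prime_two⟩
  have hidx : ∀ i, (C i).index = 2 := fun i =>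
    CfsgLib.FGS.index_eq_of_isCoatom_of_isPGroup hZ2 (hCmax i)
  have hmem : ∀ i z (hz : z ∈ Subgroup.center S),
      z ∈ (C i).map (Subgroup.center S).subtype ↔ (⟨z, hz⟩ : Subgroup.center S) ∈ C i := by
    intro i z hz
    constructor
    · rintro ⟨⟨y, hy⟩, hy2, rfl⟩
      exact hy2
    · intro h
      exact ⟨_, h, rfl⟩
  let i₀ : Fin n := ⟨0, by omega⟩
  have hc1 : ∀ i, ∀ z ∈ Subgroup.center S, ∀ z' ∈ Subgroup.center S,
      z ∉ (C i).map (Subgroup.center S).subtype → z' ∉ (C i).map (Subgroup.center S).subtype →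
      z * z' ∈ (C i).map (Subgroup.center S).subtype := by
    intro i z hz z' hz' h h'
    have hzm := (hmem i _ (Subgroup.mul_mem _ hz hz')).2
    apply hzm
    rw [hmem i z hz] at h
    rw [hmem i z' hz'] at h'
    have := (Subgroup.mul_mem_iff_of_index_two (hidx i) (a := ⟨z, hz⟩) (b := ⟨z', hz'⟩)).2
      (iff_of_false h h')
    exact this
  have hc2 : ∀ x, (∀ i, x ∈ (C i).map (Subgroup.center S).subtype) → x = 1 := by
    intro x hx
    have hxZ : x ∈ Subgroup.center S := Subgroup.map_subtype_le _ (hx i₀)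
    have : (⟨x, hxZ⟩ : Subgroup.center S) ∈ ⨅ i, C i := by
      rw [Subgroup.mem_iInf]
      intro i
      exact (hmem i x hxZ).1 (hx i)
    rw [hCint, Subgroup.mem_bot] at this
    exact congrArg Subtype.val this
  obtain ⟨Q, h1, h2, h3, h4⟩ := core hS (fun i => (C i).map (Subgroup.center S).subtype)
    (fun i => Subgroup.map_subtype_le _) hc1 hc2
    (fun i => (hCq i).elim fun _ h => h.1) (fun i => (hCq i).elim fun _ h => h.2) i₀
  exact ⟨_, Q, h1, h2, h3, h4⟩

end CfsgLib.GenQuat
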