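import Mathlib
import Cfsg.Agent.Lib.Fusion.SectionFree
import Cfsg.Agent.Lib.H3.FourConn

/-! # A four-subgroup acted on as `S₃` gives a section `S₄` -/

set_option autoImplicit false

namespace CfsgLib.SFour

open Subgroup Equiv

set_option maxRecDepth 100000 in
lemma perm3_cube_mul : ∀ π c : Perm (Fin 3), π ^ 3 = 1 → c ^ 3 = 1 → (π * c) ^ 3 = 1 := by decide

set_option maxRecDepth 100000 in
lemma perm3_fpf : ∀ π : Perm (Fin 3), π ≠ 1 → π ^ 3 = 1 → ∀ x, π x ≠ x := by decide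

set_option maxRecDepth 100000 in
lemma perm3_gen : ∀ π c : Perm (Fin 3), π ^ 3 = 1 → c ≠ 1 → c ^ 3 = 1 → ∃ i : Fin 3, π = c ^ (i : ℕ) := by
  decide

/-- The even permutations of three points, as those of exponent `3`. -/
def A3 : Subgroup (Perm (Fin 3)) where
  carrier := {π | π ^ 3 = 1}
  mul_mem' := fun {a b} ha hb => perm3_cube_mul a b ha hb
  one_mem' := by simp
  inv_mem' := fun {a} ha => by
    show a⁻¹ ^ 3 = 1
    rw [inv_pow]
    have : a ^ 3 = 1 := ha
    rw [this, inv_one]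

instance A3_normal : A3.Normal := ⟨fun a ha g => by
  show (g * a * g⁻¹) ^ 3 = 1
  rw [conj_pow]
  have : a ^ 3 = 1 := ha
  rw [this]; group⟩

section Core

variable {L : Type*} [Group L] [Finite L]

/-- The heart: a normal four-subgroup acted on as `S₃` yields a section `S₄`. -/
theorem core_S4 (W : Subgroup L) [hWn : W.Normal] (hW : Nat.card W = 4) (Φ : L →* Perm (Fin 3))
    (hΦ2 : ∀ g : L, (∀ w ∈ W, g * w * g⁻¹ = w) → Φ g = 1)
    (hΦ3 : ∀ g : L, ∀ w ∈ W, w ≠ 1 → g * w * g⁻¹ = w → ∃ x, Φ g x = x)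
    (hsurj : Function.Surjective Φ) :
    ∃ (H : Subgroup L) (f : H →* Perm (Fin 4)), Function.Surjective f := by
  classical
  haveI : Fact (Nat.Prime 3) := ⟨Nat.prime_three⟩
  -- the normal subgroup of index two
  set R : Subgroup L := A3.comap Φ with hR
  haveI hRn : R.Normal := Subgroup.Normal.comap A3_normal Φ
  obtain ⟨P⟩ : Nonempty (Sylow 3 R) := inferInstance
  set P' : Subgroup L := (P : Subgroup R).map R.subtype with hP'
  have hP'R : P' ≤ R := by
    rintro _ ⟨p, -, rfl⟩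
    exact p.2
  have hP'p : IsPGroup 3 P' := by
    have := P.isPGroup'
    exact this.map R.subtype
  -- an element of `P'` acts nontrivially
  have hp0 : ∃ p₀ ∈ P', Φ p₀ ≠ 1 := by
    by_contra hcon
    push Not at hcon
    set Φ_R : R →* Perm (Fin 3) := Φ.comp R.subtype with hΦR
    have hle : (P : Subgroup R) ≤ Φ_R.ker := by
      intro p hp
      rw [MonoidHom.mem_ker]
      exact hcon _ ⟨p, hp, rfl⟩
    have h1 : Φ_R.ker.index ∣ (P : Subgroup R).index := Subgroup.index_dvd_of_le hle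
    have h2 : ¬ 3 ∣ (P : Subgroup R).index := P.not_dvd_index
    obtain ⟨l₀, hl₀⟩ := hsurj (Equiv.swap (0 : Fin 3) 1 * Equiv.swap 1 2)
    have hl₀R : l₀ ∈ R := by
      show Φ l₀ ^ 3 = 1
      rw [hl₀]; decide
    have h3 : orderOf (Φ_R ⟨l₀, hl₀R⟩) = 3 := by
      apply orderOf_eq_prime
      · show Φ l₀ ^ 3 = 1
        rw [hl₀]; decide
      · show Φ l₀ ≠ 1
        rw [hl₀]; decide
    have h4 : 3 ∣ Nat.card Φ_R.range := by
      have := Subgroup.orderOf_dvd_natCard Φ_R.range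
        (x := Φ_R ⟨l₀, hl₀R⟩) ⟨_, rfl⟩
      rwa [h3] at this
    rw [← Subgroup.index_ker] at h4
    exact h2 (h4.trans h1)
  obtain ⟨p₀, hp₀P, hp₀1⟩ := hp0
  set c := Φ p₀ with hc
  have hc3 : c ^ 3 = 1 := hP'R hp₀P
  -- the normalizer covers everything
  set M : Subgroup L := normalizer (P' : Set L) with hM
  have hP'M : P' ≤ M := Subgroup.le_normalizer
  have htop : M ⊔ R = ⊤ := Sylow.normalizer_sup_eq_top P
  have hMsurj : ∀ π : Perm (Fin 3), ∃ m ∈ M, Φ m = π := by
    intro π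
    obtain ⟨g, hg⟩ := hsurj π
    have hg' : g ∈ M ⊔ R := by rw [htop]; exact mem_top g
    have hg'' : g ∈ ((M ⊔ R : Subgroup L) : Set L) := hg'
    rw [Subgroup.mul_normal] at hg''
    obtain ⟨m, hm, r, hr, rfl⟩ := hg''
    obtain ⟨i, hi⟩ := perm3_gen (Φ r) c hr hp₀1 hc3
    refine ⟨m * p₀ ^ (i : ℕ), M.mul_mem hm (pow_mem (hP'M hp₀P) _), ?_⟩
    rw [map_mul, map_pow, ← hc, ← hi, ← map_mul]
    exact hg
  -- `W` meets `M` trivially
  have hWM : M ⊓ W = ⊥ := by
    rw [eq_bot_iff]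
    intro w hw
    obtain ⟨hwM, hwW⟩ := Subgroup.mem_inf.1 hw
    rw [mem_bot]
    by_contra hw1
    have h1 : w * p₀ * w⁻¹ ∈ P' := (Subgroup.mem_normalizer_iff.1 hwM p₀).1 hp₀P
    have hu1 : w * p₀ * w⁻¹ * p₀⁻¹ ∈ P' := P'.mul_mem h1 (P'.inv_mem hp₀P)
    have hu2 : w * p₀ * w⁻¹ * p₀⁻¹ ∈ W := by
      have : w * p₀ * w⁻¹ * p₀⁻¹ = w * (p₀ * w⁻¹ * p₀⁻¹) := by group
      rw [this]
      exact W.mul_mem hwW (hWn.conj_mem _ (W.inv_mem hwW) p₀)
    set u := w * p₀ * w⁻¹ * p₀⁻¹ with hu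
    have h2 : orderOf u ∣ 4 := by
      have := Subgroup.orderOf_dvd_natCard W hu2
      rwa [hW] at this
    obtain ⟨k, hk⟩ := (IsPGroup.iff_orderOf.1 hP'p) ⟨u, hu1⟩
    have h3 : orderOf u = 3 ^ k := by
      rw [← hk]
      exact (Subgroup.orderOf_mk u hu1).symm
    have h4 : orderOf u = 1 := by
      rw [h3] at h2 ⊢
      have hcop : Nat.Coprime (3 ^ k) 4 := Nat.Coprime.pow_left _ (by norm_num)
      exact Nat.Coprime.eq_one_of_dvd hcop h2
    have h5 : u = 1 := orderOf_eq_one_iff.1 h4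
    have h6 : p₀ * w * p₀⁻¹ = w := by
      have h7 : w * p₀ * w⁻¹ = p₀ := by
        have := mul_inv_eq_one.1 h5
        exact this
      calc p₀ * w * p₀⁻¹ = (w * p₀ * w⁻¹) * w * p₀⁻¹ := by rw [h7]
        _ = w := by group
    obtain ⟨x, hx⟩ := hΦ3 p₀ w hwW hw1 h6
    exact perm3_fpf c hp₀1 hc3 x hx
  -- the subgroup `H = M W`
  set H : Subgroup L := M ⊔ W with hH
  have hMH : M ≤ H := le_sup_left
  have hWH : W ≤ H := le_sup_right
  have hcardH : Nat.card H = Nat.card M * 4 := by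
    have := CfsgLib.FourConn.card_sup_mul_inf (A := M) (B := W)
      (by rw [Subgroup.normalizer_eq_top]; exact le_top)
    rw [hWM, Subgroup.card_bot, mul_one, hW] at this
    exact this
  set M₁ : Subgroup H := M.subgroupOf H with hM₁
  have hM₁c : Nat.card M₁ = Nat.card M :=
    Nat.card_congr (Subgroup.subgroupOfEquivOfLe hMH).toEquiv
  have hMpos : 0 < Nat.card M := Nat.card_pos
  have hidx : M₁.index = 4 := by
    have := M₁.card_mul_index
    rw [hM₁c, hcardH] at this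
    exact Nat.eq_of_mul_eq_mul_left hMpos this
  have hT : Nat.card (H ⧸ M₁) = 4 := hidx
  let e' : (H ⧸ M₁) ≃ Fin 4 := Finite.equivFinOfCardEq hT
  let ψ : H →* Perm (H ⧸ M₁) := MulAction.toPermHom H (H ⧸ M₁)
  -- the kernel
  set Φ_M : M →* Perm (Fin 3) := Φ.comp M.subtype with hΦM
  have hΦMs : Function.Surjective Φ_M := by
    intro π
    obtain ⟨m, hm, h⟩ := hMsurj π
    exact ⟨⟨m, hm⟩, h⟩
  have hKc : Nat.card Φ_M.ker * 6 = Nat.card M := by
    have h1 := Φ_M.ker.card_mul_index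
    rw [Subgroup.index_ker, MonoidHom.range_eq_top.2 hΦMs, Subgroup.card_top, Nat.card_perm,
      Nat.card_fin] at h1
    exact h1
  have hkerM : ∀ k : H, k ∈ ψ.ker → (k : L) ∈ M := by
    intro k hk
    have h1 : ψ k (QuotientGroup.mk 1) = QuotientGroup.mk 1 := by
      have : ψ k = 1 := hk
      rw [this]; rfl
    have h2 : (QuotientGroup.mk (k * 1) : H ⧸ M₁) = QuotientGroup.mk 1 := h1
    rw [QuotientGroup.eq] at h2
    have h3 : k⁻¹ ∈ M₁ := by simpa using h2
    have h4 : k ∈ M₁ := by simpa using M₁.inv_mem h3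
    exact h4
  have hkerC : ∀ k : H, k ∈ ψ.ker → ∀ w ∈ W, (k : L) * w * (k : L)⁻¹ = w := by
    intro k hk w hw
    haveI : ψ.ker.Normal := inferInstance
    have h1 : (⟨w, hWH hw⟩ : H) * k * (⟨w, hWH hw⟩ : H)⁻¹ ∈ ψ.ker :=
      Subgroup.Normal.conj_mem inferInstance k hk _
    have h2 : w * k * w⁻¹ ∈ M := hkerM _ h1
    have h3 : w * k * w⁻¹ * (k : L)⁻¹ ∈ M := M.mul_mem h2 (M.inv_mem (hkerM k hk))
    have h4 : w * k * w⁻¹ * (k : L)⁻¹ ∈ W := by
      have : w * k * w⁻¹ * (k : L)⁻¹ = w * ((k : L) * w⁻¹ * (k : L)⁻¹) := by group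
      rw [this]
      exact W.mul_mem hw (hWn.conj_mem _ (W.inv_mem hw) k)
    have h5 : w * k * w⁻¹ * (k : L)⁻¹ ∈ M ⊓ W := Subgroup.mem_inf.2 ⟨h3, h4⟩
    rw [hWM, mem_bot] at h5
    have h6 : w * k * w⁻¹ = k := mul_inv_eq_one.1 h5
    calc (k : L) * w * (k : L)⁻¹ = (w * k * w⁻¹) * w * (k : L)⁻¹ := by rw [h6]
      _ = w := by group
  have hkc : Nat.card ψ.ker ≤ Nat.card Φ_M.ker := by
    let g : ψ.ker → Φ_M.ker := fun k => ⟨⟨(k.1 : L), hkerM k.1 k.2⟩, by
      rw [MonoidHom.mem_ker]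
      exact hΦ2 _ (hkerC k.1 k.2)⟩
    apply Nat.card_le_card_of_injective g
    intro a b hab
    have h1 := congrArg (fun z : Φ_M.ker => (z.1 : L)) hab
    exact Subtype.ext (Subtype.ext h1)
  have hψs : Function.Surjective ψ := by
    rw [← MonoidHom.range_eq_top]
    apply Subgroup.eq_top_of_card_eq
    apply le_antisymm (Subgroup.card_le_card_group _)
    rw [Nat.card_perm, hT]
    have h1 := ψ.ker.card_mul_index
    rw [Subgroup.index_ker, hcardH, ← hKc] at h1
    have h2 : 0 < Nat.card ψ.ker := Nat.card_pos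
    have h3 : Nat.factorial 4 = 24 := rfl
    rw [h3]
    by_contra hlt
    push Not at hlt
    have h4 : Nat.card ψ.ker * Nat.card ψ.range < Nat.card ψ.ker * 24 :=
      Nat.mul_lt_mul_of_pos_left hlt h2
    have h5 : Nat.card ψ.ker * 24 ≤ Nat.card Φ_M.ker * 24 := Nat.mul_le_mul_right _ hkc
    nlinarith
  refine ⟨H, e'.permCongrHom.toMonoidHom.comp ψ, ?_⟩
  exact e'.permCongrHom.surjective.comp hψs

end Core

section Main

variable {G : Type*} [Group G] [Finite G]

/-- If `W` has order four, and there are elements of `N(W)` acting on `W` with order three and two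
respectively, then `S₄` is involved in `G`. -/
theorem involves_S4 (W : Subgroup G) (hW : Nat.card W = 4) (l t : G)
    (hl : l ∈ normalizer (W : Set G)) (ht : t ∈ normalizer (W : Set G))
    (hl1 : ∃ w ∈ W, l * w * l⁻¹ ≠ w) (hl3 : ∀ w ∈ W, l ^ 3 * w * (l ^ 3)⁻¹ = w)
    (ht1 : ∃ w ∈ W, t * w * t⁻¹ ≠ w) (ht2 : ∀ w ∈ W, t ^ 2 * w * (t ^ 2)⁻¹ = w) :
    Cfsg.Involves (Perm (Fin 4)) G := by
  classical
  set N : Subgroup G := normalizer (W : Set G) with hN
  set X := {w : G // w ∈ W ∧ w ≠ 1} with hX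
  have hnorm : ∀ (n : N) (w : G), w ∈ W → (n : G) * w * (n : G)⁻¹ ∈ W := fun n w hw =>
    (Subgroup.mem_normalizer_iff.1 n.2 w).1 hw
  have hnorm' : ∀ (n : N) (w : G), w ∈ W → (n : G)⁻¹ * w * (n : G) ∈ W := fun n w hw => by
    have := hnorm n⁻¹ w hw
    simpa using this
  -- the permutation action
  let Φ₀ : N →* Perm X := MonoidHom.mk' (fun n =>
    { toFun := fun w => ⟨(n : G) * w.1 * (n : G)⁻¹, hnorm n _ w.2.1, fun h => w.2.2 (by
        calc w.1 = (n : G)⁻¹ * ((n : G) * w.1 * (n : G)⁻¹) * (n : G) := by group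
          _ = 1 := by rw [h]; group)⟩
      invFun := fun w => ⟨(n : G)⁻¹ * w.1 * (n : G), hnorm' n _ w.2.1, fun h => w.2.2 (by
        calc w.1 = (n : G) * ((n : G)⁻¹ * w.1 * (n : G)) * (n : G)⁻¹ := by group
          _ = 1 := by rw [h]; group)⟩
      left_inv := fun w => Subtype.ext (by simp only; group)
      right_inv := fun w => Subtype.ext (by simp only; group) }) (by
    intro a b
    ext w
    simp only [Perm.coe_mul, Function.comp_apply, Equiv.coe_fn_mk, Subgroup.coe_mul]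
    group)
  have hΦ₀ : ∀ (n : N) (w : X), ((Φ₀ n w).1 : G) = (n : G) * w.1 * (n : G)⁻¹ := fun n w => rfl
  -- three points
  have hXc : Nat.card X = 3 := by
    have h1 : Nat.card X = Set.ncard ((W : Set G) \ {1}) := by
      have : X = ↥((W : Set G) \ {1}) := by
        simp only [hX]
        rfl
      rw [this]
      exact Nat.card_coe_set_eq _
    rw [h1, Set.ncard_diff_singleton_of_mem W.one_mem]
    have h2 : Set.ncard (W : Set G) = 4 := by
      rw [← hW]
      exact Nat.card_coe_set_eq (W : Set G)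
    rw [h2]
  let e : X ≃ Fin 3 := Finite.equivFinOfCardEq hXc
  let Φ : N →* Perm (Fin 3) := e.permCongrHom.toMonoidHom.comp Φ₀
  have hΦ : ∀ (n : N) (w : X), Φ n (e w) = e (Φ₀ n w) := by
    intro n w
    show e (Φ₀ n (e.symm (e w))) = e (Φ₀ n w)
    rw [e.symm_apply_apply]
  have hone : ∀ n : N, (∀ w ∈ W, (n : G) * w * (n : G)⁻¹ = w) → Φ n = 1 := by
    intro n hn
    apply Equiv.ext
    intro x
    obtain ⟨w, rfl⟩ := e.surjective x
    rw [hΦ]
    show e (Φ₀ n w) = e w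
    congr 1
    apply Subtype.ext
    rw [hΦ₀]
    exact hn _ w.2.1
  have hne : ∀ n : N, (∃ w ∈ W, (n : G) * w * (n : G)⁻¹ ≠ w) → Φ n ≠ 1 := by
    rintro n ⟨w, hw, hnw⟩ h
    have hw1 : w ≠ 1 := by
      rintro rfl
      simp at hnw
    have h1 := hΦ n ⟨w, hw, hw1⟩
    rw [h] at h1
    simp only [Perm.coe_one, id_eq] at h1
    have h2 := e.injective h1
    have h3 := congrArg Subtype.val h2
    rw [hΦ₀] at h3
    exact hnw h3.symm
  set l' : N := ⟨l, hl⟩ with hl'
  set t' : N := ⟨t, ht⟩ with ht'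
  have hol : orderOf (Φ l') = 3 := by
    haveI : Fact (Nat.Prime 3) := ⟨Nat.prime_three⟩
    apply orderOf_eq_prime
    · rw [← map_pow]
      apply hone
      intro w hw
      exact hl3 w hw
    · exact hne _ hl1
  have hot : orderOf (Φ t') = 2 := by
    haveI : Fact (Nat.Prime 2) := ⟨Nat.prime_two⟩
    apply orderOf_eq_prime
    · rw [← map_pow]
      apply hone
      intro w hw
      exact ht2 w hw
    · exact hne _ ht1
  have hsurj : Function.Surjective Φ := by
    rw [← MonoidHom.range_eq_top]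
    apply Subgroup.eq_top_of_card_eq
    have h1 : 3 ∣ Nat.card Φ.range := by
      have := Subgroup.orderOf_dvd_natCard Φ.range (x := Φ l') ⟨_, rfl⟩
      rwa [hol] at this
    have h2 : 2 ∣ Nat.card Φ.range := by
      have := Subgroup.orderOf_dvd_natCard Φ.range (x := Φ t') ⟨_, rfl⟩
      rwa [hot] at this
    have h3 : 6 ∣ Nat.card Φ.range := by
      have : 3 * 2 ∣ Nat.card Φ.range := Nat.Coprime.mul_dvd_of_dvd_of_dvd (by norm_num) h1 h2
      simpa using this
    have h4 : Nat.card (Perm (Fin 3)) = 6 := by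
      rw [Nat.card_perm]; simp; rfl
    have h5 : Nat.card Φ.range ≤ Nat.card (Perm (Fin 3)) := Subgroup.card_le_card_group _
    rw [h4] at h5 ⊢
    have h6 := Nat.le_of_dvd (Nat.card_pos) h3
    omega
  -- apply the core
  haveI hWn : (W.subgroupOf N).Normal := Subgroup.normal_in_normalizer
  have hWc : Nat.card (W.subgroupOf N) = 4 := by
    rw [← hW]
    exact Nat.card_congr (Subgroup.subgroupOfEquivOfLe Subgroup.le_normalizer).toEquiv
  obtain ⟨H, f, hf⟩ := core_S4 (W.subgroupOf N) hWc Φ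
    (fun g hg => hone g (fun w hw => by
      have := hg ⟨w, Subgroup.le_normalizer hw⟩ (Subgroup.mem_subgroupOf.2 hw)
      exact congrArg Subtype.val this))
    (fun g w hw hw1 hgw => by
      refine ⟨e ⟨w.1, Subgroup.mem_subgroupOf.1 hw, fun h => hw1 (Subtype.ext h)⟩, ?_⟩
      rw [hΦ]
      congr 1
      apply Subtype.ext
      rw [hΦ₀]
      exact congrArg Subtype.val hgw)
    hsurj
  exact CfsgLib.Fusion.involves_of_surj_inj f hf (N.subtype.comp H.subtype)
    (N.subtype_injective.comp H.subtype_injective)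

end Main

end CfsgLib.SFour
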