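import Mathlib
import Cfsg.Agent.Lib.Solv.Fit
import Cfsg.Agent.Lib.Local.CoprimeGen
import Cfsg.Agent.Lib.H3.Wreath2
import Cfsg.Agent.Lib.H3.FourConn
import Cfsg.Agent.Lib.H3.Sidki

/-! # Offenders in solvable groups contain transvections -/

set_option autoImplicit false

namespace CfsgLib.Transv2

open Subgroup

section Struct

variable {Γ : Type*} [Group Γ] [Finite Γ]

/-- Reduction of an elementary abelian group acting faithfully on an odd-order group to a single
inverted element. -/
theorem struct (E F : Subgroup Γ) (hcomm : ∀ a ∈ E, ∀ b ∈ E, a * b = b * a)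
    (hinv : ∀ e ∈ E, e * e = 1) (hF : ¬ 2 ∣ Nat.card F) (hnorm : E ≤ normalizer (F : Set Γ))
    (hfaith : ∀ e ∈ E, (∀ f ∈ F, e * f = f * e) → e = 1) (hne : E ≠ ⊥) :
    ∃ (D : Subgroup Γ) (a y : Γ), D ≤ E ∧ a ∈ E ∧ a ∉ D ∧ (∀ e ∈ E, e ∈ D ∨ e * a ∈ D) ∧ y ∈ F ∧
      y ≠ 1 ∧ (∀ d ∈ D, d * y = y * d) ∧ a * y * a⁻¹ = y⁻¹ := by
  classical
  haveI : Fact (Nat.Prime 2) := ⟨Nat.prime_two⟩
  set 𝓓 : Set (Subgroup Γ) := {D | D ≤ E ∧ ¬ ∀ f ∈ F, (∀ d ∈ D, d * f = f * d) →
    ∀ e ∈ E, e * f = f * e} with h𝓓
  have hbot : (⊥ : Subgroup Γ) ∈ 𝓓 := by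
    refine ⟨bot_le, fun h => hne ?_⟩
    rw [eq_bot_iff]
    intro e he
    rw [mem_bot]
    apply hfaith e he
    intro f hf
    apply h f hf _ e he
    intro d hd
    rw [mem_bot.1 hd]; simp
  obtain ⟨D, hD⟩ := (Set.toFinite 𝓓).exists_maximal ⟨⊥, hbot⟩
  obtain ⟨hDE, hDn⟩ := hD.1
  push Not at hDn
  obtain ⟨f, hfF, hfD, a, haE, haf⟩ := hDn
  have haD : a ∉ D := fun h => haf (hfD a h)
  have ha2 : a * a = 1 := hinv a haE
  have hai : a⁻¹ = a := inv_eq_of_mul_eq_one_left ha2
  refine ⟨D, a, f⁻¹ * (a * f * a⁻¹), hDE, haE, haD, ?_, ?_, ?_, ?_, ?_⟩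
  · intro e he
    by_contra hcon
    push Not at hcon
    obtain ⟨heD, heaD⟩ := hcon
    have he2 := hinv e he
    have hae : a * e = e * a := hcomm a haE e he
    have ha1 : a ≠ 1 := fun h => haD (h ▸ D.one_mem)
    have he1 : e ≠ 1 := fun h => heD (h ▸ D.one_mem)
    have hane : a ≠ e := by
      intro h
      apply heaD
      rw [← h, ha2]
      exact D.one_mem
    set U : Subgroup Γ := CfsgLib.Wreath.four a e ha2 he2 hae with hU
    have hUk : IsKleinFour U := CfsgLib.Wreath.klein_four ha1 he1 hane
    have hUE : U ≤ E := by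
      intro u hu
      rcases hu with h | h | h | h <;> rw [h]
      · exact E.one_mem
      · exact haE
      · exact he
      · exact E.mul_mem haE he
    have hUnc : ¬ IsCyclic U := by
      haveI := hUk
      exact IsKleinFour.not_isCyclic
    have hUel : Cfsg.IsElementaryAbelian 2 U := by
      refine ⟨⟨⟨fun x y => Subtype.ext (hcomm _ (hUE x.2) _ (hUE y.2))⟩⟩, ?_⟩
      intro x hx
      rw [pow_two]
      exact hinv x (hUE hx)
    set R : Subgroup Γ := F ⊓ centralizer (D : Set Γ) with hR
    have hRF : R ≤ F := inf_le_left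
    have hRc : ¬ 2 ∣ Nat.card R := fun h => hF (h.trans (Subgroup.card_dvd_of_le hRF))
    have hconjR : ∀ u ∈ E, ∀ r ∈ R, u * r * u⁻¹ ∈ R := by
      intro u hu r hr
      obtain ⟨hr1, hr2⟩ := Subgroup.mem_inf.1 hr
      refine Subgroup.mem_inf.2 ⟨(Subgroup.mem_normalizer_iff.1 (hnorm hu) r).1 hr1, ?_⟩
      rw [Subgroup.mem_centralizer_iff]
      intro d hd
      have hd1 : d * r = r * d := (Subgroup.mem_centralizer_iff.1 hr2 d hd)
      have hdu : d * u = u * d := hcomm d (hDE hd) u hu
      have hdu' : d * u⁻¹ = u⁻¹ * d := hcomm d (hDE hd) u⁻¹ (E.inv_mem hu)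
      calc d * (u * r * u⁻¹) = (d * u) * r * u⁻¹ := by group
        _ = u * (d * r) * u⁻¹ := by rw [hdu]; group
        _ = u * r * (d * u⁻¹) := by rw [hd1]; group
        _ = u * r * u⁻¹ * d := by rw [hdu']; group
    have hUnorm : U ≤ normalizer (R : Set Γ) := by
      intro u hu
      rw [Subgroup.mem_normalizer_iff]
      intro r
      refine ⟨hconjR u (hUE hu) r, fun h => ?_⟩
      have := hconjR u⁻¹ (E.inv_mem (hUE hu)) _ h
      simpa [mul_assoc] using this
    have hgen : R ≤ centralizer (E : Set Γ) := by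
      apply CfsgLib.Local.gen_centralizers U R _ hUel hUnc hRc hUnorm
      intro u hu hu1 r hr
      obtain ⟨hr1, hr2⟩ := Subgroup.mem_inf.1 hr
      obtain ⟨hrF, hrD⟩ := Subgroup.mem_inf.1 hr1
      have huD : u ∉ D := by
        rcases hu with h | h | h | h
        · exact absurd h hu1
        · rw [h]; exact haD
        · rw [h]; exact heD
        · rw [h, hae]; exact heaD
      have huE : u ∈ E := hUE hu
      set D' : Subgroup Γ := D ⊔ zpowers u with hD'
      have hDD' : D ≤ D' := le_sup_left
      have huD' : u ∈ D' := (le_sup_right : zpowers u ≤ D') (mem_zpowers u)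
      have hD'E : D' ≤ E := sup_le hDE ((zpowers_le).2 huE)
      have hnot : D' ∉ 𝓓 := by
        intro h
        have := hD.2 h hDD'
        exact huD (this huD')
      have h3 : ∀ f ∈ F, (∀ d ∈ D', d * f = f * d) → ∀ e ∈ E, e * f = f * e := by
        by_contra hcon
        exact hnot ⟨hD'E, hcon⟩
      have hrD' : D' ≤ centralizer ({r} : Set Γ) := by
        refine sup_le ?_ ((zpowers_le).2 ?_)
        · intro d hd
          rw [Subgroup.mem_centralizer_singleton_iff]
          exact Subgroup.mem_centralizer_iff.1 hrD d hd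
        · rw [Subgroup.mem_centralizer_singleton_iff]
          have := Subgroup.mem_centralizer_singleton_iff.1 hr2
          exact this.symm
      rw [Subgroup.mem_centralizer_iff]
      intro e' he'
      have := h3 r hrF (fun d hd => by
        have := Subgroup.mem_centralizer_singleton_iff.1 (hrD' hd)
        exact this) e' he'
      exact this
    have hfR : f ∈ R := by
      refine Subgroup.mem_inf.2 ⟨hfF, ?_⟩
      rw [Subgroup.mem_centralizer_iff]
      intro d hd
      exact hfD d hd
    exact haf (Subgroup.mem_centralizer_iff.1 (hgen hfR) a haE)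
  · exact F.mul_mem (F.inv_mem hfF) ((Subgroup.mem_normalizer_iff.1 (hnorm haE) f).1 hfF)
  · intro h
    apply haf
    have h1 : a * f * a⁻¹ = f := by
      have := inv_mul_eq_one.1 h
      exact this.symm
    rw [← h1]
    calc a * (a * f * a⁻¹) = (a * a) * f * a⁻¹ := by group
      _ = f * a⁻¹ := by rw [ha2, one_mul]
      _ = a * f * a⁻¹ * a⁻¹ := by
        rw [h1]
      _ = a * f * a⁻¹ * a := by rw [hai]
  · intro d hd
    have h1 : d * f = f * d := hfD d hd
    have h2 : d * a = a * d := hcomm d (hDE hd) a haE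
    have h3 : d * a⁻¹ = a⁻¹ * d := by rw [hai, h2]
    have h4 : d * f⁻¹ = f⁻¹ * d := by
      rw [mul_inv_eq_iff_eq_mul, mul_assoc, h1, ← mul_assoc, inv_mul_cancel, one_mul]
    calc d * (f⁻¹ * (a * f * a⁻¹)) = (d * f⁻¹) * (a * f * a⁻¹) := by group
      _ = f⁻¹ * (d * a) * f * a⁻¹ := by rw [h4]; group
      _ = f⁻¹ * a * (d * f) * a⁻¹ := by rw [h2]; group
      _ = f⁻¹ * a * f * (d * a⁻¹) := by rw [h1]; group
      _ = f⁻¹ * (a * f * a⁻¹) * d := by rw [h3]; group
  · rw [hai]
    calc a * (f⁻¹ * (a * f * a)) * a = (a * f⁻¹ * a) * f * (a * a) := by group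
      _ = (a * f⁻¹ * a) * f := by rw [ha2, mul_one]
      _ = (f⁻¹ * (a * f * a))⁻¹ := by
        rw [mul_inv_rev, mul_inv_rev, mul_inv_rev, inv_inv, hai]
        group

end Struct

section Act

variable {V : Type*} [Group V] [Finite V]

/-- The fixed points of an automorphism. -/
def fixOf (h : MulAut V) : Subgroup V where
  carrier := {v | h v = v}
  mul_mem' := fun {a b} ha hb => by
    show h (a * b) = a * b
    rw [map_mul, ha, hb]
  one_mem' := map_one h
  inv_mem' := fun {a} ha => by
    show h a⁻¹ = a⁻¹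
    rw [map_inv, ha]

/-- The common fixed points of a subgroup of automorphisms. -/
def fixs (E : Subgroup (MulAut V)) : Subgroup V where
  carrier := {v | ∀ e ∈ E, e v = v}
  mul_mem' := fun {a b} ha hb e he => by
    rw [map_mul, ha e he, hb e he]
  one_mem' := fun e _ => map_one e
  inv_mem' := fun {a} ha e he => by
    rw [map_inv, ha e he]

lemma mem_fixOf {h : MulAut V} {v : V} : v ∈ fixOf h ↔ h v = v := Iff.rfl
lemma mem_fixs {E : Subgroup (MulAut V)} {v : V} : v ∈ fixs E ↔ ∀ e ∈ E, e v = v := Iff.rfl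

/-- An odd-order automorphism commuting with a `2`-group `C` and trivial on `C_V(C)` is trivial. -/
theorem y_trivial (hc : ∀ u v : V, u * v = v * u) (hV : ∀ v : V, v * v = 1) (y : MulAut V)
    (hy : Odd (orderOf y)) (C : Subgroup (MulAut V)) (hC : IsPGroup 2 C)
    (hCy : ∀ c ∈ C, c * y = y * c) (hfix : ∀ v ∈ fixs C, y v = v) : y = 1 := by
  classical
  haveI : Fact (Nat.Prime 2) := ⟨Nat.prime_two⟩
  letI : CommGroup V := { (inferInstance : Group V) with mul_comm := hc }
  set m := orderOf y with hm
  have hpow : ∀ (c : MulAut V) (i : ℕ) (v : V), c * y = y * c → c ((y ^ i) v) = (y ^ i) (c v) := by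
    intro c i v h
    have h1 : c * y ^ i = y ^ i * c := (Commute.pow_right (show Commute c y from h) i).eq
    have := congrArg (fun z : MulAut V => z v) h1
    simpa using this
  let e : V →* V :=
    { toFun := fun v => ∏ i ∈ Finset.range m, (y ^ i) v
      map_one' := by simp
      map_mul' := fun u v => by
        simp only [map_mul]
        exact Finset.prod_mul_distrib }
  have he : ∀ v, e v = ∏ i ∈ Finset.range m, (y ^ i) v := fun v => rfl
  have hec : ∀ c ∈ C, ∀ v, e (c v) = c (e v) := by
    intro c hc' v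
    rw [he, he, map_prod]
    apply Finset.prod_congr rfl
    intro i _
    exact (hpow c i v (hCy c hc')).symm
  have hey : ∀ v, e (y v) = e v := by
    intro v
    rw [he, he]
    have h1 := Finset.prod_range_succ (fun i => (y ^ i) v) m
    have h2 := Finset.prod_range_succ' (fun i => (y ^ i) v) m
    rw [h1] at h2
    have h3 : (y ^ m) v = v := by
      rw [hm, pow_orderOf_eq_one]; rfl
    rw [h3] at h2
    simp only [pow_zero, MulAut.one_apply] at h2
    have h4 : ∏ i ∈ Finset.range m, (y ^ i) v = ∏ i ∈ Finset.range m, (y ^ (i + 1)) v :=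
      mul_right_cancel h2
    rw [h4]
    apply Finset.prod_congr rfl
    intro i _
    rw [pow_succ]
    rfl
  have hefix : ∀ v, y v = v → e v = v := by
    intro v hv
    have h1 : ∀ i : ℕ, (y ^ i) v = v := by
      intro i
      induction i with
      | zero => simp
      | succ n ih =>
        rw [pow_succ]
        show (y ^ n) (y v) = v
        rw [hv, ih]
    rw [he, Finset.prod_congr rfl (fun i _ => h1 i), Finset.prod_const, Finset.card_range]
    obtain ⟨k, hk⟩ := hy
    rw [hk, pow_succ, pow_mul, pow_two, hV, one_pow, one_mul]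
  -- the kernel is trivial
  have hker : e.ker = ⊥ := by
    by_contra hne
    obtain ⟨⟨v, hv⟩, hv1⟩ := (Subgroup.ne_bot_iff_exists_ne_one.1 hne)
    have hv1' : v ≠ 1 := fun h => hv1 (Subtype.ext h)
    have hdvd : 2 ∣ Nat.card e.ker := by
      have h1 : orderOf v = 2 := orderOf_eq_prime (by rw [pow_two]; exact hV v) hv1'
      have h2 := Subgroup.orderOf_dvd_natCard e.ker hv
      rwa [h1] at h2
    have hinv : ∀ c ∈ C, ∀ u ∈ e.ker, c u ∈ e.ker := by
      intro c hc' u hu
      rw [MonoidHom.mem_ker] at hu ⊢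
      rw [hec c hc', hu, map_one]
    letI act : MulAction C e.ker :=
      { smul := fun c u => ⟨(c : MulAut V) u, hinv c c.2 u u.2⟩
        one_smul := fun u => Subtype.ext rfl
        mul_smul := fun a b u => Subtype.ext rfl }
    have hone : (1 : e.ker) ∈ MulAction.fixedPoints C e.ker := by
      intro c
      apply Subtype.ext
      exact map_one (c : MulAut V)
    obtain ⟨b, hb, hne1⟩ := hC.exists_fixed_point_of_prime_dvd_card_of_fixed_point (α := e.ker)
      hdvd hone
    have hbfix : (b : V) ∈ fixs C := by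
      intro c hc'
      have := hb ⟨c, hc'⟩
      exact congrArg Subtype.val this
    have h1 := hfix _ hbfix
    have h2 := hefix _ h1
    have h3 : e (b : V) = 1 := b.2
    apply hne1
    apply Subtype.ext
    rw [← h2, h3]
    rfl
  have hinj : Function.Injective e := (MonoidHom.ker_eq_bot_iff e).1 hker
  apply MulEquiv.ext
  intro v
  exact hinj (hey v)

/-- An odd-order automorphism whose square fixes `v` fixes `v`. -/
lemma odd_fix {y : MulAut V} (hy : Odd (orderOf y)) {v : V} (h : y (y v) = v) : y v = v := by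
  obtain ⟨k, hk⟩ := hy
  have h1 : ∀ j : ℕ, ((y * y) ^ j) v = v := by
    intro j
    induction j with
    | zero => simp
    | succ n ih =>
      rw [pow_succ]
      show ((y * y) ^ n) ((y * y) v) = v
      have : (y * y) v = v := h
      rw [this, ih]
  have h2 : (y * y) ^ (k + 1) = y := by
    rw [← pow_two, ← pow_mul]
    have : 2 * (k + 1) = orderOf y + 1 := by omega
    rw [this, pow_succ, pow_orderOf_eq_one, one_mul]
  have h3 := h1 (k + 1)
  rwa [h2] at h3

/-- Reduction of an offender to a single transvection. -/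
theorem reduce (hc : ∀ u v : V, u * v = v * u) (hV : ∀ v : V, v * v = 1)
    (F : Subgroup (MulAut V)) (hF : ¬ 2 ∣ Nat.card F) :
    ∀ (k : ℕ) (E : Subgroup (MulAut V)), Nat.card E ≤ k → E ≤ normalizer (F : Set (MulAut V)) →
      (∀ a ∈ E, ∀ b ∈ E, a * b = b * a) → (∀ e ∈ E, e * e = 1) →
      (∀ e ∈ E, (∀ f ∈ F, e * f = f * e) → e = 1) → E ≠ ⊥ →
      Nat.card V ≤ Nat.card E * Nat.card (fixs E) →
      ∃ a ∈ E, a ≠ 1 ∧ Nat.card V ≤ 2 * Nat.card (fixOf a) := by
  classical
  intro k
  induction k with
  | zero =>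
    intro E hE
    have : 0 < Nat.card E := Nat.card_pos
    omega
  | succ k ih =>
    intro E hEk hnorm hcomm hinv hfaith hne hoff
    obtain ⟨D, a, y, hDE, haE, haD, hcases, hyF, hy1, hyD, hya⟩ :=
      struct E F hcomm hinv hF hnorm hfaith hne
    have hyodd : Odd (orderOf y) := by
      rw [← Nat.not_even_iff_odd]
      intro h
      exact hF (h.two_dvd.trans (Subgroup.orderOf_dvd_natCard F hyF))
    have ha2 := hinv a haE
    have ha1 : a ≠ 1 := fun h => haD (h ▸ D.one_mem)
    have hao : orderOf a = 2 := by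
      haveI : Fact (Nat.Prime 2) := ⟨Nat.prime_two⟩
      exact orderOf_eq_prime (by rw [pow_two]; exact ha2) ha1
    have hEc : Nat.card E ≤ 2 * Nat.card D := by
      have hnormD : zpowers a ≤ normalizer (D : Set (MulAut V)) :=
        CfsgLib.FourConn.le_norm_of_comm (fun x hx d hd =>
          hcomm x ((zpowers_le.2 haE) hx) d (hDE hd))
      have h1 := CfsgLib.FourConn.card_sup_mul_inf hnormD
      have hle : E ≤ zpowers a ⊔ D := by
        intro e he
        rcases hcases e he with h | h
        · exact (le_sup_right : D ≤ zpowers a ⊔ D) h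
        · have : e = (e * a) * a⁻¹ := by group
          rw [this]
          exact mul_mem ((le_sup_right : D ≤ zpowers a ⊔ D) h)
            ((le_sup_left : zpowers a ≤ zpowers a ⊔ D) (inv_mem (mem_zpowers a)))
      have h2 : Nat.card E ≤ Nat.card (zpowers a ⊔ D : Subgroup (MulAut V)) :=
        Subgroup.card_le_of_le hle
      rw [Nat.card_zpowers, hao] at h1
      have h3 : 0 < Nat.card (zpowers a ⊓ D : Subgroup (MulAut V)) := Nat.card_pos
      nlinarith
    by_cases hD0 : D = ⊥
    · subst hD0
      rw [Subgroup.card_bot] at hEc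
      refine ⟨a, haE, ha1, ?_⟩
      have h1 : Nat.card (fixs E) ≤ Nat.card (fixOf a) :=
        Subgroup.card_le_of_le (fun v hv => hv a haE)
      calc Nat.card V ≤ Nat.card E * Nat.card (fixs E) := hoff
        _ ≤ 2 * Nat.card (fixOf a) := Nat.mul_le_mul (by omega) h1
    · have hDcomm : ∀ x ∈ D, ∀ z ∈ D, x * z = z * x := fun x hx z hz =>
        hcomm x (hDE hx) z (hDE hz)
      by_cases hoffD : Nat.card V ≤ Nat.card D * Nat.card (fixs D)
      · have hlt : Nat.card D < Nat.card E := by
          by_contra hcon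
          push Not at hcon
          have := Subgroup.eq_of_le_of_card_ge hDE hcon
          exact haD (this ▸ haE)
        obtain ⟨a', ha', h1, h2⟩ := ih D (by omega) (hDE.trans hnorm) hDcomm
          (fun e he => hinv e (hDE he)) (fun e he => hfaith e (hDE he)) hD0 hoffD
        exact ⟨a', hDE ha', h1, h2⟩
      · exfalso
        push Not at hoffD
        have hfle : fixs E ≤ fixs D := fun v hv e he => hv e (hDE he)
        have hDpos : 0 < Nat.card D := Nat.card_pos
        have hlt : Nat.card (fixs D) < 2 * Nat.card (fixs E) := by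
          have h1 : Nat.card D * Nat.card (fixs D) < Nat.card E * Nat.card (fixs E) :=
            lt_of_lt_of_le hoffD hoff
          have h2 : Nat.card E * Nat.card (fixs E) ≤ (2 * Nat.card D) * Nat.card (fixs E) :=
            Nat.mul_le_mul_right _ hEc
          have h3 : Nat.card D * Nat.card (fixs D) < Nat.card D * (2 * Nat.card (fixs E)) := by
            calc Nat.card D * Nat.card (fixs D) < Nat.card E * Nat.card (fixs E) := h1
              _ ≤ (2 * Nat.card D) * Nat.card (fixs E) := h2
              _ = Nat.card D * (2 * Nat.card (fixs E)) := by ring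
          exact lt_of_mul_lt_mul_left h3 (Nat.zero_le _)
        have hdvd := Subgroup.card_dvd_of_le hfle
        obtain ⟨d, hd⟩ := hdvd
        have hEpos : 0 < Nat.card (fixs E) := Nat.card_pos
        have hd1 : d = 1 := by
          have h2 : d < 2 := by
            rw [hd] at hlt
            have : Nat.card (fixs E) * d < Nat.card (fixs E) * 2 := by
              rw [mul_comm (Nat.card (fixs E)) 2]; exact hlt
            exact lt_of_mul_lt_mul_left this (Nat.zero_le _)
          have h3 : d ≠ 0 := by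
            rintro rfl
            have : 0 < Nat.card (fixs D) := Nat.card_pos
            omega
          omega
        have heq : fixs E = fixs D := by
          apply Subgroup.eq_of_le_of_card_ge hfle
          rw [hd, hd1, mul_one]
        have hay : a * y = y⁻¹ * a := by
          rw [← hya]; group
        have htriv : y = 1 := by
          apply y_trivial hc hV y hyodd D
          · intro ⟨d, hd⟩
            refine ⟨1, Subtype.ext ?_⟩
            show d ^ 2 ^ 1 = 1
            rw [pow_one, pow_two]
            exact hinv d (hDE hd)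
          · intro c hc'
            exact hyD c hc'
          · intro v hv
            have h1 : y v ∈ fixs D := by
              intro d hd
              have h2 : d * y = y * d := hyD d hd
              have h3 := congrArg (fun z : MulAut V => z v) h2
              simp only [MulAut.mul_apply] at h3
              rw [h3, hv d hd]
            have h2 : a (y v) = y v := by
              rw [← heq] at h1
              exact h1 a haE
            have h3 : a v = v := by
              rw [← heq] at hv
              exact hv a haE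
            have h4 := congrArg (fun z : MulAut V => z v) hay
            simp only [MulAut.mul_apply] at h4
            rw [h2, h3] at h4
            apply odd_fix hyodd
            rw [h4]
            exact y.apply_symm_apply v
        exact hy1 htriv

/-- A transvection and an inverted odd-order automorphism give a natural `S₃`-module of order 4. -/
theorem transvection_section (hc : ∀ u v : V, u * v = v * u) (hV : ∀ v : V, v * v = 1)
    (a y : MulAut V) (ha : a * a = 1) (hya : a * y * a⁻¹ = y⁻¹) (hy : Odd (orderOf y)) (hy1 : y ≠ 1)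
    (hcard : Nat.card V ≤ 2 * Nat.card (fixOf a)) :
    ∃ W : Subgroup V, Nat.card W = 4 ∧ (∀ w ∈ W, y w ∈ W ∧ y⁻¹ w ∈ W ∧ a w ∈ W) ∧
      (∃ w ∈ W, y w ≠ w) ∧ (∀ w ∈ W, y (y (y w)) = w) ∧ (∃ w ∈ W, a w ≠ w) := by
  classical
  haveI : Fact (Nat.Prime 2) := ⟨Nat.prime_two⟩
  letI : CommGroup V := { (inferInstance : Group V) with mul_comm := hc }
  have hai : a⁻¹ = a := inv_eq_of_mul_eq_one_left ha
  have hay : a * y = y⁻¹ * a := by
    rw [← hya]; group
  have hayv : ∀ v, a (y v) = y⁻¹ (a v) := fun v => by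
    have := congrArg (fun z : MulAut V => z v) hay
    simpa only [MulAut.mul_apply] using this
  set z : MulAut V := y⁻¹ * y⁻¹ with hz
  set a' : MulAut V := y * a * y⁻¹ with ha'
  have hya' : a * y * a = y⁻¹ := by
    have := hya
    rwa [hai] at this
  have hzaa : z = a * a' := by
    rw [hz, ha', ← mul_assoc, ← mul_assoc, hya']
  have hzv : ∀ v, z v = y⁻¹ (y⁻¹ v) := fun v => rfl
  have hiy : ∀ v, y⁻¹ (y v) = v := fun v => MulAut.inv_apply_self _ _ _
  have hyi : ∀ v, y (y⁻¹ v) = v := fun v => MulAut.apply_inv_self _ _ _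
  -- the commutator map
  let δ : V →* V :=
    { toFun := fun v => z v * v
      map_one' := by simp
      map_mul' := fun u v => by
        simp only [map_mul]
        exact mul_mul_mul_comm _ _ _ _ }
  have hδ : ∀ v, δ v = z v * v := fun v => rfl
  set W : Subgroup V := δ.range with hW
  have hmemW : ∀ v, δ v ∈ W := fun v => ⟨v, rfl⟩
  set I : Subgroup V := fixOf a with hI
  set I' : Subgroup V := fixOf a' with hI'
  have hcI' : Nat.card I ≤ Nat.card I' := by
    let g : I → I' := fun v => ⟨y v, by
      show y (a (y⁻¹ (y v))) = y v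
      rw [hiy]
      have : a (v : V) = v := v.2
      rw [this]⟩
    apply Nat.card_le_card_of_injective g
    intro u v huv
    have := congrArg Subtype.val huv
    exact Subtype.ext (y.injective this)
  have hIpos : 0 < Nat.card I := Nat.card_pos
  have hI'pos : 0 < Nat.card I' := Nat.card_pos
  have hidx : I.index ≤ 2 := by
    have h1 := I.card_mul_index
    have h2 : Nat.card I * I.index ≤ Nat.card I * 2 := by
      rw [h1, mul_comm]; exact hcard
    exact Nat.le_of_mul_le_mul_left h2 hIpos
  have hidx' : I'.index ≤ 2 := by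
    have h1 := I'.card_mul_index
    have h2 : Nat.card I' * I'.index ≤ Nat.card I' * 2 := by
      rw [h1, mul_comm]; exact hcard.trans (by omega)
    exact Nat.le_of_mul_le_mul_left h2 hI'pos
  have hker : I ⊓ I' ≤ δ.ker := by
    intro v hv
    obtain ⟨h1, h2⟩ := Subgroup.mem_inf.1 hv
    rw [MonoidHom.mem_ker, hδ, hzaa]
    have h3 : (a * a') v = a (a' v) := rfl
    have h4 : a' v = v := h2
    have h5 : a v = v := h1
    rw [h3, h4, h5, hV]
  have hWle : Nat.card W ≤ 4 := by
    rw [← Subgroup.index_ker]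
    have h1 : δ.ker.index ∣ (I ⊓ I').index := Subgroup.index_dvd_of_le hker
    have h2 : (I ⊓ I').index ≠ 0 := Subgroup.index_ne_zero_of_finite
    have h3 := Nat.le_of_dvd (Nat.pos_of_ne_zero h2) h1
    have h4 : (I ⊓ I').index ≤ I.index * I'.index := Subgroup.index_inf_le
    have h5 : I.index * I'.index ≤ 2 * 2 := Nat.mul_le_mul hidx hidx'
    omega
  have hmove : ∃ w ∈ W, y w ≠ w := by
    by_contra hcon
    push Not at hcon
    have hyinv : ∀ w ∈ W, y⁻¹ w = w := by
      intro w hw
      have := hiy w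
      rwa [hcon w hw] at this
    have h1 : ∀ v, z (z v) = v := by
      intro v
      have h2 : δ (δ v) = 1 := by
        rw [hδ (δ v), hzv (δ v), hyinv _ (hmemW v), hyinv _ (hmemW v), hV]
      rw [hδ (δ v), hδ v, map_mul] at h2
      have h3 : z (z v) * z v * (z v * v) = z (z v) * (z v * z v) * v := by
        simp only [mul_assoc]
      rw [h3, hV, mul_one] at h2
      have h4 : z (z v) = v⁻¹ := eq_inv_of_mul_eq_one_left h2
      rw [h4]
      exact inv_eq_of_mul_eq_one_left (hV v)
    have hzz : z * z = 1 := by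
      apply MulEquiv.ext
      intro v
      exact h1 v
    have h4 : y ^ 4 = 1 := by
      have : (y ^ 4)⁻¹ = 1 := by
        have e : (y ^ 4)⁻¹ = z * z := by
          rw [hz]; group
        rw [e, hzz]
      exact inv_eq_one.1 this
    have h5 : orderOf y ∣ 4 := orderOf_dvd_of_pow_eq_one h4
    have hcop : Nat.Coprime (orderOf y) 4 := by
      have : Nat.Coprime (orderOf y) (2 ^ 2) := Nat.Coprime.pow_right 2 hy.coprime_two_right
      simpa using this
    have h6 : orderOf y = 1 := Nat.Coprime.eq_one_of_dvd hcop h5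
    exact hy1 (orderOf_eq_one_iff.1 h6)
  obtain ⟨w₀, hw₀W, hw₀⟩ := hmove
  have hw₀1 : w₀ ≠ 1 := by
    rintro rfl
    exact hw₀ (map_one y)
  have hyw₀1 : y w₀ ≠ 1 := fun h => hw₀1 (by
    have := hiy w₀
    rw [h, map_one] at this
    exact this.symm)
  have hWyinv : ∀ w ∈ W, y w ∈ W ∧ y⁻¹ w ∈ W := by
    rintro _ ⟨v, rfl⟩
    have hzc : z * y = y * z := by rw [hz]; group
    have hzc' : z * y⁻¹ = y⁻¹ * z := by rw [hz, mul_assoc]
    have h1 : ∀ u, z (y u) = y (z u) := fun u => by
      have := congrArg (fun f : MulAut V => f u) hzc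
      simpa only [MulAut.mul_apply] using this
    have h2 : ∀ u, z (y⁻¹ u) = y⁻¹ (z u) := fun u => by
      have := congrArg (fun f : MulAut V => f u) hzc'
      simpa only [MulAut.mul_apply] using this
    constructor
    · refine ⟨y v, ?_⟩
      rw [hδ, hδ, map_mul, h1]
    · refine ⟨y⁻¹ v, ?_⟩
      rw [hδ, hδ, map_mul, h2]
  have hWa : ∀ w ∈ W, a w ∈ W := by
    rintro _ ⟨v, rfl⟩
    refine ⟨y (y (a v)), ?_⟩
    have hayi : ∀ u, a (y⁻¹ u) = y (a u) := by
      intro u
      have h1 := hayv (y⁻¹ u)
      rw [hyi] at h1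
      rw [h1, hyi]
    rw [hδ, hδ, hzv, hzv, hiy, hiy, map_mul, hayi, hayi]
    exact hc _ _
  have hcardW : Nat.card W = 4 := by
    have hP : IsPGroup 2 W := by
      intro w
      refine ⟨1, Subtype.ext ?_⟩
      show (w : V) ^ 2 ^ 1 = 1
      rw [pow_one, pow_two]
      exact hV _
    obtain ⟨j, hj⟩ := IsPGroup.iff_card.1 hP
    have hge : 3 ≤ Nat.card W := by
      have hsub : (({1, w₀, y w₀} : Finset V) : Set V) ⊆ (W : Set V) := by
        intro t ht
        simp only [Finset.coe_insert, Finset.coe_singleton, Set.mem_insert_iff,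
          Set.mem_singleton_iff] at ht
        rcases ht with rfl | rfl | rfl
        · exact W.one_mem
        · exact hw₀W
        · exact (hWyinv _ hw₀W).1
      have h1 := Set.ncard_le_ncard hsub (Set.toFinite _)
      rw [Set.ncard_coe_finset] at h1
      have h2 : (W : Set V).ncard = Nat.card W := (Nat.card_coe_set_eq (W : Set V)).symm
      have h3 : ({1, w₀, y w₀} : Finset V).card = 3 :=
        Finset.card_eq_three.2 ⟨1, w₀, y w₀, hw₀1.symm, hyw₀1.symm, hw₀.symm, rfl⟩
      omega
    rw [hj] at hge hWle ⊢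
    have hj2 : j = 2 := by
      by_contra hne
      rcases Nat.lt_or_ge j 2 with h | h
      · interval_cases j <;> omega
      · have h3 : 3 ≤ j := by omega
        have : 2 ^ 3 ≤ 2 ^ j := Nat.pow_le_pow_right (by norm_num) h3
        omega
    rw [hj2]
    norm_num
  have hy3 : ∀ w ∈ W, y (y (y w)) = w := by
    intro w hw
    by_cases h1 : y w = w
    · rw [h1, h1, h1]
    · have hw1 : w ≠ 1 := by
        rintro rfl
        exact h1 (map_one y)
      have hinj1 : ∀ u, y u = 1 → u = 1 := fun u hu => by
        have := hiy u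
        rw [hu, map_one] at this
        exact this.symm
      have hyw : y w ≠ 1 := fun h => hw1 (hinj1 _ h)
      have hyyw : y (y w) ≠ 1 := fun h => hyw (hinj1 _ h)
      have h2 : y (y w) ≠ w := fun h => h1 (odd_fix hy h)
      have h3 : y (y w) ≠ y w := fun h => h1 (y.injective h)
      have hm1 : y w ∈ W := (hWyinv _ hw).1
      have hm2 : y (y w) ∈ W := (hWyinv _ hm1).1
      have hm3 : y (y (y w)) ∈ W := (hWyinv _ hm2).1
      have hfc : ({1, w, y w, y (y w)} : Finset V).card = 4 := by
        rw [Finset.card_insert_of_notMem, Finset.card_insert_of_notMem,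
          Finset.card_insert_of_notMem, Finset.card_singleton]
        · simp only [Finset.mem_singleton]
          exact h3.symm
        · simp only [Finset.mem_insert, Finset.mem_singleton, not_or]
          exact ⟨fun h => h1 h.symm, h2.symm⟩
        · simp only [Finset.mem_insert, Finset.mem_singleton, not_or]
          exact ⟨hw1.symm, hyw.symm, hyyw.symm⟩
      have hset : (({1, w, y w, y (y w)} : Finset V) : Set V) = (W : Set V) := by
        apply Set.eq_of_subset_of_ncard_le
        · intro t ht
          simp only [Finset.coe_insert, Finset.coe_singleton, Set.mem_insert_iff,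
            Set.mem_singleton_iff] at ht
          rcases ht with rfl | rfl | rfl | rfl
          · exact W.one_mem
          · exact hw
          · exact hm1
          · exact hm2
        · rw [Set.ncard_coe_finset, hfc]
          have h2 : (W : Set V).ncard = Nat.card W := (Nat.card_coe_set_eq (W : Set V)).symm
          rw [h2, hcardW]
        · exact Set.toFinite _
      have hmem : y (y (y w)) ∈ (W : Set V) := hm3
      rw [← hset] at hmem
      simp only [Finset.coe_insert, Finset.coe_singleton, Set.mem_insert_iff,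
        Set.mem_singleton_iff] at hmem
      rcases hmem with h | h | h | h
      · exact absurd (hinj1 _ h) hyyw
      · exact h
      · exact absurd (y.injective h) h2
      · exact absurd (y.injective (y.injective h)) h1
  have hamove : ∃ w ∈ W, a w ≠ w := by
    by_contra hcon
    push Not at hcon
    apply hw₀
    have h1 : a (y w₀) = y w₀ := hcon _ (hWyinv _ hw₀W).1
    have h2 : a w₀ = w₀ := hcon _ hw₀W
    have h3 := hayv w₀
    rw [h1, h2] at h3
    apply odd_fix hy
    rw [h3, hyi]
  exact ⟨W, hcardW, fun w hw => ⟨(hWyinv w hw).1, (hWyinv w hw).2, hWa w hw⟩, ⟨w₀, hw₀W, hw₀⟩, hy3,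
    hamove⟩

/-- The main module-theoretic statement: an offender in a solvable group with trivial `O₂` gives a
natural `S₃`-module of order four. -/
theorem core (hc : ∀ u v : V, u * v = v * u) (hV : ∀ v : V, v * v = 1) (H : Subgroup (MulAut V))
    [hsol : Group.IsSolvable H] (hO : Cfsg.pCore 2 H = ⊥) (E : Subgroup (MulAut V)) (hEH : E ≤ H)
    (hcomm : ∀ a ∈ E, ∀ b ∈ E, a * b = b * a) (hinv : ∀ e ∈ E, e * e = 1) (hE1 : E ≠ ⊥)
    (hoff : Nat.card V ≤ Nat.card E * Nat.card (fixs E)) :
    ∃ (y a : MulAut V) (W : Subgroup V), y ∈ H ∧ a ∈ H ∧ Nat.card W = 4 ∧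
      (∀ w ∈ W, y w ∈ W ∧ y⁻¹ w ∈ W ∧ a w ∈ W) ∧ a * a = 1 ∧
      (∃ w ∈ W, y w ≠ w) ∧ (∀ w ∈ W, y (y (y w)) = w) ∧ (∃ w ∈ W, a w ≠ w) := by
  classical
  haveI : Fact (Nat.Prime 2) := ⟨Nat.prime_two⟩
  set F₀ : Subgroup H := Cfsg.fittingSubgroup H with hF₀
  set F : Subgroup (MulAut V) := F₀.map H.subtype with hF
  have hF₀le : F₀ ≤ Cfsg.pPrimeCore 2 H := by
    rw [hF₀, CfsgLib.Solv.fitting_eq_iSup_pCore]
    refine iSup_le fun q => ?_
    haveI : Fact (q : ℕ).Prime := ⟨q.2⟩
    by_cases hq : (q : ℕ) = 2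
    · rw [hq, hO]
      exact bot_le
    · exact CfsgLib.Solv.pCore_le_pPrimeCore hq
  have hcopF₀ : ¬ 2 ∣ Nat.card F₀ := by
    intro h
    have h1 : Nat.card F₀ ∣ Nat.card (Cfsg.pPrimeCore 2 H) := Subgroup.card_dvd_of_le hF₀le
    have h2 := CfsgLib.Solv.pPrimeCore_coprime (G := H) 2
    have h3 : 2 ∣ Nat.card (Cfsg.pPrimeCore 2 H) := h.trans h1
    have h4 := Nat.Coprime.eq_one_of_dvd h2.symm h3
    omega
  have hFc : Nat.card F = Nat.card F₀ := Subgroup.card_map_of_injective H.subtype_injective
  have hFodd : ¬ 2 ∣ Nat.card F := by rwa [hFc]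
  have hnorm : E ≤ normalizer (F : Set (MulAut V)) := by
    intro e he
    have hconj : ∀ (h : H) (f : MulAut V), f ∈ F → (h : MulAut V) * f * (h : MulAut V)⁻¹ ∈ F := by
      rintro h _ ⟨f, hf, rfl⟩
      refine ⟨h * f * h⁻¹, ?_, rfl⟩
      haveI : F₀.Normal := CfsgLib.Solv.fittingSubgroup_normal'
      exact Subgroup.Normal.conj_mem inferInstance f hf h
    rw [Subgroup.mem_normalizer_iff]
    intro f
    refine ⟨hconj ⟨e, hEH he⟩ f, fun h => ?_⟩
    have := hconj ⟨e, hEH he⟩⁻¹ _ h
    simpa [mul_assoc] using this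
  have hfaith : ∀ e ∈ E, (∀ f ∈ F, e * f = f * e) → e = 1 := by
    intro e he hcf
    have h1 : (⟨e, hEH he⟩ : H) ∈ centralizer (F₀ : Set H) := by
      rw [Subgroup.mem_centralizer_iff]
      intro f hf
      apply Subtype.ext
      exact (hcf _ ⟨f, hf, rfl⟩).symm
    have h2 := CfsgLib.Solv.centralizer_fitting_le h1
    have h3 : orderOf (⟨e, hEH he⟩ : H) ∣ Nat.card F₀ := Subgroup.orderOf_dvd_natCard F₀ h2
    have h4 : Odd (orderOf (⟨e, hEH he⟩ : H)) := by
      rw [← Nat.not_even_iff_odd]
      intro h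
      exact hcopF₀ (h.two_dvd.trans h3)
    have h5 : (⟨e, hEH he⟩ : H) = 1 := by
      apply CfsgLib.Sidki.odd_sq_eq_one h4
      exact Subtype.ext (hinv e he)
    exact congrArg Subtype.val h5
  obtain ⟨a, haE, ha1, hacard⟩ := reduce hc hV F hFodd _ E le_rfl hnorm hcomm hinv hfaith hE1 hoff
  have ha2 := hinv a haE
  have haH := hEH haE
  have hanot : (⟨a, haH⟩ : H) ∉ Cfsg.pCore 2 H := by
    rw [hO, mem_bot]
    intro h
    exact ha1 (congrArg Subtype.val h)
  obtain ⟨y, hy, hy1, hya⟩ := CfsgLib.Sidki.exists_inverted (v := (⟨a, haH⟩ : H))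
    (Subtype.ext ha2) hanot
  have hy' : Odd (orderOf (y : MulAut V)) := by
    rwa [← Subgroup.orderOf_coe] at hy
  have hy1' : (y : MulAut V) ≠ 1 := fun h => hy1 (Subtype.ext h)
  have hya' : a * (y : MulAut V) * a⁻¹ = (y : MulAut V)⁻¹ := congrArg Subtype.val hya
  obtain ⟨W, h1, h2, h3, h4, h5⟩ := transvection_section hc hV a y ha2 hya' hy' hy1' hacard
  exact ⟨y, a, W, y.2, haH, h1, h2, ha2, h3, h4, h5⟩

end Act

end CfsgLib.Transv2
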