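import Mathlib
import Cfsg.Agent.Lib.H3.SFour
import Cfsg.Agent.Lib.H3.Transv2
import Cfsg.Agent.Lib.PLocal.CoreLift
import Cfsg.Agent.Lib.Solv.Fit

/-! # `J_e(S)` in solvable `S₄`-free groups with a Sylow `2`-subgroup of class at most two -/

set_option autoImplicit false

namespace CfsgLib.JeMain

open Subgroup Cfsg
open scoped commutatorElement

universe u

variable {G : Type u} [Group G]

lemma conj_iter (g x u : G) (h : g * x * g⁻¹ = u * x) (hu : g * u * g⁻¹ = u) (k : ℕ) :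
    g ^ k * x * (g ^ k)⁻¹ = u ^ k * x := by
  induction k with
  | zero => simp
  | succ n ih =>
    have e1 : g ^ (n + 1) * x * (g ^ (n + 1))⁻¹ = g * (g ^ n * x * (g ^ n)⁻¹) * g⁻¹ := by
      rw [pow_succ']; group
    have e2 : g * u ^ n * g⁻¹ = u ^ n := by rw [← conj_pow, hu]
    rw [e1, ih]
    calc g * (u ^ n * x) * g⁻¹ = (g * u ^ n * g⁻¹) * (g * x * g⁻¹) := by group
      _ = u ^ n * (u * x) := by rw [e2, h]
      _ = u ^ (n + 1) * x := by rw [pow_succ]; group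

lemma eq_one_of_pows (x : G) (m k : ℕ) (hm : Odd m) (h1 : x ^ m = 1) (h2 : x ^ (2 ^ k) = 1) :
    x = 1 := by
  have h3 : orderOf x ∣ m := orderOf_dvd_of_pow_eq_one h1
  have h4 : orderOf x ∣ 2 ^ k := orderOf_dvd_of_pow_eq_one h2
  have hc : Nat.Coprime m (2 ^ k) := Nat.Coprime.pow_right k (Nat.coprime_two_right.mpr hm)
  have : orderOf x = 1 := Nat.eq_one_of_dvd_coprimes hc h3 h4
  exact orderOf_eq_one_iff.mp this

theorem claim_odd (Q : Subgroup G) [hQn : Q.Normal] (hQ2 : IsPGroup 2 Q)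
    (hCQ : centralizer (Q : Set G) ≤ Q) (g : G) (m : ℕ) (hm : Odd m) (hgm : g ^ m = 1)
    (hgV : ∀ v ∈ centralizer (Q : Set G), v * v = 1 → g * v * g⁻¹ = v)
    (hgY : ∀ q ∈ Q, g * q * g⁻¹ * q⁻¹ ∈ centralizer (Q : Set G)) : g = 1 := by
  set C := centralizer (Q : Set G) with hC
  haveI hCn : C.Normal := Subgroup.normal_centralizer
  have hCc : ∀ a ∈ C, ∀ b ∈ C, a * b = b * a := fun a ha b hb =>
    (mem_centralizer_iff.1 hb a (hCQ ha))
  have hfix : ∀ (k : ℕ) (z : G), z ∈ C → z ^ (2 ^ k) = 1 → g * z * g⁻¹ = z := by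
    intro k
    induction k with
    | zero =>
      intro z _ h
      have : z = 1 := by simpa using h
      simp [this]
    | succ n ih =>
      intro z hz h
      have h2 : g * (z * z) * g⁻¹ = z * z := by
        apply ih (z * z) (C.mul_mem hz hz)
        rw [← sq, ← pow_mul, ← pow_succ']; exact h
      set u := g * z * g⁻¹ * z⁻¹ with hu
      have hzg : g * z * g⁻¹ ∈ C := hCn.conj_mem z hz g
      have huC : u ∈ C := C.mul_mem hzg (C.inv_mem hz)
      have hu2 : u * u = 1 := by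
        have hcomm := hCc z⁻¹ (C.inv_mem hz) _ hzg
        calc u * u = g * z * g⁻¹ * (z⁻¹ * (g * z * g⁻¹)) * z⁻¹ := by rw [hu]; group
          _ = g * z * g⁻¹ * ((g * z * g⁻¹) * z⁻¹) * z⁻¹ := by rw [hcomm]
          _ = (g * (z * z) * g⁻¹) * (z * z)⁻¹ := by group
          _ = 1 := by rw [h2]; group
      have hgu := hgV u huC hu2
      have he : g * z * g⁻¹ = u * z := by rw [hu]; group
      have hiter := conj_iter g z u he hgu m
      rw [hgm] at hiter
      have hum : u ^ m = 1 := by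
        have : (1 : G) * z * 1⁻¹ = z := by group
        rw [this] at hiter
        exact (mul_eq_right.mp hiter.symm)
      have hu1 : u = 1 := eq_one_of_pows u m 1 hm hum (by rw [pow_one, sq]; exact hu2)
      rw [he, hu1, one_mul]
  have h2Q : ∀ q ∈ Q, ∃ k : ℕ, q ^ (2 ^ k) = 1 := by
    intro q hq
    obtain ⟨k, hk⟩ := hQ2 ⟨q, hq⟩
    exact ⟨k, by simpa using congrArg Subtype.val hk⟩
  have hcen : g ∈ C := by
    refine mem_centralizer_iff.2 fun q hq => ?_
    set u := g * q * g⁻¹ * q⁻¹ with hu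
    have huC : u ∈ C := hgY q hq
    obtain ⟨k, hk⟩ := h2Q u (hCQ huC)
    have hgu := hfix k u huC hk
    have he : g * q * g⁻¹ = u * q := by rw [hu]; group
    have hiter := conj_iter g q u he hgu m
    rw [hgm] at hiter
    have hum : u ^ m = 1 := by
      have : (1 : G) * q * 1⁻¹ = q := by group
      rw [this] at hiter
      exact (mul_eq_right.mp hiter.symm)
    have hu1 : u = 1 := eq_one_of_pows u m k hm hum hk
    have : g * q * g⁻¹ = q := by rw [he, hu1, one_mul]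
    calc q * g = (g * q * g⁻¹) * g := by rw [this]
      _ = g * q := by group
  obtain ⟨k, hk⟩ := h2Q g (hCQ hcen)
  exact eq_one_of_pows g m k hm hgm hk

/-- The kernel of the action on `Q / Z(Q)`. -/
def Ysub (Q : Subgroup G) [hQn : Q.Normal] : Subgroup G where
  carrier := {g | ∀ q ∈ Q, g * q * g⁻¹ * q⁻¹ ∈ centralizer (Q : Set G)}
  mul_mem' := by
    intro a b ha hb q hq
    haveI hCn : (centralizer (Q : Set G)).Normal := Subgroup.normal_centralizer
    have e : a * b * q * (a * b)⁻¹ * q⁻¹ =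
        a * (b * q * b⁻¹ * q⁻¹) * a⁻¹ * (a * q * a⁻¹ * q⁻¹) := by group
    rw [e]
    exact mul_mem (hCn.conj_mem _ (hb q hq) a) (ha q hq)
  one_mem' := by
    intro q _
    simp [one_mem]
  inv_mem' := by
    intro a ha q hq
    haveI hCn : (centralizer (Q : Set G)).Normal := Subgroup.normal_centralizer
    have e : a⁻¹ * q * a⁻¹⁻¹ * q⁻¹ = a⁻¹ * (a * q * a⁻¹ * q⁻¹)⁻¹ * a⁻¹⁻¹ := by group
    rw [e]
    exact hCn.conj_mem _ (inv_mem (ha q hq)) a⁻¹

lemma mem_Ysub {Q : Subgroup G} [hQn : Q.Normal] {g : G} :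
    g ∈ Ysub Q ↔ ∀ q ∈ Q, g * q * g⁻¹ * q⁻¹ ∈ centralizer (Q : Set G) := Iff.rfl

instance Ysub_normal (Q : Subgroup G) [hQn : Q.Normal] : (Ysub Q).Normal := ⟨by
  intro g hg x q hq
  haveI hCn : (centralizer (Q : Set G)).Normal := Subgroup.normal_centralizer
  have e : x * g * x⁻¹ * q * (x * g * x⁻¹)⁻¹ * q⁻¹ =
      x * (g * (x⁻¹ * q * x⁻¹⁻¹) * g⁻¹ * (x⁻¹ * q * x⁻¹⁻¹)⁻¹) * x⁻¹ := by group
  rw [e]
  exact hCn.conj_mem _ (hg _ (hQn.conj_mem q hq x⁻¹)) x⟩

/-- `Ω₁(Z(Q))`, when `C(Q) ≤ Q`. -/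
def Vsub (Q : Subgroup G) (hCQ : centralizer (Q : Set G) ≤ Q) : Subgroup G where
  carrier := {v | v ∈ centralizer (Q : Set G) ∧ v * v = 1}
  mul_mem' := by
    rintro a b ⟨ha, ha2⟩ ⟨hb, hb2⟩
    refine ⟨mul_mem ha hb, ?_⟩
    have hc : a * b = b * a := mem_centralizer_iff.1 hb a (hCQ ha)
    calc a * b * (a * b) = a * (b * a) * b := by group
      _ = a * (a * b) * b := by rw [hc]
      _ = (a * a) * (b * b) := by group
      _ = 1 := by rw [ha2, hb2, one_mul]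
  one_mem' := ⟨one_mem _, by simp⟩
  inv_mem' := by
    rintro a ⟨ha, ha2⟩
    refine ⟨inv_mem ha, ?_⟩
    rw [← mul_inv_rev, ha2, inv_one]

lemma mem_Vsub {Q : Subgroup G} {hCQ : centralizer (Q : Set G) ≤ Q} {v : G} :
    v ∈ Vsub Q hCQ ↔ v ∈ centralizer (Q : Set G) ∧ v * v = 1 := Iff.rfl

instance Vsub_normal (Q : Subgroup G) [hQn : Q.Normal] (hCQ : centralizer (Q : Set G) ≤ Q) :
    (Vsub Q hCQ).Normal := ⟨by
  rintro v ⟨hv, hv2⟩ x
  haveI hCn : (centralizer (Q : Set G)).Normal := Subgroup.normal_centralizer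
  refine ⟨hCn.conj_mem v hv x, ?_⟩
  calc x * v * x⁻¹ * (x * v * x⁻¹) = x * (v * v) * x⁻¹ := by group
    _ = 1 := by rw [hv2]; group⟩

variable [Finite G]

lemma odd_two_part (x : G) : ∃ (a m : ℕ), Odd m ∧ x ^ (2 ^ a * m) = 1 := by
  have h0 : orderOf x ≠ 0 := (orderOf_pos x).ne'
  obtain ⟨a, m, hm, e⟩ := Nat.exists_eq_two_pow_mul_odd h0
  exact ⟨a, m, hm, by rw [← e]; exact pow_orderOf_eq_one x⟩

/-- Every `2`-element of `G` is in a normal subgroup containing a Sylow `2`-subgroup. -/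
lemma two_elt_mem (S : Sylow 2 G) (Y : Subgroup G) [hY : Y.Normal] (hSY : (S : Subgroup G) ≤ Y)
    (x : G) (k : ℕ) (hx : x ^ (2 ^ k) = 1) : x ∈ Y := by
  haveI : Fact (Nat.Prime 2) := ⟨Nat.prime_two⟩
  have hp : IsPGroup 2 (zpowers x) := by
    intro y
    refine ⟨k, Subtype.ext ?_⟩
    obtain ⟨n, hn⟩ := y.2
    show (y : G) ^ (2 ^ k) = 1
    rw [← hn]
    show (x ^ n) ^ (2 ^ k) = 1
    rw [← zpow_natCast, ← zpow_mul, mul_comm, zpow_mul, zpow_natCast, hx, one_zpow]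
  obtain ⟨T, hT⟩ := hp.exists_le_sylow
  obtain ⟨g, hg⟩ := MulAction.exists_smul_eq G S T
  have h1 : ((g • S : Sylow 2 G) : Subgroup G) = (S : Subgroup G).map (MulAut.conj g).toMonoidHom := rfl
  have h2 : x ∈ ((g • S : Sylow 2 G) : Subgroup G) := by
    rw [hg]; exact hT (mem_zpowers x)
  rw [h1] at h2
  obtain ⟨s, hs, rfl⟩ := h2
  exact hY.conj_mem s (hSY hs) g


variable [Group.IsSolvable G]

open CfsgLib.PLocal in
/-- In a solvable group with `O_{2'}(G) = 1`, without sections `S₄`, and with a Sylow `2`-subgroup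
of class at most two, elementary abelian subgroups of maximal order lie in `O₂(G)`. -/
theorem main0 (hbot : pPrimeCore 2 G = ⊥) (hS4 : ¬ Involves (Equiv.Perm (Fin 4)) G)
    (S : Sylow 2 G)
    (hcl : ∀ a ∈ (S : Subgroup G), ∀ b ∈ (S : Subgroup G), ∀ c ∈ (S : Subgroup G), ⁅⁅a, b⁆, c⁆ = 1)
    (A : Subgroup G) (hA : A ∈ maxIn 2 (S : Subgroup G)) : A ≤ pCore 2 G := by
  classical
  haveI : Fact (Nat.Prime 2) := ⟨Nat.prime_two⟩
  by_contra hAQ
  set Q : Subgroup G := pCore 2 G with hQdef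
  haveI hQn : Q.Normal := pCore_normal'
  have hQ2 : IsPGroup 2 Q := pCore_isPGroup
  have hCQ : centralizer (Q : Set G) ≤ Q := CfsgLib.Solv.centralizer_pCore_le 2 hbot
  have hQS : Q ≤ (S : Subgroup G) := pCore_le_sylow S
  haveI hCn : (centralizer (Q : Set G)).Normal := Subgroup.normal_centralizer
  set Y : Subgroup G := Ysub Q with hYdef
  set V₀ : Subgroup G := Vsub Q hCQ with hV₀def
  haveI hV₀n : V₀.Normal := Vsub_normal Q hCQ
  set C₀ : Subgroup G := centralizer (V₀ : Set G) with hC₀def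
  haveI hC₀n : C₀.Normal := Subgroup.normal_centralizer
  have hSY : (S : Subgroup G) ≤ Y := by
    intro s hs q hq
    refine mem_centralizer_iff.2 fun r hr => ?_
    have h1 : ⁅⁅s, q⁆, r⁆ = 1 := hcl s hs q (hQS hq) r (hQS hr)
    have h2 := commutatorElement_eq_one_iff_mul_comm.1 h1
    rw [commutatorElement_def] at h2
    exact h2.symm
  have h2Y : ∀ (x : G) (k : ℕ), x ^ (2 ^ k) = 1 → x ∈ Y := fun x k hx => two_elt_mem S Y hSY x k hx
  have hQC₀ : Q ≤ C₀ := by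
    intro q hq
    refine mem_centralizer_iff.2 fun v hv => ?_
    exact (mem_centralizer_iff.1 hv.1 q hq).symm
  -- odd elements of `Y ⊓ C₀` are trivial
  have hodd : ∀ (w : G) (m : ℕ), Odd m → w ^ m = 1 → w ∈ Y → w ∈ C₀ → w = 1 := by
    intro w m hm hwm hwY hwC
    refine claim_odd Q hQ2 hCQ w m hm hwm (fun v hv hv2 => ?_) hwY
    have h1 : v * w = w * v := mem_centralizer_iff.1 hwC v ⟨hv, hv2⟩
    calc w * v * w⁻¹ = v * w * w⁻¹ := by rw [h1]
      _ = v := by group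
  have hYC : Y ⊓ C₀ ≤ Q := by
    refine CfsgLib.Solv.le_pCore' (p := 2) (Y ⊓ C₀) ?_
    intro x
    obtain ⟨a, m, hm, hx⟩ := odd_two_part (x : G)
    refine ⟨a, Subtype.ext ?_⟩
    show (x : G) ^ (2 ^ a) = 1
    refine hodd _ m hm ?_ (Y.pow_mem x.2.1 _) (C₀.pow_mem x.2.2 _)
    rw [← pow_mul]; exact hx
  -- the action on `V₀`
  set φ : G →* MulAut V₀ := MulAut.conjNormal with hφ
  have hφa : ∀ (g : G) (v : V₀), ((φ g v : V₀) : G) = g * v * g⁻¹ := fun g v =>
    MulAut.conjNormal_apply g v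
  have hφ1 : ∀ g : G, φ g = 1 ↔ g ∈ C₀ := by
    intro g
    constructor
    · intro h
      refine mem_centralizer_iff.2 fun v hv => ?_
      have h1 := hφa g ⟨v, hv⟩
      rw [h] at h1
      have h2 : v = g * v * g⁻¹ := h1
      calc v * g = (g * v * g⁻¹) * g := by rw [← h2]
        _ = g * v := by group
    · intro h
      ext v
      rw [hφa]
      have h1 : (v : G) * g = g * v := mem_centralizer_iff.1 h v v.2
      show g * (v : G) * g⁻¹ = v
      rw [← h1]; group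
  set H : Subgroup (MulAut V₀) := φ.range with hHdef
  haveI hHsol : Group.IsSolvable H := solvable_of_surjective φ.rangeRestrict_surjective
  -- `O₂` of the image is trivial
  have hO : pCore 2 H = ⊥ := by
    set P : Subgroup H := pCore 2 H with hPdef
    haveI hPn : P.Normal := pCore_normal'
    have hP2 : IsPGroup 2 P := pCore_isPGroup
    set L : Subgroup G := P.comap φ.rangeRestrict with hLdef
    haveI hLn : L.Normal := hPn.comap _
    have hL2 : ∀ x ∈ L, ∃ b : ℕ, (φ x) ^ (2 ^ b) = 1 := by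
      intro x hx
      obtain ⟨b, hb⟩ := hP2 ⟨φ.rangeRestrict x, hx⟩
      refine ⟨b, ?_⟩
      have h1 := congrArg (fun t : P => ((t : H) : MulAut V₀)) hb
      simpa using h1
    have hLY : L ⊓ Y ≤ Q := by
      refine CfsgLib.Solv.le_pCore' (p := 2) (L ⊓ Y) ?_
      intro x
      obtain ⟨a, m, hm, hx⟩ := odd_two_part (x : G)
      refine ⟨a, Subtype.ext ?_⟩
      show (x : G) ^ (2 ^ a) = 1
      have hwL : (x : G) ^ (2 ^ a) ∈ L := L.pow_mem x.2.1 _
      obtain ⟨b, hb⟩ := hL2 _ hwL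
      have hwm : ((x : G) ^ (2 ^ a)) ^ m = 1 := by rw [← pow_mul]; exact hx
      have hφw : φ ((x : G) ^ (2 ^ a)) = 1 := by
        refine eq_one_of_pows _ m b hm ?_ hb
        rw [← map_pow, hwm, map_one]
      exact hodd _ m hm hwm (Y.pow_mem x.2.2 _) ((hφ1 _).1 hφw)
    rw [eq_bot_iff]
    intro p hp
    rw [mem_bot]
    obtain ⟨x, hx⟩ := p.2
    have hxe : φ.rangeRestrict x = p := Subtype.ext hx
    have hxL : x ∈ L := by
      show φ.rangeRestrict x ∈ P
      rw [hxe]; exact hp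
    obtain ⟨a, m, hm, hxo⟩ := odd_two_part x
    obtain ⟨b, hb⟩ := hL2 x hxL
    have hxm : x ^ m ∈ L ⊓ Y := ⟨L.pow_mem hxL _, h2Y _ a (by rw [← pow_mul, mul_comm]; exact hxo)⟩
    have h3 : φ (x ^ m) = 1 := (hφ1 _).2 (hQC₀ (hLY hxm))
    have h4 : φ x = 1 := by
      refine eq_one_of_pows _ m b hm ?_ hb
      rw [← map_pow]; exact h3
    apply Subtype.ext
    rw [← hxe]
    exact h4
  -- the offender
  set E : Subgroup (MulAut V₀) := A.map φ with hEdef
  have hAS : A ≤ (S : Subgroup G) := hA.1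
  have hAe : IsElementaryAbelian 2 A := hA.2.1
  have hEH : E ≤ H := Subgroup.map_le_range φ A
  have hEc : ∀ a ∈ E, ∀ b ∈ E, a * b = b * a := by
    rintro _ ⟨a, ha, rfl⟩ _ ⟨b, hb, rfl⟩
    rw [← map_mul, ← map_mul, elemAb_comm hAe ha hb]
  have hEi : ∀ e ∈ E, e * e = 1 := by
    rintro _ ⟨a, ha, rfl⟩
    rw [← map_mul, ← sq, elemAb_pow hAe ha, map_one]
  have hE1 : E ≠ ⊥ := by
    intro hbotE
    apply hAQ
    intro a ha
    apply hYC
    refine ⟨hSY (hAS ha), (hφ1 a).1 ?_⟩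
    have : φ a ∈ E := ⟨a, ha, rfl⟩
    rw [hbotE, mem_bot] at this
    exact this
  set A₀ : Subgroup G := A ⊓ C₀ with hA₀
  have hV₀Q : V₀ ≤ Q := fun v hv => hCQ hv.1
  have hV₀e : IsElementaryAbelian 2 V₀ := by
    rw [isElementaryAbelian_iff]
    refine ⟨fun a ha b hb => ?_, fun a ha => by rw [sq]; exact ha.2⟩
    exact mem_centralizer_iff.1 hb.1 a (hCQ ha.1)
  have hsupe : IsElementaryAbelian 2 (V₀ ⊔ A₀) := by
    refine elemAb_sup hV₀e (elemAb_mono inf_le_left hAe) ?_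
    intro v hv a ha
    exact mem_centralizer_iff.1 ha.2 v hv
  have hsupS : V₀ ⊔ A₀ ≤ (S : Subgroup G) :=
    sup_le (hV₀Q.trans hQS) (inf_le_left.trans hAS)
  have hcard1 : Nat.card (V₀ ⊔ A₀ : Subgroup G) ≤ Nat.card A := hA.2.2 _ hsupS hsupe
  have hcard2 : Nat.card (V₀ ⊔ A₀ : Subgroup G) * Nat.card (V₀ ⊓ A₀ : Subgroup G) =
      Nat.card V₀ * Nat.card A₀ := CfsgLib.FourConn.card_sup_mul_inf (CfsgLib.FourConn.le_norm_of_comm (fun v hv a ha => mem_centralizer_iff.1 ha.2 v hv))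
  have hcard3 : Nat.card A = Nat.card A₀ * Nat.card E := by
    have h1 := Subgroup.card_mul_index (φ.comp A.subtype).ker
    rw [Subgroup.index_ker] at h1
    have h2 : (φ.comp A.subtype).range = E := by
      rw [MonoidHom.range_comp, Subgroup.range_subtype]
    rw [h2] at h1
    have h3 : (φ.comp A.subtype).ker = A₀.subgroupOf A := by
      ext a
      rw [MonoidHom.mem_ker, mem_subgroupOf]
      constructor
      · intro h
        exact ⟨a.2, (hφ1 _).1 h⟩
      · intro h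
        exact (hφ1 _).2 h.2
    rw [h3, card_subgroupOf_of_le (inf_le_left : A₀ ≤ A)] at h1
    exact h1.symm
  have hcard4 : Nat.card (V₀ ⊓ A₀ : Subgroup G) ≤ Nat.card (CfsgLib.Transv2.fixs E) := by
    refine Nat.card_le_card_of_injective
      (fun v : (V₀ ⊓ A₀ : Subgroup G) => (⟨⟨v.1, v.2.1⟩, ?_⟩ : CfsgLib.Transv2.fixs E)) ?_
    · rintro _ ⟨a, ha, rfl⟩
      apply Subtype.ext
      rw [hφa]
      have h1 : a * v.1 = v.1 * a := elemAb_comm hAe ha v.2.2.1
      show a * v.1 * a⁻¹ = v.1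
      rw [h1]; group
    · intro u v huv
      have := congrArg (fun t : CfsgLib.Transv2.fixs E => ((t : V₀) : G)) huv
      exact Subtype.ext this
  have hoff : Nat.card V₀ ≤ Nat.card E * Nat.card (CfsgLib.Transv2.fixs E) := by
    have hA₀pos : 0 < Nat.card A₀ := Nat.card_pos
    have h5 : Nat.card V₀ * Nat.card A₀ ≤ (Nat.card E * Nat.card (CfsgLib.Transv2.fixs E)) * Nat.card A₀ := by
      calc Nat.card V₀ * Nat.card A₀
          = Nat.card (V₀ ⊔ A₀ : Subgroup G) * Nat.card (V₀ ⊓ A₀ : Subgroup G) := hcard2.symm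
        _ ≤ Nat.card A * Nat.card (CfsgLib.Transv2.fixs E) := Nat.mul_le_mul hcard1 hcard4
        _ = (Nat.card E * Nat.card (CfsgLib.Transv2.fixs E)) * Nat.card A₀ := by
            rw [hcard3]; ring
    exact Nat.le_of_mul_le_mul_right h5 hA₀pos
  have hVc : ∀ u v : V₀, u * v = v * u := fun u v =>
    Subtype.ext (elemAb_comm hV₀e u.2 v.2)
  have hV2 : ∀ v : V₀, v * v = 1 := fun v => Subtype.ext v.2.2
  obtain ⟨y, a, W, hyH, haH, hW4, hWinv, ha2, ⟨w₁, hw₁, hw₁y⟩, hy3, ⟨w₂, hw₂, hw₂a⟩⟩ :=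
    CfsgLib.Transv2.core hVc hV2 H hO E hEH hEc hEi hE1 hoff
  obtain ⟨l, rfl⟩ := hyH
  obtain ⟨t, rfl⟩ := haH
  set W₀ : Subgroup G := W.map V₀.subtype with hW₀
  have hW₀4 : Nat.card W₀ = 4 := by
    rw [hW₀, Subgroup.card_map_of_injective V₀.subtype_injective]; exact hW4
  have hconj : ∀ (g : G) (v : V₀), g * (v : G) * g⁻¹ = ((φ g v : V₀) : G) := fun g v =>
    (hφa g v).symm
  refine hS4 (CfsgLib.SFour.involves_S4 W₀ hW₀4 l t ?_ ?_ ?_ ?_ ?_ ?_)
  · refine mem_normalizer_of_conj_le ?_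
    rintro _ ⟨v, hv, rfl⟩
    exact ⟨φ l v, (hWinv v hv).1, (hconj l v).symm⟩
  · refine mem_normalizer_of_conj_le ?_
    rintro _ ⟨v, hv, rfl⟩
    exact ⟨φ t v, (hWinv v hv).2.2, (hconj t v).symm⟩
  · refine ⟨w₁, ⟨w₁, hw₁, rfl⟩, fun h => hw₁y (Subtype.ext ?_)⟩
    rw [← hconj]; exact h
  · rintro _ ⟨v, hv, rfl⟩
    show l ^ 3 * (v : G) * (l ^ 3)⁻¹ = v
    have e : l ^ 3 * (v : G) * (l ^ 3)⁻¹ = l * (l * (l * v * l⁻¹) * l⁻¹) * l⁻¹ := by
      simp only [pow_succ, pow_zero, one_mul]; group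
    rw [e, hconj l v, hconj l (φ l v), hconj l (φ l (φ l v))]
    exact congrArg Subtype.val (hy3 v hv)
  · refine ⟨w₂, ⟨w₂, hw₂, rfl⟩, fun h => hw₂a (Subtype.ext ?_)⟩
    rw [← hconj]; exact h
  · rintro _ ⟨v, hv, rfl⟩
    show t ^ 2 * (v : G) * (t ^ 2)⁻¹ = v
    have e : t ^ 2 * (v : G) * (t ^ 2)⁻¹ = t * (t * v * t⁻¹) * t⁻¹ := by
      simp only [pow_succ, pow_zero, one_mul]; group
    rw [e, hconj t v, hconj t (φ t v)]
    have h7 : φ t (φ t v) = v := by
      have := congrArg (fun f : MulAut V₀ => f v) ha2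
      simpa using this
    exact congrArg Subtype.val h7


open CfsgLib.PLocal in
/-- The case `O_{2'}(G) = 1`: `J_e(S)` is normal in `G`. -/
theorem main1 (hbot : pPrimeCore 2 G = ⊥) (hS4 : ¬ Involves (Equiv.Perm (Fin 4)) G)
    (S : Sylow 2 G)
    (hcl : ∀ a ∈ (S : Subgroup G), ∀ b ∈ (S : Subgroup G), ∀ c ∈ (S : Subgroup G), ⁅⁅a, b⁆, c⁆ = 1) :
    normalizer ((thompsonSubgroupOf 2 (S : Subgroup G)) : Set G) = ⊤ := by
  haveI : Fact (Nat.Prime 2) := ⟨Nat.prime_two⟩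
  have hJ : thompsonSubgroupOf 2 (S : Subgroup G) ≤ pCore 2 G := by
    rw [thompsonOf_eq_sSup_maxIn]
    exact sSup_le fun A hA => main0 hbot hS4 S hcl A hA
  have hQS : pCore 2 G ≤ (S : Subgroup G) := pCore_le_sylow S
  have h1 := thompsonOf_of_le hQS hJ
  have h2 := normalizer_le_normalizer_thompsonOf (p := 2) (pCore 2 G)
  rw [h1] at h2
  haveI hQn : (pCore 2 G).Normal := pCore_normal'
  rw [(normalizer_eq_top_iff).2 hQn] at h2
  exact top_le_iff.1 h2

omit [Finite G] [Group.IsSolvable G] in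
/-- A section of a quotient is a section. -/
theorem involves_of_quotient {H : Type*} [Group H] (N : Subgroup G) [N.Normal]
    (h : Involves H (G ⧸ N)) : Involves H G := by
  obtain ⟨K, R, hR, ⟨e⟩⟩ := h
  let f := QuotientGroup.mk' N
  let W : Subgroup G := K.comap f
  let g : W →* H := e.toMonoidHom.comp
    ((QuotientGroup.mk' (R.subgroupOf K)).comp (f.subgroupComap K))
  have hg : Function.Surjective g :=
    e.surjective.comp ((QuotientGroup.mk'_surjective _).comp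
      (MonoidHom.subgroupComap_surjective_of_surjective f K (QuotientGroup.mk'_surjective N)))
  exact CfsgLib.Fusion.involves_of_surj_inj g hg W.subtype W.subtype_injective

open CfsgLib.PLocal in
theorem main (hS4 : ¬ Involves (Equiv.Perm (Fin 4)) G) (S : Sylow 2 G)
    (hcl : ∀ a ∈ (S : Subgroup G), ∀ b ∈ (S : Subgroup G), ∀ c ∈ (S : Subgroup G), ⁅⁅a, b⁆, c⁆ = 1) :
    normalizer ((thompsonSubgroupOf 2 (S : Subgroup G)) : Set G) ⊔ pPrimeCore 2 G = ⊤ := by
  haveI : Fact (Nat.Prime 2) := ⟨Nat.prime_two⟩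
  set O : Subgroup G := pPrimeCore 2 G with hOdef
  haveI hOn : O.Normal := pPrimeCore_normal'
  set f : G →* G ⧸ O := QuotientGroup.mk' O with hf
  have hfs : Function.Surjective f := QuotientGroup.mk'_surjective O
  set Sb : Sylow 2 (G ⧸ O) := S.mapSurjective hfs with hSb
  have hSbe : (Sb : Subgroup (G ⧸ O)) = (S : Subgroup G).map f := Sylow.coe_mapSurjective hfs S
  have hbot : pPrimeCore 2 (G ⧸ O) = ⊥ := CfsgLib.Solv.pPrimeCore_quotient_eq_bot 2
  have hS4' : ¬ Involves (Equiv.Perm (Fin 4)) (G ⧸ O) := fun h => hS4 (involves_of_quotient O h)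
  have hcl' : ∀ a ∈ (Sb : Subgroup (G ⧸ O)), ∀ b ∈ (Sb : Subgroup (G ⧸ O)),
      ∀ c ∈ (Sb : Subgroup (G ⧸ O)), ⁅⁅a, b⁆, c⁆ = 1 := by
    rw [hSbe]
    rintro _ ⟨a, ha, rfl⟩ _ ⟨b, hb, rfl⟩ _ ⟨c, hc, rfl⟩
    have := congrArg f (hcl a ha b hb c hc)
    simpa [commutatorElement_def] using this
  have hN := main1 hbot hS4' Sb hcl'
  have hJmap : thompsonSubgroupOf 2 (Sb : Subgroup (G ⧸ O)) =
      (thompsonSubgroupOf 2 (S : Subgroup G)).map f := by
    rw [hSbe]
    exact thompsonOf_map f (mk_injOn_sylow S)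
  rw [hJmap] at hN
  set J : Subgroup G := thompsonSubgroupOf 2 (S : Subgroup G) with hJ
  have hJ2 : IsPGroup 2 J := S.isPGroup'.to_le (thompsonOf_le _)
  rw [eq_top_iff]
  intro g _
  have hg : ∀ x ∈ J, g * x * g⁻¹ ∈ O ⊔ J := by
    intro x hx
    have h1 : f g ∈ normalizer ((J.map f : Subgroup (G ⧸ O)) : Set (G ⧸ O)) := by
      rw [hN]; exact mem_top _
    have h2 : f g * f x * (f g)⁻¹ ∈ J.map f :=
      (mem_normalizer_iff.1 h1 (f x)).1 ⟨x, hx, rfl⟩
    obtain ⟨y, hy, hye⟩ := h2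
    have h3 : y⁻¹ * (g * x * g⁻¹) ∈ O := by
      rw [← QuotientGroup.ker_mk' O, MonoidHom.mem_ker]
      have : (QuotientGroup.mk' O) y = f g * f x * (f g)⁻¹ := hye
      rw [map_mul, map_inv, this]
      have h4 : (QuotientGroup.mk' O) (g * x * g⁻¹) = f g * f x * (f g)⁻¹ := by
        rw [map_mul, map_mul, map_inv]
      rw [h4]; group
    have e : g * x * g⁻¹ = y * (y⁻¹ * (g * x * g⁻¹)) := by group
    rw [e, sup_comm]
    exact mul_mem (mem_sup_left hy) (mem_sup_right h3)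
  obtain ⟨o, ho, hn⟩ := exists_normalizing_lift (pPrimeCore_coprime (G := G)) hJ2 hg
  have e : g = (o⁻¹ * g) * (g⁻¹ * o * g) := by group
  rw [e]
  exact mul_mem (mem_sup_left hn) (mem_sup_right (by
    have := hOn.conj_mem o ho g⁻¹
    simpa using this))


theorem main' (hS4 : ¬ Involves (Equiv.Perm (Fin 4)) G) (S : Sylow 2 G)
    (hcl : Subgroup.lowerCentralSeries (S : Subgroup G) 2 = ⊥) :
    normalizer ((thompsonSubgroupOf 2 (S : Subgroup G)) : Set G) ⊔ pPrimeCore 2 G = ⊤ := by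
  refine main hS4 S ?_
  intro a ha b hb c hc
  have h : ⁅⁅a, b⁆, c⁆ ∈ Subgroup.lowerCentralSeries (S : Subgroup G) 2 :=
    Subgroup.commutator_mem_commutator (Subgroup.commutator_mem_commutator ha hb) hc
  rwa [hcl, Subgroup.mem_bot] at h

end CfsgLib.JeMain
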