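import Cfsg.Agent.Lib.H3.ThompGen
import Cfsg.Agent.Lib.H3.SylInter
import Cfsg.Agent.Lib.H3.KleinO2
import Cfsg.Agent.Lib.H3.AbComp
import Cfsg.Agent.Lib.Trans.Basic
import Cfsg.Agent.Lib.Solv.CoprimeSylow
import Cfsg.Agent.Lib.H3.ConjTools
import Cfsg.Agent.Lib.H3.Comp2

/-! # Groups with a modular Sylow 2-subgroup have a normal 2-complement. -/

set_option autoImplicit false
set_option linter.unusedSectionVars false

namespace CfsgLib.Modular

open Subgroup

universe u

variable {G : Type u} [Group G] [Finite G]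

/-- An element of odd order fixing squares and involutions of an abelian invariant subgroup
centralizes it. -/
lemma fix_of_sq {T : Subgroup G} {y : G} (hy : Odd (orderOf y))
    (hab : ∀ a ∈ T, ∀ b ∈ T, a * b = b * a) (hn : ∀ t ∈ T, y * t * y⁻¹ ∈ T)
    (h1 : ∀ t ∈ T, y * (t * t) * y⁻¹ = t * t) (h2 : ∀ t ∈ T, t * t = 1 → y * t * y⁻¹ = t) :
    ∀ t ∈ T, y * t * y⁻¹ = t := by
  intro t ht
  set s := y * t * y⁻¹ with hs
  have hsT : s ∈ T := hn t ht
  set ψ := s * t⁻¹ with hψ
  have hψT : ψ ∈ T := mul_mem hsT (inv_mem ht)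
  have hψ2 : ψ * ψ = 1 := by
    have e1 : s * s = t * t := by
      rw [hs]
      have := h1 t ht
      calc y * t * y⁻¹ * (y * t * y⁻¹) = y * (t * t) * y⁻¹ := by group
        _ = t * t := this
    have c : s * t⁻¹ = t⁻¹ * s := hab _ hsT _ (inv_mem ht)
    calc ψ * ψ = s * t⁻¹ * (t⁻¹ * s) := by rw [hψ, ← c]
      _ = s * (t⁻¹ * t⁻¹) * s := by group
      _ = s * (s⁻¹ * s⁻¹) * s := by
        have : t⁻¹ * t⁻¹ = s⁻¹ * s⁻¹ := by
          rw [← mul_inv_rev, ← mul_inv_rev, e1]
        rw [this]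
      _ = 1 := by group
  have hfix := h2 ψ hψT hψ2
  have hst : s = ψ * t := by rw [hψ]; group
  have hsq : y ^ 2 * t * (y ^ 2)⁻¹ = t := by
    calc y ^ 2 * t * (y ^ 2)⁻¹ = y * (y * t * y⁻¹) * y⁻¹ := by rw [pow_two]; group
      _ = y * (ψ * t) * y⁻¹ := by rw [← hst]
      _ = (y * ψ * y⁻¹) * (y * t * y⁻¹) := by group
      _ = ψ * (ψ * t) := by rw [hfix, ← hst]
      _ = (ψ * ψ) * t := by group
      _ = t := by rw [hψ2, one_mul]
  have hc : Commute t (y ^ 2) := by
    rw [mul_inv_eq_iff_eq_mul] at hsq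
    exact hsq.symm
  have hc2 : Commute t y := CfsgLib.KleinO2.comm_of_pow (Nat.coprime_two_left.2 hy) hc
  rw [hs, ← hc2.eq]
  group

/-- An abelian Sylow 2-subgroup of `M` on whose normalizer all odd elements act trivially gives a
normal 2-complement. -/
lemma complement_of_abelian_sylow (M Q : Subgroup G) (hQM : Q ≤ M) (hQp : IsPGroup 2 Q)
    (hodd : ¬ 2 ∣ Q.relIndex M) (hab : ∀ a ∈ Q, ∀ b ∈ Q, a * b = b * a)
    (hact : ∀ y ∈ M, y ∈ normalizer (Q : Set G) → Odd (orderOf y) → ∀ t ∈ Q, y * t * y⁻¹ = t) :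
    Cfsg.HasNormalPComplement 2 M := by
  haveI : Fact (Nat.Prime 2) := ⟨Nat.prime_two⟩
  have hQ'p : IsPGroup 2 (Q.subgroupOf M) := by
    have h1 : IsPGroup 2 ((Q.subgroupOf M).map M.subtype) := by
      rw [Subgroup.map_subgroupOf_eq_of_le hQM]
      exact hQp
    exact h1.of_equiv (Subgroup.equivMapOfInjective _ M.subtype M.subtype_injective).symm
  let P : Sylow 2 M := hQ'p.toSylow hodd
  apply CfsgLib.Trans.hasNormalPComplement_of_le_centralizer P
  intro y hy
  have hyn : (y : G) ∈ normalizer (Q : Set G) := by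
    apply CfsgLib.CT.mem_normalizer_of_conj_le
    intro a ha
    have h1 : (⟨a, hQM ha⟩ : M) ∈ (P : Subgroup M) := ha
    have h2 := (Subgroup.mem_normalizer_iff.1 hy _).1 h1
    exact h2
  obtain ⟨u, v, huv, hc, ⟨k, hk⟩, hv, hu', hv'⟩ := CfsgLib.Tr.exists_pow_decomp 2 (y : G)
  have hzle : zpowers (y : G) ≤ M := by rw [zpowers_le]; exact y.2
  have hznorm : zpowers (y : G) ≤ normalizer (Q : Set G) := by rw [zpowers_le]; exact hyn
  have hvact := hact v (hzle hv') (hznorm hv') ((Nat.coprime_two_right.1 hv))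
  -- the `2`-part lies in `Q`
  have huQ : u ∈ Q := by
    have hup : IsPGroup 2 (zpowers u) := CfsgLib.CT.isPGroup_zpowers_of_pow hk
    have hRp := CfsgLib.Solv.isPGroup_sup_of_le_normalizer hup hQp (by
      rw [zpowers_le]; exact hznorm hu')
    set R := zpowers u ⊔ Q with hR
    have hQR : Q ≤ R := le_sup_right
    have hRM : R ≤ M := sup_le (by rw [zpowers_le]; exact hzle hu') hQM
    have h1 : Q.relIndex R * R.relIndex M = Q.relIndex M := Subgroup.relIndex_mul_relIndex _ _ _ hQR hRM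
    have h2 : ¬ 2 ∣ Q.relIndex R := fun h => hodd (by rw [← h1]; exact Dvd.dvd.mul_right h _)
    obtain ⟨j, hj⟩ := IsPGroup.iff_card.1 hRp
    have h3 : Q.relIndex R ∣ 2 ^ j := by
      rw [← hj]
      exact Subgroup.index_dvd_card _
    obtain ⟨i, -, hi⟩ := (Nat.dvd_prime_pow Nat.prime_two).1 h3
    have hi0 : i = 0 := by
      by_contra hne
      apply h2
      rw [hi]
      exact dvd_pow_self 2 hne
    rw [hi0, pow_zero] at hi
    have h4 : R ≤ Q := Subgroup.relIndex_eq_one.1 hi
    exact h4 (mem_sup_left (mem_zpowers u))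
  rw [Subgroup.mem_centralizer_iff]
  intro t ht
  have ht' : (t : G) ∈ Q := ht
  apply Subtype.ext
  change (t : G) * (y : G) = (y : G) * t
  rw [← huv]
  have h5 := hvact t ht'
  rw [mul_inv_eq_iff_eq_mul] at h5
  calc (t : G) * (u * v) = (t * u) * v := by group
    _ = (u * t) * v := by rw [hab _ ht' _ huQ]
    _ = u * (t * v) := by group
    _ = u * (v * t) := by rw [← h5]
    _ = u * v * t := by group

/-- A normal 2-complement of a normal subgroup of 2-power index is a normal 2-complement of `G`. -/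
lemma extend_complement (M : Subgroup G) [hM : M.Normal] (hidx : ∃ k, M.index = 2 ^ k)
    (hc : Cfsg.HasNormalPComplement 2 M) : Cfsg.HasNormalPComplement 2 G := by
  haveI : Fact (Nat.Prime 2) := ⟨Nat.prime_two⟩
  obtain ⟨N', hN', hcop, k, hk⟩ := CfsgLib.Trans.hasNormalPComplement_iff.1 hc
  obtain ⟨l, hl⟩ := hidx
  haveI := hN'
  set N := N'.map M.subtype with hN
  have hcard : Nat.card N = Nat.card N' :=
    Nat.card_congr (Subgroup.equivMapOfInjective N' M.subtype M.subtype_injective).symm.toEquiv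
  have hindex : N.index = 2 ^ (k + l) := by
    rw [hN, Subgroup.index_map_subtype, hk, hl, pow_add]
  -- odd elements of `M` lie in `N`
  have hoddin : ∀ x ∈ M, Odd (orderOf x) → x ∈ N := by
    intro x hx hodd
    have h1 : (⟨x, hx⟩ : M) ^ (2 ^ k) ∈ N' := by
      rw [← hk]
      exact Subgroup.pow_index_mem _ _
    have hcopr : (2 ^ k).Coprime (orderOf x) :=
      Nat.Coprime.pow_left k (Nat.coprime_two_left.2 hodd)
    obtain ⟨m, hm⟩ := exists_pow_eq_self_of_coprime hcopr
    rw [← hm]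
    apply pow_mem
    exact ⟨_, h1, rfl⟩
  have hNn : N.Normal := by
    refine ⟨fun n hn g => ?_⟩
    have hnM : n ∈ M := Subgroup.map_subtype_le _ hn
    apply hoddin _ (hM.conj_mem n hnM g)
    have h2 : orderOf (g * n * g⁻¹) = orderOf n := by
      have := (MulAut.conj g).orderOf_eq n
      rwa [MulAut.conj_apply] at this
    rw [h2]
    have h3 : orderOf n ∣ Nat.card N := by
      have := orderOf_dvd_natCard (⟨n, hn⟩ : N)
      rwa [Subgroup.orderOf_mk] at this
    rw [hcard] at h3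
    have h4 : Nat.Coprime (orderOf n) 2 := Nat.Coprime.coprime_dvd_left h3 hcop
    exact Nat.coprime_two_right.1 h4
  exact CfsgLib.Trans.hasNormalPComplement_iff.2 ⟨N, hNn, by rw [hcard]; exact hcop, _, hindex⟩

/-- The main theorem. -/
theorem main (S : Sylow 2 G) (n : ℕ) (hn : 3 ≤ n) (hS : Nat.card ↥(S : Subgroup G) = 2 ^ (n + 1))
    (a b : G) (ha : a ∈ (S : Subgroup G)) (hb : b ∈ (S : Subgroup G))
    (hao : orderOf a = 2 ^ n) (hbo : orderOf b = 2) (hrel : b * a * b⁻¹ = a ^ (2 ^ (n - 1) + 1)) :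
    Cfsg.HasNormalPComplement 2 G := by
  classical
  haveI : Fact (Nat.Prime 2) := ⟨Nat.prime_two⟩
  obtain ⟨m, rfl⟩ : ∃ m, n = m + 3 := ⟨n - 3, by omega⟩
  set z := a ^ (2 ^ (m + 2)) with hz
  have hpow : (2 : ℕ) ^ (m + 3) = 2 * 2 ^ (m + 2) := by rw [pow_succ]; ring
  have hz2 : z * z = 1 := by
    rw [hz, ← pow_add, ← two_mul, ← hpow, ← hao, pow_orderOf_eq_one]
  have hz1 : z ≠ 1 := by
    intro h
    have h1 := orderOf_dvd_of_pow_eq_one h
    rw [hao] at h1
    have h2 := Nat.le_of_dvd (by positivity) h1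
    have h3 : 0 < 2 ^ (m + 2) := by positivity
    omega
  have haz : Commute a z := (Commute.refl a).pow_right _
  have hbab : b * a * b⁻¹ = a * z := by
    rw [hrel, show m + 3 - 1 = m + 2 by omega, pow_succ]
    exact haz.symm.eq
  have hb2 : b * b = 1 := by rw [← pow_two, ← hbo, pow_orderOf_eq_one]
  have hbinv : b⁻¹ = b := inv_eq_of_mul_eq_one_left hb2
  have hb1 : b ≠ 1 := by
    intro h
    rw [h, orderOf_one] at hbo
    omega
  have hzev : ∀ k : ℕ, z ^ (2 * k) = 1 := by
    intro k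
    rw [pow_mul, pow_two, hz2, one_pow]
  have hzodd : ∀ k : ℕ, z ^ (2 * k + 1) = z := by
    intro k
    rw [pow_succ, hzev, one_mul]
  have hbak : ∀ k : ℕ, b * a ^ k * b⁻¹ = a ^ k * z ^ k := by
    intro k
    rw [← conj_pow, hbab, haz.mul_pow]
  have hbev : ∀ k : ℕ, b * a ^ (2 * k) = a ^ (2 * k) * b := by
    intro k
    have := hbak (2 * k)
    rw [hzev, mul_one, mul_inv_eq_iff_eq_mul] at this
    exact this
  have hak : ∀ k : ℕ, a ^ (2 ^ (m + 3) * k) = 1 := by
    intro k
    rw [pow_mul, ← hao, pow_orderOf_eq_one, one_pow]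
  have haz2 : ∀ k : ℕ, (a ^ k) ^ (2 ^ (m + 2)) = z ^ k := by
    intro k
    rw [← pow_mul, mul_comm, pow_mul]
  -- the squares of `a ^ i * b`, `i` odd
  have hsq : ∀ k : ℕ, (a ^ (2 * k + 1) * b) * (a ^ (2 * k + 1) * b)
      = a ^ (2 * (2 * k + 1)) * z := by
    intro k
    have h1 := hbak (2 * k + 1)
    rw [hzodd] at h1
    calc (a ^ (2 * k + 1) * b) * (a ^ (2 * k + 1) * b)
        = a ^ (2 * k + 1) * (b * a ^ (2 * k + 1) * b⁻¹) * (b * b) := by group
      _ = a ^ (2 * k + 1) * (a ^ (2 * k + 1) * z) * 1 := by rw [h1, hb2]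
      _ = a ^ (2 * (2 * k + 1)) * z := by
        rw [mul_one, ← mul_assoc, ← pow_add, ← two_mul]
  have hpowodd : ∀ k : ℕ, (a ^ (2 * k + 1) * b) ^ (2 ^ (m + 2)) = z := by
    intro k
    have h2 : (2 : ℕ) ^ (m + 2) = 2 * 2 ^ (m + 1) := by rw [pow_succ]; ring
    have hc : Commute (a ^ (2 * (2 * k + 1))) z := (haz.pow_left _)
    rw [h2, pow_mul, pow_two, hsq, hc.mul_pow]
    have h3 : z ^ (2 ^ (m + 1)) = 1 := by
      rw [show (2 : ℕ) ^ (m + 1) = 2 * 2 ^ m by rw [pow_succ]; ring, hzev]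
    rw [h3, mul_one, ← pow_mul]
    rw [show 2 * (2 * k + 1) * 2 ^ (m + 1) = (2 * k + 1) * 2 ^ (m + 2) by
      rw [pow_succ 2 (m + 1)]; ring]
    rw [mul_comm, pow_mul, hzodd]
  -- `b` is outside `⟨a⟩`
  have hbA : b ∉ zpowers a := by
    intro h
    obtain ⟨k, rfl⟩ := mem_zpowers_iff.1 h
    have h1 : (a ^ k) * a * (a ^ k)⁻¹ = a := by
      rw [mul_inv_eq_iff_eq_mul]
      exact ((Commute.refl a).zpow_left k).eq
    rw [h1] at hbab
    apply hz1
    have := hbab
    exact (mul_eq_left.1 this.symm)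
  have hAS : zpowers a ≤ (S : Subgroup G) := by rw [zpowers_le]; exact ha
  have hAcard : Nat.card (zpowers a) = 2 ^ (m + 3) := by rw [Nat.card_zpowers, hao]
  have hAi : (zpowers a).relIndex (S : Subgroup G) = 2 := by
    have h1 := Subgroup.card_mul_index ((zpowers a).subgroupOf (S : Subgroup G))
    rw [CfsgLib.Solv.card_subgroupOf_of_le hAS, hAcard, hS] at h1
    have h2 : 2 ^ (m + 3) * (zpowers a).relIndex (S : Subgroup G) = 2 ^ (m + 3) * 2 := by
      rw [Subgroup.relIndex, h1, pow_succ]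
    exact Nat.eq_of_mul_eq_mul_left (by positivity) h2
  -- normal form
  have hnf : ∀ s ∈ (S : Subgroup G), ∃ i : ℕ, s = a ^ i ∨ s = a ^ i * b := by
    intro s hs
    by_cases hsA : s ∈ zpowers a
    · rw [← mem_powers_iff_mem_zpowers] at hsA
      obtain ⟨i, hi⟩ := hsA
      exact ⟨i, Or.inl hi.symm⟩
    · have h1 := Subgroup.mul_mem_iff_of_index_two (H := (zpowers a).subgroupOf (S : Subgroup G))
        hAi (a := ⟨s, hs⟩) (b := ⟨b, hb⟩)
      have h2 : (⟨s, hs⟩ : (S : Subgroup G)) ∉ (zpowers a).subgroupOf (S : Subgroup G) := hsA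
      have h3 : (⟨b, hb⟩ : (S : Subgroup G)) ∉ (zpowers a).subgroupOf (S : Subgroup G) := hbA
      have h4 : (⟨s, hs⟩ : (S : Subgroup G)) * ⟨b, hb⟩ ∈ (zpowers a).subgroupOf (S : Subgroup G) := by
        rw [h1]
        exact iff_of_false h2 h3
      have h5 : s * b ∈ zpowers a := h4
      rw [← mem_powers_iff_mem_zpowers] at h5
      obtain ⟨i, hi⟩ := h5
      refine ⟨i, Or.inr ?_⟩
      have hi' : a ^ i = s * b := hi
      rw [hi', mul_assoc, hb2, mul_one]
  -- parity in the normal form for elements outside `T`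
  set A2 := zpowers (a ^ 2) with hA2
  have hbcomm : ∀ x ∈ A2, ∀ y ∈ zpowers b, x * y = y * x := by
    intro x hx y hy
    have h1 : Commute (a ^ 2) b := by
      have := hbev 1
      rw [mul_one] at this
      exact this.symm
    obtain ⟨i, rfl⟩ := mem_zpowers_iff.1 hx
    obtain ⟨j, rfl⟩ := mem_zpowers_iff.1 hy
    exact (h1.zpow_zpow i j).eq
  set T := A2 ⊔ zpowers b with hT
  have hTmem : ∀ t ∈ T, ∃ k : ℕ, t = a ^ (2 * k) ∨ t = a ^ (2 * k) * b := by
    intro t ht
    obtain ⟨x, hx, y, hy, rfl⟩ := CfsgLib.Comp.mem_sup_of_commute hbcomm ht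
    rw [hA2, ← mem_powers_iff_mem_zpowers] at hx
    obtain ⟨k, rfl⟩ := hx
    have hy' : y = 1 ∨ y = b := by
      rw [← mem_powers_iff_mem_zpowers] at hy
      obtain ⟨j, rfl⟩ := hy
      rcases Nat.even_or_odd' j with ⟨l, rfl | rfl⟩
      · left
        show b ^ (2 * l) = 1
        rw [pow_mul, pow_two, hb2, one_pow]
      · right
        show b ^ (2 * l + 1) = b
        rw [pow_succ, pow_mul, pow_two, hb2, one_pow, one_mul]
    refine ⟨k, ?_⟩
    rcases hy' with h | h
    · left
      rw [h, mul_one]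
      show (a ^ 2) ^ k = _
      rw [← pow_mul]
    · right
      rw [h]
      show (a ^ 2) ^ k * b = _
      rw [← pow_mul]
  have hTS : T ≤ (S : Subgroup G) := by
    apply sup_le
    · rw [hA2, zpowers_le]; exact pow_mem ha 2
    · rw [zpowers_le]; exact hb
  have hbT : b ∈ T := mem_sup_right (mem_zpowers b)
  have hA2T : A2 ≤ T := le_sup_left
  have hA2a : ∀ k : ℕ, a ^ (2 * k) ∈ A2 := by
    intro k
    rw [pow_mul]
    exact pow_mem (mem_zpowers _) k
  have hbA2 : b ∉ A2 := fun h => hbA ((zpowers_le.2 (pow_mem (mem_zpowers a) 2)) h)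
  -- `T` has exponent dividing `2 ^ (m + 2)`
  have hTexp : ∀ t ∈ T, t ^ (2 ^ (m + 2)) = 1 := by
    intro t ht
    obtain ⟨k, rfl | rfl⟩ := hTmem t ht
    · rw [← pow_mul, show 2 * k * 2 ^ (m + 2) = 2 ^ (m + 3) * k by
        rw [pow_succ 2 (m + 2)]; ring, hak]
    · have h1 : Commute (a ^ (2 * k)) b := (hbev k).symm
      rw [h1.mul_pow, ← pow_mul, show 2 * k * 2 ^ (m + 2) = 2 ^ (m + 3) * k by
        rw [pow_succ 2 (m + 2)]; ring, hak, one_mul]
      rw [show (2 : ℕ) ^ (m + 2) = 2 * 2 ^ (m + 1) by rw [pow_succ]; ring, pow_mul, pow_two, hb2,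
        one_pow]
  have haT : a ∉ T := by
    intro h
    have := hTexp a h
    exact hz1 this
  have hA2card : Nat.card A2 = 2 ^ (m + 2) := by
    rw [hA2, Nat.card_zpowers, orderOf_pow, hao, Nat.gcd_eq_right (dvd_pow_self 2 (by omega)), hpow]
    simp
  have hA2S : A2 ≤ (S : Subgroup G) := hA2T.trans hTS
  have hA2i : A2.relIndex (S : Subgroup G) = 4 := by
    have h1 := Subgroup.card_mul_index (A2.subgroupOf (S : Subgroup G))
    rw [CfsgLib.Solv.card_subgroupOf_of_le hA2S, hA2card, hS] at h1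
    have h2 : 2 ^ (m + 2) * A2.relIndex (S : Subgroup G) = 2 ^ (m + 2) * 4 := by
      rw [Subgroup.relIndex, h1]; ring
    exact Nat.eq_of_mul_eq_mul_left (by positivity) h2
  have hTi : T.relIndex (S : Subgroup G) = 2 := by
    have h1 := Subgroup.relIndex_mul_relIndex A2 T (S : Subgroup G) hA2T hTS
    rw [hA2i] at h1
    have h2 : A2.relIndex T ≠ 1 := by
      intro h
      exact hbA2 (Subgroup.relIndex_eq_one.1 h hbT)
    have h3 : T.relIndex (S : Subgroup G) ≠ 1 := by
      intro h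
      exact haT (Subgroup.relIndex_eq_one.1 h ha)
    have h4 : T.relIndex (S : Subgroup G) ∣ 2 ^ 2 := ⟨A2.relIndex T, by rw [mul_comm]; exact h1.symm⟩
    obtain ⟨i, hi, hi'⟩ := (Nat.dvd_prime_pow Nat.prime_two).1 h4
    interval_cases i
    · rw [pow_zero] at hi'; exact absurd hi' h3
    · simpa using hi'
    · rw [hi'] at h1
      have : A2.relIndex T = 1 := by omega
      exact absurd this h2
  -- elements outside `T`
  have hoddel : ∀ y ∈ (S : Subgroup G), y ∉ T → y ^ (2 ^ (m + 2)) = z := by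
    intro y hy hyT
    obtain ⟨i, rfl | rfl⟩ := hnf y hy
    · rcases Nat.even_or_odd' i with ⟨l, rfl | rfl⟩
      · exact absurd (hA2T (hA2a l)) hyT
      · rw [haz2, hzodd]
    · rcases Nat.even_or_odd' i with ⟨l, rfl | rfl⟩
      · exact absurd (mul_mem (hA2T (hA2a l)) hbT) hyT
      · exact hpowodd l
  have hord : ∀ y ∈ (S : Subgroup G), y ∉ T → 2 ^ (m + 3 - 1) < orderOf y := by
    intro y hy hyT
    by_contra hcon
    push Not at hcon
    rw [show m + 3 - 1 = m + 2 by omega] at hcon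
    obtain ⟨k, hk⟩ := S.2 ⟨y, hy⟩
    have h1 : y ^ 2 ^ k = 1 := by
      have := congrArg Subtype.val hk
      simpa using this
    obtain ⟨e, he, he'⟩ := (Nat.dvd_prime_pow Nat.prime_two).1 (orderOf_dvd_of_pow_eq_one h1)
    rw [he'] at hcon
    have h2 : e ≤ m + 2 := (Nat.pow_le_pow_iff_right (by norm_num)).1 hcon
    have h3 : orderOf y ∣ 2 ^ (m + 2) := by
      rw [he']
      exact pow_dvd_pow 2 h2
    have h4 := orderOf_dvd_iff_pow_eq_one.1 h3
    rw [hoddel y hy hyT] at h4
    exact hz1 h4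
  obtain ⟨M, hMn, hMi, haM⟩ : ∃ M : Subgroup G, M.Normal ∧ M.index = 2 ∧ a ∉ M := by
    rcases CfsgLib.ThompGen.exists_index_two_of_order S T hTS hTi (m + 3) (by omega) hord a ha hao
      with h | ⟨g, hg⟩
    · exact h
    · exfalso
      have h1 := hTexp _ hg
      rw [conj_pow, mul_inv_eq_one] at h1
      apply hz1
      exact mul_left_cancel (a := g) (by rw [mul_one]; exact h1)
  haveI := hMn
  have hparity : ∀ i : ℕ, a ^ i ∈ M ↔ Even i := by
    intro i
    induction i with
    | zero => simp [M.one_mem]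
    | succ i ih =>
      rw [pow_succ, Subgroup.mul_mem_iff_of_index_two hMi, ih, Nat.even_add_one]
      simp [haM]
  apply extend_complement M ⟨1, by rw [hMi, pow_one]⟩
  have hQp : IsPGroup 2 ((S : Subgroup G) ⊓ M : Subgroup G) := S.2.to_le inf_le_left
  have hQodd : ¬ 2 ∣ ((S : Subgroup G) ⊓ M).relIndex M := by
    rw [Subgroup.inf_relIndex_right]
    intro h
    exact S.not_dvd_index (h.trans (CfsgLib.AbComp.relIndex_dvd_index (S : Subgroup G) M))
  by_cases hbM : b ∈ M
  · -- `Q = T`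
    have hQmem : ∀ t ∈ ((S : Subgroup G) ⊓ M : Subgroup G), ∃ k : ℕ, t = a ^ (2 * k) ∨ t = a ^ (2 * k) * b := by
      intro t ht
      obtain ⟨i, rfl | rfl⟩ := hnf t ht.1
      · have h1 := (hparity i).1 ht.2
        obtain ⟨l, rfl⟩ := h1.exists_two_nsmul
        exact ⟨l, Or.inl (by simp)⟩
      · have h1 : a ^ i ∈ M := by
          have h0 : a ^ i * b ∈ M := ht.2
          have := M.mul_mem h0 (M.inv_mem hbM)
          simpa using this
        have h2 := (hparity i).1 h1
        obtain ⟨l, rfl⟩ := h2.exists_two_nsmul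
        exact ⟨l, Or.inr (by simp)⟩
    have hmemQ1 : ∀ k : ℕ, a ^ (2 * k) ∈ ((S : Subgroup G) ⊓ M : Subgroup G) := by
      intro k
      exact ⟨pow_mem ha _, (hparity _).2 (even_two_mul k)⟩
    have hbQ : b ∈ ((S : Subgroup G) ⊓ M : Subgroup G) := ⟨hb, hbM⟩
    have hpowcomm : ∀ k l : ℕ, Commute (a ^ (2 * k)) (a ^ (2 * l)) := fun k l => Commute.pow_pow_self a _ _
    have habQ : ∀ u ∈ ((S : Subgroup G) ⊓ M : Subgroup G), ∀ v ∈ ((S : Subgroup G) ⊓ M : Subgroup G), u * v = v * u := by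
      intro u hu v hv
      have hu2 := hQmem u hu
      have hv2 := hQmem v hv
      obtain ⟨k, rfl | rfl⟩ := hu2
      · obtain ⟨l, rfl | rfl⟩ := hv2
        · exact (hpowcomm k l).eq
        · exact ((hpowcomm k l).mul_right (hbev k).symm).eq
      · obtain ⟨l, rfl | rfl⟩ := hv2
        · exact ((hpowcomm k l).mul_left (hbev l)).eq
        · exact (((hpowcomm k l).mul_right (hbev k).symm).mul_left
            (Commute.mul_right (show Commute b (a ^ (2 * l)) from hbev l) (Commute.refl b))).eq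
    refine complement_of_abelian_sylow M _ inf_le_right hQp hQodd habQ ?_
    intro y hyM hyN hyodd
    -- `y` centralizes `⟨a ^ 4⟩`
    have hsqQ : ∀ t ∈ ((S : Subgroup G) ⊓ M : Subgroup G), t * t ∈ zpowers (a ^ 4) := by
      intro t ht
      have hmem4 : ∀ k : ℕ, a ^ (2 * k) * a ^ (2 * k) ∈ zpowers (a ^ 4) := by
        intro k
        rw [← pow_add, show 2 * k + 2 * k = 4 * k by ring, pow_mul]
        exact pow_mem (mem_zpowers _) k
      obtain ⟨k, rfl | rfl⟩ := hQmem t ht
      · exact hmem4 k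
      · have : a ^ (2 * k) * b * (a ^ (2 * k) * b) = a ^ (2 * k) * a ^ (2 * k) := by
          calc a ^ (2 * k) * b * (a ^ (2 * k) * b) = a ^ (2 * k) * (b * a ^ (2 * k)) * b := by group
            _ = a ^ (2 * k) * (a ^ (2 * k) * b) * b := by rw [hbev]
            _ = a ^ (2 * k) * a ^ (2 * k) * (b * b) := by group
            _ = _ := by rw [hb2, mul_one]
        rw [this]
        exact hmem4 k
    have hyconj : ∀ t ∈ ((S : Subgroup G) ⊓ M : Subgroup G), y * t * y⁻¹ ∈ ((S : Subgroup G) ⊓ M : Subgroup G) :=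
      fun t ht => (Subgroup.mem_normalizer_iff.1 hyN t).1 ht
    have hy4 : y ∈ normalizer ((zpowers (a ^ 4) : Subgroup G) : Set G) := by
      apply CfsgLib.CT.mem_normalizer_of_conj_le
      intro t ht
      obtain ⟨i, rfl⟩ := mem_zpowers_iff.1 ht
      rw [← conj_zpow]
      apply zpow_mem
      have h1 : a ^ 4 = a ^ 2 * a ^ 2 := by rw [← pow_add]
      have h2 : y * a ^ 4 * y⁻¹ = (y * a ^ 2 * y⁻¹) * (y * a ^ 2 * y⁻¹) := by rw [h1]; group
      rw [h2]
      exact hsqQ _ (hyconj _ (by simpa using hmemQ1 1))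
    have hcyc4p : IsPGroup 2 (zpowers (a ^ 4)) := by
      apply IsPGroup.to_le (K := (S : Subgroup G)) S.2
      rw [zpowers_le]
      exact pow_mem ha 4
    have hycent := CfsgLib.SylInter.centralizes_of_aut (zpowers (a ^ 4))
      (CfsgLib.SylInter.isPGroup_mulAut_of_cyclic hcyc4p) hy4 hyodd
    have hz4 : z ∈ zpowers (a ^ 4) := by
      have : z = (a ^ 4) ^ (2 ^ m) := by
        rw [hz, ← pow_mul, show 4 * 2 ^ m = 2 ^ (m + 2) by rw [pow_add]; ring]
      rw [this]
      exact pow_mem (mem_zpowers _) _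
    have hyz : y * z * y⁻¹ = z := hycent z hz4
    -- involutions of `Q`
    have hinv : ∀ t ∈ ((S : Subgroup G) ⊓ M : Subgroup G), t * t = 1 →
        t = 1 ∨ t = z ∨ t = b ∨ t = z * b := by
      have hk : ∀ k : ℕ, a ^ (2 * k) * a ^ (2 * k) = 1 → a ^ (2 * k) = 1 ∨ a ^ (2 * k) = z := by
        intro k hk
        rw [← pow_add, ← orderOf_dvd_iff_pow_eq_one, hao] at hk
        have h1 : 2 ^ (m + 1) ∣ k := by
          have h2 : 2 * k + 2 * k = 4 * k := by ring
          rw [h2, show (2 : ℕ) ^ (m + 3) = 4 * 2 ^ (m + 1) by rw [pow_add 2 (m + 1) 2]; ring] at hk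
          exact Nat.dvd_of_mul_dvd_mul_left (by norm_num) hk
        obtain ⟨l, rfl⟩ := h1
        have h3 : a ^ (2 * (2 ^ (m + 1) * l)) = z ^ l := by
          rw [hz, ← pow_mul, show 2 ^ (m + 2) * l = 2 * (2 ^ (m + 1) * l) by
            rw [pow_succ 2 (m + 1)]; ring]
        rw [h3]
        rcases Nat.even_or_odd' l with ⟨e, rfl | rfl⟩
        · left; exact hzev e
        · right; exact hzodd e
      intro t ht htt
      obtain ⟨k, rfl | rfl⟩ := hQmem t ht
      · rcases hk k htt with h | h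
        · exact Or.inl h
        · exact Or.inr (Or.inl h)
      · have : a ^ (2 * k) * a ^ (2 * k) = 1 := by
          calc a ^ (2 * k) * a ^ (2 * k) = a ^ (2 * k) * a ^ (2 * k) * (b * b) := by rw [hb2, mul_one]
            _ = a ^ (2 * k) * (a ^ (2 * k) * b) * b := by group
            _ = a ^ (2 * k) * (b * a ^ (2 * k)) * b := by rw [hbev]
            _ = a ^ (2 * k) * b * (a ^ (2 * k) * b) := by group
            _ = 1 := htt
        rcases hk k this with h | h
        · right; right; left; rw [h, one_mul]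
        · right; right; right; rw [h]
    have hzb : z ≠ b := by
      intro h
      exact hbA (h ▸ pow_mem (mem_zpowers a) _)
    have hyb : y * b * y⁻¹ = b := by
      have hw2 : (y * b * y⁻¹) * (y * b * y⁻¹) = 1 := by
        calc (y * b * y⁻¹) * (y * b * y⁻¹) = y * (b * b) * y⁻¹ := by group
          _ = 1 := by rw [hb2]; group
      rcases hinv _ (hyconj b hbQ) hw2 with h | h | h | h
      · exfalso
        apply hb1
        have : b = y⁻¹ * (y * b * y⁻¹) * y := by group
        rw [this, h]; group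
      · exfalso
        apply hzb
        have h1 : y * b * y⁻¹ = y * z * y⁻¹ := by rw [h, hyz]
        have h2 : b = z := by
          simpa using h1
        exact h2.symm
      · exact h
      · -- `y ^ 2` fixes `b`
        have h1 : y ^ 2 * b * (y ^ 2)⁻¹ = b := by
          calc y ^ 2 * b * (y ^ 2)⁻¹ = y * (y * b * y⁻¹) * y⁻¹ := by rw [pow_two]; group
            _ = y * (z * b) * y⁻¹ := by rw [h]
            _ = (y * z * y⁻¹) * (y * b * y⁻¹) := by group
            _ = z * (z * b) := by rw [hyz, h]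
            _ = (z * z) * b := by group
            _ = b := by rw [hz2, one_mul]
        have hc : Commute b (y ^ 2) := by
          rw [mul_inv_eq_iff_eq_mul] at h1
          exact h1.symm
        have hc2 : Commute b y := CfsgLib.KleinO2.comm_of_pow (Nat.coprime_two_left.2 hyodd) hc
        rw [← hc2.eq]
        group
    apply fix_of_sq hyodd habQ hyconj
    · intro t ht
      exact hycent _ (hsqQ t ht)
    · intro t ht htt
      rcases hinv t ht htt with rfl | rfl | rfl | rfl
      · group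
      · exact hyz
      · exact hyb
      · calc y * (z * b) * y⁻¹ = (y * z * y⁻¹) * (y * b * y⁻¹) := by group
          _ = z * b := by rw [hyz, hyb]
  · -- `Q = ⟨a b⟩` is cyclic
    set c := a * b with hc
    have hcM : c ∈ M := by
      rw [hc, Subgroup.mul_mem_iff_of_index_two hMi]
      exact iff_of_false haM hbM
    have hcS : c ∈ (S : Subgroup G) := mul_mem ha hb
    have hcsq : a ^ 2 * z = c ^ 2 := by
      have := hsq 0
      simp only [mul_zero, zero_add, pow_one, mul_one] at this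
      rw [pow_two c, hc, this]
    have hcz : c ^ (2 ^ (m + 2)) = z := by
      have := hpowodd 0
      simpa using this
    have ha2 : a ^ 2 ∈ zpowers c := by
      have : a ^ 2 = c ^ 2 * c ^ (2 ^ (m + 2)) := by
        rw [← hcsq, hcz, mul_assoc, hz2, mul_one]
      rw [this]
      exact mul_mem (pow_mem (mem_zpowers c) _) (pow_mem (mem_zpowers c) _)
    have hQeq : (S : Subgroup G) ⊓ M = zpowers c := by
      apply le_antisymm
      · intro t ht
        obtain ⟨i, rfl | rfl⟩ := hnf t ht.1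
        · have h1 := (hparity i).1 ht.2
          obtain ⟨l, rfl⟩ := h1.exists_two_nsmul
          have : a ^ (2 • l) = (a ^ 2) ^ l := by rw [← pow_mul]; rfl
          rw [this]
          exact pow_mem ha2 l
        · have h1 : a ^ i ∉ M := by
            intro h
            have := (Subgroup.mul_mem_iff_of_index_two hMi (a := a ^ i) (b := b)).1 ht.2
            exact hbM (this.1 h)
          have h2 : ¬ Even i := fun h => h1 ((hparity i).2 h)
          rw [Nat.not_even_iff_odd] at h2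
          obtain ⟨l, rfl⟩ := h2
          have : a ^ (2 * l + 1) * b = (a ^ 2) ^ l * c := by
            rw [← pow_mul, hc, pow_succ, mul_assoc]
          rw [this]
          exact mul_mem (pow_mem ha2 l) (mem_zpowers c)
      · rw [zpowers_le]
        exact ⟨hcS, hcM⟩
    rw [hQeq] at hQp hQodd
    refine complement_of_abelian_sylow M _ ?_ hQp hQodd ?_ ?_
    · rw [zpowers_le]; exact hcM
    · intro u hu v hv
      obtain ⟨i, rfl⟩ := mem_zpowers_iff.1 hu
      obtain ⟨j, rfl⟩ := mem_zpowers_iff.1 hv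
      exact ((Commute.refl c).zpow_zpow i j).eq
    · intro y _ hyN hyodd
      exact CfsgLib.SylInter.centralizes_of_aut (zpowers c)
        (CfsgLib.SylInter.isPGroup_mulAut_of_cyclic hQp) hyN hyodd

end CfsgLib.Modular
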