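import Cfsg.Agent.Lib.H3.PSolv
import Cfsg.Agent.Lib.H3.FrattRes
import Cfsg.Agent.Lib.SS.Coatom
import Cfsg.Agent.Lib.OOL.GT2
import Cfsg.Agent.Lib.OOL.PSep3
import Cfsg.Agent.Lib.H9.SimpleTools
import Cfsg.Agent.Lib.PLocal.Core
import Cfsg.Agent.Lib.Solv.Hall

/-! `p`-length at most two when every maximal subgroup has a normal `p`-complement or prime index. -/

set_option autoImplicit false
set_option linter.unusedSectionVars false

namespace CfsgLib.PLenMax

open Subgroup Cfsg CfsgLib.Solv
open scoped Pointwise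

universe u

/-- The chain we want. -/
def IsChain {G : Type*} [Group G] (p : ℕ) (A B C D : Subgroup G) : Prop :=
  A.Normal ∧ B.Normal ∧ C.Normal ∧ D.Normal ∧ A ≤ B ∧ B ≤ C ∧ C ≤ D ∧ ¬ p ∣ Nat.card A ∧
    (∃ k : ℕ, A.relIndex B = p ^ k) ∧ ¬ p ∣ B.relIndex C ∧ (∃ k : ℕ, C.relIndex D = p ^ k) ∧
      ¬ p ∣ D.index ∧ (p = 2 → D = ⊤)

variable {G : Type u} [Group G] [Finite G] {p : ℕ} [hp : Fact p.Prime]

theorem card_comap_mk (N : Subgroup G) [N.Normal] (A : Subgroup (G ⧸ N)) :
    Nat.card (A.comap (QuotientGroup.mk' N)) = Nat.card N * Nat.card A := by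
  have h1 := (A.comap (QuotientGroup.mk' N)).card_mul_index
  have h2 := A.card_mul_index
  have h3 : (A.comap (QuotientGroup.mk' N)).index = A.index :=
    Subgroup.index_comap_of_surjective _ (QuotientGroup.mk'_surjective N)
  have h4 := Subgroup.card_eq_card_quotient_mul_card_subgroup N
  rw [h3] at h1
  have h5 : 0 < A.index := Nat.pos_of_ne_zero Subgroup.index_ne_zero_of_finite
  apply Nat.eq_of_mul_eq_mul_right h5
  rw [h1, h4, ← h2]
  ring

theorem relIndex_comap_mk (N : Subgroup G) [N.Normal] (A B : Subgroup (G ⧸ N)) :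
    (A.comap (QuotientGroup.mk' N)).relIndex (B.comap (QuotientGroup.mk' N)) = A.relIndex B := by
  rw [Subgroup.relIndex_comap, Subgroup.map_comap_eq_self_of_surjective (QuotientGroup.mk'_surjective N)]

theorem IsChain.comap (N : Subgroup G) [N.Normal] (hN : ¬ p ∣ Nat.card N) {A B C D : Subgroup (G ⧸ N)}
    (h : IsChain p A B C D) :
    IsChain p (A.comap (QuotientGroup.mk' N)) (B.comap (QuotientGroup.mk' N))
      (C.comap (QuotientGroup.mk' N)) (D.comap (QuotientGroup.mk' N)) := by
  obtain ⟨hA, hB, hC, hD, hAB, hBC, hCD, h1, ⟨k, h2⟩, h3, ⟨l, h4⟩, h5, h6⟩ := h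
  refine ⟨hA.comap _, hB.comap _, hC.comap _, hD.comap _, Subgroup.comap_mono hAB, Subgroup.comap_mono hBC,
    Subgroup.comap_mono hCD, ?_, ⟨k, ?_⟩, ?_, ⟨l, ?_⟩, ?_, ?_⟩
  · rw [card_comap_mk]
    intro hdvd
    rcases (Fact.out : p.Prime).dvd_mul.1 hdvd with h' | h'
    · exact hN h'
    · exact h1 h'
  · rwa [relIndex_comap_mk]
  · rwa [relIndex_comap_mk]
  · rwa [relIndex_comap_mk]
  · rwa [Subgroup.index_comap_of_surjective _ (QuotientGroup.mk'_surjective N)]
  · intro hp2
    rw [h6 hp2, Subgroup.comap_top]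

/-- complements of normal Hall subgroups which are normal -/
theorem hall_normal (A N : Subgroup G) [A.Normal] [N.Normal] (hNA : N ≤ A)
    (hcop : (Nat.card N).Coprime (N.relIndex A)) (hNsolv : Group.IsSolvable N)
    (hG : ∀ K : Subgroup G, K ≤ A → N ⊔ normalizer (K : Set G) = ⊤ → normalizer (K : Set G) = ⊤) :
    ∃ K : Subgroup G, K.Normal ∧ Nat.card K = N.relIndex A := by
  set N' := N.subgroupOf A with hN'
  haveI : N'.Normal := inferInstance
  have hcard : Nat.card N' = Nat.card N :=
    Nat.card_congr (Subgroup.subgroupOfEquivOfLe hNA).toEquiv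
  have hidx : N'.index = N.relIndex A := rfl
  have hcop' : (Nat.card N').Coprime N'.index := by rwa [hcard, hidx]
  obtain ⟨H', hH'⟩ := Subgroup.exists_right_complement'_of_coprime hcop'
  set K := H'.map A.subtype with hK
  have hKA : K ≤ A := Subgroup.map_subtype_le _
  have hKsub : K.subgroupOf A = H' :=
    Subgroup.comap_map_eq_self_of_injective A.subtype_injective H'
  have hH'card : Nat.card H' = N'.index := (hH'.symm.index_eq_card).symm
  have hKcard : Nat.card K = N.relIndex A := by
    rw [← hidx, ← hH'card]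
    exact Subgroup.card_map_of_injective A.subtype_injective
  refine ⟨K, ?_, hKcard⟩
  rw [← Subgroup.normalizer_eq_top_iff]
  apply hG K hKA
  rw [eq_top_iff]
  intro g _
  -- the conjugate of `K`
  set K₂ := MulAut.conj g • K with hK₂
  have hK₂A : K₂ ≤ A := by
    intro x hx
    rw [mem_conj_smul] at hx
    have := (inferInstance : A.Normal).conj_mem _ (hKA hx) g
    have e : g * (g⁻¹ * x * g) * g⁻¹ = x := by group
    rwa [e] at this
  have hK₂card : Nat.card (K₂.subgroupOf A) = N'.index := by
    rw [card_subgroupOf_of_le hK₂A, hK₂, card_conj_smul, hKcard]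
    rfl
  have hc : IsComplement' N' (K₂.subgroupOf A) := complement_of_card N' _ hcop' hK₂card
  have hsolv' : Group.IsSolvable N' := by
    exact solvable_of_solvable_injective (f := (Subgroup.subgroupOfEquivOfLe hNA).toMonoidHom)
      (Subgroup.subgroupOfEquivOfLe hNA).injective
  obtain ⟨n, hn, hne⟩ := schur_conj_mem N' hcop' (Or.inl hsolv') H' (K₂.subgroupOf A) hH' hc
  have h2 : MulAut.conj (n : G) • K = K₂ := by
    apply conj_of_subgroupOf hKA hK₂A n
    rw [hKsub]
    exact hne
  have hnN : (n : G) ∈ N := Subgroup.mem_subgroupOf.1 hn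
  have ht : (n : G)⁻¹ * g ∈ normalizer (K : Set G) := by
    rw [Subgroup.mem_normalizer_iff]
    intro z
    have h3 : ∀ x, x ∈ MulAut.conj (n : G) • K ↔ x ∈ K₂ := by
      intro x; rw [h2]
    have h4 := h3 (g * z * g⁻¹)
    rw [mem_conj_smul, hK₂, mem_conj_smul] at h4
    have e1 : (n : G)⁻¹ * (g * z * g⁻¹) * n = (n : G)⁻¹ * g * z * ((n : G)⁻¹ * g)⁻¹ := by group
    have e2 : g⁻¹ * (g * z * g⁻¹) * g = z := by group
    rw [e1, e2] at h4
    exact h4.symm
  have e : g = (n : G) * ((n : G)⁻¹ * g) := by group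
  rw [e]
  exact Subgroup.mul_mem _ (Subgroup.mem_sup_left hnN) (Subgroup.mem_sup_right ht)

omit [Finite G] hp in
theorem isSolvable_of_isPGroup' [Finite G] [Fact p.Prime] {N : Subgroup G} (h : IsPGroup p N) : Group.IsSolvable N := by
  haveI := h.isNilpotent
  infer_instance

/-- the central index: the action on a normal subgroup of prime order -/
theorem not_dvd_index_centralizer (N : Subgroup G) [hN : N.Normal] (hcard : Nat.card N = p) :
    ¬ p ∣ (centralizer (N : Set G)).index := by
  have h := CfsgLib.H9.card_normalizer_dvd_of_prime (Fact.out : p.Prime) N hcard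
  have hn : normalizer (N : Set G) = ⊤ := Subgroup.normalizer_eq_top_iff.2 hN
  rw [hn, Subgroup.card_top] at h
  have h2 := (centralizer (N : Set G)).card_mul_index
  rw [← h2] at h
  have h3 : 0 < Nat.card (centralizer (N : Set G)) := Nat.card_pos
  have h4 := Nat.dvd_of_mul_dvd_mul_left h3 h
  intro hdvd
  have h5 := hdvd.trans h4
  have hp1 : 2 ≤ p := (Fact.out : p.Prime).two_le
  have := Nat.le_of_dvd (by omega) h5
  omega

omit [Finite G] hp in
theorem card_mul_relIndex' {H K : Subgroup G} (h : H ≤ K) : Nat.card H * H.relIndex K = Nat.card K := by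
  have h1 := (H.subgroupOf K).card_mul_index
  have h2 : Nat.card (H.subgroupOf K) = Nat.card H :=
    Nat.card_congr (Subgroup.subgroupOfEquivOfLe h).toEquiv
  rw [h2] at h1
  exact h1

/-- The hypothesis passes to quotients. -/
theorem hm_quot (N : Subgroup G) [N.Normal]
    (hm : ∀ M : Subgroup G, IsCoatom M → HasNormalPComplement p M ∨ M.index.Prime) :
    ∀ M : Subgroup (G ⧸ N), IsCoatom M → HasNormalPComplement p M ∨ M.index.Prime := by
  intro M hM
  have h1 : IsCoatom (M.comap (QuotientGroup.mk' N)) :=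
    CfsgLib.FrattRes.isCoatom_comap _ (QuotientGroup.mk'_surjective N) hM
  rcases hm _ h1 with h | h
  · left
    exact CfsgLib.OOL.np_of_surjective ((QuotientGroup.mk' N).subgroupComap M)
      ((QuotientGroup.mk' N).subgroupComap_surjective_of_surjective M (QuotientGroup.mk'_surjective N)) h
  · right
    rwa [Subgroup.index_comap_of_surjective _ (QuotientGroup.mk'_surjective N)] at h

/-- The main theorem. -/
theorem chain_main : ∀ (n : ℕ) (G : Type u) [Group G] [Finite G], Nat.card G = n → IsPSolvable p G →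
    (∀ M : Subgroup G, IsCoatom M → HasNormalPComplement p M ∨ M.index.Prime) →
    ∃ A B C D : Subgroup G, IsChain p A B C D := by
  intro n
  induction n using Nat.strong_induction_on with
  | _ n ih =>
  intro G _ _ hn hs hm
  by_cases hnt : Nontrivial G
  swap
  · rw [not_nontrivial_iff_subsingleton] at hnt
    have htb : (⊤ : Subgroup G) = ⊥ := Subsingleton.elim _ _
    refine ⟨⊤, ⊤, ⊤, ⊤, inferInstance, inferInstance, inferInstance, inferInstance, le_rfl, le_rfl, le_rfl,
      ?_, ⟨0, by simp⟩, ?_, ⟨0, by simp⟩, ?_, fun _ => rfl⟩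
    · rw [htb]
      simpa using (Fact.out : p.Prime).ne_one
    · simpa using (Fact.out : p.Prime).ne_one
    · simpa using (Fact.out : p.Prime).ne_one
  -- reduction to quotient
  have hquot : ∀ (N : Subgroup G) [N.Normal], N ≠ ⊥ → ∃ A B C D : Subgroup (G ⧸ N), IsChain p A B C D := by
    intro N _ hNb
    have hlt : Nat.card (G ⧸ N) < n := by
      rw [← hn, Subgroup.card_eq_card_quotient_mul_card_subgroup N]
      have h1 : 1 < Nat.card N := by
        haveI : Nontrivial N := (Subgroup.nontrivial_iff_ne_bot N).2 hNb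
        exact Finite.one_lt_card
      have h2 : 0 < Nat.card (G ⧸ N) := Nat.card_pos
      nlinarith
    exact ih _ hlt (G ⧸ N) rfl (CfsgLib.PSolv.quotient (Fact.out) hs N) (hm_quot N hm)
  by_cases hno : ∃ N : Subgroup G, N.Normal ∧ N ≠ ⊥ ∧ ¬ p ∣ Nat.card N
  · obtain ⟨N, hNn, hNb, hNp⟩ := hno
    haveI := hNn
    obtain ⟨A, B, C, D, h⟩ := hquot N hNb
    exact ⟨_, _, _, _, h.comap N hNp⟩
  push Not at hno
  have hno' : ∀ N : Subgroup G, N.Normal → ¬ p ∣ Nat.card N → N = ⊥ := by
    intro N h1 h2
    by_contra h3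
    exact h2 (hno N h1 h3)
  -- `O_p(G)` is nontrivial
  have hcore : pCore p G ≠ ⊥ := by
    rcases CfsgLib.PSolv.core_ne_bot hs with h | h
    · exact h
    · exfalso
      apply h
      apply hno' _ (CfsgLib.PLocal.pPrimeCore_normal')
      intro hdvd
      have h1 := CfsgLib.PLocal.pPrimeCore_coprime (p := p) (G := G)
      have h2 := Nat.Coprime.eq_one_of_dvd h1.symm hdvd
      exact (Fact.out : p.Prime).ne_one h2
  -- a minimal normal subgroup inside `O_p(G)`
  obtain ⟨N, hNmem, hNmin⟩ : ∃ N : Subgroup G, (N.Normal ∧ N ≠ ⊥ ∧ N ≤ pCore p G) ∧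
      ∀ M : Subgroup G, M.Normal → M ≠ ⊥ → M ≤ N → N ≤ M := by
    have hfin : ({N : Subgroup G | N.Normal ∧ N ≠ ⊥ ∧ N ≤ pCore p G}).Finite := Set.toFinite _
    obtain ⟨N, hN⟩ := hfin.exists_minimal ⟨pCore p G, CfsgLib.PLocal.pCore_normal', hcore, le_rfl⟩
    refine ⟨N, hN.1, fun M h1 h2 h3 => hN.2 ⟨h1, h2, h3.trans hN.1.2.2⟩ h3⟩
  obtain ⟨hNn, hNb, hNO⟩ := hNmem
  haveI := hNn
  have hNp : IsPGroup p N := (CfsgLib.PLocal.pCore_isPGroup (p := p) (G := G)).to_le hNO
  have hNsolv : Group.IsSolvable N := isSolvable_of_isPGroup' hNp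
  have hmin : ∀ K : Subgroup G, K.Normal → K ≤ N → K = ⊥ ∨ K = N := by
    intro K h1 h2
    by_cases h3 : K = ⊥
    · exact Or.inl h3
    · exact Or.inr (le_antisymm h2 (hNmin K h1 h3 h2))
  have hNcomm : ∀ x ∈ N, ∀ y ∈ N, x * y = y * x := by
    have h1 := commutator_ne_self_of_solvable N hNsolv hNb
    have h2 : ⁅N, N⁆ = ⊥ := (hmin ⁅N, N⁆ inferInstance (Subgroup.commutator_le_self N)).resolve_right h1
    intro x hx y hy
    have h3 := Subgroup.commutator_mem_commutator hx hy
    rw [h2, Subgroup.mem_bot] at h3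
    exact commutatorElement_eq_one_iff_mul_comm.1 h3
  obtain ⟨m, hm'⟩ := IsPGroup.iff_card.1 hNp
  have hNcop : ∀ j : ℕ, ¬ p ∣ j → (Nat.card N).Coprime j := by
    intro j hj
    rw [hm']
    exact Nat.Coprime.pow_left m ((Nat.Prime.coprime_iff_not_dvd Fact.out).2 hj)
  obtain ⟨A₀, B₀, C₀, D₀, hA', hB', hC', hD', hAB', hBC', hCD', h1', ⟨k, h2'⟩, h3', ⟨l, h4'⟩, h5', h6'⟩ := hquot N hNb
  set f := QuotientGroup.mk' N with hf
  have hfs : Function.Surjective f := QuotientGroup.mk'_surjective N
  set A := A₀.comap f with hA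
  set B := B₀.comap f with hB
  set C := C₀.comap f with hC
  set D := D₀.comap f with hD
  haveI hAn : A.Normal := hA'.comap f
  haveI hBn : B.Normal := hB'.comap f
  haveI hCn : C.Normal := hC'.comap f
  haveI hDn : D.Normal := hD'.comap f
  have hNA : N ≤ A := by
    intro x hx
    change f x ∈ A₀
    have : f x = 1 := (QuotientGroup.eq_one_iff x).2 hx
    rw [this]
    exact A₀.one_mem
  have hAB : A ≤ B := Subgroup.comap_mono hAB'
  have hBC : B ≤ C := Subgroup.comap_mono hBC'
  have hCD : C ≤ D := Subgroup.comap_mono hCD'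
  have hABi : A.relIndex B = p ^ k := by rw [relIndex_comap_mk]; exact h2'
  have hBCi : ¬ p ∣ B.relIndex C := by rw [relIndex_comap_mk]; exact h3'
  have hCDi : C.relIndex D = p ^ l := by rw [relIndex_comap_mk]; exact h4'
  have hDi : ¬ p ∣ D.index := by
    rwa [Subgroup.index_comap_of_surjective _ hfs]
  have hD2 : p = 2 → D = ⊤ := by
    intro h
    rw [hD, h6' h, Subgroup.comap_top]
  have hNAi : ¬ p ∣ N.relIndex A := by
    have h1 : Nat.card A = Nat.card N * Nat.card A₀ := card_comap_mk N A₀
    have h2 := card_mul_relIndex' hNA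
    rw [h1] at h2
    have h3 := Nat.eq_of_mul_eq_mul_left Nat.card_pos h2
    rwa [h3]
  -- in the good case `A = N`
  have hgood : A ≤ N → ∃ A B C D : Subgroup G, IsChain p A B C D := by
    intro hAN
    have hAe : A = N := le_antisymm hAN hNA
    refine ⟨⊥, B, C, D, inferInstance, hBn, hCn, hDn, bot_le, hBC, hCD, ?_, ?_, hBCi, ⟨l, hCDi⟩, hDi, hD2⟩
    · simpa using (Fact.out : p.Prime).ne_one
    · rw [Subgroup.relIndex_bot_left]
      have h1 := card_mul_relIndex' hAB
      rw [hABi, hAe, hm'] at h1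
      exact ⟨m + k, by rw [← h1, pow_add]⟩
  by_cases hall : ∀ H : Subgroup G, IsCoatom H → N ≤ H
  · -- `N` is in the Frattini subgroup
    obtain ⟨K, hKn, hKc⟩ := hall_normal A N hNA (hNcop _ hNAi) hNsolv (by
      intro K _ hsup
      by_contra hne
      obtain ⟨H, hH, hle⟩ := (eq_top_or_exists_le_coatom (normalizer (K : Set G))).resolve_left hne
      have h2 : N ⊔ normalizer (K : Set G) ≤ H := sup_le (hall H hH) hle
      rw [hsup] at h2
      exact hH.1 (top_le_iff.1 h2))
    have hKb : K = ⊥ := hno' K hKn (by rwa [hKc])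
    rw [hKb, Subgroup.card_bot] at hKc
    exact hgood (Subgroup.relIndex_eq_one.1 hKc.symm)
  · push Not at hall
    obtain ⟨H, hH, hNH⟩ := hall
    have hsup : H ⊔ N = ⊤ := by
      apply hH.2
      refine lt_of_le_of_ne le_sup_left ?_
      intro h
      apply hNH
      rw [h]
      exact le_sup_right
    have hinf : N ⊓ H = ⊥ := CfsgLib.SS.min_abelian_inf_bot hNcomm hmin hsup hNH
    have hcardG : Nat.card G = Nat.card H * Nat.card N := by
      have h1 := card_sup_mul_card_inf H N
      rw [hsup, inf_comm, hinf, Subgroup.card_top, Subgroup.card_bot, mul_one] at h1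
      exact h1
    have hHi : H.index = Nat.card N := by
      have h1 := H.card_mul_index
      rw [hcardG] at h1
      exact Nat.eq_of_mul_eq_mul_left Nat.card_pos h1
    rcases hm H hH with hnpc | hprime
    · -- `H` has a normal `p`-complement
      obtain ⟨K₁, hK₁n, hK₁c, j, hK₁i⟩ := CfsgLib.Trans.hasNormalPComplement_iff.1 hnpc
      haveI := hK₁n
      set K₂ := K₁.map H.subtype with hK₂
      have hK₂H : K₂ ≤ H := Subgroup.map_subtype_le _
      have hK₂c : Nat.card K₂ = Nat.card K₁ := Subgroup.card_map_of_injective H.subtype_injective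
      have hCn' : (K₂ ⊔ N).Normal := by
        rw [← Subgroup.normalizer_eq_top_iff, eq_top_iff, ← hsup]
        refine sup_le ?_ (le_sup_right.trans Subgroup.le_normalizer)
        intro h hh
        apply CfsgLib.PLocal.mem_normalizer_of_conj_le
        have h1 : K₂ ⊔ N ≤ (K₂ ⊔ N).comap (MulAut.conj h).toMonoidHom := by
          refine sup_le ?_ ?_
          · rintro _ ⟨k, hk, rfl⟩
            change h * k.1 * h⁻¹ ∈ K₂ ⊔ N
            apply Subgroup.mem_sup_left
            have h2 := hK₁n.conj_mem k hk ⟨h, hh⟩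
            exact ⟨_, h2, rfl⟩
          · intro n hn
            change h * n * h⁻¹ ∈ K₂ ⊔ N
            exact Subgroup.mem_sup_right (hNn.conj_mem n hn h)
        intro c hc
        exact h1 hc
      have hdisj : K₂ ⊓ N = ⊥ := by
        rw [eq_bot_iff]
        intro x hx
        have h1 : x ∈ N ⊓ H := Subgroup.mem_inf.2 ⟨(Subgroup.mem_inf.1 hx).2, hK₂H (Subgroup.mem_inf.1 hx).1⟩
        rwa [hinf] at h1
      have hcardC : Nat.card (K₂ ⊔ N : Subgroup G) = Nat.card K₁ * Nat.card N := by
        have h1 := card_sup_mul_card_inf K₂ N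
        rw [hdisj, Subgroup.card_bot, mul_one, hK₂c] at h1
        exact h1
      refine ⟨⊥, N, K₂ ⊔ N, ⊤, inferInstance, hNn, hCn', inferInstance, bot_le, le_sup_right, le_top, ?_, ?_, ?_, ?_, ?_, fun _ => rfl⟩
      · simpa using (Fact.out : p.Prime).ne_one
      · rw [Subgroup.relIndex_bot_left]
        exact ⟨m, hm'⟩
      · rw [Subgroup.relIndex_sup_right]
        intro hdvd
        have h1 := hdvd.trans (Subgroup.relIndex_dvd_card N K₂)
        rw [hK₂c] at h1
        have h2 := Nat.Coprime.eq_one_of_dvd hK₁c.symm h1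
        exact (Fact.out : p.Prime).ne_one h2
      · rw [Subgroup.relIndex_top_right]
        refine ⟨j, ?_⟩
        have h1 := (K₂ ⊔ N : Subgroup G).card_mul_index
        have h2 := K₁.card_mul_index
        rw [hK₁i] at h2
        rw [hcardC, hcardG, ← h2] at h1
        have h3 : Nat.card K₁ * Nat.card N * (K₂ ⊔ N : Subgroup G).index = Nat.card K₁ * Nat.card N * p ^ j := by
          rw [h1]; ring
        exact Nat.eq_of_mul_eq_mul_left (Nat.mul_pos Nat.card_pos Nat.card_pos) h3
      · simpa using (Fact.out : p.Prime).ne_one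
    · -- `H` has prime index: `N` has order `p`
      have hcardN : Nat.card N = p := by
        rw [hHi] at hprime
        have hm0 : m ≠ 0 := by
          rintro rfl
          rw [hm', pow_zero] at hprime
          exact Nat.not_prime_one hprime
        have h1 : p ∣ Nat.card N := by
          rw [hm']
          exact dvd_pow_self p hm0
        exact ((Nat.prime_dvd_prime_iff_eq Fact.out hprime).1 h1).symm
      set Z := centralizer (N : Set G) with hZ
      haveI hZn : Z.Normal := Subgroup.normal_centralizer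
      have hNZ : N ≤ Z := by
        intro x hx
        rw [hZ, mem_centralizer_iff]
        intro y hy
        exact hNcomm y hy x hx
      have hA₁n : (A ⊓ Z).Normal := inferInstance
      have hNA₁ : N ≤ A ⊓ Z := le_inf hNA hNZ
      have hNZe : N ⊓ Z = N := inf_eq_left.2 hNZ
      have hdv : N.relIndex (A ⊓ Z) ∣ N.relIndex A := by
        have := CfsgLib.PSolv.relIndex_inf_dvd (K := Z) hNA
        rwa [hNZe] at this
      have hNi₁ : ¬ p ∣ N.relIndex (A ⊓ Z) := fun h => hNAi (h.trans hdv)
      obtain ⟨K, hKn, hKc⟩ := hall_normal (A ⊓ Z) N hNA₁ (hNcop _ hNi₁) hNsolv (by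
        intro K hK hsup'
        have h1 : N ≤ normalizer (K : Set G) := by
          intro n hn
          rw [Subgroup.mem_normalizer_iff]
          intro z
          constructor
          · intro hz
            have := (mem_centralizer_iff.1 (Subgroup.mem_inf.1 (hK hz)).2) n hn
            have e : n * z * n⁻¹ = z := by rw [this]; group
            rwa [e]
          · intro hz
            have := (mem_centralizer_iff.1 (Subgroup.mem_inf.1 (hK hz)).2) n hn
            have e : z = n * z * n⁻¹ := by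
              have h3 : n * (n * z * n⁻¹) = n * z := by
                rw [this]; group
              exact (mul_left_cancel h3).symm
            rwa [e]
        rw [sup_eq_right.2 h1] at hsup'
        exact hsup')
      have hKb : K = ⊥ := hno' K hKn (by rwa [hKc])
      rw [hKb, Subgroup.card_bot] at hKc
      have hA₁e : A ⊓ Z = N := le_antisymm (Subgroup.relIndex_eq_one.1 hKc.symm) hNA₁
      have hB₁le : B ⊓ Z ≤ B := inf_le_left
      have hA₁B₁ : A ⊓ Z ≤ B ⊓ Z := inf_le_inf_right _ hAB
      have hcardB₁ : ∃ e : ℕ, Nat.card (B ⊓ Z : Subgroup G) = p ^ e := by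
        have h1 := card_mul_relIndex' hA₁B₁
        have h2 : (A ⊓ Z).relIndex (B ⊓ Z) ∣ A.relIndex B := CfsgLib.PSolv.relIndex_inf_dvd hAB
        rw [hABi] at h2
        obtain ⟨i, -, hi⟩ := (Nat.dvd_prime_pow Fact.out).1 h2
        rw [hi, hA₁e, hm'] at h1
        exact ⟨m + i, by rw [← h1, pow_add]⟩
      refine ⟨⊥, B ⊓ Z, C, D, inferInstance, inferInstance, hCn, hDn, bot_le, hB₁le.trans hBC, hCD, ?_, ?_, ?_, ⟨l, hCDi⟩, hDi, hD2⟩
      · simpa using (Fact.out : p.Prime).ne_one
      · rw [Subgroup.relIndex_bot_left]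
        exact hcardB₁
      · rw [← Subgroup.relIndex_mul_relIndex _ _ _ hB₁le hBC, Subgroup.inf_relIndex_left]
        intro hdvd
        rcases (Fact.out : p.Prime).dvd_mul.1 hdvd with h | h
        · exact not_dvd_index_centralizer N hcardN (h.trans (Subgroup.relIndex_dvd_index_of_normal Z B))
        · exact hBCi h

end CfsgLib.PLenMax
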