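import Cfsg.Agent.Lib.H3.Comp2
import Cfsg.Agent.Lib.SS.Sub
import Cfsg.Agent.Lib.SS.Sub2
import Cfsg.Agent.Lib.SS.Split
import Cfsg.Agent.Lib.Trans.Basic
import Cfsg.Prelude.Def_LocalEven

/-! Elementary facts on p-minimal groups. -/

namespace CfsgLib.PMin

open Subgroup CfsgLib.Solv

variable {P : Type*} [Group P] [Finite P] {p : ℕ} [hp : Fact p.Prime]

section Basic

variable (hP : Cfsg.IsPMinimal p P) (S : Sylow p P) {M : Subgroup P} (hM : IsCoatom M)
  (hSM : (S : Subgroup P) ≤ M)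

include hP hM hSM in
lemma le_of_sylow_le {W : Subgroup P} (hSW : (S : Subgroup P) ≤ W) (hW : W ≠ ⊤) : W ≤ M := by
  obtain ⟨M', -, hu⟩ := (hP S).2
  rcases eq_top_or_exists_le_coatom W with h | ⟨M₁, hM₁, hWM₁⟩
  · exact absurd h hW
  · have h1 := hu M₁ ⟨hM₁, hSW.trans hWM₁⟩
    have h2 := hu M ⟨hM, hSM⟩
    rw [h2, ← h1]
    exact hWM₁

lemma residual_sup_sylow : Cfsg.pResidual p P ⊔ (S : Subgroup P) = ⊤ := by
  classical
  obtain ⟨a, ha⟩ := CfsgLib.SS.index_pResidual (G := P) (p := p)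
  have h1 : (Cfsg.pResidual p P ⊔ (S : Subgroup P)).index ∣ p ^ a := by
    rw [← ha]
    exact Subgroup.index_dvd_of_le le_sup_left
  have h2 : (Cfsg.pResidual p P ⊔ (S : Subgroup P)).index ∣ (S : Subgroup P).index :=
    Subgroup.index_dvd_of_le le_sup_right
  have h3 : Nat.Coprime (p ^ a) (S : Subgroup P).index :=
    Nat.Coprime.pow_left _ ((Nat.Prime.coprime_iff_not_dvd hp.out).2 S.not_dvd_index)
  have h4 := Nat.eq_one_of_dvd_coprimes h3 h1 h2
  exact Subgroup.index_eq_one.1 h4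

include hP hM hSM in
/-- A normal subgroup contains the residual or lies in the core. -/
theorem normal_cases (N : Subgroup P) (hN : N.Normal) :
    Cfsg.pResidual p P ≤ N ∨ N ≤ M.normalCore := by
  classical
  by_cases hW : N ⊔ (S : Subgroup P) = ⊤
  · left
    unfold Cfsg.pResidual
    rw [Subgroup.closure_le]
    intro g hg
    -- P / N is a p-group
    have hq : IsPGroup p (P ⧸ N) := by
      have hsurj : Function.Surjective ((QuotientGroup.mk' N).comp (S : Subgroup P).subtype) := by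
        intro x
        obtain ⟨g, rfl⟩ := QuotientGroup.mk_surjective x
        have hg : g ∈ ((N ⊔ (S : Subgroup P) : Subgroup P) : Set P) := by
          rw [hW]; exact Subgroup.mem_top g
        rw [Subgroup.normal_mul] at hg
        obtain ⟨n, hn, s, hs, rfl⟩ := Set.mem_mul.1 hg
        refine ⟨⟨s, hs⟩, ?_⟩
        show ((s : P) : P ⧸ N) = _
        apply QuotientGroup.eq.2
        have : s⁻¹ * (n * s) = s⁻¹ * n * s⁻¹⁻¹ := by group
        rw [this]
        exact hN.conj_mem _ hn _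
      exact S.2.of_surjective _ hsurj
    obtain ⟨k, hk⟩ := (IsPGroup.iff_orderOf.1 hq) (g : P ⧸ N)
    have h1 : orderOf (g : P ⧸ N) ∣ orderOf g := orderOf_map_dvd (QuotientGroup.mk' N) g
    have h2 : Nat.Coprime (orderOf g) (p ^ k) := Nat.Coprime.pow_right _ hg
    have h3 : orderOf (g : P ⧸ N) = 1 :=
      Nat.eq_one_of_dvd_coprimes h2 h1 (by rw [hk])
    rw [orderOf_eq_one_iff] at h3
    exact (QuotientGroup.eq_one_iff _).1 h3
  · right
    have := le_of_sylow_le hP S hM hSM (le_sup_right) hW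
    exact (Subgroup.normal_le_normalCore).2 (le_sup_left.trans this)

include hM hSM in
theorem core_lt : M.normalCore < Cfsg.pResidual p P ⊔ M.normalCore := by
  refine lt_of_le_of_ne le_sup_right ?_
  intro h
  apply hM.1
  have h1 : Cfsg.pResidual p P ≤ M := by
    have h2 : Cfsg.pResidual p P ≤ M.normalCore := by
      rw [h]; exact le_sup_left
    exact h2.trans (Subgroup.normalCore_le M)
  rw [eq_top_iff, ← residual_sup_sylow S]
  exact sup_le h1 hSM

include hP hM hSM in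
/-- A normal subgroup inside `M`: its `p`-part is normal in `P`. -/
theorem normal_inter (N : Subgroup P) (hN : N.Normal) (hNM : N ≤ M) :
    N ⊓ (S : Subgroup P) ≤ Cfsg.pCore p P := by
  classical
  obtain ⟨Q, hQ⟩ := CfsgLib.SS.exists_sylow_subgroupOf S hN.isSubnormal
  have h1 := Sylow.normalizer_sup_eq_top Q
  have h2 : (Q : Subgroup N).map N.subtype = N ⊓ (S : Subgroup P) := by
    rw [hQ, Subgroup.subgroupOf_map_subtype, inf_comm]
  rw [h2] at h1
  have hSn : (S : Subgroup P) ≤ Subgroup.normalizer ((N ⊓ (S : Subgroup P) : Subgroup P) : Set P) := by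
    intro s hs
    haveI := Fintype.ofFinite P
    refine SetLike.mem_coe.2 (Subgroup.mem_normalizer_fintype ?_)
    rintro x ⟨hx1, hx2⟩
    exact ⟨hN.conj_mem _ hx1 _, (S : Subgroup P).mul_mem ((S : Subgroup P).mul_mem hs hx2)
      ((S : Subgroup P).inv_mem hs)⟩
  have h3 : Subgroup.normalizer ((N ⊓ (S : Subgroup P) : Subgroup P) : Set P) = ⊤ := by
    by_contra hne
    have := le_of_sylow_le hP S hM hSM hSn hne
    apply hM.1
    rw [eq_top_iff, ← h1]
    exact sup_le this hNM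
  haveI hn : (N ⊓ (S : Subgroup P)).Normal := Subgroup.normalizer_eq_top_iff.1 h3
  apply CfsgLib.Solv.le_pCore'
  exact S.2.to_le inf_le_right

end Basic

section Closure

/-- The normal closure of `N` in `W`. -/
def ncl (W N : Subgroup P) : Subgroup P :=
  Subgroup.closure {x | ∃ w ∈ W, ∃ n ∈ N, x = w * n * w⁻¹}

variable {W N : Subgroup P}

lemma le_ncl : N ≤ ncl W N := fun n hn =>
  Subgroup.subset_closure ⟨1, W.one_mem, n, hn, by simp⟩

lemma ncl_le (h : N ≤ W) : ncl W N ≤ W := by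
  unfold ncl
  rw [Subgroup.closure_le]
  rintro _ ⟨w, hw, n, hn, rfl⟩
  exact W.mul_mem (W.mul_mem hw (h hn)) (W.inv_mem hw)

lemma conj_ncl_of_mem {g : P} (hg : g ∈ W) {x : P} (hx : x ∈ ncl W N) : g * x * g⁻¹ ∈ ncl W N := by
  have : ncl W N ≤ (ncl W N).comap (MulAut.conj g).toMonoidHom := by
    unfold ncl
    rw [Subgroup.closure_le]
    rintro _ ⟨w, hw, n, hn, rfl⟩
    apply Subgroup.subset_closure
    refine ⟨g * w, W.mul_mem hg hw, n, hn, ?_⟩
    simp [MulAut.conj_apply]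
    group
  simpa [MulAut.conj_apply] using this hx

lemma conj_ncl_of_normalizes {g : P} (h1 : ∀ w ∈ W, g * w * g⁻¹ ∈ W) (h2 : ∀ n ∈ N, g * n * g⁻¹ ∈ N)
    {x : P} (hx : x ∈ ncl W N) : g * x * g⁻¹ ∈ ncl W N := by
  have : ncl W N ≤ (ncl W N).comap (MulAut.conj g).toMonoidHom := by
    unfold ncl
    rw [Subgroup.closure_le]
    rintro _ ⟨w, hw, n, hn, rfl⟩
    apply Subgroup.subset_closure
    refine ⟨g * w * g⁻¹, h1 w hw, g * n * g⁻¹, h2 n hn, ?_⟩
    simp [MulAut.conj_apply]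
    group
  simpa [MulAut.conj_apply] using this hx

/-- A proper subnormal subgroup has a proper normal closure. -/
lemma ncl_ne (hN : N.IsSubnormal) (hNW : N ≤ W) (hne : N ≠ W) : ncl W N ≠ W := by
  intro h
  have h1 : (N.subgroupOf W).IsSubnormal := hN.subgroupOf
  have h2 : N.subgroupOf W ≠ ⊤ := by
    intro h3
    exact hne (le_antisymm hNW (Subgroup.subgroupOf_eq_top.1 h3))
  obtain ⟨K, hK, hNK, hKt⟩ := h1.exists_normal_and_le_and_lt_top_of_ne h2
  have h3 : ncl W N ≤ K.map W.subtype := by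
    unfold ncl
    rw [Subgroup.closure_le]
    rintro _ ⟨w, hw, n, hn, rfl⟩
    refine ⟨(⟨w, hw⟩ : W) * ⟨n, hNW hn⟩ * (⟨w, hw⟩ : W)⁻¹, ?_, rfl⟩
    exact hK.conj_mem _ (hNK (Subgroup.mem_subgroupOf.2 hn)) _
  rw [h] at h3
  apply hKt.ne
  rw [eq_top_iff]
  rintro ⟨w, hw⟩ -
  obtain ⟨y, hy, hye⟩ := h3 hw
  have : y = ⟨w, hw⟩ := Subtype.ext hye
  rwa [← this]

end Closure

section Subn

variable (hP : Cfsg.IsPMinimal p P) (S : Sylow p P) {M : Subgroup P} (hM : IsCoatom M)
  (hSM : (S : Subgroup P) ≤ M)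

include hP hM hSM in
/-- A subnormal subgroup of `M` normalized by `S` lies in a normal subgroup of `P` inside `M`. -/
theorem exists_normal_over {N : Subgroup P} (hN : N.IsSubnormal)
    (hNS : ∀ s ∈ (S : Subgroup P), ∀ n ∈ N, s * n * s⁻¹ ∈ N) (hNM : N ≤ M) :
    ∃ Y : Subgroup P, Y.Normal ∧ N ≤ Y ∧ Y ≤ M := by
  classical
  have key : ∀ (c : ℕ) (W : Subgroup P), Nat.card W = c → N ≤ W →
      (∀ s ∈ (S : Subgroup P), ∀ w ∈ W, s * w * s⁻¹ ∈ W) → W ⊔ (S : Subgroup P) = ⊤ →
      ∃ Y : Subgroup P, Y.Normal ∧ N ≤ Y ∧ Y ≤ M := by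
    intro c
    induction c using Nat.strong_induction_on with
    | _ c ih =>
      intro W hc hNW hWS hsup
      have hne : N ≠ W := by
        rintro rfl
        apply hM.1
        rw [eq_top_iff, ← hsup]
        exact sup_le hNM hSM
      have h1 := ncl_ne hN hNW hne
      have hle : ncl W N ≤ W := ncl_le hNW
      have hS1 : ∀ s ∈ (S : Subgroup P), ∀ x ∈ ncl W N, s * x * s⁻¹ ∈ ncl W N :=
        fun s hs x hx => conj_ncl_of_normalizes (hWS s hs) (hNS s hs) hx
      by_cases hc1 : ncl W N ⊔ (S : Subgroup P) = ⊤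
      · have hlt : Nat.card (ncl W N) < c := by
          rw [← hc]
          by_contra hge
          push Not at hge
          exact h1 (Subgroup.eq_of_le_of_card_ge hle hge)
        exact ih _ hlt (ncl W N) rfl le_ncl hS1 hc1
      · have hY : ncl W N ≤ M := le_sup_left.trans (le_of_sylow_le hP S hM hSM le_sup_right hc1)
        refine ⟨ncl W N, ?_, le_ncl, hY⟩
        rw [← Subgroup.normalizer_eq_top_iff, eq_top_iff, ← hsup]
        haveI := Fintype.ofFinite P
        refine sup_le ?_ ?_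
        · intro w hw
          exact SetLike.mem_coe.2 (Subgroup.mem_normalizer_fintype (fun x hx =>
            conj_ncl_of_mem hw hx))
        · intro s hs
          exact SetLike.mem_coe.2 (Subgroup.mem_normalizer_fintype (fun x hx => hS1 s hs x hx))
  exact key _ ⊤ rfl le_top (fun s _ w _ => Subgroup.mem_top _) (top_sup_eq _)

include hP hM hSM in
theorem subnormal_inter {N : Subgroup P} (hN : N.IsSubnormal) (hNM : N ≤ M) :
    N ⊓ (S : Subgroup P) ≤ Cfsg.pCore p P := by
  classical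
  set A : Set (Subgroup P) := {U | ∃ s ∈ (S : Subgroup P), U = N.map (MulAut.conj s).toMonoidHom}
    with hA
  have hsub : (sSup A).IsSubnormal := by
    apply CfsgLib.SS.sSup_isSubnormal
    rintro U ⟨s, hs, rfl⟩
    exact hN.map (MulAut.conj s).surjective
  have hNA : N ≤ sSup A := le_sSup ⟨1, (S : Subgroup P).one_mem, by
    ext x; simp [MulAut.conj_apply]⟩
  have hAM : sSup A ≤ M := by
    apply sSup_le
    rintro U ⟨s, hs, rfl⟩
    rintro _ ⟨n, hn, rfl⟩
    exact M.mul_mem (M.mul_mem (hSM hs) (hNM hn)) (M.inv_mem (hSM hs))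
  have hAS : ∀ s ∈ (S : Subgroup P), ∀ n ∈ sSup A, s * n * s⁻¹ ∈ sSup A := by
    intro s hs n hn
    have h1 : sSup A ≤ (sSup A).comap (MulAut.conj s).toMonoidHom := by
      apply sSup_le
      rintro U ⟨t, ht, rfl⟩
      rintro _ ⟨n, hn, rfl⟩
      have h2 : (s * t) ∈ (S : Subgroup P) := (S : Subgroup P).mul_mem hs ht
      have h3 : N.map (MulAut.conj (s * t)).toMonoidHom ≤ sSup A := le_sSup ⟨_, h2, rfl⟩
      apply h3
      exact ⟨n, hn, by simp [MulAut.conj_apply, mul_assoc]⟩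
    simpa [MulAut.conj_apply] using h1 hn
  obtain ⟨Y, hY, hNY, hYM⟩ := exists_normal_over hP S hM hSM hsub hAS hAM
  exact (inf_le_inf_right _ (hNA.trans hNY)).trans (normal_inter hP S hM hSM Y hY hYM)

end Subn

end CfsgLib.PMin
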