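import Cfsg.Agent.Lib.H3.PMin
import Cfsg.Agent.Lib.H3.TransferTools

/-! p-minimal groups whose residual has a normal Sylow p-subgroup have at most two prime
divisors. -/

namespace CfsgLib.PMin

open Subgroup CfsgLib.Solv

variable {P : Type*} [Group P] [Finite P] {p : ℕ} [hp : Fact p.Prime]

/-- An `S`-invariant enlargement of a Sylow subgroup of `R`. -/
lemma exists_inv (S : Sylow p P) (R : Subgroup P) [hRn : R.Normal] (T₀ : Sylow p R)
    (hTn : ((T₀ : Subgroup R).map R.subtype).Normal) (q : ℕ) [hq : Fact q.Prime]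
    (Q₀ : Sylow q R) :
    ∃ Y Q₁ : Subgroup P, Y ≤ R ∧ Q₁ ≤ Y ∧ (∀ s ∈ (S : Subgroup P), ∀ y ∈ Y, s * y * s⁻¹ ∈ Y) ∧
      Nat.card Y ∣ Nat.card T₀ * Nat.card Q₀ ∧ Nat.card Q₁ = Nat.card Q₀ := by
  classical
  haveI := Fintype.ofFinite P
  set T : Subgroup P := (T₀ : Subgroup R).map R.subtype with hT
  haveI hTn' : T.Normal := hTn
  set Q : Subgroup P := (Q₀ : Subgroup R).map R.subtype with hQ
  have hTR : T ≤ R := Subgroup.map_subtype_le _
  have hQR : Q ≤ R := Subgroup.map_subtype_le _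
  have hTc : Nat.card T = Nat.card T₀ :=
    Subgroup.card_map_of_injective R.subtype_injective
  have hQc : Nat.card Q = Nat.card Q₀ :=
    Subgroup.card_map_of_injective R.subtype_injective
  set Yh : Subgroup P := Q ⊔ T with hYh
  have hYhR : Yh ≤ R := sup_le hQR hTR
  set Nn : Subgroup P := Subgroup.normalizer (Yh : Set P) with hNn
  have hN1 : Subgroup.normalizer (Q : Set P) ≤ Nn := by
    intro g hg
    refine SetLike.mem_coe.2 (Subgroup.mem_normalizer_fintype ?_)
    intro x hx
    have : Yh ≤ Yh.comap (MulAut.conj g).toMonoidHom := by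
      refine sup_le ?_ ?_
      · intro y hy
        have : g * y * g⁻¹ ∈ Q := (Subgroup.mem_normalizer_iff.1 hg y).1 hy
        exact Subgroup.mem_sup_left this
      · intro y hy
        exact Subgroup.mem_sup_right (hTn'.conj_mem y hy g)
    simpa [MulAut.conj_apply] using this hx
  have hN2 : Nn ⊔ R = ⊤ := by
    have h := Sylow.normalizer_sup_eq_top Q₀
    rw [eq_top_iff, ← h]
    exact sup_le_sup_right hN1 R
  have hrel : R.relIndex Nn = R.index := by
    rw [← Subgroup.relIndex_sup_right, hN2, Subgroup.relIndex_top_right]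
  have hcards : Nat.card (R ⊓ Nn : Subgroup P) * Nn.index = Nat.card R := by
    have h1 := CfsgLib.Trans.card_mul_relIndex (inf_le_right : R ⊓ Nn ≤ Nn)
    rw [Subgroup.inf_relIndex_right, hrel] at h1
    have h2 := Subgroup.card_mul_index Nn
    have h3 := Subgroup.card_mul_index R
    have h4 : Nat.card (R ⊓ Nn : Subgroup P) * Nn.index * R.index = Nat.card R * R.index := by
      rw [h3, ← h2, ← h1]
      ring
    exact Nat.eq_of_mul_eq_mul_right (Nat.pos_of_ne_zero Subgroup.index_ne_zero_of_finite) h4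
  have hTle : T ≤ R ⊓ Nn := le_inf hTR (le_trans (le_sup_right) (Subgroup.le_normalizer))
  have hNi : ¬ p ∣ Nn.index := by
    intro hdvd
    have h1 : Nat.card T ∣ Nat.card (R ⊓ Nn : Subgroup P) := Subgroup.card_dvd_of_le hTle
    have h2 := Subgroup.card_mul_index (T₀ : Subgroup R)
    have h3 : Nat.card T₀ * p ∣ Nat.card R := by
      rw [← hcards, ← hTc]
      exact mul_dvd_mul h1 hdvd
    rw [← h2] at h3
    exact T₀.not_dvd_index (Nat.dvd_of_mul_dvd_mul_left Nat.card_pos h3)
  -- a Sylow subgroup of the normalizer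
  let U : Sylow p Nn := default
  have hV : IsPGroup p ((U : Subgroup Nn).map Nn.subtype) := U.2.map _
  have hVi : ¬ p ∣ ((U : Subgroup Nn).map Nn.subtype).index := by
    rw [Subgroup.index_map_subtype]
    intro h
    rcases (Nat.Prime.dvd_mul hp.out).1 h with h | h
    · exact U.not_dvd_index h
    · exact hNi h
  obtain ⟨g, hg⟩ := MulAction.exists_smul_eq P (hV.toSylow hVi) S
  have hsg : ∀ s ∈ (S : Subgroup P), g⁻¹ * s * g ∈ Nn := by
    intro s hs
    rw [← hg] at hs
    have h1 := (CfsgLib.Trans.mem_sylow_smul g (hV.toSylow hVi) s).1 hs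
    have h2 : g⁻¹ * s * g ∈ (U : Subgroup Nn).map Nn.subtype := (hV.mem_toSylow hVi).1 h1
    exact Subgroup.map_subtype_le _ h2
  refine ⟨Yh.map (MulAut.conj g).toMonoidHom, Q.map (MulAut.conj g).toMonoidHom, ?_, ?_, ?_, ?_, ?_⟩
  · rintro _ ⟨y, hy, rfl⟩
    exact hRn.conj_mem _ (hYhR hy) g
  · exact Subgroup.map_mono le_sup_left
  · rintro s hs _ ⟨y, hy, rfl⟩
    have h1 := hsg s hs
    have h2 : (g⁻¹ * s * g) * y * (g⁻¹ * s * g)⁻¹ ∈ Yh :=
      (Subgroup.mem_normalizer_iff.1 h1 y).1 hy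
    refine ⟨_, h2, ?_⟩
    simp [MulAut.conj_apply]
    group
  · have h1 : Nat.card (Yh.map (MulAut.conj g).toMonoidHom) = Nat.card Yh :=
      Subgroup.card_map_of_injective (MulAut.conj g).injective
    rw [h1]
    have h2 := CfsgLib.Trans.card_mul_relIndex (le_sup_right : T ≤ Yh)
    have h3 : T.relIndex Yh = T.relIndex Q := Subgroup.relIndex_sup_right _ _
    rw [h3] at h2
    rw [← h2, hTc, ← hQc]
    exact mul_dvd_mul_left _ (Subgroup.relIndex_dvd_card _ _)
  · rw [← hQc]
    exact Subgroup.card_map_of_injective (MulAut.conj g).injective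

variable (hP : Cfsg.IsPMinimal p P) (S : Sylow p P) {M : Subgroup P} (hM : IsCoatom M)
  (hSM : (S : Subgroup P) ≤ M)

include hP hM hSM in
theorem two_primes
    (hT : ∀ T : Sylow p ↥(Cfsg.pResidual p P), (T : Subgroup ↥(Cfsg.pResidual p P)).Normal) :
    (Nat.card P).primeFactors.card ≤ 2 := by
  classical
  set R := Cfsg.pResidual p P with hR
  haveI hRn : R.Normal := CfsgLib.Tr.pResidual_normal p P
  let T₀ : Sylow p R := default
  haveI hT₀c : (T₀ : Subgroup R).Characteristic := Sylow.characteristic_of_normal T₀ (hT T₀)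
  have hTn : ((T₀ : Subgroup R).map R.subtype).Normal :=
    CfsgLib.Comp.char_map_normal_of_normal hRn _
  have hcase : ∃ (q : ℕ) (_ : q.Prime) (Y : Subgroup P) (c : ℕ),
      (∀ s ∈ (S : Subgroup P), ∀ y ∈ Y, s * y * s⁻¹ ∈ Y) ∧
      Nat.card Y ∣ Nat.card T₀ * q ^ c ∧ Y ⊔ (S : Subgroup P) = ⊤ := by
    by_contra hno
    push Not at hno
    have hRM : R ≤ M := by
      have hA : (M.subgroupOf R).index = 1 := by
        by_contra hne
        obtain ⟨q, hqp, hqd⟩ := Nat.exists_prime_and_dvd hne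
        haveI : Fact q.Prime := ⟨hqp⟩
        let Q₀ : Sylow q R := default
        obtain ⟨Y, Q₁, hYR, hQY, hYS, hYc, hQ₁⟩ := exists_inv S R T₀ hTn q Q₀
        obtain ⟨k, hk⟩ := IsPGroup.iff_card.1 Q₀.2
        have hYM : Y ≤ M := by
          have hne2 : Y ⊔ (S : Subgroup P) ≠ ⊤ := hno q hqp Y k hYS (hk ▸ hYc)
          exact le_sup_left.trans (le_of_sylow_le hP S hM hSM le_sup_right hne2)
        -- cardinalities
        have h1 : Nat.card Q₁ ∣ Nat.card (M.subgroupOf R) := by
          have h2 : Nat.card (Q₁.subgroupOf R) = Nat.card Q₁ :=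
            CfsgLib.Solv.card_subgroupOf_of_le (hQY.trans hYR)
          rw [← h2]
          apply Subgroup.card_dvd_of_le
          intro x hx
          exact Subgroup.mem_subgroupOf.2 (hYM (hQY (Subgroup.mem_subgroupOf.1 hx)))
        have h3 := Subgroup.card_mul_index (M.subgroupOf R)
        have h4 := Subgroup.card_mul_index (Q₀ : Subgroup R)
        have h5 : Nat.card Q₀ * q ∣ Nat.card R := by
          rw [← h3, ← hQ₁]
          exact mul_dvd_mul h1 hqd
        rw [← h4] at h5
        exact Q₀.not_dvd_index (Nat.dvd_of_mul_dvd_mul_left Nat.card_pos h5)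
      exact Subgroup.relIndex_eq_one.1 hA
    apply hM.1
    rw [eq_top_iff, ← residual_sup_sylow S]
    exact sup_le hRM hSM
  obtain ⟨q, hqp, Y, c, hYS, hYc, hsup⟩ := hcase
  have hYn : Y.Normal := by
    rw [← Subgroup.normalizer_eq_top_iff, eq_top_iff, ← hsup]
    haveI := Fintype.ofFinite P
    refine sup_le ?_ ?_
    · exact Subgroup.le_normalizer
    · intro s hs
      exact SetLike.mem_coe.2 (Subgroup.mem_normalizer_fintype (fun x hx => hYS s hs x hx))
  have h1 : Y.index = Y.relIndex (S : Subgroup P) := by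
    rw [← Subgroup.relIndex_sup_right, sup_comm, hsup, Subgroup.relIndex_top_right]
  have h2 : Y.index ∣ Nat.card (S : Subgroup P) := by
    rw [h1]
    exact Subgroup.relIndex_dvd_card _ _
  have h3 : Nat.card P ∣ Nat.card T₀ * q ^ c * Nat.card (S : Subgroup P) := by
    rw [← Subgroup.card_mul_index Y]
    exact mul_dvd_mul hYc h2
  have hsub : (Nat.card P).primeFactors ⊆ {p, q} := by
    intro l hl
    have hlp := Nat.prime_of_mem_primeFactors hl
    have hld := Nat.dvd_of_mem_primeFactors hl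
    have h4 := hld.trans h3
    rcases (Nat.Prime.dvd_mul hlp).1 h4 with h5 | h5
    · rcases (Nat.Prime.dvd_mul hlp).1 h5 with h6 | h6
      · obtain ⟨k, hk⟩ := IsPGroup.iff_card.1 T₀.2
        rw [hk] at h6
        have := (Nat.prime_dvd_prime_iff_eq hlp hp.out).1 (hlp.dvd_of_dvd_pow h6)
        simp [this]
      · have := (Nat.prime_dvd_prime_iff_eq hlp hqp).1 (hlp.dvd_of_dvd_pow h6)
        simp [this]
    · obtain ⟨k, hk⟩ := IsPGroup.iff_card.1 S.2
      rw [hk] at h5
      have := (Nat.prime_dvd_prime_iff_eq hlp hp.out).1 (hlp.dvd_of_dvd_pow h5)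
      simp [this]
  exact (Finset.card_le_card hsub).trans Finset.card_le_two

include hP hM hSM in
theorem main :
    (∀ N : Subgroup P, N.IsSubnormal → N ≤ M → N ⊓ (S : Subgroup P) ≤ Cfsg.pCore p P) ∧
    ((∀ T : Sylow p ↥(Cfsg.pResidual p P), (T : Subgroup ↥(Cfsg.pResidual p P)).Normal) →
      (Nat.card P).primeFactors.card ≤ 2) ∧
    (∀ N : Subgroup P, N.Normal → Cfsg.pResidual p P ≤ N ∨ N ≤ M.normalCore) ∧
    (∀ N : Subgroup P, N.Normal → M.normalCore ≤ N → N ≤ Cfsg.pResidual p P ⊔ M.normalCore →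
      N = M.normalCore ∨ N = Cfsg.pResidual p P ⊔ M.normalCore) ∧
    M.normalCore < Cfsg.pResidual p P ⊔ M.normalCore := by
  refine ⟨fun N hN hNM => subnormal_inter hP S hM hSM hN hNM, two_primes hP S hM hSM,
    normal_cases hP S hM hSM, ?_, core_lt S hM hSM⟩
  intro N hN h1 h2
  rcases normal_cases hP S hM hSM N hN with h | h
  · right
    exact le_antisymm h2 (sup_le h h1)
  · left
    exact le_antisymm h h1

end CfsgLib.PMin
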