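import Cfsg.Agent.Lib.H3.PMin2
import Cfsg.Agent.Lib.H3.FrattRes
import Cfsg.Agent.Lib.H3.FourConn

/-! p-minimal groups without normal p-subgroups. -/

namespace CfsgLib.PMin

open Subgroup CfsgLib.Solv
open scoped commutatorElement

variable {P : Type*} [Group P] [Finite P] {p : ℕ} [hp : Fact p.Prime]

/-- A criterion for `p`-minimality of a subgroup. -/
theorem isPMinimal_of_sub {G₁ S₁ M₀ : Subgroup P} (hS₁G : S₁ ≤ G₁) (hpg : IsPGroup p S₁)
    (hidx : ¬ p ∣ S₁.relIndex G₁) (hnn : ¬ G₁ ≤ Subgroup.normalizer (S₁ : Set P))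
    (hS₁M : S₁ ≤ M₀) (hne : ¬ G₁ ≤ M₀)
    (hmax : ∀ X : Subgroup P, S₁ ≤ X → X ≤ G₁ → X ≠ G₁ → X ≤ M₀) :
    Cfsg.IsPMinimal p ↥G₁ := by
  classical
  haveI := Fintype.ofFinite P
  have hS' : IsPGroup p (S₁.subgroupOf G₁) := hpg.comap_subtype
  set T₀ : Sylow p G₁ := hS'.toSylow hidx with hT₀
  have hT₀c : (T₀ : Subgroup G₁) = S₁.subgroupOf G₁ := rfl
  set M' : Subgroup G₁ := M₀.subgroupOf G₁ with hM'
  have hS'M' : (T₀ : Subgroup G₁) ≤ M' := by
    rw [hT₀c]
    intro x hx
    exact Subgroup.mem_subgroupOf.2 (hS₁M (Subgroup.mem_subgroupOf.1 hx))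
  -- proper overgroups lie in M'
  have hmax' : ∀ Z : Subgroup G₁, (T₀ : Subgroup G₁) ≤ Z → Z ≠ ⊤ → Z ≤ M' := by
    intro Z hZ hZt x hx
    have h1 : S₁ ≤ Z.map G₁.subtype := by
      intro s hs
      have : (⟨s, hS₁G hs⟩ : G₁) ∈ (T₀ : Subgroup G₁) := by
        rw [hT₀c]
        exact Subgroup.mem_subgroupOf.2 hs
      exact ⟨_, hZ this, rfl⟩
    have h2 : Z.map G₁.subtype ≤ G₁ := Subgroup.map_subtype_le _
    have h3 : Z.map G₁.subtype ≠ G₁ := by
      intro h
      apply hZt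
      rw [eq_top_iff]
      rintro ⟨y, hy⟩ -
      have hy' : y ∈ Z.map G₁.subtype := by rw [h]; exact hy
      obtain ⟨w, hw, hwe⟩ := hy'
      have : w = ⟨y, hy⟩ := Subtype.ext hwe
      rwa [← this]
    exact Subgroup.mem_subgroupOf.2 (hmax _ h1 h2 h3 ⟨x, hx, rfl⟩)
  have hM'c : IsCoatom M' := by
    refine ⟨?_, fun Z hZ => ?_⟩
    · intro h
      exact hne (Subgroup.subgroupOf_eq_top.1 h)
    · by_contra hZt
      exact absurd (hmax' Z (hS'M'.trans hZ.le) hZt) (not_le_of_gt hZ)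
  intro T
  obtain ⟨g, hg⟩ := MulAction.exists_smul_eq G₁ T₀ T
  have hmemT : ∀ x : G₁, x ∈ (T : Subgroup G₁) ↔ g⁻¹ * x * g ∈ (T₀ : Subgroup G₁) := by
    intro x
    rw [← hg]
    exact CfsgLib.Trans.mem_sylow_smul g T₀ x
  refine ⟨?_, ?_⟩
  · intro hn
    haveI : T.Normal := hn
    have h1 : g⁻¹ • T = T := Sylow.smul_eq_of_normal
    have h2 : g⁻¹ • T = T₀ := by rw [← hg, inv_smul_smul]
    have h3 : T₀ = T := h2.symm.trans h1
    apply hnn
    intro y hy
    refine SetLike.mem_coe.2 (Subgroup.mem_normalizer_fintype ?_)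
    intro s hs
    have h4 : (⟨s, hS₁G hs⟩ : G₁) ∈ (T : Subgroup G₁) := by
      rw [← h3, hT₀c]
      exact Subgroup.mem_subgroupOf.2 hs
    have h5 := hn.conj_mem _ h4 (⟨y, hy⟩ : G₁)
    rw [← h3, hT₀c] at h5
    exact Subgroup.mem_subgroupOf.1 h5
  · set MG : Subgroup G₁ := M'.map (MulAut.conj g).toMonoidHom with hMG
    have hMGc : IsCoatom MG := CfsgLib.FrattRes.isCoatom_map _ (MulAut.conj g).surjective hM'c (by
      intro x hx
      have : (MulAut.conj g) x = 1 := hx
      have h1 : x = 1 := (MulAut.conj g).map_eq_one_iff.1 this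
      rw [h1]
      exact M'.one_mem)
    refine ⟨MG, ⟨hMGc, ?_⟩, ?_⟩
    · intro x hx
      have h1 := hS'M' ((hmemT x).1 hx)
      refine ⟨_, h1, ?_⟩
      simp [MulAut.conj_apply]
      group
    · rintro M'' ⟨hc, hT⟩
      have hZc : IsCoatom (M''.map (MulAut.conj g⁻¹).toMonoidHom) :=
        CfsgLib.FrattRes.isCoatom_map _ (MulAut.conj g⁻¹).surjective hc (by
          intro x hx
          have : (MulAut.conj g⁻¹) x = 1 := hx
          have h1 : x = 1 := (MulAut.conj g⁻¹).map_eq_one_iff.1 this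
          rw [h1]
          exact M''.one_mem)
      have hZT : (T₀ : Subgroup G₁) ≤ M''.map (MulAut.conj g⁻¹).toMonoidHom := by
        intro x hx
        refine ⟨g * x * g⁻¹, hT ?_, ?_⟩
        · rw [hmemT]
          have : g⁻¹ * (g * x * g⁻¹) * g = x := by group
          rwa [this]
        · simp [MulAut.conj_apply]
          group
      have h1 := hmax' _ hZT hZc.1
      have h2 : M' = M''.map (MulAut.conj g⁻¹).toMonoidHom :=
        (hZc.le_iff.1 h1).resolve_left hM'c.1
      rw [hMG, h2, Subgroup.map_map]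
      have h3 : (MulAut.conj g).toMonoidHom.comp (MulAut.conj g⁻¹).toMonoidHom = MonoidHom.id _ := by
        ext x
        simp [MulAut.conj_apply]
        group
      rw [h3, Subgroup.map_id]

section Main

variable (hP : Cfsg.IsPMinimal p P) (S : Sylow p P) {M : Subgroup P} (hM : IsCoatom M)
  (hSM : (S : Subgroup P) ≤ M)

include hP hM hSM in
/-- A normal subgroup of `P` inside `M` is nilpotent when `O_p(P) = 1`. -/
theorem nilpotent_of_normal_le (hO : Cfsg.pCore p P = ⊥) (N : Subgroup P) (hN : N.Normal)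
    (hNM : N ≤ M) : Group.IsNilpotent N := by
  classical
  haveI := Fintype.ofFinite P
  have h1 := normal_inter hP S hM hSM N hN hNM
  rw [hO, le_bot_iff] at h1
  obtain ⟨T₀, hT₀⟩ := CfsgLib.SS.exists_sylow_subgroupOf S hN.isSubnormal
  have hT₀m : (T₀ : Subgroup N).map N.subtype = ⊥ := by
    rw [hT₀, Subgroup.subgroupOf_map_subtype, inf_comm, h1]
  have hT₀c : Nat.card T₀ = 1 := by
    have h2 : Nat.card ((T₀ : Subgroup N).map N.subtype) = Nat.card T₀ :=
      Subgroup.card_map_of_injective N.subtype_injective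
    rw [← h2, hT₀m]
    exact Subgroup.card_bot
  have hTn : ((T₀ : Subgroup N).map N.subtype).Normal := by
    rw [hT₀m]
    exact Subgroup.normal_bot
  apply (Group.isNilpotent_of_finite_tfae.out 0 3).2
  intro q hq Q₀
  obtain ⟨Y, Q₁, hYN, hQY, hYS, hYc, hQ₁⟩ := exists_inv S N T₀ hTn q Q₀
  rw [hT₀c, one_mul] at hYc
  have hYcard : Nat.card Y = Nat.card Q₀ := by
    apply Nat.dvd_antisymm hYc
    rw [← hQ₁]
    exact Subgroup.card_dvd_of_le hQY
  -- Y as a Sylow subgroup of N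
  have hY'c : Nat.card (Y.subgroupOf N) = q ^ (Nat.card N).factorization q := by
    rw [CfsgLib.Solv.card_subgroupOf_of_le hYN, hYcard]
    exact Q₀.card_eq_multiplicity
  let Y' : Sylow q N := Sylow.ofCard (Y.subgroupOf N) hY'c
  have hY'm : (Y' : Subgroup N).map N.subtype = Y := by
    show (Y.subgroupOf N).map N.subtype = Y
    rw [Subgroup.subgroupOf_map_subtype, inf_eq_left.2 hYN]
  have hF := Sylow.normalizer_sup_eq_top Y'
  rw [hY'm] at hF
  have hSn : (S : Subgroup P) ≤ Subgroup.normalizer (Y : Set P) := by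
    intro s hs
    exact SetLike.mem_coe.2 (Subgroup.mem_normalizer_fintype (fun x hx => hYS s hs x hx))
  have hYn : Subgroup.normalizer (Y : Set P) = ⊤ := by
    by_contra hne
    have := le_of_sylow_le hP S hM hSM hSn hne
    apply hM.1
    rw [eq_top_iff, ← hF]
    exact sup_le this hNM
  haveI hYn' : Y.Normal := Subgroup.normalizer_eq_top_iff.1 hYn
  haveI hY'n : (Y' : Subgroup N).Normal := by
    show (Y.subgroupOf N).Normal
    infer_instance
  letI := Sylow.unique_of_normal Y' hY'n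
  have : Q₀ = Y' := Subsingleton.elim _ _
  rw [this]
  exact hY'n

/-- Perfect subgroups lie in the residual. -/
lemma perfect_le_residual {L : Subgroup P} (hL : ⁅L, L⁆ = L) : L ≤ Cfsg.pResidual p P := by
  classical
  haveI hRn : (Cfsg.pResidual p P).Normal := CfsgLib.Tr.pResidual_normal p P
  obtain ⟨a, ha⟩ := CfsgLib.SS.index_pResidual (G := P) (p := p)
  have hq : IsPGroup p (P ⧸ Cfsg.pResidual p P) := by
    refine IsPGroup.of_card (n := a) ?_
    rw [← ha]
    rfl
  haveI : Group.IsNilpotent (P ⧸ Cfsg.pResidual p P) := hq.isNilpotent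
  haveI : Group.IsSolvable (P ⧸ Cfsg.pResidual p P) := inferInstance
  by_contra hnot
  have hne : L.map (QuotientGroup.mk' (Cfsg.pResidual p P)) ≠ ⊥ := by
    intro h
    apply hnot
    have := (Subgroup.map_eq_bot_iff L).1 h
    rwa [QuotientGroup.ker_mk'] at this
  have h1 := Group.IsSolvable.commutator_lt_of_ne_bot hne
  rw [← Subgroup.map_commutator, hL] at h1
  exact lt_irrefl _ h1

end Main

end CfsgLib.PMin
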