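import Cfsg.Agent.Lib.H3.PMin3

/-! p-minimal groups without normal p-subgroups: the structure theorem. -/

namespace CfsgLib.PMin

open Subgroup CfsgLib.Solv
open scoped commutatorElement

variable {P : Type*} [Group P] [Finite P] {p : ℕ} [hp : Fact p.Prime]

/-- The join of the `S`-conjugates of `A`. -/
def hat (S A : Subgroup P) : Subgroup P :=
  ⨆ s : ↥S, A.map (MulAut.conj (s : P)).toMonoidHom

omit [Finite P] in
lemma le_hat (S A : Subgroup P) : A ≤ hat S A := by
  have h : A.map (MulAut.conj ((1 : ↥S) : P)).toMonoidHom ≤ hat S A :=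
    le_iSup (fun s : ↥S => A.map (MulAut.conj (s : P)).toMonoidHom) 1
  intro a ha
  exact h ⟨a, ha, by simp⟩

omit [Finite P] in
lemma hat_inv (S A : Subgroup P) : ∀ s ∈ S, ∀ n ∈ hat S A, s * n * s⁻¹ ∈ hat S A := by
  intro s hs n hn
  have h1 : hat S A ≤ (hat S A).comap (MulAut.conj s).toMonoidHom := by
    apply iSup_le
    intro t
    rintro _ ⟨k, hk, rfl⟩
    have h3 : A.map (MulAut.conj (((⟨s, hs⟩ : ↥S) * t : ↥S) : P)).toMonoidHom ≤ hat S A :=
      le_iSup (fun s : ↥S => A.map (MulAut.conj (s : P)).toMonoidHom) _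
    have h4 := h3 ⟨k, hk, rfl⟩
    simpa [MulAut.conj_apply, mul_assoc] using h4
  simpa [MulAut.conj_apply] using h1 hn

omit [Finite P] in
lemma hat_le {S A M : Subgroup P} (hS : S ≤ M) (hA : A ≤ M) : hat S A ≤ M := by
  apply iSup_le
  rintro ⟨s, hs⟩
  rintro _ ⟨a, ha, rfl⟩
  exact M.mul_mem (M.mul_mem (hS hs) (hA ha)) (M.inv_mem (hS hs))

theorem main2906 (hP : Cfsg.IsPMinimal p P) (hOp : Cfsg.pCore p P = ⊥) (S : Sylow p P) (K : Subgroup P)
    (hK : Cfsg.IsComponent K) :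
    Cfsg.pResidual p P = Cfsg.generalizedFittingSubgroup P ∧
    Cfsg.generalizedFittingSubgroup P = Cfsg.layer P ∧
    Cfsg.layer P = ⨆ s : ↥(S : Subgroup P), K.map (MulAut.conj (s : P)).toMonoidHom ∧
    Cfsg.IsPMinimal p ↥(K ⊔ ((S : Subgroup P) ⊓ Subgroup.normalizer (K : Set P))) := by
  classical
  haveI := Fintype.ofFinite P
  obtain ⟨M, ⟨hM, hSM⟩, -⟩ := (hP S).2
  set R := Cfsg.pResidual p P with hR
  haveI hRn : R.Normal := CfsgLib.Tr.pResidual_normal p P
  set E : Subgroup P := hat (S : Subgroup P) K with hE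
  have hEs : E.IsSubnormal := by
    rw [hE]
    unfold hat
    rw [← sSup_range]
    apply CfsgLib.SS.sSup_isSubnormal
    rintro _ ⟨s, rfl⟩
    exact (CfsgLib.Comp.component_conj hK s).1
  have hEM : ¬ E ≤ M := by
    intro h
    obtain ⟨Y, hY, hEY, hYM⟩ := exists_normal_over hP S hM hSM hEs
      (hat_inv _ _) h
    have hnil := nilpotent_of_normal_le hP S hM hSM hOp Y hY hYM
    have hKY : K ≤ Y := (le_hat _ _).trans hEY
    apply CfsgLib.Comp.comp_not_solvable hK
    haveI : Group.IsNilpotent Y := hnil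
    exact solvable_of_solvable_injective (f := Subgroup.inclusion hKY)
      (Subgroup.inclusion_injective hKY)
  have hKM : ¬ K ≤ M := fun h => hEM (hat_le hSM h)
  have hEsup : E ⊔ (S : Subgroup P) = ⊤ := by
    by_contra h
    exact hEM (le_sup_left.trans (le_of_sylow_le hP S hM hSM le_sup_right h))
  have hEn : E.Normal := by
    rw [← Subgroup.normalizer_eq_top_iff, eq_top_iff, ← hEsup]
    refine sup_le Subgroup.le_normalizer ?_
    intro s hs
    exact SetLike.mem_coe.2 (Subgroup.mem_normalizer_fintype (fun x hx => hat_inv _ _ s hs x hx))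
  have hRE : R ≤ E := by
    rcases normal_cases hP S hM hSM E hEn with h | h
    · exact h
    · exact absurd (h.trans (Subgroup.normalCore_le M)) hEM
  have hcompR : ∀ L : Subgroup P, Cfsg.IsComponent L → L ≤ R := fun L hL =>
    perfect_le_residual (CfsgLib.Comp.comp_commutator hL)
  have hER : E ≤ R := by
    apply iSup_le
    intro s
    exact hcompR _ (CfsgLib.Comp.component_conj hK s)
  have hlayerR : Cfsg.layer P ≤ R := by
    apply sSup_le
    intro L hL
    exact hcompR L hL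
  have hElayer : E ≤ Cfsg.layer P := by
    apply iSup_le
    intro s
    exact CfsgLib.Comp.comp_le_layer (CfsgLib.Comp.component_conj hK s)
  have hRl : R = Cfsg.layer P := le_antisymm (hRE.trans hElayer) hlayerR
  have hEl : Cfsg.layer P = E := le_antisymm (hlayerR.trans hRE) hElayer
  have hfit : Cfsg.fittingSubgroup P ≤ R := by
    intro x hx
    apply Subgroup.subset_closure
    have h1 : orderOf x ∣ Nat.card (Cfsg.fittingSubgroup P) := Subgroup.orderOf_dvd_natCard _ hx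
    exact Nat.Coprime.coprime_dvd_left h1 (CfsgLib.PAct.fitting_coprime hOp)
  have hgf : Cfsg.generalizedFittingSubgroup P = Cfsg.layer P := by
    unfold Cfsg.generalizedFittingSubgroup
    exact sup_eq_left.2 (by rw [← hRl]; exact hfit)
  refine ⟨by rw [hgf]; exact hRl, hgf, hEl, ?_⟩
  -- the last assertion
  set S₁ : Subgroup P := (S : Subgroup P) ⊓ Subgroup.normalizer (K : Set P) with hS₁
  set G₁ : Subgroup P := K ⊔ S₁ with hG₁
  have hS₁N : S₁ ≤ Subgroup.normalizer (K : Set P) := inf_le_right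
  have hKG : K ≤ G₁ := le_sup_left
  have hS₁G : S₁ ≤ G₁ := le_sup_right
  have hS₁p : IsPGroup p S₁ := S.2.to_le inf_le_left
  have hS₁M : S₁ ≤ M := inf_le_left.trans hSM
  have hidx : ¬ p ∣ S₁.relIndex G₁ := by
    have hs := (CfsgLib.SS.isSylowIn_inf_of_subnormal S hK.1).2.2
    have h1 := CfsgLib.FourConn.card_sup_mul_inf hS₁N
    have h2 : S₁ ⊔ K = G₁ := sup_comm _ _
    have h3 : S₁ ⊓ K = (S : Subgroup P) ⊓ K := by
      apply le_antisymm
      · exact inf_le_inf_right _ inf_le_left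
      · rintro x ⟨hx1, hx2⟩
        exact ⟨⟨hx1, Subgroup.le_normalizer hx2⟩, hx2⟩
    rw [h2, h3] at h1
    have h4 := CfsgLib.Trans.card_mul_relIndex hS₁G
    have h5 := CfsgLib.Trans.card_mul_relIndex (inf_le_right : (S : Subgroup P) ⊓ K ≤ K)
    have h6 : S₁.relIndex G₁ = ((S : Subgroup P) ⊓ K).relIndex K := by
      rw [← h4, ← h5] at h1
      have h7 : 0 < Nat.card S₁ * Nat.card ((S : Subgroup P) ⊓ K : Subgroup P) :=
        Nat.mul_pos Nat.card_pos Nat.card_pos
      apply Nat.eq_of_mul_eq_mul_left h7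
      linarith [h1]
    rw [h6]
    exact hs
  -- proper overgroups
  have hmax : ∀ X : Subgroup P, S₁ ≤ X → X ≤ G₁ → X ≠ G₁ → X ≤ M := by
    intro X hS₁X hXG hXne
    set X₀ : Subgroup P := X ⊓ K with hX₀
    have hX₀K : X₀ ≤ K := inf_le_right
    have hX₀ne : X₀ ≠ K := by
      intro h
      apply hXne
      apply le_antisymm hXG
      exact sup_le (by rw [← h]; exact inf_le_left) hS₁X
    have hdec : X ≤ X₀ ⊔ S₁ := by
      intro x hx
      have h1 : x ∈ ((S₁ ⊔ K : Subgroup P) : Set P) := by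
        rw [sup_comm]
        exact hXG hx
      rw [Subgroup.coe_mul_of_left_le_normalizer_right S₁ K hS₁N] at h1
      obtain ⟨s, hs, k, hk, rfl⟩ := Set.mem_mul.1 h1
      have h2 : k ∈ X := by
        have : k = s⁻¹ * (s * k) := by group
        rw [this]
        exact X.mul_mem (X.inv_mem (hS₁X hs)) hx
      exact Subgroup.mul_mem _ (Subgroup.mem_sup_right hs) (Subgroup.mem_sup_left ⟨h2, hk⟩)
    refine hdec.trans (sup_le ?_ hS₁M)
    by_contra hnot
    set V : Subgroup P := hat (S : Subgroup P) X₀ with hV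
    have hVM : ¬ V ≤ M := fun h => hnot ((le_hat _ _).trans h)
    have hVsup : V ⊔ (S : Subgroup P) = ⊤ := by
      by_contra h
      exact hVM (le_sup_left.trans (le_of_sylow_le hP S hM hSM le_sup_right h))
    have hVn : V.Normal := by
      rw [← Subgroup.normalizer_eq_top_iff, eq_top_iff, ← hVsup]
      refine sup_le Subgroup.le_normalizer ?_
      intro s hs
      exact SetLike.mem_coe.2 (Subgroup.mem_normalizer_fintype (fun x hx => hat_inv _ _ s hs x hx))
    have hRV : R ≤ V := by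
      rcases normal_cases hP S hM hSM V hVn with h | h
      · exact h
      · exact absurd (h.trans (Subgroup.normalCore_le M)) hVM
    have hKV : K ≤ V := (hcompR K hK).trans hRV
    -- the other conjugates
    set W : Subgroup P := sSup {U | ∃ s : ↥(S : Subgroup P),
      (s : P) ∉ Subgroup.normalizer (K : Set P) ∧ U = K.map (MulAut.conj (s : P)).toMonoidHom} with hW
    have hWC : ∀ w ∈ W, ∀ k ∈ K, w * k = k * w := by
      have h1 : W ≤ Subgroup.centralizer (K : Set P) := by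
        apply sSup_le
        rintro U ⟨s, hs, rfl⟩
        have hne : K ≠ K.map (MulAut.conj (s : P)).toMonoidHom := by
          intro h
          apply hs
          refine SetLike.mem_coe.2 (Subgroup.mem_normalizer_fintype ?_)
          intro k hk
          have : (MulAut.conj (s : P)).toMonoidHom k ∈ K.map (MulAut.conj (s : P)).toMonoidHom :=
            ⟨k, hk, rfl⟩
          rw [← h] at this
          simpa [MulAut.conj_apply] using this
        have hcomm := CfsgLib.Comp.components_commute hK (CfsgLib.Comp.component_conj hK s) hne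
        intro u hu
        refine Subgroup.mem_centralizer_iff.2 (fun k hk => ?_)
        have h2 : ⁅k, u⁆ ∈ ⁅K, K.map (MulAut.conj (s : P)).toMonoidHom⁆ :=
          Subgroup.commutator_mem_commutator hk hu
        rw [hcomm, Subgroup.mem_bot] at h2
        exact commutatorElement_eq_one_iff_mul_comm.1 h2
      intro w hw k hk
      exact ((Subgroup.mem_centralizer_iff.1 (h1 hw)) k hk).symm
    have hVle : V ≤ X₀ ⊔ W := by
      apply iSup_le
      intro s
      by_cases hsN : (s : P) ∈ Subgroup.normalizer (K : Set P)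
      · refine le_trans ?_ le_sup_left
        rintro _ ⟨x, hx, rfl⟩
        have hsS₁ : (s : P) ∈ S₁ := ⟨s.2, hsN⟩
        refine ⟨X.mul_mem (X.mul_mem (hS₁X hsS₁) hx.1) (X.inv_mem (hS₁X hsS₁)), ?_⟩
        exact (Subgroup.mem_normalizer_iff.1 hsN x).1 hx.2
      · refine le_trans ?_ le_sup_right
        have h1 : K.map (MulAut.conj (s : P)).toMonoidHom ≤ W := le_sSup ⟨s, hsN, rfl⟩
        exact (Subgroup.map_mono hX₀K).trans h1
    have hXW : ∀ a ∈ X₀, ∀ b ∈ W, a * b = b * a := fun a ha b hb => (hWC b hb a (hX₀K ha)).symm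
    have hdecK : ∀ k ∈ K, ∃ x ∈ X₀, ∃ w ∈ W, k = x * w ∧ w ∈ K := by
      intro k hk
      obtain ⟨x, hx, w, hw, rfl⟩ := CfsgLib.Comp.mem_sup_of_commute hXW (hVle (hKV hk))
      refine ⟨x, hx, w, hw, rfl, ?_⟩
      have : w = x⁻¹ * (x * w) := by group
      rw [this]
      exact K.mul_mem (K.inv_mem (hX₀K hx)) hk
    apply hX₀ne
    apply le_antisymm hX₀K
    rw [← CfsgLib.Comp.comp_commutator hK, Subgroup.commutator_le]
    intro k₁ hk₁ k₂ hk₂
    obtain ⟨x₁, hx₁, w₁, hw₁, rfl, hw₁K⟩ := hdecK k₁ hk₁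
    obtain ⟨x₂, hx₂, w₂, hw₂, rfl, hw₂K⟩ := hdecK k₂ hk₂
    have hc1 : w₁ * x₂ = x₂ * w₁ := hWC w₁ hw₁ x₂ (hX₀K hx₂)
    have hc2 : w₁ * w₂ = w₂ * w₁ := hWC w₁ hw₁ w₂ hw₂K
    have hc3 : w₂ * x₁ = x₁ * w₂ := hWC w₂ hw₂ x₁ (hX₀K hx₁)
    have h : ⁅x₁ * w₁, x₂ * w₂⁆ = ⁅x₁, x₂⁆ := by
      rw [commutatorElement_def, commutatorElement_def]
      calc x₁ * w₁ * (x₂ * w₂) * (x₁ * w₁)⁻¹ * (x₂ * w₂)⁻¹
          = x₁ * (w₁ * x₂) * w₂ * w₁⁻¹ * x₁⁻¹ * w₂⁻¹ * x₂⁻¹ := by group
        _ = x₁ * x₂ * (w₁ * w₂) * w₁⁻¹ * x₁⁻¹ * w₂⁻¹ * x₂⁻¹ := by rw [hc1]; group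
        _ = x₁ * x₂ * w₂ * x₁⁻¹ * w₂⁻¹ * x₂⁻¹ := by rw [hc2]; group
        _ = x₁ * x₂ * x₁⁻¹ * (x₁ * w₂) * x₁⁻¹ * w₂⁻¹ * x₂⁻¹ := by group
        _ = x₁ * x₂ * x₁⁻¹ * (w₂ * x₁) * x₁⁻¹ * w₂⁻¹ * x₂⁻¹ := by rw [hc3]
        _ = x₁ * x₂ * x₁⁻¹ * x₂⁻¹ := by group
    rw [h]
    exact Subgroup.commutator_mem_commutator hx₁ hx₂ |> (Subgroup.commutator_le_self X₀ ·)
  refine isPMinimal_of_sub hS₁G hS₁p hidx ?_ hS₁M (fun h => hKM (hKG.trans h)) hmax
  -- not normal
  intro hn
  obtain ⟨x, hxK, hxM⟩ := Set.not_subset.1 hKM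
  have hxN : x ∈ Subgroup.normalizer (S₁ : Set P) := hn (hKG hxK)
  have hzN : Subgroup.zpowers x ≤ Subgroup.normalizer (S₁ : Set P) :=
    (Subgroup.zpowers_le).2 hxN
  have hX : Subgroup.zpowers x ⊔ S₁ = G₁ := by
    by_contra hne
    have h1 := hmax _ le_sup_right (sup_le ((Subgroup.zpowers_le).2 (hKG hxK)) hS₁G) hne
    exact hxM (h1 (Subgroup.mem_sup_left (Subgroup.mem_zpowers x)))
  have hdec : ∀ k ∈ K, ∃ (a : ℤ), ∃ s ∈ S₁, k = x ^ a * s := by
    intro k hk
    have h1 : k ∈ ((Subgroup.zpowers x ⊔ S₁ : Subgroup P) : Set P) := by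
      rw [hX]
      exact hKG hk
    rw [Subgroup.coe_mul_of_left_le_normalizer_right _ S₁ hzN] at h1
    obtain ⟨u, hu, s, hs, rfl⟩ := Set.mem_mul.1 h1
    obtain ⟨a, rfl⟩ := Subgroup.mem_zpowers_iff.1 hu
    exact ⟨a, s, hs, rfl⟩
  have hKS : K ≤ S₁ := by
    rw [← CfsgLib.Comp.comp_commutator hK, Subgroup.commutator_le]
    intro k₁ hk₁ k₂ hk₂
    obtain ⟨a, s, hs, rfl⟩ := hdec k₁ hk₁
    obtain ⟨b, t, ht, rfl⟩ := hdec k₂ hk₂
    set u := x ^ a with hu
    set v := x ^ b with hv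
    have huv : v⁻¹ * u = u * v⁻¹ := by
      rw [hu, hv, ← zpow_neg, ← zpow_add, ← zpow_add, add_comm]
    have huN : u ∈ Subgroup.normalizer (S₁ : Set P) := hzN (Subgroup.zpow_mem_zpowers x a)
    have hvN : v ∈ Subgroup.normalizer (S₁ : Set P) := hzN (Subgroup.zpow_mem_zpowers x b)
    have hconj : ∀ y ∈ Subgroup.normalizer (S₁ : Set P), ∀ z ∈ S₁, y⁻¹ * z * y ∈ S₁ := by
      intro y hy z hz
      have := (Subgroup.mem_normalizer_iff.1 (Subgroup.inv_mem _ hy) z).1 hz
      simpa using this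
    have h1 : (v * t * (u * s))⁻¹ * (u * s * (v * t)) ∈ S₁ := by
      have e : (v * t * (u * s))⁻¹ * (u * s * (v * t))
          = s⁻¹ * (u⁻¹ * t * u)⁻¹ * (v⁻¹ * s * v) * t := by
        calc (v * t * (u * s))⁻¹ * (u * s * (v * t))
            = s⁻¹ * u⁻¹ * t⁻¹ * (v⁻¹ * u) * s * v * t := by group
          _ = s⁻¹ * u⁻¹ * t⁻¹ * (u * v⁻¹) * s * v * t := by rw [huv]
          _ = _ := by group
      rw [e]
      exact S₁.mul_mem (S₁.mul_mem (S₁.mul_mem (S₁.inv_mem hs) (S₁.inv_mem (hconj u huN t ht)))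
        (hconj v hvN s hs)) ht
    have h2 : v * t * (u * s) ∈ Subgroup.normalizer (S₁ : Set P) := by
      apply hn
      exact G₁.mul_mem (hKG hk₂) (hKG hk₁)
    have h3 := (Subgroup.mem_normalizer_iff.1 h2 _).1 h1
    have h4 : (v * t * (u * s)) * ((v * t * (u * s))⁻¹ * (u * s * (v * t))) * (v * t * (u * s))⁻¹
        = ⁅u * s, v * t⁆ := by
      rw [commutatorElement_def]
      group
    rw [h4] at h3
    exact h3
  apply CfsgLib.Comp.comp_not_solvable hK
  haveI : Group.IsNilpotent K := (hS₁p.to_le hKS).isNilpotent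
  infer_instance

end CfsgLib.PMin
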