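import Cfsg.Agent.Lib.H3.BaerSuzuki
import Cfsg.Agent.Lib.H3.Comp2
import Cfsg.Agent.Lib.H3.FourConn
import Cfsg.Agent.Lib.H3.ConjTools
import Cfsg.Agent.Lib.Solv.CoprimeSylow
import Cfsg.Agent.Lib.Solv.Core

/-! # Families of subgroups of order `p` with the "one or all" property. -/

set_option autoImplicit false
set_option linter.unusedSectionVars false

namespace CfsgLib.PolarO

open Subgroup

universe u

variable {G : Type u} [Group G] [Finite G] {p : ℕ} [hp : Fact p.Prime]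

/-- Two subgroups commuting elementwise. -/
def Cm (X Y : Subgroup G) : Prop := ∀ x ∈ X, ∀ y ∈ Y, x * y = y * x

lemma Cm.symm {X Y : Subgroup G} (h : Cm X Y) : Cm Y X := fun y hy x hx => (h x hx y hy).symm

lemma pow_p {X : Subgroup G} (hX : Nat.card X = p) {x : G} (hx : x ∈ X) : x ^ p = 1 := by
  have h := pow_card_eq_one' (x := (⟨x, hx⟩ : X))
  rw [hX] at h
  exact congrArg Subtype.val h

lemma zpowers_eq {X : Subgroup G} (hX : Nat.card X = p) {x : G} (hx : x ∈ X) (hx1 : x ≠ 1) :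
    zpowers x = X := by
  have ho : orderOf x = p := orderOf_eq_prime (pow_p hX hx) hx1
  apply Subgroup.eq_of_le_of_card_ge
  · rwa [zpowers_le]
  · rw [hX, Nat.card_zpowers, ho]

lemma exists_ne_one {X : Subgroup G} (hX : Nat.card X = p) : ∃ x ∈ X, x ≠ 1 := by
  by_contra hcon
  push Not at hcon
  have : X = ⊥ := eq_bot_iff.2 (fun z hz => hcon z hz)
  rw [this, Subgroup.card_bot] at hX
  exact hp.out.ne_one hX.symm

lemma card_zpowers {z : G} (hz : z ^ p = 1) (hz1 : z ≠ 1) : Nat.card (zpowers z) = p := by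
  rw [Nat.card_zpowers]
  exact orderOf_eq_prime hz hz1

lemma isPGroup_of_card {X : Subgroup G} (hX : Nat.card X = p) : IsPGroup p X :=
  IsPGroup.of_card (n := 1) (by rw [hX, pow_one])

lemma isPGroup_zpowers {z : G} (hz : z ^ p = 1) : IsPGroup p (zpowers z) := by
  by_cases h : z = 1
  · subst h
    rw [zpowers_one_eq_bot]
    exact IsPGroup.of_bot
  · exact isPGroup_of_card (card_zpowers hz h)

lemma isPGroup_sup_of_cm {X Y : Subgroup G} (hX : IsPGroup p X) (hY : IsPGroup p Y) (h : Cm X Y) :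
    IsPGroup p (X ⊔ Y : Subgroup G) := by
  apply CfsgLib.Solv.isPGroup_sup_of_le_normalizer hX hY
  rw [Subgroup.le_normalizer_iff]
  intro a ha b hb
  rw [h a ha b hb, mul_inv_cancel_right]
  exact hb

lemma comm_in_sup {X Y : Subgroup G} (h : Cm X Y) (hXc : ∀ a ∈ X, ∀ b ∈ X, a * b = b * a)
    (hYc : ∀ a ∈ Y, ∀ b ∈ Y, a * b = b * a) {a b : G} (ha : a ∈ X ⊔ Y) (hb : b ∈ X ⊔ Y) : a * b = b * a := by
  obtain ⟨x₁, hx₁, y₁, hy₁, rfl⟩ := CfsgLib.Comp.mem_sup_of_commute h ha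
  obtain ⟨x₂, hx₂, y₂, hy₂, rfl⟩ := CfsgLib.Comp.mem_sup_of_commute h hb
  have c1 : Commute x₁ x₂ := hXc _ hx₁ _ hx₂
  have c2 : Commute x₁ y₂ := h _ hx₁ _ hy₂
  have c3 : Commute y₁ x₂ := (h _ hx₂ _ hy₁).symm
  have c4 : Commute y₁ y₂ := hYc _ hy₁ _ hy₂
  exact ((c1.mul_right c2).mul_left (c3.mul_right c4)).eq

lemma comm_of_card {X : Subgroup G} (hX : Nat.card X = p) : ∀ a ∈ X, ∀ b ∈ X, a * b = b * a := by
  intro a ha b hb
  by_cases h : a = 1
  · rw [h, one_mul, mul_one]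
  · rw [← zpowers_eq hX ha h] at hb
    obtain ⟨k, rfl⟩ := mem_zpowers_iff.1 hb
    exact ((Commute.refl a).zpow_right k).eq

lemma pow_sup {X Y : Subgroup G} (hX : Nat.card X = p) (hY : Nat.card Y = p) (h : Cm X Y) {z : G}
    (hz : z ∈ X ⊔ Y) : z ^ p = 1 := by
  obtain ⟨x, hx, y, hy, rfl⟩ := CfsgLib.Comp.mem_sup_of_commute h hz
  have c : Commute x y := h _ hx _ hy
  rw [c.mul_pow, pow_p hX hx, pow_p hY hy, one_mul]

lemma inf_bot_of_ne {X Y : Subgroup G} (hX : Nat.card X = p) (hY : Nat.card Y = p) (hne : X ≠ Y) :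
    X ⊓ Y = ⊥ := by
  rw [eq_bot_iff]
  intro z hz
  by_contra hz1
  apply hne
  rw [← zpowers_eq hX hz.1 hz1, ← zpowers_eq hY hz.2 hz1]

/-- Lines are determined by any two of their points. -/
lemma le_sup_of_point {X Y Z : Subgroup G} (hX : Nat.card X = p) (hY : Nat.card Y = p) (hZ : Nat.card Z = p)
    (hXY : X ≠ Y) (h : Cm X Y) (hle : Z ≤ X ⊔ Y) (hZY : Z ≠ Y) : X ≤ Z ⊔ Y := by
  have hc : ∀ a ∈ X ⊔ Y, ∀ b ∈ X ⊔ Y, a * b = b * a :=
    fun a ha b hb => comm_in_sup h (comm_of_card hX) (comm_of_card hY) ha hb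
  have hZYc : Cm Z Y := fun z hz y hy => hc z (hle hz) y (mem_sup_right hy)
  have h1 : Nat.card (X ⊔ Y : Subgroup G) = p * p := by
    rw [CfsgLib.FourConn.card_sup_of_comm h (inf_bot_of_ne hX hY hXY), hX, hY]
  have h2 : Nat.card (Z ⊔ Y : Subgroup G) = p * p := by
    rw [CfsgLib.FourConn.card_sup_of_comm hZYc (inf_bot_of_ne hZ hY hZY), hZ, hY]
  have h3 : Z ⊔ Y ≤ X ⊔ Y := sup_le hle le_sup_right
  have h4 : Z ⊔ Y = X ⊔ Y := Subgroup.eq_of_le_of_card_ge h3 (by rw [h1, h2])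
  rw [h4]
  exact le_sup_left

/-- The hypotheses. -/
structure Hyp (p : ℕ) (K : Set (Subgroup G)) : Prop where
  hK : ∀ X ∈ K, Nat.card X = p
  hKc : ∀ X ∈ K, ∀ g : G, X.map (MulAut.conj g).toMonoidHom ∈ K
  hex : ∃ X ∈ K, ∃ Y ∈ K, X ≠ Y ∧ Cm X Y
  ha : ∀ X ∈ K, ∀ Y ∈ K, X ≠ Y → Cm X Y → ∀ Z : Subgroup G, Z ≤ X ⊔ Y → Nat.card Z = p → Z ∈ K
  hb : ∀ X ∈ K, ∀ Y ∈ K, X ≠ Y → Cm X Y → ∀ W ∈ K, (X ⊔ Y) ⊓ centralizer (W : Set G) ≠ ⊥

variable {K : Set (Subgroup G)}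

lemma line_point (H : Hyp p K) {X Y W : Subgroup G} (hX : X ∈ K) (hY : Y ∈ K) (hne : X ≠ Y) (h : Cm X Y)
    (hW : W ∈ K) : ∃ Z ∈ K, Z ≤ X ⊔ Y ∧ Cm W Z := by
  obtain ⟨⟨z, hz⟩, hz1⟩ := Subgroup.ne_bot_iff_exists_ne_one.1 (H.hb X hX Y hY hne h W hW)
  have hz1' : z ≠ 1 := fun h => hz1 (Subtype.ext h)
  have hzp : z ^ p = 1 := pow_sup (H.hK X hX) (H.hK Y hY) h hz.1
  have hle : zpowers z ≤ X ⊔ Y := by rw [zpowers_le]; exact hz.1
  refine ⟨zpowers z, H.ha X hX Y hY hne h _ hle (card_zpowers hzp hz1'), hle, ?_⟩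
  intro w hw t ht
  obtain ⟨k, rfl⟩ := mem_zpowers_iff.1 ht
  have h1 : Commute z w := Subgroup.mem_centralizer_iff.1 hz.2 w hw |>.symm
  exact (h1.zpow_left k).symm.eq

lemma exists_line (H : Hyp p K) {X : Subgroup G} (hX : X ∈ K) : ∃ Y ∈ K, Y ≠ X ∧ Cm X Y := by
  obtain ⟨X₀, hX₀, Y₀, hY₀, hne, hc⟩ := H.hex
  obtain ⟨Z, hZ, hle, hcm⟩ := line_point H hX₀ hY₀ hne hc hX
  by_cases hZX : Z = X
  · subst hZX
    have hab : ∀ a ∈ X₀ ⊔ Y₀, ∀ b ∈ X₀ ⊔ Y₀, a * b = b * a :=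
      fun a ha b hb => comm_in_sup hc (comm_of_card (H.hK _ hX₀)) (comm_of_card (H.hK _ hY₀)) ha hb
    by_cases h0 : X₀ = Z
    · refine ⟨Y₀, hY₀, ?_, ?_⟩
      · rw [← h0]; exact hne.symm
      · exact fun x hx y hy => hab x (hle hx) y (mem_sup_right hy)
    · refine ⟨X₀, hX₀, h0, ?_⟩
      exact fun x hx y hy => hab x (hle hx) y (mem_sup_left hy)
  · exact ⟨Z, hZ, hZX, hcm⟩

/-- Two elements of order `p` whose commutator is central in the group they generate generate a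
`p`-group. -/
lemma pgroup_of_comm_central {x v : G} (hx : x ^ p = 1) (hv : v ^ p = 1)
    (hcx : Commute (x⁻¹ * v⁻¹ * x * v) x) (hcv : Commute (x⁻¹ * v⁻¹ * x * v) v) :
    IsPGroup p (zpowers x ⊔ zpowers v : Subgroup G) := by
  set c := x⁻¹ * v⁻¹ * x * v with hc
  have h1 : v⁻¹ * x * v = x * c := by rw [hc]; group
  have hcp : c ^ p = 1 := by
    have h2 : (v⁻¹ * x * v) ^ p = v⁻¹ * x ^ p * v := by
      have e : v⁻¹ * x * v = v⁻¹ * x * v⁻¹⁻¹ := by simp
      rw [e, conj_pow, inv_inv]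
    rw [h1, hcx.symm.mul_pow, hx, one_mul] at h2
    rw [h2]; group
  have hH1 : IsPGroup p (zpowers x ⊔ zpowers c : Subgroup G) := by
    apply isPGroup_sup_of_cm (isPGroup_zpowers hx) (isPGroup_zpowers hcp)
    intro a ha b hb
    obtain ⟨i, rfl⟩ := mem_zpowers_iff.1 ha
    obtain ⟨j, rfl⟩ := mem_zpowers_iff.1 hb
    exact (hcx.symm.zpow_zpow i j).eq
  have hnorm : zpowers v ≤ normalizer ((zpowers x ⊔ zpowers c : Subgroup G) : Set G) := by
    rw [zpowers_le]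
    have h2 : v⁻¹ ∈ normalizer ((zpowers x ⊔ zpowers c : Subgroup G) : Set G) := by
      apply CfsgLib.CT.mem_normalizer_of_conj_le
      intro a ha
      have hmap : (zpowers x ⊔ zpowers c).map (MulAut.conj v⁻¹).toMonoidHom ≤ zpowers x ⊔ zpowers c := by
        rw [Subgroup.map_sup, MonoidHom.map_zpowers, MonoidHom.map_zpowers]
        apply sup_le
        · rw [zpowers_le]
          have e : (MulAut.conj v⁻¹).toMonoidHom x = x * c := by
            simp only [MulEquiv.coe_toMonoidHom, MulAut.conj_apply, inv_inv]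
            exact h1
          rw [e]
          exact mul_mem (mem_sup_left (mem_zpowers x)) (mem_sup_right (mem_zpowers c))
        · rw [zpowers_le]
          have e : (MulAut.conj v⁻¹).toMonoidHom c = c := by
            simp only [MulEquiv.coe_toMonoidHom, MulAut.conj_apply, inv_inv]
            calc v⁻¹ * c * v = v⁻¹ * (c * v) := by group
              _ = v⁻¹ * (v * c) := by rw [hcv.eq]
              _ = c := by group
          rw [e]
          exact mem_sup_right (mem_zpowers c)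
      exact hmap ⟨a, ha, rfl⟩
    simpa using inv_mem h2
  have h3 := CfsgLib.Solv.isPGroup_sup_of_le_normalizer (isPGroup_zpowers hv) hH1 hnorm
  apply h3.to_le
  apply sup_le
  · exact le_sup_of_le_right le_sup_left
  · exact le_sup_left

/-- The key step: any two members of `K` generate a `p`-group if no member is radical. -/
lemma pair_pgroup (H : Hyp p K) (hno : ∀ V ∈ K, ∃ W ∈ K, ¬ Cm V W) {X V : Subgroup G} (hX : X ∈ K)
    (hV : V ∈ K) : IsPGroup p (X ⊔ V : Subgroup G) := by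
  by_cases hXV : Cm X V
  · exact isPGroup_sup_of_cm (isPGroup_of_card (H.hK X hX)) (isPGroup_of_card (H.hK V hV)) hXV
  have hcard := H.hK
  -- a line through `X` whose second point commutes with `V`
  obtain ⟨Y₀, hY₀, hne₀, hc₀⟩ := exists_line H hX
  obtain ⟨Y, hY, hYle, hVY⟩ := line_point H hX hY₀ hne₀.symm hc₀ hV
  have hab₀ : ∀ a ∈ X ⊔ Y₀, ∀ b ∈ X ⊔ Y₀, a * b = b * a :=
    fun a ha b hb => comm_in_sup hc₀ (comm_of_card (hcard _ hX)) (comm_of_card (hcard _ hY₀)) ha hb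
  have hYX : Y ≠ X := by
    rintro rfl
    exact hXV hVY.symm
  have hXY : Cm X Y := fun a ha b hb => hab₀ a (mem_sup_left ha) b (hYle hb)
  have hVneY : V ≠ Y := by
    rintro rfl
    exact hXV hXY
  obtain ⟨U, hU, hYU⟩ := hno Y hY
  obtain ⟨X', hX', hX'le, hUX'⟩ := line_point H hX hY hYX.symm hXY hU
  obtain ⟨V', hV', hV'le, hUV'⟩ := line_point H hV hY hVneY hVY hU
  have hX'Y : X' ≠ Y := by
    rintro rfl
    exact hYU hUX'.symm
  have hV'Y : V' ≠ Y := by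
    rintro rfl
    exact hYU hUV'.symm
  have habX : ∀ a ∈ X ⊔ Y, ∀ b ∈ X ⊔ Y, a * b = b * a :=
    fun a ha b hb => comm_in_sup hXY (comm_of_card (hcard _ hX)) (comm_of_card (hcard _ hY)) ha hb
  have habV : ∀ a ∈ V ⊔ Y, ∀ b ∈ V ⊔ Y, a * b = b * a :=
    fun a ha b hb => comm_in_sup hVY (comm_of_card (hcard _ hV)) (comm_of_card (hcard _ hY)) ha hb
  have hCX'Y : Cm X' Y := fun a ha b hb => habX a (hX'le ha) b (mem_sup_right hb)
  have hCV'Y : Cm V' Y := fun a ha b hb => habV a (hV'le ha) b (mem_sup_right hb)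
  have hXle : X ≤ X' ⊔ Y :=
    le_sup_of_point (hcard _ hX) (hcard _ hY) (hcard _ hX') hYX.symm hXY hX'le hX'Y
  have hVle : V ≤ V' ⊔ Y :=
    le_sup_of_point (hcard _ hV) (hcard _ hY) (hcard _ hV') hVneY hVY hV'le hV'Y
  have hnoc : ¬ Cm X' V' := by
    intro hcm
    apply hXV
    intro a ha b hb
    obtain ⟨a₁, ha₁, a₂, ha₂, rfl⟩ := CfsgLib.Comp.mem_sup_of_commute hCX'Y (hXle ha)
    obtain ⟨b₁, hb₁, b₂, hb₂, rfl⟩ := CfsgLib.Comp.mem_sup_of_commute hCV'Y (hVle hb)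
    have c1 : Commute a₁ b₁ := hcm _ ha₁ _ hb₁
    have c2 : Commute a₁ b₂ := hCX'Y _ ha₁ _ hb₂
    have c3 : Commute a₂ b₁ := (hCV'Y _ hb₁ _ ha₂).symm
    have c4 : Commute a₂ b₂ := comm_of_card (hcard _ hY) _ ha₂ _ hb₂
    exact ((c1.mul_right c2).mul_left (c3.mul_right c4)).eq
  -- generators
  obtain ⟨x', hx', hx'1⟩ := exists_ne_one (hcard _ hX')
  obtain ⟨y, hy, hy1⟩ := exists_ne_one (hcard _ hY)
  have hx'p := pow_p (hcard _ hX') hx'
  have hzne : x' * y ≠ 1 := by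
    intro h
    have h2 : x' = y⁻¹ := mul_eq_one_iff_eq_inv.1 h
    have h3 : x' ∈ Y := by rw [h2]; exact inv_mem hy
    apply hX'Y
    rw [← zpowers_eq (hcard _ hX') hx' hx'1, zpowers_eq (hcard _ hY) h3 hx'1]
  have hzmem : x' * y ∈ X' ⊔ Y := mul_mem (mem_sup_left hx') (mem_sup_right hy)
  have hzp : (x' * y) ^ p = 1 := pow_sup (hcard _ hX') (hcard _ hY) hCX'Y hzmem
  have hZ : zpowers (x' * y) ∈ K := H.ha X' hX' Y hY hX'Y hCX'Y _ (by rw [zpowers_le]; exact hzmem)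
    (card_zpowers hzp hzne)
  have hV'U : V' ≠ U := by
    rintro rfl
    exact hYU hCV'Y.symm
  have hCV'U : Cm V' U := hUV'.symm
  obtain ⟨⟨t, ht⟩, ht1⟩ := Subgroup.ne_bot_iff_exists_ne_one.1 (H.hb V' hV' U hU hV'U hCV'U _ hZ)
  have ht1' : t ≠ 1 := fun h => ht1 (Subtype.ext h)
  obtain ⟨v₁, hv₁, u₁, hu₁, rfl⟩ := CfsgLib.Comp.mem_sup_of_commute hCV'U ht.1
  have hzt : Commute (x' * y) (v₁ * u₁) :=
    (Subgroup.mem_centralizer_iff.1 ht.2 _ (mem_zpowers _))
  have c1 : Commute x' u₁ := (hUX' _ hu₁ _ hx').symm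
  have c2 : Commute y v₁ := (hCV'Y _ hv₁ _ hy).symm
  have c3 : Commute x' y := hCX'Y _ hx' _ hy
  have c4 : Commute v₁ u₁ := hCV'U _ hv₁ _ hu₁
  by_cases hv₁1 : v₁ = 1
  · exfalso
    subst hv₁1
    rw [one_mul] at hzt ht1'
    apply hYU
    -- `y` commutes with `u₁`, which generates `U`
    have h2 : Commute y u₁ := by
      have e : y = x'⁻¹ * (x' * y) := by group
      rw [e]
      exact c1.inv_left.mul_left hzt
    intro a ha b hb
    rw [← zpowers_eq (hcard _ hY) hy hy1] at ha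
    rw [← zpowers_eq (hcard _ hU) hu₁ ht1'] at hb
    obtain ⟨i, rfl⟩ := mem_zpowers_iff.1 ha
    obtain ⟨j, rfl⟩ := mem_zpowers_iff.1 hb
    exact (h2.zpow_zpow i j).eq
  by_cases hu₁1 : u₁ = 1
  · exfalso
    subst hu₁1
    rw [mul_one] at hzt
    apply hnoc
    have h2 : Commute x' v₁ := by
      have e : x' = (x' * y) * y⁻¹ := by group
      rw [e]
      exact hzt.mul_left c2.inv_left
    intro a ha b hb
    rw [← zpowers_eq (hcard _ hX') hx' hx'1] at ha
    rw [← zpowers_eq (hcard _ hV') hv₁ hv₁1] at hb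
    obtain ⟨i, rfl⟩ := mem_zpowers_iff.1 ha
    obtain ⟨j, rfl⟩ := mem_zpowers_iff.1 hb
    exact (h2.zpow_zpow i j).eq
  -- the central commutator
  have hv₁p := pow_p (hcard _ hV') hv₁
  set c := x'⁻¹ * v₁⁻¹ * x' * v₁ with hc
  have hc2 : c = u₁ * y * u₁⁻¹ * y⁻¹ := by
    have e := hzt.eq
    have e2 : x' * y * (v₁ * u₁) = (x' * v₁) * (y * u₁) := by
      calc x' * y * (v₁ * u₁) = x' * (y * v₁) * u₁ := by group
        _ = x' * (v₁ * y) * u₁ := by rw [c2.eq]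
        _ = (x' * v₁) * (y * u₁) := by group
    have e3 : v₁ * u₁ * (x' * y) = (v₁ * x') * (u₁ * y) := by
      calc v₁ * u₁ * (x' * y) = v₁ * (u₁ * x') * y := by group
        _ = v₁ * (x' * u₁) * y := by rw [c1.eq]
        _ = (v₁ * x') * (u₁ * y) := by group
    rw [e2, e3] at e
    rw [hc]
    calc x'⁻¹ * v₁⁻¹ * x' * v₁ = (v₁ * x')⁻¹ * ((x' * v₁) * (y * u₁)) * (y * u₁)⁻¹ := by group
      _ = (v₁ * x')⁻¹ * ((v₁ * x') * (u₁ * y)) * (y * u₁)⁻¹ := by rw [e]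
      _ = u₁ * y * u₁⁻¹ * y⁻¹ := by group
  have hcx : Commute c x' := by
    rw [hc2]
    exact ((c1.symm.mul_left c3.symm).mul_left c1.symm.inv_left).mul_left c3.symm.inv_left
  have hcv : Commute c v₁ := by
    rw [hc2]
    exact ((c4.symm.mul_left c2).mul_left c4.symm.inv_left).mul_left c2.inv_left
  have hD : IsPGroup p (zpowers x' ⊔ zpowers v₁ : Subgroup G) := pgroup_of_comm_central hx'p hv₁p hcx hcv
  rw [zpowers_eq (hcard _ hX') hx' hx'1, zpowers_eq (hcard _ hV') hv₁ hv₁1] at hD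
  have hYn : Cm (X' ⊔ V') Y := by
    intro a ha b hb
    have hle : X' ⊔ V' ≤ centralizer (Y : Set G) := sup_le
      (fun x hx => Subgroup.mem_centralizer_iff.2 (fun y hy => (hCX'Y x hx y hy).symm))
      (fun x hx => Subgroup.mem_centralizer_iff.2 (fun y hy => (hCV'Y x hx y hy).symm))
    exact (Subgroup.mem_centralizer_iff.1 (hle ha) b hb).symm
  have hfin := isPGroup_sup_of_cm hD (isPGroup_of_card (hcard _ hY)) hYn
  apply hfin.to_le
  apply sup_le
  · exact hXle.trans (sup_le_sup_right le_sup_left Y)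
  · exact hVle.trans (sup_le_sup_right le_sup_right Y)

/-- A `p`-element normalizing a subgroup of order `p` centralizes it. -/
lemma comm_of_norm_prime {X : Subgroup G} (hX : Nat.card X = p) {g : G}
    (hg : g ∈ normalizer (X : Set G)) {k : ℕ} (hgp : g ^ p ^ k = 1) :
    ∀ x ∈ X, g * x * g⁻¹ = x := by
  classical
  haveI hcyc : IsCyclic X := isCyclic_of_prime_card hX
  let f := (Subgroup.normalizerMonoidHom X) ⟨g, hg⟩
  have h1 : f ^ p ^ k = 1 := by
    rw [← map_pow]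
    have : (⟨g, hg⟩ : normalizer (X : Set G)) ^ p ^ k = 1 := Subtype.ext hgp
    rw [this, map_one]
  have h2 : f ^ Nat.card (MulAut X) = 1 := pow_card_eq_one'
  rw [IsCyclic.card_mulAut, hX, Nat.totient_prime hp.out] at h2
  have h3 : Nat.Coprime (p ^ k) (p - 1) := by
    apply Nat.Coprime.pow_left
    exact Nat.coprime_of_lt_prime (by have := hp.out.two_le; omega) (by have := hp.out.two_le; omega) hp.out
  have h4 : f = 1 := by
    have h5 := Nat.dvd_gcd (orderOf_dvd_of_pow_eq_one h1) (orderOf_dvd_of_pow_eq_one h2)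
    rw [h3] at h5
    exact orderOf_eq_one_iff.1 (Nat.dvd_one.1 h5)
  intro x hx
  have h7 : f ⟨x, hx⟩ = ⟨x, hx⟩ := by rw [h4]; rfl
  exact congrArg Subtype.val h7

/-- If `⟨K⟩` is a `p`-group then some member of `K` commutes with all of `K`. -/
lemma radical_of_pgroup (H : Hyp p K) (hN : IsPGroup p (closure (⋃ X ∈ K, (X : Set G)))) :
    ∃ V ∈ K, ∀ W ∈ K, Cm V W := by
  classical
  set N := closure (⋃ X ∈ K, (X : Set G)) with hNdef
  have hXN : ∀ X ∈ K, X ≤ N := by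
    intro X hX x hx
    apply Subgroup.subset_closure
    simp only [Set.mem_iUnion]
    exact ⟨X, hX, hx⟩
  haveI hnil : Group.IsNilpotent N := hN.isNilpotent
  let Z : ℕ → Subgroup G := fun n => (Subgroup.upperCentralSeries N n).map N.subtype
  have hZ0 : Z 0 = ⊥ := by
    simp only [Z, Subgroup.upperCentralSeries_zero, Subgroup.map_bot]
  obtain ⟨c, hc⟩ := Group.IsNilpotent.nilpotent N
  have hZc : Z c = N := by
    simp only [Z, hc]
    rw [← MonoidHom.range_eq_map, Subgroup.range_subtype]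
  have hex : ∃ n, ∃ X ∈ K, X ≤ Z n := by
    obtain ⟨X₀, hX₀, -⟩ := H.hex
    exact ⟨c, X₀, hX₀, by rw [hZc]; exact hXN X₀ hX₀⟩
  have hmin : ∀ m < Nat.find hex, ¬ ∃ X ∈ K, X ≤ Z m := fun m hm => Nat.find_min hex hm
  obtain ⟨X, hX, hXZ⟩ := Nat.find_spec hex
  set n := Nat.find hex with hn
  have hXc := H.hK X hX
  have hn0 : n ≠ 0 := by
    intro h0
    rw [h0, hZ0] at hXZ
    have : X = ⊥ := le_bot_iff.1 hXZ
    rw [this, Subgroup.card_bot] at hXc
    exact hp.out.ne_one hXc.symm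
  obtain ⟨j, hj⟩ : ∃ j, n = j + 1 := ⟨n - 1, by omega⟩
  refine ⟨X, hX, ?_⟩
  by_cases hall : N ≤ normalizer (X : Set G)
  · intro W hW x hx w hw
    obtain ⟨k, hk⟩ := hN ⟨w, hXN W hW hw⟩
    have hwp : w ^ p ^ k = 1 := congrArg Subtype.val hk
    have := comm_of_norm_prime hXc (hall (hXN W hW hw)) hwp x hx
    rw [mul_inv_eq_iff_eq_mul] at this
    exact this.symm
  exfalso
  set M := N ⊓ normalizer (X : Set G) with hM
  have hMN : M ≤ N := inf_le_left
  have hMne : M ≠ N := by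
    intro h
    apply hall
    rw [← h]
    exact inf_le_right
  obtain ⟨g, hgN, hgM, hgn⟩ := CfsgLib.BS.exists_mem_normalizer_not_mem hN hMN hMne
  have hgnX : g ∉ normalizer (X : Set G) := fun h => hgM ⟨hgN, h⟩
  have hXM : X ≤ M := le_inf (hXN X hX) le_normalizer
  set X₁ := X.map (MulAut.conj g).toMonoidHom with hX₁
  have hX₁K : X₁ ∈ K := H.hKc X hX g
  have hX₁M : X₁ ≤ M := by
    rintro _ ⟨x, hx, rfl⟩
    exact (Subgroup.le_normalizer_iff.1 (zpowers_le.2 hgn)) g (mem_zpowers g) x (hXM hx)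
  have hne : X ≠ X₁ := by
    intro h
    apply hgnX
    rw [CfsgLib.Solv.mem_normalizer_iff_conj_smul]
    exact h.symm
  have hCm : Cm X X₁ := by
    intro a ha b hb
    have h2 := comm_of_norm_prime hXc (hX₁M hb).2 (k := 1) (by rw [pow_one]; exact pow_p (H.hK _ hX₁K) hb) a ha
    rw [mul_inv_eq_iff_eq_mul] at h2
    exact h2.symm
  obtain ⟨x, hx, hx1⟩ := exists_ne_one hXc
  -- the commutator lies in the next term
  set q := x * (g * x * g⁻¹)⁻¹ with hq
  have hq1 : q ≠ 1 := by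
    intro h
    have h2 : x = g * x * g⁻¹ := by
      rw [hq, mul_inv_eq_one] at h
      exact h
    have h3 : x ∈ X₁ := by
      rw [h2]
      exact ⟨x, hx, rfl⟩
    apply hne
    rw [← zpowers_eq hXc hx hx1, zpowers_eq (H.hK _ hX₁K) h3 hx1]
  have hgx : g * x * g⁻¹ ∈ X₁ := ⟨x, hx, rfl⟩
  have hqmem : q ∈ X ⊔ X₁ := mul_mem (mem_sup_left hx) (mem_sup_right (inv_mem hgx))
  have hqp : q ^ p = 1 := pow_sup hXc (H.hK _ hX₁K) hCm hqmem
  have hQ : zpowers q ∈ K := H.ha X hX X₁ hX₁K hne hCm _ (by rw [zpowers_le]; exact hqmem)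
    (card_zpowers hqp hq1)
  -- `q ∈ Z j`
  have hqZ : q ∈ Z j := by
    rw [hj] at hXZ
    obtain ⟨x', hx', hx'e⟩ := hXZ hx
    have h3 := (Subgroup.mem_upperCentralSeries_succ_iff (G := N)).1 hx' ⟨g, hgN⟩
    refine ⟨_, h3, ?_⟩
    have e : (x' : G) = x := hx'e
    simp only [Subgroup.subtype_apply, commutatorElement_def, Subgroup.coe_mul, InvMemClass.coe_inv, e]
    rw [hq]
    group
  apply hmin j (by omega)
  exact ⟨zpowers q, hQ, by rw [zpowers_le]; exact hqZ⟩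

lemma normal_closure_of_conj {S : Set G} (hS : ∀ g, ∀ s ∈ S, g * s * g⁻¹ ∈ S) : (closure S).Normal := by
  refine ⟨fun n hn g => ?_⟩
  have hmap : (closure S).map (MulAut.conj g).toMonoidHom ≤ closure S := by
    rw [MonoidHom.map_closure]
    apply Subgroup.closure_mono
    rintro _ ⟨s, hs, rfl⟩
    exact hS g s hs
  exact hmap ⟨n, hn, rfl⟩

theorem main (H : Hyp p K) :
    (∃ V ∈ K, (∀ W ∈ K, ∀ v ∈ V, ∀ w ∈ W, v * w = w * v) ∧ V ≤ Cfsg.pCore p G) ∧ ¬ IsSimpleGroup G := by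
  classical
  have hrad : ∃ V ∈ K, ∀ W ∈ K, Cm V W := by
    by_contra hcon
    push Not at hcon
    have hno : ∀ V ∈ K, ∃ W ∈ K, ¬ Cm V W := by
      intro V hV
      obtain ⟨W, hW, hc⟩ := hcon V hV
      exact ⟨W, hW, hc⟩
    have hconj : ∀ g, ∀ s ∈ (⋃ X ∈ K, (X : Set G)), g * s * g⁻¹ ∈ (⋃ X ∈ K, (X : Set G)) := by
      intro g s hs
      simp only [Set.mem_iUnion] at hs ⊢
      obtain ⟨X, hX, hsX⟩ := hs
      exact ⟨_, H.hKc X hX g, ⟨s, hsX, rfl⟩⟩
    have hp2 : IsPGroup p (closure (⋃ X ∈ K, (X : Set G))) := by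
      apply CfsgLib.BS.baer_suzuki_set _ G _ rfl hconj
      intro s hs t ht
      simp only [Set.mem_iUnion] at hs ht
      obtain ⟨X, hX, hsX⟩ := hs
      obtain ⟨V, hV, htV⟩ := ht
      apply (pair_pgroup H hno hX hV).to_le
      rw [closure_le]
      rintro z (rfl | rfl)
      · exact mem_sup_left hsX
      · exact mem_sup_right htV
    obtain ⟨V, hV, hc⟩ := radical_of_pgroup H hp2
    obtain ⟨W, hW, hn⟩ := hno V hV
    exact hn (hc W hW)
  obtain ⟨V, hV, hVrad⟩ := hrad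
  -- the subgroup generated by radical members
  let S : Set G := ⋃ X ∈ {X ∈ K | ∀ W ∈ K, Cm X W}, (X : Set G)
  have hSconj : ∀ g, ∀ s ∈ S, g * s * g⁻¹ ∈ S := by
    intro g s hs
    simp only [S, Set.mem_iUnion] at hs ⊢
    obtain ⟨X, ⟨hX, hXr⟩, hsX⟩ := hs
    refine ⟨X.map (MulAut.conj g).toMonoidHom, ⟨H.hKc X hX g, ?_⟩, ⟨s, hsX, rfl⟩⟩
    rintro W hW _ ⟨a, ha, rfl⟩ w hw
    have h1 : g⁻¹ * w * g⁻¹⁻¹ ∈ W.map (MulAut.conj g⁻¹).toMonoidHom := ⟨w, hw, rfl⟩
    have h2 := hXr _ (H.hKc W hW g⁻¹) a ha _ h1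
    simp only [MulEquiv.coe_toMonoidHom, MulAut.conj_apply]
    calc g * a * g⁻¹ * w = g * (a * (g⁻¹ * w * g⁻¹⁻¹)) * g⁻¹ := by group
      _ = g * ((g⁻¹ * w * g⁻¹⁻¹) * a) * g⁻¹ := by rw [h2]
      _ = w * (g * a * g⁻¹) := by group
  have hSp : IsPGroup p (closure S) := by
    apply CfsgLib.BS.baer_suzuki_set _ G _ rfl hSconj
    intro s hs t ht
    simp only [S, Set.mem_iUnion] at hs ht
    obtain ⟨X, ⟨hX, hXr⟩, hsX⟩ := hs
    obtain ⟨Y, ⟨hY, -⟩, htY⟩ := ht
    apply (isPGroup_sup_of_cm (isPGroup_of_card (H.hK X hX)) (isPGroup_of_card (H.hK Y hY)) (hXr Y hY)).to_le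
    rw [closure_le]
    rintro z (rfl | rfl)
    · exact mem_sup_left hsX
    · exact mem_sup_right htY
  haveI hSn : (closure S).Normal := normal_closure_of_conj hSconj
  have hVle : V ≤ Cfsg.pCore p G := by
    have h1 : V ≤ closure S := by
      intro v hv
      apply Subgroup.subset_closure
      simp only [S, Set.mem_iUnion]
      exact ⟨V, ⟨hV, hVrad⟩, hv⟩
    exact h1.trans (CfsgLib.Solv.le_pCore' _ hSp)
  refine ⟨⟨V, hV, hVrad, hVle⟩, ?_⟩
  intro hs
  haveI hcn : (Cfsg.pCore p G).Normal := CfsgLib.Solv.pCore_normal' p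
  have hVbot : V ≠ ⊥ := by
    intro h
    have := H.hK V hV
    rw [h, Subgroup.card_bot] at this
    exact hp.out.ne_one this.symm
  have htop : Cfsg.pCore p G = ⊤ := by
    rcases hcn.eq_bot_or_eq_top with h | h
    · exact absurd (le_bot_iff.1 (h ▸ hVle)) hVbot
    · exact h
  have hGp : IsPGroup p G := by
    have := CfsgLib.Solv.pCore_isPGroup (p := p) (G := G)
    rw [htop] at this
    exact IsPGroup.of_equiv this Subgroup.topEquiv
  haveI hnt : Nontrivial G := IsSimpleGroup.toNontrivial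
  have hcen : Nontrivial (center G) := hGp.center_nontrivial
  have hctop : center G = ⊤ := by
    rcases (inferInstance : (Subgroup.center G).Normal).eq_bot_or_eq_top with h | h
    · rw [h] at hcen
      exact absurd hcen (not_nontrivial_iff_subsingleton.2 inferInstance)
    · exact h
  have hnorm : ∀ X : Subgroup G, X.Normal := by
    intro X
    refine ⟨fun n hn g => ?_⟩
    have hg : g ∈ center G := by rw [hctop]; trivial
    have := Subgroup.mem_center_iff.1 hg n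
    rw [← this, mul_inv_cancel_right]
    exact hn
  obtain ⟨X, hX, Y, hY, hne, -⟩ := H.hex
  have htopof : ∀ X ∈ K, X = ⊤ := by
    intro X hX
    rcases (hnorm X).eq_bot_or_eq_top with h | h
    · have := H.hK X hX
      rw [h, Subgroup.card_bot] at this
      exact absurd this.symm hp.out.ne_one
    · exact h
  exact hne ((htopof X hX).trans (htopof Y hY).symm)

end CfsgLib.PolarO
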