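import Mathlib
import Cfsg.Agent.Lib.OOL.Repl
import Cfsg.Agent.Lib.H3.MetaRepl

/-! # Glauberman's replacement theorem with control of the rank. -/

set_option autoImplicit false
set_option linter.unusedSectionVars false
set_option linter.unusedVariables false

namespace CfsgLib.ReplThm

open Subgroup Cfsg CfsgLib.OOL
open scoped commutatorElement

universe u

section rank

variable {S : Type*} [Group S] {p : ℕ} [hpf : Fact p.Prime]

lemma omega_iff {A : Subgroup S} (hc : ∀ x ∈ A, ∀ y ∈ A, x * y = y * x) {x : S} :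
    x ∈ omegaOne p A ↔ x ∈ A ∧ x ^ p = 1 := by
  constructor
  · intro h
    unfold omegaOne at h
    induction h using Subgroup.closure_induction with
    | mem y hy => exact hy
    | one => exact ⟨one_mem _, one_pow _⟩
    | mul y z _ _ h1 h2 =>
      refine ⟨mul_mem h1.1 h2.1, ?_⟩
      have hcomm : Commute y z := hc y h1.1 z h2.1
      rw [hcomm.mul_pow, h1.2, h2.2, one_mul]
    | inv y _ h1 =>
      exact ⟨inv_mem h1.1, by rw [inv_pow, h1.2, inv_one]⟩
  · intro h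
    exact Subgroup.subset_closure h

theorem rank_le [Finite S] (hS : IsPGroup p S) (hp : p ≠ 2) (B : Subgroup S) [hBn : B.Normal]
    (A : Subgroup S) (hA : IsMulCommutative A) (hBA : ⁅B, B⁆ ≤ A)
    (b : S) (hb : b ∈ B) (hbN : b ∈ normalizer ((normalizer (A : Set S)) : Set S))
    (hL : IsMulCommutative (rstar A b)) :
    Nat.card (omegaOne p A) ≤ Nat.card (omegaOne p (rstar A b)) := by
  classical
  have hpp := hpf.out
  have hAc : ∀ x ∈ A, ∀ y ∈ A, x * y = y * x := fun x hx y hy =>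
    congrArg Subtype.val (hA.is_comm.comm ⟨x, hx⟩ ⟨y, hy⟩)
  have hLc : ∀ x ∈ rstar A b, ∀ y ∈ rstar A b, x * y = y * x := fun x hx y hy =>
    congrArg Subtype.val (hL.is_comm.comm ⟨x, hx⟩ ⟨y, hy⟩)
  set N := normalizer (A : Set S) with hN
  set A₁ := A.map (MulAut.conj (b⁻¹)).toMonoidHom with hA₁
  have hA₁mem : ∀ x, x ∈ A₁ ↔ b * x * b⁻¹ ∈ A := by
    intro x
    constructor
    · rintro ⟨a, ha, rfl⟩
      have e : b * (MulAut.conj (b⁻¹)).toMonoidHom a * b⁻¹ = a := by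
        simp only [MulEquiv.toMonoidHom_eq_coe, MonoidHom.coe_coe, MulAut.conj_apply]
        group
      rw [e]
      exact ha
    · intro h
      refine ⟨_, h, ?_⟩
      simp only [MulEquiv.toMonoidHom_eq_coe, MonoidHom.coe_coe, MulAut.conj_apply]
      group
  have hconj₁ : ∀ a ∈ A, b⁻¹ * a * b ∈ A₁ := by
    intro a ha
    rw [hA₁mem]
    have e : b * (b⁻¹ * a * b) * b⁻¹ = a := by group
    rw [e]
    exact ha
  have hA₁c : ∀ x ∈ A₁, ∀ y ∈ A₁, x * y = y * x := by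
    intro x hx y hy
    have h1 := hAc _ ((hA₁mem x).mp hx) _ ((hA₁mem y).mp hy)
    have h2 : b * (x * y) * b⁻¹ = b * (y * x) * b⁻¹ := by
      calc b * (x * y) * b⁻¹ = (b * x * b⁻¹) * (b * y * b⁻¹) := by group
        _ = (b * y * b⁻¹) * (b * x * b⁻¹) := h1
        _ = b * (y * x) * b⁻¹ := by group
    exact mul_left_cancel (mul_right_cancel h2)
  have hN1 : ∀ n ∈ N, b * n * b⁻¹ ∈ N := fun n hn => (mem_normalizer_iff.mp hbN n).mp hn
  have hN2 : ∀ n ∈ N, b⁻¹ * n * b ∈ N := by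
    intro n hn
    have := (mem_normalizer_iff.mp hbN (b⁻¹ * n * b)).mpr (by
      have e : b * (b⁻¹ * n * b) * b⁻¹ = n := by group
      rw [e]
      exact hn)
    exact this
  have hAN : A ≤ N := Subgroup.le_normalizer
  have hA₁N : ∀ x ∈ A₁, x ∈ N := by
    intro x hx
    have h1 := hN2 _ (hAN ((hA₁mem x).mp hx))
    have e : b⁻¹ * (b * x * b⁻¹) * b = x := by group
    rwa [e] at h1
  have hAN₁ : ∀ a ∈ A, ∀ x ∈ A₁, a * x * a⁻¹ ∈ A₁ := by
    intro a ha x hx
    rw [hA₁mem]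
    have h1 := hN1 a (hAN ha)
    have h2 := (hA₁mem x).mp hx
    have h3 := (mem_normalizer_iff.mp h1 _).mp h2
    have e : b * (a * x * a⁻¹) * b⁻¹ = (b * a * b⁻¹) * (b * x * b⁻¹) * (b * a * b⁻¹)⁻¹ := by group
    rw [e]
    exact h3
  have hA₁NA : ∀ x ∈ A₁, ∀ a ∈ A, x * a * x⁻¹ ∈ A := fun x hx a ha =>
    (mem_normalizer_iff.mp (hA₁N x hx) a).mp ha
  set C := A ⊓ A₁ with hC
  have hcommC : ∀ a ∈ A, ∀ x ∈ A₁, ⁅a, x⁆ ∈ C := by
    intro a ha x hx
    refine mem_inf.mpr ⟨?_, ?_⟩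
    · rw [commutatorElement_def]
      have e : a * x * a⁻¹ * x⁻¹ = a * (x * a⁻¹ * x⁻¹) := by group
      rw [e]
      exact mul_mem ha (hA₁NA x hx _ (inv_mem ha))
    · rw [commutatorElement_def]
      exact mul_mem (hAN₁ a ha x hx) (inv_mem hx)
  have hCA : ∀ c ∈ C, ∀ a ∈ A, c * a = a * c := fun c hc a ha => hAc c (mem_inf.mp hc).1 a ha
  have hCA₁ : ∀ c ∈ C, ∀ x ∈ A₁, c * x = x * c := fun c hc x hx => hA₁c c (mem_inf.mp hc).2 x hx
  have hbC1 : ∀ c ∈ C, b⁻¹ * c * b ∈ C := by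
    intro c hc
    obtain ⟨hc1, hc2⟩ := mem_inf.mp hc
    refine mem_inf.mpr ⟨?_, hconj₁ c hc1⟩
    have h1 := (hA₁mem c).mp hc2
    set t := c⁻¹ * (b * c * b⁻¹) with ht
    have htA : t ∈ A := mul_mem (inv_mem hc1) h1
    have htB : t ∈ B := by
      have h2 : c⁻¹ * b * c⁻¹⁻¹ ∈ B := hBn.conj_mem _ hb c⁻¹
      have e : t = (c⁻¹ * b * c⁻¹⁻¹) * b⁻¹ := by rw [ht]; group
      rw [e]
      exact mul_mem h2 (inv_mem hb)
    have h3 : ⁅t, b⁻¹⁆ ∈ ⁅B, B⁆ := Subgroup.commutator_mem_commutator htB (inv_mem hb)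
    have e : b⁻¹ * c * b = c * t⁻¹ * ⁅t, b⁻¹⁆ := by
      rw [ht]
      simp only [commutatorElement_def]
      group
    rw [e]
    exact mul_mem (mul_mem hc1 (inv_mem htA)) (hBA h3)
  -- the function
  set g : S → S := fun a => a * b⁻¹ * a⁻¹ * b with hg
  have hgt : ∀ a, g a = a * (b⁻¹ * a⁻¹ * b) := fun a => by
    simp only [hg]
    group
  have hgL : ∀ a ∈ A, g a ∈ rstar A b := by
    intro a ha
    exact (le_sup_right : _ ≤ rstar A b) (Subgroup.subset_closure ⟨a, ha, rfl⟩)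
  have hCL : C ≤ rstar A b := le_sup_left
  have hgp : ∀ a ∈ A, a ^ p = 1 → g a ^ p = 1 := by
    intro a ha hap
    rw [hgt]
    set t := b⁻¹ * a⁻¹ * b with ht
    have htm : t ∈ A₁ := hconj₁ _ (inv_mem ha)
    have hz := hcommC a ha t htm
    have hz' : ⁅t, a⁆ ∈ C := by
      rw [← commutatorElement_inv]
      exact inv_mem hz
    set w := ⁅t, a⁆ with hw
    have h1 := CfsgLib.FGS.pow_mul_of_central a t w (by
      rw [hw]
      simp only [commutatorElement_def]; group) (hCA _ hz' a ha) (hCA₁ _ hz' t htm) p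
    have h2 : t ^ p = 1 := by
      rw [ht]
      have e : b⁻¹ * a⁻¹ * b = b⁻¹ * a⁻¹ * b⁻¹⁻¹ := by group
      rw [e, conj_pow, inv_pow, hap]
      group
    have h3 : w ^ p = 1 := by
      have e1 : t * a * t⁻¹ = w * a := by
        rw [hw]
        simp only [commutatorElement_def]; group
      have e2 : (t * a * t⁻¹) ^ p = 1 := by
        rw [conj_pow, hap]
        group
      rw [e1] at e2
      have hcomm : Commute w a := hCA _ hz' a ha
      rw [hcomm.mul_pow, hap, mul_one] at e2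
      exact e2
    have h4 : p ∣ p.choose 2 := hpp.dvd_choose_self (by norm_num) (by
      have := hpp.two_le
      omega)
    obtain ⟨m, hm⟩ := h4
    rw [h1, hap, h2, hm, pow_mul, h3]
    group
  have hrel : ∀ x ∈ A, ∀ y ∈ A, x⁻¹ * y ∈ C ↔ (g x)⁻¹ * g y ∈ C := by
    intro x hx y hy
    set z := x⁻¹ * y with hz
    have hzA : z ∈ A := mul_mem (inv_mem hx) hy
    set x₁ := b⁻¹ * x * b with hx₁
    have hx₁m : x₁ ∈ A₁ := hconj₁ x hx
    set z₁ := b⁻¹ * z * b with hz₁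
    have hz₁m : z₁ ∈ A₁ := hconj₁ z hzA
    have hgz : g z = z * z₁⁻¹ := by
      simp only [hg, hz₁]
      group
    have hgrel : (g x)⁻¹ * g y = ⁅x₁, z⁆ * g z := by
      have hcomm : x₁⁻¹ * z₁⁻¹ = z₁⁻¹ * x₁⁻¹ :=
        hA₁c _ (inv_mem hx₁m) _ (inv_mem hz₁m)
      have hy' : y = x * z := by
        rw [hz]
        group
      have hgx : g x = x * x₁⁻¹ := by
        simp only [hg, hx₁]
        group
      have hgy : g y = x * z * (z₁⁻¹ * x₁⁻¹) := by
        have e : z₁⁻¹ * x₁⁻¹ = (x₁ * z₁)⁻¹ := by group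
        rw [e]
        simp only [hg]
        rw [hy', hz₁, hx₁]
        group
      rw [hgx, hgy, hgz, commutatorElement_def]
      calc (x * x₁⁻¹)⁻¹ * (x * z * (z₁⁻¹ * x₁⁻¹)) = x₁ * z * (z₁⁻¹ * x₁⁻¹) := by group
        _ = x₁ * z * (x₁⁻¹ * z₁⁻¹) := by rw [hcomm]
        _ = _ := by group
    have hcom : ⁅x₁, z⁆ ∈ C := by
      rw [← commutatorElement_inv]
      exact inv_mem (hcommC z hzA x₁ hx₁m)
    rw [hgrel]
    constructor
    · intro hzC
      refine mul_mem hcom ?_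
      rw [hgz]
      refine mul_mem hzC ?_
      exact inv_mem (hbC1 z hzC)
    · intro h
      have h2 : g z ∈ C := (Subgroup.mul_mem_cancel_left C hcom).1 h
      refine mem_inf.mpr ⟨hzA, ?_⟩
      have e : z = g z * z₁ := by
        rw [hgz]
        group
      rw [e]
      exact mul_mem (mem_inf.mp h2).2 hz₁m
  -- counting
  set Y := omegaOne p A with hY
  set L := rstar A b with hLdef
  set Z := omegaOne p L with hZ
  have hYm : ∀ x, x ∈ Y ↔ x ∈ A ∧ x ^ p = 1 := fun x => omega_iff hAc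
  have hZm : ∀ x, x ∈ Z ↔ x ∈ L ∧ x ^ p = 1 := fun x => omega_iff hLc
  let f : Y → Z := fun a => ⟨g a, (hZm _).2 ⟨hgL a ((hYm _).1 a.2).1, hgp a ((hYm _).1 a.2).1 ((hYm _).1 a.2).2⟩⟩
  have hidx : (C.subgroupOf Y).index ≤ (C.subgroupOf Z).index := by
    apply CfsgLib.MetaRepl.index_le_of_rel _ _ f
    intro a e
    have h1 := hrel a ((hYm _).1 a.2).1 e ((hYm _).1 e.2).1
    exact h1
  have hcardle : Nat.card (C.subgroupOf Y) ≤ Nat.card (C.subgroupOf Z) := by
    let φ : C.subgroupOf Y → C.subgroupOf Z := fun c =>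
      ⟨⟨(c : Y), (hZm _).2 ⟨hCL c.2, ((hYm _).1 c.1.2).2⟩⟩, c.2⟩
    apply Nat.card_le_card_of_injective φ
    intro c d hcd
    have : ((c : Y) : S) = ((d : Y) : S) := congrArg (fun t : C.subgroupOf Z => (((t : Z) : S))) hcd
    exact Subtype.ext (Subtype.ext this)
  have e1 := Subgroup.card_mul_index (C.subgroupOf Y)
  have e2 := Subgroup.card_mul_index (C.subgroupOf Z)
  rw [← e1, ← e2]
  exact Nat.mul_le_mul hcardle hidx

end rank

section main

variable {G : Type*} [Group G] [Finite G] {p : ℕ} [hpf : Fact p.Prime]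

lemma card_omega_map {X : Type*} [Group X] (K : Subgroup X) (H : Subgroup K) :
    Nat.card (omegaOne p (H.map K.subtype)) = Nat.card (omegaOne p H) := by
  have h : omegaOne p (H.map K.subtype) = (omegaOne p H).map K.subtype := by
    unfold omegaOne
    rw [MonoidHom.map_closure]
    congr 1
    ext x
    constructor
    · rintro ⟨⟨y, hy, rfl⟩, h2⟩
      refine ⟨y, ⟨hy, ?_⟩, rfl⟩
      apply Subtype.ext
      simpa using h2
    · rintro ⟨y, ⟨hy, h2⟩, rfl⟩
      refine ⟨⟨y, hy, rfl⟩, ?_⟩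
      have := congrArg Subtype.val h2
      simpa using this
  rw [h, Subgroup.card_map_of_injective (subtype_injective K)]

theorem replacement (hp : p ≠ 2) (hG : IsPGroup p G)
    (A B : Subgroup G) (hA : IsMulCommutative A) (hBA : ⁅B, B⁆ ≤ A)
    (hAB : A ≤ normalizer (B : Set G)) (hBnA : ¬ B ≤ normalizer (A : Set G)) :
    ∃ Astar : Subgroup G, IsMulCommutative Astar ∧ Nat.card Astar = Nat.card A ∧ A ⊓ B < Astar ⊓ B ∧
      Astar ≤ normalizer (A : Set G) ∧ Astar ≤ normalClosure (A : Set G) ∧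
      Monoid.exponent Astar ∣ Monoid.exponent A ∧ Nat.card (omegaOne p A) ≤ Nat.card (omegaOne p Astar) := by
  classical
  set T := A ⊔ B with hT
  have hAT : A ≤ T := le_sup_left
  have hBT : B ≤ T := le_sup_right
  have hTp : IsPGroup p T := hG.to_subgroup T
  set A' : Subgroup T := A.subgroupOf T with hA'
  set B' : Subgroup T := B.subgroupOf T with hB'
  haveI hBn : B'.Normal := (normal_subgroupOf_iff_le_normalizer hBT).2 (sup_le hAB le_normalizer)
  have hAc' : IsMulCommutative A' := by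
    refine ⟨⟨?_⟩⟩
    rintro ⟨a, ha⟩ ⟨e, he⟩
    have := hA.is_comm.comm (⟨a.1, ha⟩ : A) ⟨e.1, he⟩
    have h' : (a.1 * e.1 : G) = e.1 * a.1 := congrArg Subtype.val this
    exact Subtype.ext (Subtype.ext h')
  have hBA' : ⁅B', B'⁆ ≤ A' := by
    rw [commutator_le]
    intro x hx y hy
    have h1 : ⁅(x : G), (y : G)⁆ ∈ ⁅B, B⁆ := commutator_mem_commutator hx hy
    exact hBA h1
  haveI : Group.IsNilpotent T := hTp.isNilpotent
  have hNtop : normalizer (A' : Set T) ≠ ⊤ := by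
    intro h
    apply hBnA
    intro x hx
    apply CfsgLib.PLocal.mem_normalizer_of_conj_le
    intro a ha
    have h1 : (⟨x, hBT hx⟩ : T) ∈ normalizer (A' : Set T) := by
      rw [h]
      trivial
    have h2 : (⟨a, hAT ha⟩ : T) ∈ A' := ha
    exact (mem_normalizer_iff.1 h1 _).1 h2
  have hlt : normalizer (A' : Set T) < normalizer ((normalizer (A' : Set T)) : Set T) :=
    normalizerCondition_of_isNilpotent _ (lt_top_iff_ne_top.2 hNtop)
  obtain ⟨w, hw, hwN⟩ := SetLike.exists_of_lt hlt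
  have htop : A' ⊔ B' = ⊤ := by
    rw [hA', hB', ← subgroupOf_sup hAT hBT, ← hT, subgroupOf_self]
  have hwm : w ∈ A' ⊔ B' := by
    rw [htop]
    trivial
  obtain ⟨a, ha, b₀, hb₀, hab⟩ := mem_sup_of_normal_right.1 hwm
  have haN : a ∈ normalizer (A' : Set T) := le_normalizer ha
  have hb₀N : b₀ ∈ normalizer ((normalizer (A' : Set T)) : Set T) := by
    have e : b₀ = a⁻¹ * w := by
      rw [← hab]
      group
    rw [e]
    exact mul_mem (inv_mem (le_normalizer haN)) hw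
  have hb₀A : b₀ ∉ normalizer (A' : Set T) := by
    intro h
    apply hwN
    rw [← hab]
    exact mul_mem haN h
  obtain ⟨h1, h2, h3, h4, h5, h6, h7, h8, h9, h10⟩ :=
    glauberman_main hTp B' (fun h => absurd h hp) A' hAc' hBA' b₀ hb₀ hb₀N hb₀A
  have hrank := rank_le hTp hp B' A' hAc' hBA' b₀ hb₀ hb₀N h2
  set L := rstar A' b₀ with hL
  have hmapA : A'.map T.subtype = A := by
    rw [hA', subgroupOf_map_subtype]
    exact inf_eq_left.2 hAT
  have hcardA : Nat.card A' = Nat.card A := Nat.card_congr (subgroupOfEquivOfLe hAT).toEquiv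
  refine ⟨L.map T.subtype, ?_, ?_, ?_, ?_, ?_, ?_, ?_⟩
  · refine ⟨⟨?_⟩⟩
    rintro ⟨_, x, hx, rfl⟩ ⟨_, y, hy, rfl⟩
    apply Subtype.ext
    exact congrArg (fun t : L => ((t : T) : G)) (h2.is_comm.comm ⟨x, hx⟩ ⟨y, hy⟩)
  · rw [Subgroup.card_map_of_injective (subtype_injective T), h1, hcardA]
  · obtain ⟨y, hy, hyn⟩ := SetLike.exists_of_lt h4
    have hmem : (y : G) ∈ L.map T.subtype ⊓ B := ⟨⟨y, hy.1, rfl⟩, hy.2⟩
    refine SetLike.lt_iff_le_and_exists.2 ⟨?_, (y : G), hmem, ?_⟩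
    · rintro x ⟨hxA, hxB⟩
      have h5' : (⟨x, hAT hxA⟩ : T) ∈ A' ⊓ B' := ⟨hxA, hxB⟩
      have h6' := h4.le h5'
      exact ⟨⟨_, h6'.1, rfl⟩, hxB⟩
    · rintro ⟨hyA, hyB⟩
      exact hyn ⟨hyA, hyB⟩
  · rintro _ ⟨l, hl, rfl⟩
    apply CfsgLib.PLocal.mem_normalizer_of_conj_le
    intro a ha
    have h11 : (⟨a, hAT ha⟩ : T) ∈ A' := ha
    exact (mem_normalizer_iff.1 (h7 hl) _).1 h11
  · rw [Subgroup.map_le_iff_le_comap]
    refine sup_le ?_ ?_
    · intro x hx
      exact subset_normalClosure (mem_inf.1 hx).1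
    · rw [closure_le]
      rintro _ ⟨e, he, rfl⟩
      show (e : G) * (b₀ : G)⁻¹ * (e : G)⁻¹ * (b₀ : G) ∈ normalClosure (A : Set G)
      have h11 : (e : G) * (b₀ : G)⁻¹ * (e : G)⁻¹ * (b₀ : G) =
          (e : G) * ((b₀ : G)⁻¹ * (e : G)⁻¹ * ((b₀ : G)⁻¹)⁻¹) := by group
      rw [h11]
      have hnc : (normalClosure (A : Set G)).Normal := inferInstance
      have he' : (e : G) ∈ normalClosure (A : Set G) := subset_normalClosure he
      exact mul_mem he' (hnc.conj_mem _ (inv_mem he') _)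
  · have e1 : Monoid.exponent (L.map T.subtype) = Monoid.exponent L :=
      (Monoid.exponent_eq_of_mulEquiv (L.equivMapOfInjective T.subtype (subtype_injective T))).symm
    have e2 : Monoid.exponent A' = Monoid.exponent A :=
      Monoid.exponent_eq_of_mulEquiv (subgroupOfEquivOfLe hAT)
    rw [e1, ← e2]
    exact h10 hp
  · rw [card_omega_map T L]
    have e3 := card_omega_map (p := p) T A'
    rw [hmapA] at e3
    rw [e3]
    exact hrank

end main

end CfsgLib.ReplThm
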