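import Mathlib

/-! Elements of order three of `SL₂(5)` inside `Sp₄(3)`. -/

set_option autoImplicit false

namespace CfsgLib.SL25Sp4

open Matrix Module

variable {F : Type*} [Field F] [Fintype F]

/-- Index type of the symplectic four-space. -/
abbrev ι := Fin 2 ⊕ Fin 2

theorem finrank_ker_comp_le {V : Type*} [AddCommGroup V] [Module F V] [FiniteDimensional F V]
    (A B : V →ₗ[F] V) :
    finrank F (LinearMap.ker (A ∘ₗ B)) ≤
      finrank F (LinearMap.ker A) + finrank F (LinearMap.ker B) := by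
  let S := LinearMap.ker (A ∘ₗ B)
  let B' : S →ₗ[F] (LinearMap.ker A) :=
    (B.domRestrict S).codRestrict (LinearMap.ker A) (fun x => x.2)
  have h1 := LinearMap.finrank_range_add_finrank_ker B'
  have h2 : finrank F (LinearMap.range B') ≤ finrank F (LinearMap.ker A) := Submodule.finrank_le _
  have h3 : finrank F (LinearMap.ker B') ≤ finrank F (LinearMap.ker B) := by
    let i : LinearMap.ker B' →ₗ[F] LinearMap.ker B :=
      (S.subtype.comp (Submodule.subtype _)).codRestrict _ (fun x => by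
        have hx := x.2
        rw [LinearMap.mem_ker] at hx ⊢
        exact congrArg Subtype.val hx)
    refine LinearMap.finrank_le_finrank_of_injective (f := i) ?_
    intro x y hxy
    have h4 : ((i x : LinearMap.ker B) : V) = ((i y : LinearMap.ker B) : V) :=
      congrArg Subtype.val hxy
    exact Subtype.ext (Subtype.ext h4)
  have h5 : finrank F S = finrank F (LinearMap.range B') + finrank F (LinearMap.ker B') := h1.symm
  change finrank F S ≤ _
  omega

theorem finrank_V : finrank F (ι → F) = 4 := by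
  simp

theorem cube_zero (hch : CharP F 3) (s : Matrix ι ι F) (hs : s ^ 3 = 1) :
    (s - 1) * (s - 1) * (s - 1) = 0 := by
  have h3 : (3 : Matrix ι ι F) = 0 := by
    have := CharP.cast_eq_zero (Matrix ι ι F) 3
    exact_mod_cast this
  calc (s - 1) * (s - 1) * (s - 1) = s ^ 3 - 3 * s ^ 2 + 3 * s - 1 := by noncomm_ring
    _ = 0 := by rw [hs, h3]; simp

theorem two_le_finrank (hch : CharP F 3) (s : Matrix ι ι F) (hs : s ^ 3 = 1) :
    2 ≤ finrank F (LinearMap.ker (toLin' s - LinearMap.id)) := by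
  have hA : toLin' s - LinearMap.id = toLin' (s - 1) := by
    rw [map_sub, toLin'_one]
  rw [hA]
  set A := toLin' (s - 1) with hAdef
  have h0 := cube_zero hch s hs
  have hAAA : (A ∘ₗ A) ∘ₗ A = 0 := by
    rw [hAdef, ← toLin'_mul, ← toLin'_mul, h0, map_zero]
  have h4 : finrank F (LinearMap.ker ((A ∘ₗ A) ∘ₗ A)) = 4 := by
    rw [hAAA, LinearMap.ker_zero, finrank_top]
    exact finrank_V
  have h5 := finrank_ker_comp_le (A ∘ₗ A) A
  have h6 := finrank_ker_comp_le A A
  omega

theorem mem_ker_iff (s : Matrix ι ι F) (v : ι → F) :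
    v ∈ LinearMap.ker (toLin' s - LinearMap.id) ↔ s.mulVec v = v := by
  rw [LinearMap.mem_ker, LinearMap.sub_apply, toLin'_apply, LinearMap.id_apply, sub_eq_zero]

theorem eq_one_of_fix (s : Matrix ι ι F) (h : ∀ v : ι → F, s.mulVec v = v) : s = 1 := by
  ext i j
  have h1 := congrFun (h (Pi.single j 1)) i
  rw [Matrix.mulVec_single_one] at h1
  have h2 : s i j = (Pi.single j 1 : ι → F) i := h1
  rw [h2, Matrix.one_apply, Pi.single_apply]

/-- The additive group of fixed vectors. -/
def fixT (g : Matrix ι ι F) : AddSubgroup (ι → F) where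
  carrier := {v | g.mulVec v = v}
  add_mem' := by
    intro a b ha hb
    show _ = _
    rw [Matrix.mulVec_add, ha, hb]
  zero_mem' := Matrix.mulVec_zero _
  neg_mem' := by
    intro a ha
    show _ = _
    rw [Matrix.mulVec_neg, ha]

theorem card_V (hF : Fintype.card F = 3) : Nat.card (ι → F) = 81 := by
  rw [Nat.card_eq_fintype_card, Fintype.card_fun, hF]
  simp

theorem no_fix_5 (hF : Fintype.card F = 3) (g : Matrix ι ι F) (hg : g ^ 5 = 1) (hne : g ≠ 1)
    (v : ι → F) (hv : v ≠ 0) : g.mulVec v ≠ v := by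
  classical
  intro hfix
  haveI : Fact (Nat.Prime 5) := ⟨by norm_num⟩
  have h1 : Nat.card (fixT g) ∣ 81 := by
    rw [← card_V hF]
    exact AddSubgroup.card_addSubgroup_dvd_card _
  have h2 : 81 ≡ Nat.card (fixT g) [MOD 5] := by
    let f : Function.End (ι → F) := g.mulVec
    have hpow : ∀ k : ℕ, ∀ v, (f ^ k) v = (g ^ k).mulVec v := by
      intro k
      induction k with
      | zero =>
        intro v
        simp [Function.End.one_def]
      | succ k ih =>
        intro v
        rw [pow_succ, pow_succ, Function.End.mul_def]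
        show (f ^ k) (f v) = _
        rw [ih, ← Matrix.mulVec_mulVec]
    have hf : f ^ 5 ^ 1 = 1 := by
      funext v
      rw [pow_one, hpow, hg]
      simp [Function.End.one_def]
    have h := Equiv.Perm.card_fixedPoints_modEq hf
    have h1 : Fintype.card (ι → F) = 81 := by
      rw [← Nat.card_eq_fintype_card, card_V hF]
    rw [h1, ← Nat.card_eq_fintype_card] at h
    have h2 : Nat.card (Function.fixedPoints f) = Nat.card (fixT g) :=
      Nat.card_congr (Equiv.subtypeEquivRight (fun _ => Iff.rfl))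
    rwa [h2] at h
  obtain ⟨k, hk, hk'⟩ := (Nat.dvd_prime_pow Nat.prime_three).1
    (show Nat.card (fixT g) ∣ 3 ^ 4 from h1)
  have hnot1 : Nat.card (fixT g) ≠ 81 := by
    intro h3
    apply hne
    apply eq_one_of_fix
    intro u
    have h4 : fixT g = ⊤ := by
      apply AddSubgroup.eq_top_of_card_eq
      rw [h3, card_V hF]
    have h5 : u ∈ fixT g := by
      rw [h4]
      exact AddSubgroup.mem_top u
    exact h5
  have hnot2 : Nat.card (fixT g) ≠ 1 := by
    intro h3
    obtain ⟨u, hu⟩ := Nat.card_eq_one_iff_unique.1 h3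
    have := u.elim (⟨v, hfix⟩ : fixT g) ⟨0, (fixT g).zero_mem⟩
    exact hv (congrArg Subtype.val this)
  rw [hk'] at h2 hnot1 hnot2
  interval_cases k
  · exact hnot2 rfl
  · exact absurd h2 (by decide)
  · exact absurd h2 (by decide)
  · exact absurd h2 (by decide)
  · exact hnot1 rfl

theorem ne_three (hF : Fintype.card F = 3) (s z zi : Matrix ι ι F) (hz : z * zi = 1)
    (hz' : zi * z = 1) (hne : ((s * (z * s * zi)) ^ 2) ≠ 1) (h5 : ((s * (z * s * zi)) ^ 2) ^ 5 = 1) :
    finrank F (LinearMap.ker (toLin' s - LinearMap.id)) ≠ 3 := by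
  intro h3
  set U := LinearMap.ker (toLin' s - LinearMap.id) with hU
  have hinj : Function.Injective (toLin' z) := by
    intro a b hab
    rw [toLin'_apply, toLin'_apply] at hab
    have h1 := congrArg (zi.mulVec) hab
    rwa [Matrix.mulVec_mulVec, Matrix.mulVec_mulVec, hz', Matrix.one_mulVec,
      Matrix.one_mulVec] at h1
  have hU' : finrank F (U.map (toLin' z)) = 3 := by
    rw [← h3]
    exact (Submodule.equivMapOfInjective _ hinj U).finrank_eq.symm
  have h1 := Submodule.finrank_sup_add_finrank_inf_eq U (U.map (toLin' z))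
  have h2 : finrank F ↥(U ⊔ U.map (toLin' z)) ≤ 4 := by
    rw [← finrank_V (F := F)]
    exact Submodule.finrank_le _
  have hne' : U ⊓ U.map (toLin' z) ≠ ⊥ := by
    intro hb
    rw [hb, finrank_bot] at h1
    omega
  obtain ⟨v, hv, hv0⟩ := Submodule.exists_mem_ne_zero_of_ne_bot hne'
  obtain ⟨hv1, u, hu, huv⟩ := hv
  have hfv : s.mulVec v = v := (mem_ker_iff s v).1 hv1
  have hfu : s.mulVec u = u := (mem_ker_iff s u).1 hu
  rw [toLin'_apply] at huv
  have hf2 : (z * s * zi).mulVec v = v := by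
    rw [← huv, Matrix.mulVec_mulVec, Matrix.mul_assoc, Matrix.mul_assoc, hz', Matrix.mul_one,
      ← Matrix.mulVec_mulVec, hfu]
  have hf3 : (s * (z * s * zi)).mulVec v = v := by
    rw [← Matrix.mulVec_mulVec, hf2, hfv]
  have hf4 : ((s * (z * s * zi)) ^ 2).mulVec v = v := by
    rw [sq, ← Matrix.mulVec_mulVec, hf3, hf3]
  exact no_fix_5 hF _ h5 hne v hv0 hf4

/-- The alternating form. -/
def B (a b : ι → F) : F := a ⬝ᵥ (J (Fin 2) F).mulVec b

theorem B_add (a b c : ι → F) : B a (b + c) = B a b + B a c := by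
  simp [B, Matrix.mulVec_add, dotProduct_add]

theorem B_sub (a b c : ι → F) : B a (b - c) = B a b - B a c := by
  simp [B, Matrix.mulVec_sub, dotProduct_sub]

theorem B_smul (a b : ι → F) (r : F) : B a (r • b) = r * B a b := by
  simp [B, Matrix.mulVec_smul, dotProduct_smul]

theorem B_zero (a : ι → F) : B a 0 = 0 := by
  simp [B]

theorem B_antisymm (a b : ι → F) : B a b = - B b a := by
  unfold B
  rw [Matrix.dotProduct_mulVec, ← Matrix.mulVec_transpose, J_transpose, Matrix.neg_mulVec,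
    neg_dotProduct, dotProduct_comm]

theorem B_self (hch : CharP F 3) (a : ι → F) : B a a = 0 := by
  have h := B_antisymm a a
  have h2 : (2 : F) * B a a = 0 := by
    rw [two_mul]
    nth_rewrite 1 [h]
    simp
  have h3 : (2 : F) ≠ 0 := by
    intro h4
    have h5 : ((2 : ℕ) : F) = 0 := by exact_mod_cast h4
    rw [CharP.cast_eq_zero_iff F 3] at h5
    omega
  exact (mul_eq_zero.1 h2).resolve_left h3

theorem B_inv (s : Matrix ι ι F) (hs : s.transpose * J (Fin 2) F * s = J (Fin 2) F) (a b : ι → F) :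
    B (s.mulVec a) (s.mulVec b) = B a b := by
  unfold B
  rw [dotProduct_comm, Matrix.dotProduct_mulVec, ← Matrix.mulVec_transpose, dotProduct_comm,
    Matrix.mulVec_mulVec, Matrix.mulVec_mulVec, hs]

theorem isotropic (hch : CharP F 3) (s : Matrix ι ι F)
    (hsymp : s.transpose * J (Fin 2) F * s = J (Fin 2) F) (hs3 : s ^ 3 = 1)
    (hdim : finrank F (LinearMap.ker (toLin' s - LinearMap.id)) = 2)
    (v w : ι → F) (hv : s.mulVec v = v) (hw : s.mulVec w = w) : B v w = 0 := by
  by_contra hvw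
  have hwv : B w v ≠ 0 := by
    intro h
    apply hvw
    rw [B_antisymm, h, neg_zero]
  let L : (ι → F) →ₗ[F] (Fin 2 → F) :=
    { toFun := fun z => ![B v z, B w z]
      map_add' := by
        intro a b
        ext i
        fin_cases i <;> simp [B_add]
      map_smul' := by
        intro r a
        ext i
        fin_cases i <;> simp [B_smul] }
  have hker : LinearMap.ker L ≠ ⊥ := by
    apply L.ker_ne_bot_of_finrank_lt
    rw [finrank_V]
    simp
  obtain ⟨z, hz, hz0⟩ := Submodule.exists_mem_ne_zero_of_ne_bot hker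
  have hz1 : B v z = 0 := congrFun (LinearMap.mem_ker.1 hz) 0
  have hz2 : B w z = 0 := congrFun (LinearMap.mem_ker.1 hz) 1
  -- the nilpotent part
  let N : (ι → F) → (ι → F) := fun y => s.mulVec y - y
  have hN : ∀ y, B v y = 0 → B w y = 0 → B v (N y) = 0 ∧ B w (N y) = 0 := by
    intro y h1 h2
    constructor
    · show B v (s.mulVec y - y) = 0
      rw [B_sub, h1, sub_zero]
      nth_rewrite 1 [← hv]
      rw [B_inv s hsymp, h1]
    · show B w (s.mulVec y - y) = 0
      rw [B_sub, h2, sub_zero]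
      nth_rewrite 1 [← hw]
      rw [B_inv s hsymp, h2]
  have hN3 : ∀ y, N (N (N y)) = 0 := by
    intro y
    have h0 := cube_zero hch s hs3
    have h1 : ((s - 1) * (s - 1) * (s - 1)).mulVec y = 0 := by
      rw [h0, Matrix.zero_mulVec]
    have h2 : ∀ u, N u = (s - 1).mulVec u := by
      intro u
      rw [Matrix.sub_mulVec, Matrix.one_mulVec]
    rw [h2, h2, h2, Matrix.mulVec_mulVec, Matrix.mulVec_mulVec]
    rwa [Matrix.mul_assoc] at h1 ⊢
  obtain ⟨z1, hz1f, hz10, hB1, hB2⟩ :
      ∃ z1 : ι → F, N z1 = 0 ∧ z1 ≠ 0 ∧ B v z1 = 0 ∧ B w z1 = 0 := by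
    have hh1 := hN z hz1 hz2
    have hh2 := hN (N z) hh1.1 hh1.2
    by_cases c1 : N (N z) = 0
    · by_cases c2 : N z = 0
      · exact ⟨z, c2, hz0, hz1, hz2⟩
      · exact ⟨N z, c1, c2, hh1.1, hh1.2⟩
    · exact ⟨N (N z), hN3 z, c1, hh2.1, hh2.2⟩
  have hz1fix : s.mulVec z1 = z1 := sub_eq_zero.1 hz1f
  -- three independent fixed vectors
  let b : Fin 3 → LinearMap.ker (toLin' s - LinearMap.id) :=
    ![⟨v, (mem_ker_iff s v).2 hv⟩, ⟨w, (mem_ker_iff s w).2 hw⟩, ⟨z1, (mem_ker_iff s z1).2 hz1fix⟩]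
  have hb : LinearIndependent F b := by
    rw [Fintype.linearIndependent_iff]
    intro g hg
    rw [Fin.sum_univ_three] at hg
    have hg' : g 0 • v + g 1 • w + g 2 • z1 = 0 := congrArg Subtype.val hg
    have e1 : B v (g 0 • v + g 1 • w + g 2 • z1) = 0 := by rw [hg', B_zero]
    have e2 : B w (g 0 • v + g 1 • w + g 2 • z1) = 0 := by rw [hg', B_zero]
    rw [B_add, B_add, B_smul, B_smul, B_smul, B_self hch, hB1, mul_zero, mul_zero, zero_add,
      add_zero] at e1
    rw [B_add, B_add, B_smul, B_smul, B_smul, B_self hch, hB2, mul_zero, mul_zero, add_zero,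
      add_zero] at e2
    have g1 : g 1 = 0 := (mul_eq_zero.1 e1).resolve_right hvw
    have g0 : g 0 = 0 := (mul_eq_zero.1 e2).resolve_right hwv
    rw [g0, g1, zero_smul, zero_smul, zero_add, zero_add] at hg'
    have g2 : g 2 = 0 := (smul_eq_zero.1 hg').resolve_right hz10
    intro i
    fin_cases i
    · exact g0
    · exact g1
    · exact g2
  have := hb.fintype_card_le_finrank
  rw [hdim, Fintype.card_fin] at this
  omega

/-- The matrix core of the statement. -/
theorem core (hF : Fintype.card F = 3) (s z zi : Matrix ι ι F)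
    (hsymp : s.transpose * J (Fin 2) F * s = J (Fin 2) F) (hs3 : s ^ 3 = 1) (hs1 : s ≠ 1)
    (hz : z * zi = 1) (hz' : zi * z = 1) (hne : ((s * (z * s * zi)) ^ 2) ≠ 1)
    (h5 : ((s * (z * s * zi)) ^ 2) ^ 5 = 1) :
    finrank F (LinearMap.ker (toLin' s - LinearMap.id)) = 2 ∧
      ∀ v w : ι → F, s.mulVec v = v → s.mulVec w = w → v ⬝ᵥ (J (Fin 2) F).mulVec w = 0 := by
  have hch : CharP F 3 := by
    haveI : Fact (Nat.Prime 3) := ⟨Nat.prime_three⟩
    exact charP_of_card_eq_prime hF
  have h2 := two_le_finrank hch s hs3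
  have h3 := ne_three hF s z zi hz hz' hne h5
  have h4 : finrank F (LinearMap.ker (toLin' s - LinearMap.id)) ≠ 4 := by
    intro h
    apply hs1
    apply eq_one_of_fix
    intro v
    have h6 : LinearMap.ker (toLin' s - LinearMap.id) = ⊤ := by
      apply Submodule.eq_top_of_finrank_eq
      rw [h, finrank_V]
    have h7 : v ∈ LinearMap.ker (toLin' s - LinearMap.id) := by
      rw [h6]
      exact Submodule.mem_top
    exact (mem_ker_iff s v).1 h7
  have h5' : finrank F (LinearMap.ker (toLin' s - LinearMap.id)) ≤ 4 := by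
    rw [← finrank_V (F := F)]
    exact Submodule.finrank_le _
  have hdim : finrank F (LinearMap.ker (toLin' s - LinearMap.id)) = 2 := by omega
  exact ⟨hdim, fun v w hv hw => isotropic hch s hsymp hs3 hdim v w hv hw⟩

abbrev SL25 := Matrix.SpecialLinearGroup (Fin 2) (ZMod 5)

set_option maxRecDepth 100000 in
theorem chk : ∀ x : SL25, x ^ 3 = 1 → x ≠ 1 →
    ∃ g : SL25, (x * (g * x * g⁻¹)) ^ 10 = 1 ∧ (x * (g * x * g⁻¹)) ^ 2 ≠ 1 := by
  decide +kernel

/-- The statement for the abstract field of five elements. -/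
theorem exists_conj {K : Type*} [Field K] [Fintype K] (hK : Fintype.card K = 5)
    (x : Matrix.SpecialLinearGroup (Fin 2) K) (hx : orderOf x = 3) :
    ∃ g : Matrix.SpecialLinearGroup (Fin 2) K,
      (x * (g * x * g⁻¹)) ^ 10 = 1 ∧ (x * (g * x * g⁻¹)) ^ 2 ≠ 1 := by
  let r : ZMod 5 ≃+* K := ZMod.ringEquivOfPrime K (by norm_num) hK
  let f : SL25 →* Matrix.SpecialLinearGroup (Fin 2) K :=
    Matrix.SpecialLinearGroup.map r.toRingHom
  let f' : Matrix.SpecialLinearGroup (Fin 2) K →* SL25 :=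
    Matrix.SpecialLinearGroup.map r.symm.toRingHom
  have hff' : ∀ y, f (f' y) = y := by
    intro y
    ext i j
    show r (r.symm (y.1 i j)) = y.1 i j
    exact r.apply_symm_apply _
  have hf'f : ∀ y, f' (f y) = y := by
    intro y
    ext i j
    show r.symm (r (y.1 i j)) = y.1 i j
    exact r.symm_apply_apply _
  have hinj : Function.Injective f := fun a b hab => by
    have := congrArg f' hab
    rwa [hf'f, hf'f] at this
  have hx3 : x ^ 3 = 1 := by
    rw [← hx]
    exact pow_orderOf_eq_one x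
  have hx1 : x ≠ 1 := by
    intro h
    rw [h, orderOf_one] at hx
    omega
  have hy3 : (f' x) ^ 3 = 1 := by
    rw [← map_pow, hx3, map_one]
  have hy1 : f' x ≠ 1 := by
    intro h
    apply hx1
    rw [← hff' x, h, map_one]
  obtain ⟨g, hg1, hg2⟩ := chk (f' x) hy3 hy1
  refine ⟨f g, ?_, ?_⟩
  · have h := congrArg f hg1
    simpa only [map_pow, map_mul, map_inv, hff', map_one] using h
  · intro h
    apply hg2
    apply hinj
    simpa only [map_pow, map_mul, map_inv, hff', map_one] using h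

/-- The statement in terms of the homomorphism. -/
theorem main {K : Type*} [Field K] [Fintype K] (hF : Fintype.card F = 3)
    (hK : Fintype.card K = 5)
    (φ : Matrix.SpecialLinearGroup (Fin 2) K →* ↥(Matrix.symplecticGroup (Fin 2) F))
    (hφ : Function.Injective φ)
    (x : Matrix.SpecialLinearGroup (Fin 2) K) (hx : orderOf x = 3) :
    Module.finrank F ↥(LinearMap.ker (Matrix.toLin' ((φ x : Matrix (Fin 2 ⊕ Fin 2) (Fin 2 ⊕ Fin 2) F)) - LinearMap.id)) = 2 ∧
      ∀ v w : Fin 2 ⊕ Fin 2 → F, (φ x : Matrix (Fin 2 ⊕ Fin 2) (Fin 2 ⊕ Fin 2) F).mulVec v = v →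
        (φ x : Matrix (Fin 2 ⊕ Fin 2) (Fin 2 ⊕ Fin 2) F).mulVec w = w →
          dotProduct v ((Matrix.J (Fin 2) F).mulVec w) = 0 := by
  obtain ⟨g, hg1, hg2⟩ := exists_conj hK x hx
  have hco : ∀ a b : Matrix.SpecialLinearGroup (Fin 2) K,
      ((φ (a * b) : ↥(Matrix.symplecticGroup (Fin 2) F)) : Matrix ι ι F) = (φ a).1 * (φ b).1 := by
    intro a b
    rw [map_mul]
    rfl
  have hcp : ∀ (a : Matrix.SpecialLinearGroup (Fin 2) K) (k : ℕ),
      ((φ (a ^ k) : ↥(Matrix.symplecticGroup (Fin 2) F)) : Matrix ι ι F) = (φ a).1 ^ k := by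
    intro a k
    rw [map_pow]
    rfl
  have hc1 : ((φ 1 : ↥(Matrix.symplecticGroup (Fin 2) F)) : Matrix ι ι F) = 1 := by
    rw [map_one]
    rfl
  have hne1 : ∀ a : Matrix.SpecialLinearGroup (Fin 2) K, a ≠ 1 → (φ a).1 ≠ 1 := by
    intro a ha h
    apply ha
    apply hφ
    rw [map_one]
    exact Subtype.ext h
  have hx3 : x ^ 3 = 1 := by
    rw [← hx]
    exact pow_orderOf_eq_one x
  have hx1 : x ≠ 1 := by
    intro h
    rw [h, orderOf_one] at hx
    omega
  have hsymp : (φ x).1.transpose * J (Fin 2) F * (φ x).1 = J (Fin 2) F :=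
    SymplecticGroup.mem_iff'.1 (φ x).2
  have hs3 : (φ x).1 ^ 3 = 1 := by
    rw [← hcp, hx3, hc1]
  have hz : (φ g).1 * (φ g⁻¹).1 = 1 := by
    rw [← hco, mul_inv_cancel, hc1]
  have hz' : (φ g⁻¹).1 * (φ g).1 = 1 := by
    rw [← hco, inv_mul_cancel, hc1]
  have hE : (φ ((x * (g * x * g⁻¹)) ^ 2)).1 = ((φ x).1 * ((φ g).1 * (φ x).1 * (φ g⁻¹).1)) ^ 2 := by
    rw [hcp, hco, hco, hco]
  have hne : ((φ x).1 * ((φ g).1 * (φ x).1 * (φ g⁻¹).1)) ^ 2 ≠ 1 := by
    rw [← hE]
    exact hne1 _ hg2
  have h5 : (((φ x).1 * ((φ g).1 * (φ x).1 * (φ g⁻¹).1)) ^ 2) ^ 5 = 1 := by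
    rw [← hE, ← hcp, ← pow_mul, (by norm_num : 2 * 5 = 10), hg1, hc1]
  exact core hF (φ x).1 (φ g).1 (φ g⁻¹).1 hsymp hs3 (hne1 x hx1) hz hz' hne h5

end CfsgLib.SL25Sp4
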