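import Cfsg.Agent.Lib.H3.SecRankTwo
import Cfsg.Agent.Lib.H3.QuatCent
import Cfsg.Agent.Lib.H3.FourConn

/-! # 2-groups whose noncyclic subgroups are self-centralizing. -/

set_option autoImplicit false
set_option linter.unusedSectionVars false
set_option linter.style.haveILetI false

namespace CfsgLib.SelfCent

open Subgroup
open scoped commutatorElement

universe u

variable {G : Type u} [Group G] [Finite G]

lemma three_le {n : ℕ} (hna : ¬ IsMulCommutative G) (hG : Nat.card G = 2 ^ n) : 3 ≤ n := by
  haveI : Fact (Nat.Prime 2) := ⟨Nat.prime_two⟩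
  by_contra hlt
  apply hna
  have hn : n = 0 ∨ n = 1 ∨ n = 2 := by omega
  have hcomm : ∀ a b : G, a * b = b * a := by
    rcases hn with rfl | rfl | rfl
    · rw [pow_zero] at hG
      haveI : Subsingleton G := (Nat.card_eq_one_iff_unique.1 hG).1
      intro a b
      exact Subsingleton.elim _ _
    · rw [pow_one] at hG
      haveI := isCyclic_of_prime_card hG
      intro a b
      obtain ⟨g, hg⟩ := IsCyclic.exists_generator (α := G)
      obtain ⟨i, rfl⟩ := mem_zpowers_iff.1 (hg a)
      obtain ⟨j, rfl⟩ := mem_zpowers_iff.1 (hg b)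
      exact ((Commute.refl g).zpow_zpow i j).eq
    · exact IsPGroup.commutative_of_card_eq_prime_sq hG
  exact ⟨⟨hcomm⟩⟩

lemma commutator_ne_bot (hna : ¬ IsMulCommutative G) : commutator G ≠ ⊥ := by
  intro h
  apply hna
  rw [commutator_eq_bot_iff_center_eq_top] at h
  refine ⟨⟨fun a b => ?_⟩⟩
  have : a ∈ center G := by rw [h]; trivial
  exact (Subgroup.mem_center_iff.1 this b).symm

/-- The reverse implication. -/
theorem of_class (hna : ¬ IsMulCommutative G) (n : ℕ) (hG : Nat.card G = 2 ^ n)
    (hcl : Group.nilpotencyClass G = n - 1) (H : Subgroup G) (hH : ¬ IsCyclic H) :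
    centralizer (H : Set G) ≤ H := by
  classical
  haveI : Fact (Nat.Prime 2) := ⟨Nat.prime_two⟩
  have hn3 := three_le hna hG
  have h2 : IsPGroup 2 G := IsPGroup.of_card hG
  have h4 : (commutator G).index = 2 ^ 2 := CfsgLib.OOL.index_of_max_class n hG hcl hn3
  have hb := commutator_ne_bot hna
  obtain ⟨m, a, hm, hD, hC, ha⟩ := CfsgLib.Taussky.structure_data h2 (by rw [h4]; norm_num) hb
  have hao := hD.ord
  -- cardinalities
  have hGc : Nat.card G = 2 ^ (m + 2) := by
    have h5 := Subgroup.card_mul_index (zpowers a)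
    rw [Nat.card_zpowers, ha, hao] at h5
    rw [← h5, pow_succ (2 : ℕ) (m + 1)]
  have hG' : Nat.card (commutator G) = 2 ^ m := by
    have h5 := Subgroup.card_mul_index (commutator G)
    rw [h4, hGc, pow_add] at h5
    exact Nat.eq_of_mul_eq_mul_right (by norm_num) h5
  set z := a ^ 2 ^ m with hz
  have hzo : orderOf z = 2 := by
    rw [hz, orderOf_pow' a (by positivity), hao, pow_succ' (2 : ℕ) m, Nat.gcd_eq_right (dvd_mul_left _ _)]
    simp
  -- centralizers of elements outside `⟨a⟩`
  have hstar : ∀ s, s ∉ zpowers a → ∀ t ∈ zpowers a, t * s = s * t → t ∈ zpowers z := by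
    intro s hs t ht hts
    have h1 := CfsgLib.Taussky.commutator_le_zpowers a s ha hs
    set w := s * a * s⁻¹ * a⁻¹ with hw
    have h3 := Subgroup.card_dvd_of_le h1
    rw [hG', Nat.card_zpowers] at h3
    rw [← mem_powers_iff_mem_zpowers] at ht
    obtain ⟨i, rfl⟩ := ht
    have hconj : s * a * s⁻¹ ∈ zpowers a := hD.nrm.conj_mem a (mem_zpowers a) s
    have hcomm : Commute (s * a * s⁻¹) a := by
      obtain ⟨j, hj⟩ := mem_zpowers_iff.1 hconj
      rw [← hj]
      exact (Commute.refl a).zpow_left j
    have hwi : w ^ i = 1 := by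
      have h5 : w = (s * a * s⁻¹) * a⁻¹ := rfl
      rw [h5, (hcomm.inv_right).mul_pow, conj_pow]
      have hts' : s * a ^ i * s⁻¹ = a ^ i := by
        have h6 : a ^ i * s = s * a ^ i := hts
        rw [← h6]
        group
      rw [hts', inv_pow, mul_inv_cancel]
    have h6 := orderOf_dvd_of_pow_eq_one hwi
    have h7 : 2 ^ m ∣ i := h3.trans h6
    obtain ⟨l, rfl⟩ := h7
    show a ^ (2 ^ m * l) ∈ zpowers z
    rw [pow_mul]
    exact pow_mem (mem_zpowers z) l
  -- `H` is not contained in `⟨a⟩`
  obtain ⟨s, hsH, hsA⟩ : ∃ s ∈ H, s ∉ zpowers a := by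
    by_contra hcon
    push Not at hcon
    exact hH (Subgroup.isCyclic_of_le (show H ≤ zpowers a from hcon))
  -- `H ∩ ⟨a⟩ ≠ 1`
  obtain ⟨t, htH, htA, ht1⟩ : ∃ t ∈ H, t ∈ zpowers a ∧ t ≠ 1 := by
    by_contra hcon
    push Not at hcon
    apply hH
    have hle : H ≤ zpowers s := by
      intro h hh
      by_cases hhA : h ∈ zpowers a
      · rw [hcon h hh hhA]
        exact one_mem _
      · have h5 : h * s⁻¹ ∈ zpowers a := by
          rw [Subgroup.mul_mem_iff_of_index_two ha]
          have hsi : s⁻¹ ∉ zpowers a := fun h6 => hsA (by simpa using inv_mem h6)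
          exact iff_of_false hhA hsi
        have h6 := hcon _ (H.mul_mem hh (H.inv_mem hsH)) h5
        have h7 : h = s := by
          rwa [mul_inv_eq_one] at h6
        rw [h7]
        exact mem_zpowers s
    exact Subgroup.isCyclic_of_le hle
  -- `z ∈ H`
  have hzH : z ∈ H := by
    obtain ⟨e, he⟩ : ∃ e, orderOf t = 2 ^ e := (IsPGroup.iff_orderOf.1 h2) t
    have he0 : e ≠ 0 := by
      rintro rfl
      rw [pow_zero] at he
      exact ht1 (orderOf_eq_one_iff.1 he)
    obtain ⟨f, rfl⟩ : ∃ f, e = f + 1 := ⟨e - 1, by omega⟩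
    set t' := t ^ 2 ^ f with ht'
    have ht'o : orderOf t' = 2 := by
      rw [ht', orderOf_pow' t (by positivity), he, pow_succ' (2 : ℕ) f, Nat.gcd_eq_right (dvd_mul_left _ _)]
      simp
    have ht'A : t' ∈ zpowers a := pow_mem htA _
    have hzA : z ∈ zpowers a := pow_mem (mem_zpowers a) _
    haveI : IsCyclic (zpowers a) := inferInstance
    have heq := CfsgLib.QuatCent.zpowers_eq_of_cyclic (zpowers a) ht'A hzA (by rw [ht'o, hzo])
    have hz1 : z ∈ zpowers t' := by
      rw [heq]; exact mem_zpowers z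
    exact (zpowers_le.2 (pow_mem htH _)) hz1
  have hzH' : zpowers z ≤ H := zpowers_le.2 hzH
  intro y hy
  have hys : y * s = s * y := Subgroup.mem_centralizer_iff.1 hy s hsH |>.symm
  by_cases hyA : y ∈ zpowers a
  · exact hzH' (hstar s hsA y hyA hys)
  · have h5 : y * s⁻¹ ∈ zpowers a := by
      rw [Subgroup.mul_mem_iff_of_index_two ha]
      have hsi : s⁻¹ ∉ zpowers a := fun h6 => hsA (by simpa using inv_mem h6)
      exact iff_of_false hyA hsi
    have h6 : y * s⁻¹ * s = s * (y * s⁻¹) := by
      calc y * s⁻¹ * s = y := by group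
        _ = s * y * s⁻¹ := by rw [← hys]; group
        _ = s * (y * s⁻¹) := by group
    have h7 := hzH' (hstar s hsA _ h5 h6)
    have h8 : y = (y * s⁻¹) * s := by group
    rw [h8]
    exact H.mul_mem h7 hsH

/-- In the quaternion case the commutator subgroup has index four. -/
lemma quat_index (k : ℕ) (e : G ≃* QuaternionGroup (2 ^ k)) (hk : 1 ≤ k)
    (hb : commutator G ≠ ⊥) : (commutator G).index = 4 := by
  classical
  haveI : Fact (Nat.Prime 2) := ⟨Nat.prime_two⟩
  haveI : NeZero (2 ^ k) := ⟨by positivity⟩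
  haveI : NeZero (2 * 2 ^ k) := ⟨by positivity⟩
  have hGc : Nat.card G = 2 ^ (k + 2) := by
    rw [Nat.card_congr e.toEquiv, Nat.card_eq_fintype_card, QuaternionGroup.card, pow_add]
    ring
  have h2 : IsPGroup 2 G := IsPGroup.of_card hGc
  set x : G := e.symm (QuaternionGroup.a 1) with hx
  set y : G := e.symm (QuaternionGroup.xa 0) with hy
  have hxo : orderOf x = 2 ^ (k + 1) := by
    rw [hx, MulEquiv.orderOf_eq, QuaternionGroup.orderOf_a_one, pow_succ]
    ring
  have hcomm : ⁅x, y⁆ = x ^ 2 := by
    apply e.injective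
    rw [commutatorElement_def, hx, hy]
    simp only [map_mul, map_inv, map_pow, MulEquiv.apply_symm_apply]
    have h0 : ((2 ^ k : ℕ) : ZMod (2 * 2 ^ k)) + ((2 ^ k : ℕ) : ZMod (2 * 2 ^ k)) = 0 := by
      rw [← Nat.cast_add, ← two_mul]
      exact ZMod.natCast_self _
    have hi1 : (QuaternionGroup.a 1 : QuaternionGroup (2 ^ k))⁻¹ = QuaternionGroup.a (-1) := by
      apply inv_eq_of_mul_eq_one_right
      rw [QuaternionGroup.a_mul_a, add_neg_cancel, QuaternionGroup.one_def]
    have hi2 : (QuaternionGroup.xa 0 : QuaternionGroup (2 ^ k))⁻¹ =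
        QuaternionGroup.xa ((2 ^ k : ℕ) : ZMod (2 * 2 ^ k)) := by
      apply inv_eq_of_mul_eq_one_right
      rw [QuaternionGroup.xa_mul_xa, QuaternionGroup.one_def]
      congr 1
      rw [sub_zero]
      exact h0
    rw [hi1, hi2, pow_two, QuaternionGroup.a_mul_a,
      QuaternionGroup.a_mul_xa, QuaternionGroup.xa_mul_a, QuaternionGroup.xa_mul_xa]
    congr 1
    linear_combination h0
  have hle : zpowers (x ^ 2) ≤ commutator G := by
    rw [zpowers_le, ← hcomm]
    rw [_root_.commutator_def]
    exact Subgroup.commutator_mem_commutator (mem_top x) (mem_top y)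
  have hx2 : orderOf (x ^ 2) = 2 ^ k := by
    rw [orderOf_pow' x (by norm_num), hxo, Nat.gcd_eq_right (dvd_pow_self 2 (by omega))]
    rw [pow_succ]
    simp
  have hidx : (zpowers (x ^ 2)).index = 4 := by
    have h5 := Subgroup.card_mul_index (zpowers (x ^ 2))
    rw [Nat.card_zpowers, hx2, hGc, pow_add] at h5
    exact Nat.eq_of_mul_eq_mul_left (by positivity) h5
  have hdvd : (commutator G).index ∣ (zpowers (x ^ 2)).index := Subgroup.index_dvd_of_le hle
  rw [hidx] at hdvd
  exact CfsgLib.Taussky.index_commutator_eq_four h2 hb (Nat.le_of_dvd (by norm_num) hdvd)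

/-- The forward implication. -/
theorem class_of (hna : ¬ IsMulCommutative G) (n : ℕ) (hG : Nat.card G = 2 ^ n)
    (hself : ∀ H : Subgroup G, ¬ IsCyclic ↥H → centralizer (H : Set G) ≤ H) :
    Group.nilpotencyClass G = n - 1 := by
  classical
  haveI : Fact (Nat.Prime 2) := ⟨Nat.prime_two⟩
  have hn3 := three_le hna hG
  have h2 : IsPGroup 2 G := IsPGroup.of_card hG
  by_cases hK : ∃ u v : G, orderOf u = 2 ∧ orderOf v = 2 ∧ u ≠ v ∧ u * v = v * u
  · obtain ⟨u, v, huo, hvo, huv, hc⟩ := hK
    have hcomm : ∀ x ∈ zpowers u, ∀ y ∈ zpowers v, x * y = y * x := by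
      intro x hx y hy
      obtain ⟨i, rfl⟩ := mem_zpowers_iff.1 hx
      obtain ⟨j, rfl⟩ := mem_zpowers_iff.1 hy
      exact ((show Commute u v from hc).zpow_zpow i j).eq
    have hmem2 : ∀ w : G, orderOf w = 2 → ∀ x ∈ zpowers w, x = 1 ∨ x = w := by
      intro w hw x hx
      rw [← mem_powers_iff_mem_zpowers] at hx
      obtain ⟨i, rfl⟩ := hx
      have h0 : w ^ 2 = 1 := by rw [← hw]; exact pow_orderOf_eq_one w
      rcases Nat.even_or_odd' i with ⟨l, rfl | rfl⟩
      · left
        show w ^ (2 * l) = 1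
        rw [pow_mul, h0, one_pow]
      · right
        show w ^ (2 * l + 1) = w
        rw [pow_succ, pow_mul, h0, one_pow, one_mul]
    have hinf : zpowers u ⊓ zpowers v = ⊥ := by
      rw [eq_bot_iff]
      rintro x ⟨hx1, hx2⟩
      rcases hmem2 u huo x hx1 with h | h
      · rw [h]; exact one_mem _
      · rcases hmem2 v hvo x hx2 with h' | h'
        · rw [h']; exact one_mem _
        · exact absurd (h.symm.trans h') huv
    set V := zpowers u ⊔ zpowers v with hV
    have hVc : Nat.card V = 2 ^ 2 := by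
      rw [hV, CfsgLib.FourConn.card_sup_of_comm hcomm hinf, Nat.card_zpowers, Nat.card_zpowers, huo, hvo]
      norm_num
    have hVcyc : ¬ IsCyclic V := by
      intro hcyc
      have hu : u ∈ V := mem_sup_left (mem_zpowers u)
      have hv : v ∈ V := mem_sup_right (mem_zpowers v)
      have heq := CfsgLib.QuatCent.zpowers_eq_of_cyclic V hu hv (by rw [huo, hvo])
      have h3 : v ∈ zpowers u := by rw [heq]; exact mem_zpowers v
      rcases hmem2 u huo v h3 with h | h
      · rw [h, orderOf_one] at hvo
        omega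
      · exact huv h.symm
    have hVab : ∀ x ∈ V, ∀ y ∈ V, x * y = y * x := by
      have hzc : ∀ w : G, ∀ x ∈ zpowers w, ∀ y ∈ zpowers w, x * y = y * x := by
        intro w x hx y hy
        obtain ⟨i, rfl⟩ := mem_zpowers_iff.1 hx
        obtain ⟨j, rfl⟩ := mem_zpowers_iff.1 hy
        exact ((Commute.refl w).zpow_zpow i j).eq
      intro x hx y hy
      obtain ⟨a, ha, b, hb, rfl⟩ := CfsgLib.Comp.mem_sup_of_commute hcomm hx
      obtain ⟨c, hc', d, hd, rfl⟩ := CfsgLib.Comp.mem_sup_of_commute hcomm hy
      have e1 : a * c = c * a := hzc u a ha c hc'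
      have e2 : b * d = d * b := hzc v b hb d hd
      have e3 : b * c = c * b := (hcomm c hc' b hb).symm
      have e4 : a * d = d * a := hcomm a ha d hd
      calc a * b * (c * d) = a * (b * c) * d := by group
        _ = a * (c * b) * d := by rw [e3]
        _ = (a * c) * (b * d) := by group
        _ = (c * a) * (d * b) := by rw [e1, e2]
        _ = c * (a * d) * b := by group
        _ = c * (d * a) * b := by rw [e4]
        _ = c * d * (a * b) := by group
    have hVC : centralizer (V : Set G) = V := by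
      apply le_antisymm (hself V hVcyc)
      intro x hx
      rw [Subgroup.mem_centralizer_iff]
      intro y hy
      exact hVab y hy x hx
    exact CfsgLib.OOL.self_centralizing_class n G hG V hVc hVC
  · push Not at hK
    -- unique involution
    haveI hnt : Nontrivial G := by
      by_contra hn
      rw [not_nontrivial_iff_subsingleton] at hn
      exact hna ⟨⟨fun a b => Subsingleton.elim _ _⟩⟩
    have hZnt := h2.center_nontrivial
    have hZp : IsPGroup 2 (center G) := h2.to_subgroup _
    obtain ⟨j, hj⟩ := IsPGroup.iff_card.1 hZp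
    have hZdvd : 2 ∣ Nat.card (center G) := by
      have h1 : Nat.card (center G) ≠ 1 := (Finite.one_lt_card).ne'
      rw [hj] at h1 ⊢
      have hj0 : j ≠ 0 := by
        rintro rfl
        exact h1 (pow_zero 2)
      exact dvd_pow_self 2 hj0
    obtain ⟨z', hz'⟩ := exists_prime_orderOf_dvd_card' 2 hZdvd
    set z : G := (z' : G) with hz
    have hzo : orderOf z = 2 := by rw [hz, Subgroup.orderOf_coe, hz']
    have hzc : ∀ g : G, g * z = z * g := fun g => Subgroup.mem_center_iff.1 z'.2 g
    have huniq : ∀ t : G, orderOf t = 2 → t = z := by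
      intro t ht
      by_contra hne
      exact hK t z ht hzo hne (hzc t)
    have hsub : ∀ H : Subgroup G, Nat.card H = 2 → H = zpowers z := by
      intro H hH
      have hHnt : Nontrivial H := by
        apply (Finite.one_lt_card_iff_nontrivial).1
        rw [hH]
        norm_num
      obtain ⟨h, hh⟩ := exists_ne (1 : H)
      have hord : orderOf (h : G) = 2 := by
        rw [Subgroup.orderOf_coe]
        have h1 : orderOf h ∣ 2 := (orderOf_dvd_natCard h).trans (dvd_of_eq hH)
        rcases (Nat.dvd_prime Nat.prime_two).1 h1 with h3 | h3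
        · exact absurd (orderOf_eq_one_iff.1 h3) hh
        · exact h3
      have h4 := huniq _ hord
      rw [← h4]
      symm
      apply Subgroup.eq_of_le_of_card_ge (zpowers_le.2 h.2)
      rw [hH, Nat.card_zpowers, hord]
    have hu : ∀ H L : Subgroup G, Nat.card H = 2 → Nat.card L = 2 → H = L := by
      intro H L hH hL
      rw [hsub H hH, hsub L hL]
    rcases CfsgLib.SS.unique_prime_subgroup 2 h2 hu with hc | ⟨-, k, ⟨e⟩⟩
    · exfalso
      apply hna
      obtain ⟨g, hg⟩ := IsCyclic.exists_generator (α := G)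
      refine ⟨⟨fun a b => ?_⟩⟩
      obtain ⟨i, rfl⟩ := mem_zpowers_iff.1 (hg a)
      obtain ⟨j, rfl⟩ := mem_zpowers_iff.1 (hg b)
      exact ((Commute.refl g).zpow_zpow i j).eq
    · have hk : 1 ≤ k := by
        by_contra hk0
        have hk00 : k = 0 := by omega
        subst hk00
        haveI h1 : IsCyclic (QuaternionGroup (2 ^ 0)) := QuaternionGroup.quaternionGroup_one_isCyclic
        haveI h3 : IsCyclic G := isCyclic_of_surjective e.symm e.symm.surjective
        apply hna
        obtain ⟨g, hg⟩ := IsCyclic.exists_generator (α := G)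
        refine ⟨⟨fun a b => ?_⟩⟩
        obtain ⟨i, rfl⟩ := mem_zpowers_iff.1 (hg a)
        obtain ⟨j, rfl⟩ := mem_zpowers_iff.1 (hg b)
        exact ((Commute.refl g).zpow_zpow i j).eq
      have hidx := quat_index k e hk (commutator_ne_bot hna)
      obtain ⟨x, y, m, hxo, -, hXidx, hw, hm⟩ := CfsgLib.OOL.taussky_struct n hn3 hG hidx
      exact CfsgLib.OOL.class_of_struct n hn3 hG hxo hXidx hw hm

theorem main (hna : ¬ IsMulCommutative G) (n : ℕ) (hG : Nat.card G = 2 ^ n) :
    (∀ H : Subgroup G, ¬ IsCyclic ↥H → Subgroup.centralizer (H : Set G) ≤ H) ↔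
      (⊤ : Subgroup G).lowerCentralSeries (n - 2) ≠ ⊥ := by
  haveI : Fact (Nat.Prime 2) := ⟨Nat.prime_two⟩
  have hn3 := three_le hna hG
  have h2 : IsPGroup 2 G := IsPGroup.of_card hG
  haveI hnil : Group.IsNilpotent G := h2.isNilpotent
  constructor
  · intro hself hbot
    have hcl := class_of hna n hG hself
    rw [Subgroup.lowerCentralSeries_eq_bot_iff_nilpotencyClass_le, hcl] at hbot
    omega
  · intro hne H hH
    have h3 : ¬ Group.nilpotencyClass G ≤ n - 2 := by
      intro h
      exact hne (Subgroup.lowerCentralSeries_eq_bot_iff_nilpotencyClass_le.2 h)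
    have h4 : (⊤ : Subgroup G).lowerCentralSeries (n - 1) = ⊥ :=
      CfsgLib.PLocal.lcs_eq_bot_of_card h2 (by omega) hG
    have h5 := Subgroup.lowerCentralSeries_eq_bot_iff_nilpotencyClass_le.1 h4
    exact of_class hna n hG (by omega) H hH

end CfsgLib.SelfCent
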