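import Mathlib

/-! # Splitting over a self-centralizing `p²` when the quotient has a central involution. -/

set_option autoImplicit false
set_option linter.unusedSectionVars false
set_option linter.unusedVariables false

namespace CfsgLib.SplitSL

open Subgroup

variable {N : Type*} [Group N] [Finite N] {p : ℕ} [hp : Fact p.Prime]

/-- Elements act commutatively on a normal subgroup of prime order. -/
lemma cyc_comm (B : Subgroup N) [hB : B.Normal] (hBc : Nat.card B = p) (g h b : N) (hb : b ∈ B) :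
    (g * h) * b * (g * h)⁻¹ = (h * g) * b * (h * g)⁻¹ := by
  haveI : IsCyclic B := isCyclic_of_prime_card hBc
  obtain ⟨⟨x, hx⟩, hgen⟩ := IsCyclic.exists_generator (α := B)
  have hpow : ∀ y ∈ B, ∃ k : ℤ, y = x ^ k := by
    intro y hy
    obtain ⟨k, hk⟩ := Subgroup.mem_zpowers_iff.1 (hgen ⟨y, hy⟩)
    refine ⟨k, ?_⟩
    have := congrArg Subtype.val hk
    simpa using this.symm
  obtain ⟨i, hi⟩ := hpow (g * x * g⁻¹) (hB.conj_mem _ hx g)
  obtain ⟨j, hj⟩ := hpow (h * x * h⁻¹) (hB.conj_mem _ hx h)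
  obtain ⟨k, rfl⟩ := hpow b hb
  have hG : ∀ k : ℤ, g * x ^ k * g⁻¹ = x ^ (i * k) := by
    intro k
    rw [zpow_mul, ← hi, conj_zpow]
  have hH : ∀ k : ℤ, h * x ^ k * h⁻¹ = x ^ (j * k) := by
    intro k
    rw [zpow_mul, ← hj, conj_zpow]
  calc g * h * x ^ k * (g * h)⁻¹ = g * (h * x ^ k * h⁻¹) * g⁻¹ := by group
    _ = x ^ (i * (j * k)) := by rw [hH, hG]
    _ = x ^ (j * (i * k)) := by congr 1; ring
    _ = h * (g * x ^ k * g⁻¹) * h⁻¹ := by rw [hG, hH]
    _ = h * g * x ^ k * (h * g)⁻¹ := by group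

theorem split_of_central (hp2 : p ≠ 2) (A : Subgroup N) [hAn : A.Normal]
    (hAc : ∀ a ∈ A, ∀ b ∈ A, a * b = b * a) (hcard : Nat.card A = p ^ 2) (hexp : ∀ a ∈ A, a ^ p = 1)
    (hself : ∀ g : N, (∀ a ∈ A, g * a = a * g) → g ∈ A)
    (hnab : ¬ ∀ g h : N, g * h * g⁻¹ * h⁻¹ ∈ A)
    (w : N) (hwA : w ∉ A) (hw2 : w ^ 2 ∈ A) (hwc : ∀ g, g * w * g⁻¹ * w⁻¹ ∈ A) :
    ∃ U : Subgroup N, A ⊓ U = ⊥ ∧ A ⊔ U = ⊤ := by
  obtain ⟨k, hk⟩ : Odd p := hp.out.odd_of_ne_two hp2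
  set t := w ^ p with ht
  have ht2 : t * t = 1 := by
    have h1 := hexp _ hw2
    rw [← pow_mul] at h1
    rw [ht, ← pow_add, ← h1]
    congr 1
    omega
  have htinv : t⁻¹ = t := by
    rw [inv_eq_iff_mul_eq_one]; exact ht2
  have htA : t ∉ A := by
    intro h
    apply hwA
    have h1 : w = w ^ p * ((w ^ 2) ^ k)⁻¹ := by
      rw [hk, ← pow_mul, pow_succ', mul_inv_cancel_right]
    rw [h1]
    exact A.mul_mem h (A.inv_mem (A.pow_mem hw2 k))
  have htc : ∀ g, g * t * g⁻¹ * t⁻¹ ∈ A := by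
    intro g
    have h1 : ((g * w * g⁻¹ * w⁻¹ : N) : N ⧸ A) = 1 := (QuotientGroup.eq_one_iff _).2 (hwc g)
    have h2 : Commute (g : N ⧸ A) (w : N ⧸ A) := by
      have h3 : (g : N ⧸ A) * (w : N ⧸ A) * (g : N ⧸ A)⁻¹ * (w : N ⧸ A)⁻¹ = 1 := h1
      rw [mul_inv_eq_one, mul_inv_eq_iff_eq_mul] at h3
      exact h3
    have h4 : Commute (g : N ⧸ A) ((w : N ⧸ A) ^ p) := h2.pow_right p
    rw [← QuotientGroup.eq_one_iff]
    show (g : N ⧸ A) * ((w ^ p : N) : N ⧸ A) * (g : N ⧸ A)⁻¹ * ((w ^ p : N) : N ⧸ A)⁻¹ = 1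
    rw [QuotientGroup.mk_pow, h4.eq]
    group
  have hconjA : ∀ a ∈ A, t * a * t⁻¹ ∈ A := fun a ha => hAn.conj_mem a ha t
  -- conjugation by `t` is `N`-equivariant on `A`
  have hequi : ∀ (g a : N), a ∈ A → t * (g * a * g⁻¹) * t⁻¹ = g * (t * a * t⁻¹) * g⁻¹ := by
    intro g a ha
    have hu := htc g⁻¹
    rw [inv_inv] at hu
    set u := g⁻¹ * t * g * t⁻¹ with hu'
    have hcomm := hAc u hu _ (hconjA a ha)
    have h1 : t * g = g * u * t := by
      rw [hu']; group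
    calc t * (g * a * g⁻¹) * t⁻¹ = (t * g) * a * (t * g)⁻¹ := by group
      _ = (g * u * t) * a * (g * u * t)⁻¹ := by rw [h1]
      _ = g * (u * (t * a * t⁻¹)) * u⁻¹ * g⁻¹ := by group
      _ = g * ((t * a * t⁻¹) * u) * u⁻¹ * g⁻¹ := by rw [hcomm]
      _ = g * (t * a * t⁻¹) * g⁻¹ := by group
  -- squares in `A`
  have hsq : ∀ a ∈ A, (a ^ (k + 1)) ^ 2 = a := by
    intro a ha
    have h1 := hexp a ha
    rw [← pow_mul]
    have h2 : (k + 1) * 2 = p + 1 := by omega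
    rw [h2, pow_succ, h1, one_mul]
  have htt : ∀ a, t * (t * a * t⁻¹) * t⁻¹ = a := by
    intro a
    calc t * (t * a * t⁻¹) * t⁻¹ = (t * t) * a * (t⁻¹ * t⁻¹) := by group
      _ = a := by rw [htinv, ht2]; group
  have hinv : ∀ a ∈ A, t * a * t⁻¹ = a⁻¹ := by
    by_contra hcon
    push Not at hcon
    obtain ⟨a₀, ha₀, hne₀⟩ := hcon
    -- the fixed part
    let Ap : Subgroup N := A ⊓ centralizer ({t} : Set N)
    have hmemp : ∀ a, a ∈ Ap ↔ a ∈ A ∧ t * a * t⁻¹ = a := by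
      intro a
      constructor
      · rintro ⟨h1, h2⟩
        refine ⟨h1, ?_⟩
        have := mem_centralizer_iff.1 h2 t rfl
        rw [this]; group
      · rintro ⟨h1, h2⟩
        refine ⟨h1, mem_centralizer_iff.2 ?_⟩
        rintro _ rfl
        rw [mul_inv_eq_iff_eq_mul] at h2
        exact h2
    -- the inverted part
    let Am : Subgroup N :=
      { carrier := {a | a ∈ A ∧ t * a * t⁻¹ = a⁻¹}
        mul_mem' := by
          rintro a b ⟨ha, ha'⟩ ⟨hb, hb'⟩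
          refine ⟨A.mul_mem ha hb, ?_⟩
          have : t * (a * b) * t⁻¹ = (t * a * t⁻¹) * (t * b * t⁻¹) := by group
          rw [this, ha', hb', mul_inv_rev, hAc _ (A.inv_mem hb) _ (A.inv_mem ha)]
        one_mem' := ⟨one_mem _, by simp⟩
        inv_mem' := by
          rintro a ⟨ha, ha'⟩
          refine ⟨A.inv_mem ha, ?_⟩
          have : t * a⁻¹ * t⁻¹ = (t * a * t⁻¹)⁻¹ := by group
          rw [this, ha'] }
    have hmemm : ∀ a, a ∈ Am ↔ a ∈ A ∧ t * a * t⁻¹ = a⁻¹ := fun a => Iff.rfl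
    haveI hApn : Ap.Normal := by
      constructor
      intro a ha g
      rw [hmemp] at ha ⊢
      refine ⟨hAn.conj_mem a ha.1 g, ?_⟩
      rw [hequi g a ha.1, ha.2]
    haveI hAmn : Am.Normal := by
      constructor
      intro a ha g
      rw [hmemm] at ha ⊢
      refine ⟨hAn.conj_mem a ha.1 g, ?_⟩
      rw [hequi g a ha.1, ha.2]
      group
    have hApA : Ap ≤ A := fun a ha => ((hmemp a).1 ha).1
    have hAmA : Am ≤ A := fun a ha => ((hmemm a).1 ha).1
    have hdisj : ∀ a, a ∈ Ap → a ∈ Am → a = 1 := by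
      intro a h1 h2
      have h3 := ((hmemp a).1 h1).2
      have h4 := ((hmemm a).1 h2).2
      rw [h3] at h4
      have h5 : a ^ 2 = 1 := by
        rw [sq]
        nth_rewrite 1 [h4]
        simp
      have h6 := hsq a (hApA h1)
      have h7 : a ^ (k + 1) * a ^ (k + 1) = a := by rw [← sq]; exact h6
      have h8 := hexp a (hApA h1)
      have h9 : (2 : ℕ).Coprime p := (Nat.coprime_primes Nat.prime_two hp.out).2 (Ne.symm hp2)
      have h10 := pow_gcd_eq_one.2 ⟨h5, h8⟩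
      rwa [Nat.Coprime.gcd_eq_one h9, pow_one] at h10
    -- elements
    have hb₀ : a₀ * (t * a₀ * t⁻¹) ∈ Ap := by
      rw [hmemp]
      refine ⟨A.mul_mem ha₀ (hconjA a₀ ha₀), ?_⟩
      have : t * (a₀ * (t * a₀ * t⁻¹)) * t⁻¹ = (t * a₀ * t⁻¹) * (t * (t * a₀ * t⁻¹) * t⁻¹) := by group
      rw [this, htt, hAc _ (hconjA a₀ ha₀) _ ha₀]
    have hb₁ : a₀ * (t * a₀ * t⁻¹) ≠ 1 := by
      intro h
      apply hne₀
      exact (eq_inv_of_mul_eq_one_right h)
    obtain ⟨a₁, ha₁, hne₁⟩ : ∃ a₁ ∈ A, t * a₁ * t⁻¹ ≠ a₁ := by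
      by_contra hcon
      push Not at hcon
      apply htA
      apply hself
      intro a ha
      have := hcon a ha
      rw [mul_inv_eq_iff_eq_mul] at this
      exact this
    have hc₀ : a₁ * (t * a₁ * t⁻¹)⁻¹ ∈ Am := by
      rw [hmemm]
      refine ⟨A.mul_mem ha₁ (A.inv_mem (hconjA a₁ ha₁)), ?_⟩
      have : t * (a₁ * (t * a₁ * t⁻¹)⁻¹) * t⁻¹ = (t * a₁ * t⁻¹) * (t * (t * a₁ * t⁻¹) * t⁻¹)⁻¹ := by group
      rw [this, htt, mul_inv_rev, inv_inv]
    have hc₁ : a₁ * (t * a₁ * t⁻¹)⁻¹ ≠ 1 := by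
      intro h
      apply hne₁
      rw [mul_inv_eq_one] at h
      exact h.symm
    -- cardinalities
    have hcardp : ∀ B : Subgroup N, B ≤ A → B ≠ ⊥ → B ≠ A → Nat.card B = p := by
      intro B hBA hB0 hBne
      have h1 : Nat.card B ∣ p ^ 2 := hcard ▸ Subgroup.card_dvd_of_le hBA
      obtain ⟨i, hi, hi'⟩ := (Nat.dvd_prime_pow hp.out).1 h1
      interval_cases i
      · exfalso
        apply hB0
        exact Subgroup.eq_bot_of_card_eq _ (by simpa using hi')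
      · simpa using hi'
      · exfalso
        apply hBne
        apply Subgroup.eq_of_le_of_card_ge hBA
        rw [hcard, hi']
    have hAp0 : Ap ≠ ⊥ := by
      intro h
      have : a₀ * (t * a₀ * t⁻¹) ∈ (⊥ : Subgroup N) := h ▸ hb₀
      exact hb₁ (Subgroup.mem_bot.1 this)
    have hAm0 : Am ≠ ⊥ := by
      intro h
      have : a₁ * (t * a₁ * t⁻¹)⁻¹ ∈ (⊥ : Subgroup N) := h ▸ hc₀
      exact hc₁ (Subgroup.mem_bot.1 this)
    have hApne : Ap ≠ A := by
      intro h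
      apply hne₁
      have : a₁ ∈ Ap := h ▸ ha₁
      exact ((hmemp a₁).1 this).2
    have hAmne : Am ≠ A := by
      intro h
      have h1 : a₀ * (t * a₀ * t⁻¹) ∈ Am := by rw [h]; exact hApA hb₀
      exact hb₁ (hdisj _ hb₀ h1)
    have hcp := hcardp Ap hApA hAp0 hApne
    have hcm := hcardp Am hAmA hAm0 hAmne
    apply hnab
    intro g h
    apply hself
    set z := g * h * g⁻¹ * h⁻¹ with hz
    have hfix : ∀ B : Subgroup N, B.Normal → Nat.card B = p → ∀ y ∈ B, z * y * z⁻¹ = y := by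
      intro B hBn hBc y hy
      haveI := hBn
      have hy' : (h * g)⁻¹ * y * (h * g) ∈ B := by
        have := hBn.conj_mem y hy (h * g)⁻¹
        simpa using this
      have h1 := cyc_comm B hBc g h _ hy'
      have h2 : (h * g) * ((h * g)⁻¹ * y * (h * g)) * (h * g)⁻¹ = y := by group
      rw [h2] at h1
      calc z * y * z⁻¹ = g * h * ((h * g)⁻¹ * y * (h * g)) * (g * h)⁻¹ := by rw [hz]; group
        _ = y := h1
    intro a ha
    have h1 := hsq a ha
    set a' := a ^ (k + 1) with ha'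
    have ha'A : a' ∈ A := A.pow_mem ha _
    have hdec : a = (a' * (t * a' * t⁻¹)) * (a' * (t * a' * t⁻¹)⁻¹) := by
      rw [← h1, sq]
      have hc := hAc _ (A.inv_mem (hconjA a' ha'A)) _ (A.mul_mem ha'A ha'A)
      have : (a' * (t * a' * t⁻¹)) * (a' * (t * a' * t⁻¹)⁻¹)
          = a' * (t * a' * t⁻¹) * a' * (t * a' * t⁻¹)⁻¹ := by group
      rw [this, mul_assoc a', hAc _ (hconjA a' ha'A) _ ha'A]
      group
    have hP : a' * (t * a' * t⁻¹) ∈ Ap := by
      rw [hmemp]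
      refine ⟨A.mul_mem ha'A (hconjA a' ha'A), ?_⟩
      have : t * (a' * (t * a' * t⁻¹)) * t⁻¹ = (t * a' * t⁻¹) * (t * (t * a' * t⁻¹) * t⁻¹) := by group
      rw [this, htt, hAc _ (hconjA a' ha'A) _ ha'A]
    have hM : a' * (t * a' * t⁻¹)⁻¹ ∈ Am := by
      rw [hmemm]
      refine ⟨A.mul_mem ha'A (A.inv_mem (hconjA a' ha'A)), ?_⟩
      have : t * (a' * (t * a' * t⁻¹)⁻¹) * t⁻¹ = (t * a' * t⁻¹) * (t * (t * a' * t⁻¹) * t⁻¹)⁻¹ := by group
      rw [this, htt, mul_inv_rev, inv_inv]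
    have h2 := hfix Ap hApn hcp _ hP
    have h3 := hfix Am hAmn hcm _ hM
    have h4 : z * a * z⁻¹ = a := by
      nth_rewrite 1 [hdec]
      have : z * ((a' * (t * a' * t⁻¹)) * (a' * (t * a' * t⁻¹)⁻¹)) * z⁻¹
          = (z * (a' * (t * a' * t⁻¹)) * z⁻¹) * (z * (a' * (t * a' * t⁻¹)⁻¹) * z⁻¹) := by group
      rw [this, h2, h3]
      exact hdec.symm
    rw [mul_inv_eq_iff_eq_mul] at h4
    exact h4
  -- `U = C_N(t)`
  refine ⟨centralizer ({t} : Set N), ?_, ?_⟩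
  · rw [eq_bot_iff]
    rintro a ⟨ha, hac⟩
    have h1 := mem_centralizer_iff.1 hac t rfl
    have h2 := hinv a ha
    rw [h1, mul_inv_cancel_right] at h2
    have h5 : a ^ 2 = 1 := by
      rw [sq]
      nth_rewrite 1 [h2]
      simp
    have h8 := hexp a ha
    have h9 : (2 : ℕ).Coprime p := (Nat.coprime_primes Nat.prime_two hp.out).2 (Ne.symm hp2)
    have h10 := pow_gcd_eq_one.2 ⟨h5, h8⟩
    rw [Nat.Coprime.gcd_eq_one h9, pow_one] at h10
    exact Subgroup.mem_bot.2 h10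
  · rw [eq_top_iff]
    intro g _
    set c := g * t * g⁻¹ * t⁻¹ with hc
    have hcA : c ∈ A := htc g
    set a := c ^ (k + 1) with ha
    have haA : a ∈ A := A.pow_mem hcA _
    have ha2 : a * a = c := by
      rw [← sq]; exact hsq c hcA
    have hg : g = a * (a⁻¹ * g) := by group
    rw [hg]
    refine Subgroup.mul_mem _ (mem_sup_left haA) (mem_sup_right ?_)
    rw [mem_centralizer_iff]
    rintro _ rfl
    -- `(a⁻¹ g) t (a⁻¹ g)⁻¹ = t`
    have h1 : g * t * g⁻¹ = c * t := by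
      rw [hc]; group
    have h3 : t * a⁻¹ = a * t := by
      have := hinv a⁻¹ (A.inv_mem haA)
      rwa [mul_inv_eq_iff_eq_mul, inv_inv] at this
    have h4 : g * t = a * a * t * g := by
      rw [ha2]
      rwa [mul_inv_eq_iff_eq_mul] at h1
    calc t * (a⁻¹ * g) = (t * a⁻¹) * g := by group
      _ = a * t * g := by rw [h3]
      _ = a⁻¹ * (a * a * t * g) := by group
      _ = a⁻¹ * g * t := by rw [← h4]; group

end CfsgLib.SplitSL
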