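import Cfsg.Agent.Lib.H3.StrongEmb
import Cfsg.Agent.Lib.Solv.CoprimeSylow

/-! # Strongly embedded subgroups: counting involutions on cosets. -/

set_option autoImplicit false
set_option linter.unusedSectionVars false
set_option linter.style.haveILetI false

namespace CfsgLib.StrongEmb2

open Subgroup
open scoped Pointwise

variable {G : Type*} [Group G] [Finite G]

lemma orderOf_conj (g t : G) : orderOf (g * t * g⁻¹) = orderOf t := by
  have := (MulAut.conj g).orderOf_eq t
  rwa [MulAut.conj_apply] at this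

lemma orderOf_conj' (g t : G) : orderOf (g⁻¹ * t * g) = orderOf t := by
  have := orderOf_conj g⁻¹ t
  rwa [inv_inv] at this

/-- Uniqueness of fixed cosets. -/
lemma mem_of_conj_mem {H : Subgroup G} (hH : Cfsg.IsStronglyEmbedded H) {t : G} (ht : orderOf t = 2)
    {g g' : G} (h1 : g⁻¹ * t * g ∈ H) (h2 : g'⁻¹ * t * g' ∈ H) : g⁻¹ * g' ∈ H := by
  by_contra hcon
  have hodd := hH.2.2 _ hcon
  set a := g⁻¹ * g' with ha
  set s := g⁻¹ * t * g with hs
  have hs2 : orderOf s = 2 := by rw [hs, orderOf_conj', ht]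
  have hmem : s ∈ H ⊓ H.map (MulAut.conj a).toMonoidHom := by
    refine ⟨h1, ?_⟩
    refine ⟨a⁻¹ * s * a, ?_, ?_⟩
    · have : a⁻¹ * s * a = g'⁻¹ * t * g' := by rw [ha, hs]; group
      rw [SetLike.mem_coe, this]
      exact h2
    · simp [MulAut.conj_apply]
      group
  exact CfsgLib.SE.not_odd_of_mem hmem hs2 hodd

/-- The centralizer of an involution fixing a coset fixes it. -/
lemma conj_mem_of_comm {H : Subgroup G} (hH : Cfsg.IsStronglyEmbedded H) {s w c : G}
    (hs : orderOf s = 2) (hc : c⁻¹ * s * c ∈ H) (hsw : s * w = w * s) : c⁻¹ * w * c ∈ H := by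
  have hcomm : (c⁻¹ * w * c)⁻¹ * (c⁻¹ * s * c) * (c⁻¹ * w * c) = c⁻¹ * s * c := by
    calc (c⁻¹ * w * c)⁻¹ * (c⁻¹ * s * c) * (c⁻¹ * w * c) = c⁻¹ * (w⁻¹ * (s * w)) * c := by group
      _ = c⁻¹ * (w⁻¹ * (w * s)) * c := by rw [hsw]
      _ = _ := by group
  have h1 := mem_of_conj_mem (g := 1) (g' := c⁻¹ * w * c) hH (t := c⁻¹ * s * c)
    (by rw [orderOf_conj', hs]) (by simpa using hc) (by rw [hcomm]; exact hc)
  simpa using h1

/-- Products of involutions with different fixed cosets have odd order. -/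
lemma odd_order_mul {H : Subgroup G} (hH : Cfsg.IsStronglyEmbedded H) {s t c d : G}
    (hs : orderOf s = 2) (ht : orderOf t = 2) (hc : c⁻¹ * s * c ∈ H) (hd : d⁻¹ * t * d ∈ H)
    (hcd : c⁻¹ * d ∉ H) : Odd (orderOf (s * t)) := by
  by_contra hne
  rw [Nat.not_odd_iff_even] at hne
  obtain ⟨m, hm⟩ := hne
  have hpos : 0 < orderOf (s * t) := orderOf_pos _
  set v := s * t with hv
  set w := v ^ m with hw
  have hw2 : w * w = 1 := by
    rw [hw, ← pow_add, ← hm, pow_orderOf_eq_one]
  have hs2 : s * s = 1 := by rw [← pow_two, ← hs, pow_orderOf_eq_one]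
  have ht2 : t * t = 1 := by rw [← pow_two, ← ht, pow_orderOf_eq_one]
  have hsinv : s⁻¹ = s := inv_eq_of_mul_eq_one_left hs2
  have htinv : t⁻¹ = t := inv_eq_of_mul_eq_one_left ht2
  have hwinv : w⁻¹ = w := inv_eq_of_mul_eq_one_left hw2
  have hsv : s * v * s⁻¹ = v⁻¹ := by
    rw [hv, hsinv, mul_inv_rev, hsinv, htinv]
    calc s * (s * t) * s = (s * s) * t * s := by group
      _ = t * s := by rw [hs2, one_mul]
  have htv : t * v * t⁻¹ = v⁻¹ := by
    rw [hv, htinv, mul_inv_rev, hsinv, htinv]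
    calc t * (s * t) * t = t * s * (t * t) := by group
      _ = t * s := by rw [ht2, mul_one]
  have hsw : s * w = w * s := by
    have h1 : s * w * s⁻¹ = w⁻¹ := by
      rw [hw, ← conj_pow, hsv, inv_pow]
    rw [hwinv, mul_inv_eq_iff_eq_mul] at h1
    exact h1
  have htw : t * w = w * t := by
    have h1 : t * w * t⁻¹ = w⁻¹ := by
      rw [hw, ← conj_pow, htv, inv_pow]
    rw [hwinv, mul_inv_eq_iff_eq_mul] at h1
    exact h1
  have hw1 : orderOf w = 2 := by
    have hm0 : m ≠ 0 := by
      rintro rfl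
      omega
    have h2 : orderOf w = orderOf v / (orderOf v).gcd m := by
      rw [hw, orderOf_pow]
    rw [h2]
    have : (orderOf v).gcd m = m := Nat.gcd_eq_right ⟨2, by omega⟩
    rw [this]
    have hm1 : 0 < m := Nat.pos_of_ne_zero hm0
    rw [hm]
    have : m + m = 2 * m := by ring
    rw [this]
    exact Nat.mul_div_cancel _ hm1
  have h1 := conj_mem_of_comm hH hs hc hsw
  have h3 := conj_mem_of_comm hH ht hd htw
  exact hcd (mem_of_conj_mem hH hw1 h1 h3)

/-- The midpoint of two involutions with odd product. -/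
lemma exists_midpoint {a b : G} (ha : orderOf a = 2) (hb : orderOf b = 2) (hab : Odd (orderOf (a * b))) :
    ∃ r : G, orderOf r = 2 ∧ r * a * r⁻¹ = b ∧ r⁻¹ = r := by
  obtain ⟨k, hk⟩ := hab
  set v := a * b with hv
  have ha2 : a * a = 1 := by rw [← pow_two, ← ha, pow_orderOf_eq_one]
  have hb2 : b * b = 1 := by rw [← pow_two, ← hb, pow_orderOf_eq_one]
  have hainv : a⁻¹ = a := inv_eq_of_mul_eq_one_left ha2
  have hbinv : b⁻¹ = b := inv_eq_of_mul_eq_one_left hb2
  have hv1 : v ^ (2 * k + 1) = 1 := by rw [← hk, pow_orderOf_eq_one]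
  have hvinv : v⁻¹ = b * a := by rw [hv, mul_inv_rev, hainv, hbinv]
  have hav : a * v * a⁻¹ = v⁻¹ := by
    rw [hvinv, hv, hainv]
    calc a * (a * b) * a = (a * a) * b * a := by group
      _ = b * a := by rw [ha2, one_mul]
  have havk : ∀ j : ℕ, a * v ^ j = (v⁻¹) ^ j * a := by
    intro j
    have h1 : a * v ^ j * a⁻¹ = (v⁻¹) ^ j := by rw [← conj_pow, hav]
    rw [mul_inv_eq_iff_eq_mul] at h1
    exact h1
  set r := v ^ k * a with hr
  have hrr : r * r = 1 := by
    calc r * r = v ^ k * (a * v ^ k) * a := by rw [hr]; group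
      _ = v ^ k * ((v⁻¹) ^ k * a) * a := by rw [havk]
      _ = (v ^ k * (v⁻¹) ^ k) * (a * a) := by group
      _ = 1 := by rw [ha2, inv_pow, mul_inv_cancel, mul_one]
  have hrinv : r⁻¹ = r := inv_eq_of_mul_eq_one_left hrr
  have hconj : r * a * r⁻¹ = b := by
    rw [hrinv]
    have h3 : v ^ (2 * k) = v⁻¹ := by
      rw [eq_inv_iff_mul_eq_one, ← pow_succ, hv1]
    calc r * a * r = v ^ k * a * a * (v ^ k * a) := by rw [hr]
      _ = v ^ k * (a * a) * (v ^ k * a) := by group
      _ = v ^ k * (v ^ k * a) := by rw [ha2]; group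
      _ = v ^ (2 * k) * a := by rw [two_mul, pow_add]; group
      _ = v⁻¹ * a := by rw [h3]
      _ = b * a * a := by rw [hvinv]
      _ = b := by rw [mul_assoc, ha2, mul_one]
  refine ⟨r, ?_, hconj, hrinv⟩
  apply orderOf_eq_prime (by rw [pow_two]; exact hrr)
  intro h1
  rw [h1] at hconj
  simp at hconj
  have h2 : v = 1 := by rw [hv, ← hconj, ha2]
  rw [h1, h2] at hr
  simp at hr
  rw [← hr] at ha
  simp at ha

/-- Every involution is conjugate to an element of `H`. -/
lemma exists_conj_mem {H : Subgroup G} (hH : Cfsg.IsStronglyEmbedded H) {t : G} (ht : orderOf t = 2) :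
    ∃ g : G, g⁻¹ * t * g ∈ H := by
  classical
  haveI : Fact (Nat.Prime 2) := ⟨Nat.prime_two⟩
  let P : Sylow 2 H := default
  have hdvd : 2 ∣ Nat.card H := hH.2.1.two_dvd
  have hP : (P : Subgroup H) ≠ ⊥ := P.ne_bot_of_dvd_card hdvd
  have hnorm := (CfsgLib.SE.stronglyEmbedded_iff_normalizers H hH.1 P hP).1 hH
    (P : Subgroup H) le_rfl hP
  set T := (P : Subgroup H).map H.subtype with hT
  have hTp : IsPGroup 2 T := P.2.map H.subtype
  have hTH : T ≤ H := Subgroup.map_subtype_le _
  obtain ⟨S, hS⟩ := hTp.exists_le_sylow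
  have hSH : (S : Subgroup G) ⊓ H = T := by
    apply le_antisymm
    · have hU : IsPGroup 2 (((S : Subgroup G) ⊓ H).subgroupOf H) := by
        have h1 : IsPGroup 2 (((S : Subgroup G) ⊓ H).subgroupOf H |>.map H.subtype) := by
          rw [Subgroup.map_subgroupOf_eq_of_le inf_le_right]
          exact S.2.to_le inf_le_left
        exact h1.of_equiv (Subgroup.equivMapOfInjective _ H.subtype H.subtype_injective).symm
      have hle : (P : Subgroup H) ≤ ((S : Subgroup G) ⊓ H).subgroupOf H := by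
        intro x hx
        have hx' : (x : G) ∈ T := ⟨x, hx, rfl⟩
        exact ⟨hS hx', x.2⟩
      have heq := P.is_maximal' hU hle
      intro x hx
      have hx2 : (⟨x, hx.2⟩ : H) ∈ ((S : Subgroup G) ⊓ H).subgroupOf H := hx
      rw [heq] at hx2
      exact ⟨_, hx2, rfl⟩
    · exact le_inf hS hTH
  have hTS : T = S := by
    by_contra hne
    obtain ⟨g, hgS, hgT, hgN⟩ := CfsgLib.BS.exists_mem_normalizer_not_mem S.2 hS hne
    apply hgT
    rw [← hSH]
    exact ⟨hgS, hnorm hgN⟩
  have hzp : IsPGroup 2 (zpowers t) := by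
    apply IsPGroup.of_card (n := 1)
    rw [Nat.card_zpowers, ht, pow_one]
  obtain ⟨Q, hQ⟩ := hzp.exists_le_sylow
  obtain ⟨x, hx⟩ := MulAction.exists_smul_eq G Q S
  refine ⟨x⁻¹, ?_⟩
  apply hTH
  rw [hTS, ← hx, Sylow.coe_subgroup_smul, inv_inv]
  have h1 : t ∈ (Q : Subgroup G) := hQ (mem_zpowers t)
  have h2 := Subgroup.smul_mem_pointwise_smul t (MulAut.conj x) (Q : Subgroup G) h1
  rw [MulAut.smul_def, MulAut.conj_apply] at h2
  exact h2

/-- The first half of the transitivity statement. -/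
lemma exists_conj_in_inter {H : Subgroup G} (hH : Cfsg.IsStronglyEmbedded H) {u s t : G}
    (hu : orderOf u = 2) (huH : u ∉ H) (hs : orderOf s = 2) (hsH : s ∈ H) (ht : orderOf t = 2)
    (htH : t ∈ H) : ∃ d ∈ (H ⊓ H.map (MulAut.conj u).toMonoidHom), d * s * d⁻¹ = t := by
  have hu2 : u * u = 1 := by rw [← pow_two, ← hu, pow_orderOf_eq_one]
  have huinv : u⁻¹ = u := inv_eq_of_mul_eq_one_left hu2
  set t' := u * t * u⁻¹ with ht'
  have ht'o : orderOf t' = 2 := by rw [ht', orderOf_conj, ht]
  have ht'u : u⁻¹ * t' * u = t := by rw [ht']; group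
  have hodd : Odd (orderOf (s * t')) := by
    apply odd_order_mul hH (c := 1) (d := u) hs ht'o
    · simpa using hsH
    · rw [ht'u]; exact htH
    · simpa using huH
  obtain ⟨r, hr, hrs, hrinv⟩ := exists_midpoint hs ht'o hodd
  have hst : r⁻¹ * t' * r = s := by rw [← hrs]; group
  refine ⟨u * r, ⟨?_, ?_⟩, ?_⟩
  · have h1 := mem_of_conj_mem hH ht'o (g := u) (g' := r) (by rw [ht'u]; exact htH)
      (by rw [hst]; exact hsH)
    rwa [huinv] at h1
  · show u * r ∈ H.map (MulAut.conj u).toMonoidHom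
    rw [CfsgLib.SE.mem_map_conj]
    have h3 : (r * u)⁻¹ * s * (r * u) = t := by
      rw [mul_inv_rev, huinv, hrinv]
      calc u * r * s * (r * u) = u * (r * s * r) * u := by group
        _ = u * (r * s * r⁻¹) * u := by rw [hrinv]
        _ = u * t' * u := by rw [hrs]
        _ = u⁻¹ * t' * u := by rw [huinv]
        _ = t := ht'u
    have h1 := mem_of_conj_mem hH hs (g := 1) (g' := r * u) (by simpa using hsH)
      (by rw [h3]; exact htH)
    have h4 : u⁻¹ * (u * r) * u = r * u := by group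
    rw [h4]
    simpa using h1
  · calc u * r * s * (u * r)⁻¹ = u * (r * s * r⁻¹) * u⁻¹ := by group
      _ = u * t' * u⁻¹ := by rw [hrs]
      _ = (u * u) * t * (u⁻¹ * u⁻¹) := by rw [ht']; group
      _ = t := by rw [huinv, hu2]; group

theorem main_conj {H : Subgroup G} (hH : Cfsg.IsStronglyEmbedded H) (u : G) (hu : orderOf u = 2)
    (huH : u ∉ H) (s t : G) (hs : orderOf s = 2) (hsH : s ∈ H) (ht : orderOf t = 2) (htH : t ∈ H) :
    (∃ d ∈ (H ⊓ H.map (MulAut.conj u).toMonoidHom), d * s * d⁻¹ = t) ∧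
      ∀ a b : G, orderOf a = 2 → orderOf b = 2 → IsConj a b := by
  refine ⟨exists_conj_in_inter hH hu huH hs hsH ht htH, ?_⟩
  intro a b ha hb
  obtain ⟨g₁, hg₁⟩ := exists_conj_mem hH ha
  obtain ⟨g₂, hg₂⟩ := exists_conj_mem hH hb
  obtain ⟨d, -, hd⟩ := exists_conj_in_inter hH hu huH (by rw [orderOf_conj', ha]) hg₁
    (by rw [orderOf_conj', hb]) hg₂
  rw [isConj_iff]
  refine ⟨g₂ * d * g₁⁻¹, ?_⟩
  calc g₂ * d * g₁⁻¹ * a * (g₂ * d * g₁⁻¹)⁻¹ = g₂ * (d * (g₁⁻¹ * a * g₁) * d⁻¹) * g₂⁻¹ := by group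
    _ = g₂ * (g₂⁻¹ * b * g₂) * g₂⁻¹ := by rw [hd]
    _ = b := by group

/-- S1226 -/
theorem normalizer_stronglyEmbedded (T : Sylow 2 G) (hnn : ¬ (T : Subgroup G).Normal)
    (hC : ∀ t : G, orderOf t = 2 → IsMulCommutative (centralizer ({t} : Set G)) ∧
      ∀ c ∈ centralizer ({t} : Set G), c ^ 2 = 1) :
    Cfsg.IsStronglyEmbedded (normalizer ((T : Subgroup G) : Set G)) := by
  classical
  haveI : Fact (Nat.Prime 2) := ⟨Nat.prime_two⟩
  set N := normalizer ((T : Subgroup G) : Set G) with hN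
  have hTN : (T : Subgroup G) ≤ N := Subgroup.le_normalizer
  refine ⟨?_, ?_, ?_⟩
  · intro h
    apply hnn
    exact Subgroup.normalizer_eq_top_iff.1 h
  · by_cases h1 : Nat.card (T : Subgroup G) = 1
    · exfalso
      have hodd : ¬ 2 ∣ Nat.card G := by
        intro hd
        have := T.ne_bot_of_dvd_card hd
        exact this (Subgroup.eq_bot_of_card_eq _ h1)
      apply hnn
      have hbot : (T : Subgroup G) = ⊥ := Subgroup.eq_bot_of_card_eq _ h1
      rw [hbot]
      infer_instance
    · obtain ⟨k, hk⟩ := IsPGroup.iff_card.1 T.2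
      have hk0 : k ≠ 0 := by
        rintro rfl
        exact h1 (by simpa using hk)
      have h2 : 2 ∣ Nat.card (T : Subgroup G) := by
        rw [hk]; exact dvd_pow_self 2 hk0
      have h3 : Nat.card (T : Subgroup G) ∣ Nat.card N := Subgroup.card_dvd_of_le hTN
      exact (even_iff_two_dvd).2 (h2.trans h3)
  · intro g hg
    by_contra hne
    rw [Nat.not_odd_iff_even] at hne
    have h1 : ¬ Odd (Nat.card ↥(N ⊓ N.map (MulAut.conj g).toMonoidHom)) := by
      rw [Nat.not_odd_iff_even]
      exact hne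
    obtain ⟨s, hs, hso⟩ := CfsgLib.SE.exists_involution_of_not_odd h1
    -- elements of order two in the normalizer of a Sylow subgroup lie in it
    have key : ∀ (R : Sylow 2 G) (x : G), x ∈ normalizer ((R : Subgroup G) : Set G) → orderOf x = 2 →
        x ∈ (R : Subgroup G) := by
      intro R x hx hxo
      have hzp : IsPGroup 2 (zpowers x) := by
        apply IsPGroup.of_card (n := 1)
        rw [Nat.card_zpowers, hxo, pow_one]
      have h3 := CfsgLib.Solv.isPGroup_sup_of_le_normalizer hzp R.2 (by rw [zpowers_le]; exact hx)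
      have h4 := R.is_maximal' h3 le_sup_right
      have h5 : x ∈ zpowers x ⊔ (R : Subgroup G) := mem_sup_left (mem_zpowers x)
      rw [h4] at h5
      exact h5
    have hsT : s ∈ (T : Subgroup G) := key T s hs.1 hso
    have hsT' : s ∈ ((g • T : Sylow 2 G) : Subgroup G) := by
      apply key _ s _ hso
      rw [Sylow.coe_subgroup_smul]
      obtain ⟨n, hn, hns⟩ := hs.2
      have hn' : n ∈ N := hn
      rw [← hns]
      rw [CfsgLib.Solv.mem_normalizer_iff_conj_smul]
      have h5 : (MulAut.conj n) • ((T : Subgroup G)) = T :=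
        (CfsgLib.Solv.mem_normalizer_iff_conj_smul).1 hn'
      have h6 : ((MulAut.conj g).toMonoidHom n : G) = g * n * g⁻¹ := rfl
      rw [h6, CfsgLib.Solv.conj_mul_smul, CfsgLib.Solv.conj_mul_smul, CfsgLib.Solv.conj_inv_smul_smul, h5]
    -- both Sylow subgroups lie in the abelian centralizer
    obtain ⟨hab, hexp⟩ := hC s hso
    have hcent : ∀ (R : Sylow 2 G), s ∈ (R : Subgroup G) → IsMulCommutative (R : Subgroup G) →
        (R : Subgroup G) ≤ centralizer ({s} : Set G) := by
      intro R hsR hR x hx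
      rw [Subgroup.mem_centralizer_singleton_iff]
      have := hR.is_comm.comm (⟨x, hx⟩ : (R : Subgroup G)) ⟨s, hsR⟩
      exact congrArg Subtype.val this
    -- `T` is abelian because it lies in the centralizer of a central involution
    have hTab : IsMulCommutative (T : Subgroup G) := by
      obtain ⟨z, hz⟩ : ∃ z : center (T : Subgroup G), orderOf z = 2 := by
        haveI : Nontrivial (T : Subgroup G) :=
          ⟨⟨⟨s, hsT⟩, 1, fun h => by
            have := congrArg Subtype.val h
            simp at this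
            rw [this] at hso
            simp at hso⟩⟩
        have hnt := T.2.center_nontrivial
        have hZp : IsPGroup 2 (center (T : Subgroup G)) := T.2.to_subgroup _
        obtain ⟨j, hj⟩ := IsPGroup.iff_card.1 hZp
        have h7 : 2 ∣ Nat.card (center (T : Subgroup G)) := by
          have h8 : Nat.card (center (T : Subgroup G)) ≠ 1 := (Finite.one_lt_card).ne'
          rw [hj] at h8 ⊢
          have hj0 : j ≠ 0 := by
            rintro rfl
            exact h8 (pow_zero 2)
          exact dvd_pow_self 2 hj0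
        exact exists_prime_orderOf_dvd_card' 2 h7
      set z₀ : G := ((z : (T : Subgroup G)) : G) with hz₀
      have hz₀o : orderOf z₀ = 2 := by
        rw [hz₀, Subgroup.orderOf_coe, Subgroup.orderOf_coe, hz]
      obtain ⟨hab0, -⟩ := hC z₀ hz₀o
      have hle : (T : Subgroup G) ≤ centralizer ({z₀} : Set G) := by
        intro x hx
        rw [Subgroup.mem_centralizer_singleton_iff]
        have := (Subgroup.mem_center_iff.1 z.2) ⟨x, hx⟩
        exact congrArg Subtype.val this
      refine ⟨⟨fun a b => ?_⟩⟩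
      have := hab0.is_comm.comm ⟨a, hle a.2⟩ ⟨b, hle b.2⟩
      apply Subtype.ext
      have h8 := congrArg Subtype.val this
      exact h8
    -- uniqueness of the Sylow subgroup in the abelian centralizer
    have hTab' : IsMulCommutative ((g • T : Sylow 2 G) : Subgroup G) := by
      rw [Sylow.coe_subgroup_smul]
      refine ⟨⟨fun a b => ?_⟩⟩
      obtain ⟨a', ha', hae⟩ := a.2
      obtain ⟨b', hb', hbe⟩ := b.2
      apply Subtype.ext
      have := hTab.is_comm.comm ⟨a', ha'⟩ ⟨b', hb'⟩
      have h8 := congrArg Subtype.val this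
      show (a : G) * b = b * a
      rw [← hae, ← hbe]
      have h9 : (a' : G) * b' = b' * a' := h8
      show MulAut.conj g a' * MulAut.conj g b' = MulAut.conj g b' * MulAut.conj g a'
      rw [← map_mul, ← map_mul, h9]
    have hle1 := hcent T hsT hTab
    have hle2 := hcent (g • T) hsT' hTab'
    have hsup : IsPGroup 2 (((T : Subgroup G) ⊔ ((g • T : Sylow 2 G) : Subgroup G) : Subgroup G)) := by
      intro g
      refine ⟨1, Subtype.ext ?_⟩
      have := hexp g (sup_le hle1 hle2 g.2)
      simpa using this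
    have h6 := T.is_maximal' hsup le_sup_left
    have h7 := (g • T : Sylow 2 G).is_maximal' hsup le_sup_right
    have heq : (T : Subgroup G) = ((g • T : Sylow 2 G) : Subgroup G) := h6.symm.trans h7
    apply hg
    rw [hN, CfsgLib.Solv.mem_normalizer_iff_conj_smul]
    rw [Sylow.coe_subgroup_smul] at heq
    exact heq.symm

/-- Action on cosets in terms of representatives. -/
lemma smul_mk_eq_iff {H : Subgroup G} (i g g' : G) :
    i • (QuotientGroup.mk g : G ⧸ H) = QuotientGroup.mk g' ↔ g'⁻¹ * i * g ∈ H := by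
  rw [MulAction.Quotient.smul_mk, QuotientGroup.eq]
  constructor
  · intro h
    have := H.inv_mem h
    have e : ((i • g)⁻¹ * g')⁻¹ = g'⁻¹ * i * g := by
      rw [smul_eq_mul]; group
    rwa [e] at this
  · intro h
    have := H.inv_mem h
    have e : (g'⁻¹ * i * g)⁻¹ = (i • g)⁻¹ * g' := by
      rw [smul_eq_mul]; group
    rwa [e] at this

/-- An involution fixes at most one coset. -/
lemma fixed_unique {H : Subgroup G} (hH : Cfsg.IsStronglyEmbedded H) {i : G} (hi : orderOf i = 2)
    {w w' : G ⧸ H} (h : i • w = w) (h' : i • w' = w') : w = w' := by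
  obtain ⟨g, rfl⟩ := QuotientGroup.mk_surjective w
  obtain ⟨g', rfl⟩ := QuotientGroup.mk_surjective w'
  rw [smul_mk_eq_iff] at h h'
  exact QuotientGroup.eq.2 (mem_of_conj_mem hH hi h h')

/-- An involution fixes a coset. -/
lemma fixed_exists {H : Subgroup G} (hH : Cfsg.IsStronglyEmbedded H) {i : G} (hi : orderOf i = 2) :
    ∃ w : G ⧸ H, i • w = w := by
  obtain ⟨g, hg⟩ := exists_conj_mem hH hi
  exact ⟨QuotientGroup.mk g, (smul_mk_eq_iff i g g).2 hg⟩

/-- S1224. -/
theorem card_swap {H : Subgroup G} (hH : Cfsg.IsStronglyEmbedded H) (x y : G ⧸ H) (hxy : x ≠ y) :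
    Nat.card {i : G // orderOf i = 2 ∧ i • x = y} = Nat.card {t : G // orderOf t = 2 ∧ t ∈ H} := by
  classical
  haveI := Fintype.ofFinite G
  haveI : Fintype (G ⧸ H) := Fintype.ofFinite _
  set inv : Finset G := Finset.univ.filter (fun i => orderOf i = 2) with hinv
  let A : G ⧸ H → G ⧸ H → Finset G := fun a b => inv.filter (fun i => i • a = b)
  set n := Nat.card {t : G // orderOf t = 2 ∧ t ∈ H} with hn
  have hA : ∀ a b : G ⧸ H, Nat.card {i : G // orderOf i = 2 ∧ i • a = b} = (A a b).card := by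
    intro a b
    rw [Nat.card_eq_fintype_card, Fintype.card_subtype]
    congr 1
    ext i
    simp [A, hinv]
  -- fixed points
  have hfix : ∀ w : G ⧸ H, (A w w).card = n := by
    intro w
    obtain ⟨g, rfl⟩ := QuotientGroup.mk_surjective w
    rw [← hA, hn]
    refine Nat.card_congr ⟨fun i => ⟨g⁻¹ * i.1 * g, ?_, ?_⟩, fun t => ⟨g * t.1 * g⁻¹, ?_, ?_⟩, ?_, ?_⟩
    · rw [orderOf_conj', i.2.1]
    · exact (smul_mk_eq_iff i.1 g g).1 i.2.2
    · rw [orderOf_conj, t.2.1]
    · rw [smul_mk_eq_iff]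
      have e : g⁻¹ * (g * t.1 * g⁻¹) * g = t.1 := by group
      rw [e]
      exact t.2.2
    · intro i
      apply Subtype.ext
      show g * (g⁻¹ * i.1 * g) * g⁻¹ = i.1
      group
    · intro t
      apply Subtype.ext
      show g⁻¹ * (g * t.1 * g⁻¹) * g = t.1
      group
  -- some involution fixes `x`
  obtain ⟨t₀, ht₀, ht₀x⟩ : ∃ t₀ : G, orderOf t₀ = 2 ∧ t₀ • x = x := by
    obtain ⟨g, rfl⟩ := QuotientGroup.mk_surjective x
    have hdvd : 2 ∣ Nat.card H := hH.2.1.two_dvd
    obtain ⟨t, ht⟩ := exists_prime_orderOf_dvd_card' (G := H) 2 hdvd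
    refine ⟨g * t * g⁻¹, ?_, ?_⟩
    · rw [orderOf_conj, Subgroup.orderOf_coe, ht]
    · rw [smul_mk_eq_iff]
      have e : g⁻¹ * (g * t * g⁻¹) * g = t := by group
      rw [e]
      exact t.2
  -- lower bound
  have hlow : ∀ b : G ⧸ H, n ≤ (A x b).card := by
    intro b
    by_cases hb : b = x
    · rw [hb, hfix]
    obtain ⟨c, hc⟩ := QuotientGroup.mk_surjective x
    obtain ⟨d, hd⟩ := QuotientGroup.mk_surjective b
    have hcd : c⁻¹ * d ∉ H := by
      intro h
      apply hb
      rw [← hc, ← hd]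
      exact (QuotientGroup.eq.2 h).symm
    have hmid : ∀ s ∈ A b b, ∃ r : G, orderOf r = 2 ∧ r * t₀ * r⁻¹ = s ∧ r⁻¹ = r := by
      intro s hs
      simp only [A, hinv, Finset.mem_filter, Finset.mem_univ, true_and] at hs
      apply exists_midpoint ht₀ hs.1
      apply odd_order_mul hH (c := c) (d := d) ht₀ hs.1 _ _ hcd
      · rw [← smul_mk_eq_iff, hc, ht₀x]
      · rw [← smul_mk_eq_iff, hd, hs.2]
    choose! r hr using hmid
    rw [← hfix b]
    apply Finset.card_le_card_of_injOn r
    · intro s hs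
      have hs' : s ∈ A b b := hs
      obtain ⟨h1, h2, h3⟩ := hr s hs'
      simp only [A, hinv, Finset.mem_filter, Finset.mem_univ, true_and, Finset.coe_filter, Set.mem_setOf_eq]
      simp only [A, hinv, Finset.mem_filter, Finset.mem_univ, true_and, Finset.coe_filter, Set.mem_setOf_eq] at hs'
      refine ⟨h1, ?_⟩
      have h4 : s • (r s • x) = r s • x := by
        calc s • (r s • x) = (r s * t₀ * (r s)⁻¹) • (r s • x) := by rw [h2]
          _ = r s • t₀ • x := by rw [mul_smul, mul_smul, inv_smul_smul]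
          _ = r s • x := by rw [ht₀x]
      exact fixed_unique hH hs'.1 h4 hs'.2
    · intro s hs s' hs' hrs
      have h1 := (hr s hs).2.1
      have h2 := (hr s' hs').2.1
      rw [← h1, ← h2, hrs]
  -- the totals
  have htotal : ∑ b : G ⧸ H, (A x b).card = inv.card := by
    have := Finset.card_eq_sum_card_fiberwise (f := fun i : G => i • x) (s := inv)
      (t := Finset.univ) (fun i _ => Finset.mem_coe.2 (Finset.mem_univ _))
    exact this.symm
  have htotal2 : ∑ w : G ⧸ H, (A w w).card = inv.card := by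
    have h1 := Finset.sum_card_bipartiteAbove_eq_sum_card_bipartiteBelow (s := inv)
      (t := (Finset.univ : Finset (G ⧸ H))) (fun i w => i • w = w)
    have h2 : ∀ i ∈ inv, (Finset.bipartiteAbove (fun (i : G) (w : G ⧸ H) => i • w = w)
        (Finset.univ : Finset (G ⧸ H)) i).card = 1 := by
      intro i hi
      have hi' : orderOf i = 2 := by simpa [hinv] using hi
      rw [Finset.card_eq_one]
      obtain ⟨w, hw⟩ := fixed_exists hH hi'
      refine ⟨w, ?_⟩
      ext v
      simp only [Finset.bipartiteAbove, Finset.mem_filter, Finset.mem_univ, true_and,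
        Finset.mem_singleton]
      constructor
      · intro hv
        exact fixed_unique hH hi' hv hw
      · rintro rfl
        exact hw
    rw [Finset.sum_congr rfl h2] at h1
    simp only [Finset.sum_const, smul_eq_mul, mul_one] at h1
    rw [h1]
    rfl
  have hsum : ∑ b : G ⧸ H, n = ∑ b : G ⧸ H, (A x b).card := by
    rw [htotal, ← htotal2]
    exact Finset.sum_congr rfl (fun w _ => (hfix w).symm)
  have heq := (Finset.sum_eq_sum_iff_of_le (fun b _ => hlow b)).1 hsum
  rw [hA, ← heq y (Finset.mem_univ _)]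

end CfsgLib.StrongEmb2
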