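import Mathlib

/-! No finite group has exactly 35 Sylow 17-subgroups. -/

set_option autoImplicit false

namespace CfsgLib.Syl35

open MulAction
open scoped Pointwise

theorem inj3 {X : Type*} (a b c : X) (h1 : a ≠ b) (h2 : a ≠ c) (h3 : b ≠ c) :
    Function.Injective ![a, b, c] := by
  intro i j hij
  fin_cases i <;> fin_cases j <;>
    first
    | rfl
    | (exfalso
       simp at hij
       first
       | exact h1 hij | exact h2 hij | exact h3 hij
       | exact h1 hij.symm | exact h2 hij.symm | exact h3 hij.symm)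

local instance fact17 : Fact (Nat.Prime 17) := ⟨by norm_num⟩

/-- The permutation data on which the argument runs. -/
structure Data (H Ω : Type*) [Group H] [MulAction H Ω] where
  P : Ω → Subgroup H
  pgrp : ∀ α, IsPGroup 17 (P α)
  sylow : ∀ α (Q : Subgroup H), IsPGroup 17 Q → P α ≤ Q → Q = P α
  fix : ∀ α β, (∀ g ∈ P α, g • β = β) → β = α
  fix' : ∀ α, ∀ g ∈ P α, g • α = α
  equiv : ∀ (h : H) α g, g ∈ P α → h * g * h⁻¹ ∈ P (h • α)

variable {H Ω : Type*} [Group H] [Finite H] [MulAction H Ω] [Finite Ω] [FaithfulSMul H Ω]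
  (D : Data H Ω) (hΩ : Nat.card Ω = 35)

include D hΩ

/-- Orbits of `P α` off `α` have 17 points. -/
theorem orbit_card (α δ : Ω) (h : δ ≠ α) : (orbit (D.P α) δ).ncard = 17 := by
  obtain ⟨k, hk⟩ := (D.pgrp α).card_orbit δ
  rw [Nat.card_coe_set_eq] at hk
  have hle : (orbit (D.P α) δ).ncard ≤ 35 := by
    rw [← hΩ, ← Set.ncard_univ]
    exact Set.ncard_le_ncard (Set.subset_univ _)
  have hk0 : k ≠ 0 := by
    rintro rfl
    apply h
    apply D.fix
    intro g hg
    have h1 : (orbit (D.P α) δ).ncard = 1 := by simpa using hk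
    rw [Set.ncard_eq_one] at h1
    obtain ⟨a, ha⟩ := h1
    have h2 : δ ∈ orbit (D.P α) δ := mem_orbit_self δ
    have h3 : (⟨g, hg⟩ : D.P α) • δ ∈ orbit (D.P α) δ := mem_orbit _ _
    rw [ha] at h2 h3
    have h4 : (⟨g, hg⟩ : D.P α) • δ = g • δ := rfl
    rw [← h4, Set.mem_singleton_iff.mp h3, Set.mem_singleton_iff.mp h2]
  have hk2 : k < 2 := by
    by_contra hk2
    push Not at hk2
    have : 17 ^ 2 ≤ 17 ^ k := Nat.pow_le_pow_right (by norm_num) hk2
    omega
  have : k = 1 := by omega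
  subst this
  simpa using hk

omit [Finite H] [Finite Ω] [FaithfulSMul H Ω] hΩ in
theorem alpha_notMem (α δ : Ω) (h : δ ≠ α) : α ∉ orbit (D.P α) δ := by
  rintro ⟨g, hg⟩
  apply h
  have h1 : (g : H) • α = α := D.fix' α g.1 g.2
  have h2 : (g : H) • δ = α := hg
  calc δ = (g : H)⁻¹ • ((g : H) • δ) := by simp
    _ = (g : H)⁻¹ • α := by rw [h2]
    _ = α := by rw [inv_smul_eq_iff, h1]

/-- There is a second orbit. -/
theorem exists_other (α δ : Ω) (h : δ ≠ α) : ∃ δ', δ' ≠ α ∧ δ' ∉ orbit (D.P α) δ := by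
  by_contra hcon
  push Not at hcon
  have h1 : (insert α (orbit (D.P α) δ)).ncard = 18 := by
    rw [Set.ncard_insert_of_notMem (alpha_notMem D α δ h), orbit_card D hΩ α δ h]
  have h2 : (insert α (orbit (D.P α) δ)) = Set.univ := by
    ext ω
    simp only [Set.mem_insert_iff, Set.mem_univ, iff_true]
    by_cases hω : ω = α
    · exact Or.inl hω
    · exact Or.inr (hcon ω hω)
  rw [h2, Set.ncard_univ, hΩ] at h1
  omega

/-- `Ω` is covered by `α` and two orbits. -/
theorem cover (α δ δ' : Ω) (h : δ ≠ α) (h' : δ' ≠ α) (hd : δ' ∉ orbit (D.P α) δ) (ω : Ω) :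
    ω = α ∨ ω ∈ orbit (D.P α) δ ∨ ω ∈ orbit (D.P α) δ' := by
  have hdisj : Disjoint (orbit (D.P α) δ) (orbit (D.P α) δ') := by
    refine (orbit.eq_or_disjoint (G := D.P α) δ δ').resolve_left ?_
    intro heq
    apply hd
    rw [heq]
    exact mem_orbit_self δ'
  have h1 : (insert α (orbit (D.P α) δ ∪ orbit (D.P α) δ')).ncard = 35 := by
    rw [Set.ncard_insert_of_notMem, Set.ncard_union_eq hdisj, orbit_card D hΩ α δ h,
      orbit_card D hΩ α δ' h']
    · simp only [Set.mem_union, not_or]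
      exact ⟨alpha_notMem D α δ h, alpha_notMem D α δ' h'⟩
  have h2 : (insert α (orbit (D.P α) δ ∪ orbit (D.P α) δ')) = Set.univ := by
    apply Set.eq_of_subset_of_ncard_le (Set.subset_univ _)
    rw [Set.ncard_univ, hΩ, h1]
  have : ω ∈ (insert α (orbit (D.P α) δ ∪ orbit (D.P α) δ')) := by rw [h2]; trivial
  simpa using this

/-- The action is primitive. -/
theorem prim [IsPretransitive H Ω] : IsPreprimitive H Ω := by
  have : Nonempty Ω := by
    have : 0 < Nat.card Ω := by omega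
    exact (Nat.card_pos_iff.mp this).1
  obtain ⟨α⟩ := this
  apply IsPreprimitive.of_isTrivialBlock_base α
  intro B hαB hB
  have hdvd : B.ncard ∣ 35 := hΩ ▸ hB.ncard_dvd_card ⟨α, hαB⟩
  by_cases hsub : B.Subsingleton
  · exact Or.inl hsub
  right
  obtain ⟨δ, hδ, hne⟩ : ∃ δ ∈ B, δ ≠ α := by
    by_contra hcon
    push Not at hcon
    apply hsub
    intro a ha b hb
    rw [hcon a ha, hcon b hb]
  have hsubB : orbit (D.P α) δ ⊆ B := by
    rintro _ ⟨g, rfl⟩
    have h1 : (g : H) • B = B :=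
      (isBlock_iff_smul_eq_of_mem.mp hB) hαB (by rw [D.fix' α g.1 g.2]; exact hαB)
    have h2 : (g : H) • δ ∈ (g : H) • B := Set.smul_mem_smul_set hδ
    rw [h1] at h2
    exact h2
  have hle : 17 ≤ B.ncard := by
    rw [← orbit_card D hΩ α δ hne]
    exact Set.ncard_le_ncard hsubB
  have hB35 : B.ncard = 35 := by
    have hdiv : B.ncard ∈ Nat.divisors 35 := by
      rw [Nat.mem_divisors]; exact ⟨hdvd, by norm_num⟩
    have : Nat.divisors 35 = {1, 5, 7, 35} := by decide
    rw [this] at hdiv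
    simp only [Finset.mem_insert, Finset.mem_singleton] at hdiv
    omega
  apply Set.eq_of_subset_of_ncard_le (Set.subset_univ _)
  rw [Set.ncard_univ, hΩ, hB35]

/-- The heart of the large-Sylow case: no element of `P α` can fix one orbit pointwise. -/
theorem noFix [IsPretransitive H Ω] (α δ : Ω) (h : δ ≠ α) (x : H) (hx : x ∈ D.P α)
    (hxδ : ∀ ω ∈ orbit (D.P α) δ, x • ω = ω) : x = 1 := by
  by_contra hx1
  set s : Set Ω := insert α (orbit (D.P α) δ) with hs
  have hs18 : s.ncard = 17 + 1 := by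
    rw [hs, Set.ncard_insert_of_notMem (alpha_notMem D α δ h), orbit_card D hΩ α δ h]
  have hsc : sᶜ.ncard = 17 := by
    have := Set.ncard_add_ncard_compl s
    rw [hs18, hΩ] at this
    omega
  -- `x` moves a point off `s`
  obtain ⟨ω₀, hω₀⟩ : ∃ ω₀, x • ω₀ ≠ ω₀ := by
    by_contra hcon
    push Not at hcon
    apply hx1
    apply FaithfulSMul.eq_of_smul_eq_smul (α := Ω)
    intro ω
    rw [hcon ω, one_smul]
  have hxs : ∀ ω ∈ s, x • ω = ω := by
    intro ω hω
    rcases hω with rfl | hω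
    · exact D.fix' _ x hx
    · exact hxδ ω hω
  have hω₀s : ω₀ ∉ s := fun hh => hω₀ (hxs ω₀ hh)
  -- the orbit of `x`
  have hpz : IsPGroup 17 (Subgroup.zpowers x) :=
    (D.pgrp α).to_le ((Subgroup.zpowers_le).mpr hx)
  obtain ⟨k, hk⟩ := hpz.card_orbit ω₀
  rw [Nat.card_coe_set_eq] at hk
  have hosub : orbit (Subgroup.zpowers x) ω₀ ⊆ sᶜ := by
    rintro _ ⟨⟨g, hg⟩, rfl⟩
    obtain ⟨i, rfl⟩ := Subgroup.mem_zpowers_iff.mp hg
    intro hmem
    apply hω₀s
    have hfix : x ^ i • (x ^ i • ω₀) = x ^ i • ω₀ := by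
      have : ∀ ω ∈ s, x ^ i • ω = ω := by
        intro ω hω
        have hmem2 : x ^ i ∈ fixingSubgroup H s :=
          Subgroup.zpow_mem _ ((mem_fixingSubgroup_iff H).mpr hxs) i
        exact (mem_fixingSubgroup_iff H).mp hmem2 ω hω
      exact this _ hmem
    have : x ^ i • ω₀ = ω₀ := by
      have h2 := congrArg (fun a => (x ^ i)⁻¹ • a) hfix
      simpa using h2
    change x ^ i • ω₀ ∈ s at hmem
    rwa [this] at hmem
  have hole : (orbit (Subgroup.zpowers x) ω₀).ncard ≤ 17 := by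
    rw [← hsc]; exact Set.ncard_le_ncard hosub
  have hk0 : k ≠ 0 := by
    rintro rfl
    have h1 : (orbit (Subgroup.zpowers x) ω₀).ncard = 1 := by simpa using hk
    rw [Set.ncard_eq_one] at h1
    obtain ⟨a, ha⟩ := h1
    have h2 : ω₀ ∈ orbit (Subgroup.zpowers x) ω₀ := mem_orbit_self ω₀
    have h3 : (⟨x, Subgroup.mem_zpowers x⟩ : Subgroup.zpowers x) • ω₀ ∈
      orbit (Subgroup.zpowers x) ω₀ := mem_orbit _ _
    rw [ha] at h2 h3
    apply hω₀
    have h4 : (⟨x, Subgroup.mem_zpowers x⟩ : Subgroup.zpowers x) • ω₀ = x • ω₀ := rfl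
    rw [← h4, Set.mem_singleton_iff.mp h3, Set.mem_singleton_iff.mp h2]
  have ho17 : (orbit (Subgroup.zpowers x) ω₀).ncard = 17 := by
    have hk1 : k = 1 := by
      by_contra hk1
      have : 17 ^ 2 ≤ 17 ^ k := Nat.pow_le_pow_right (by norm_num) (by omega)
      omega
    subst hk1
    simpa using hk.symm ▸ rfl
  have hoeq : orbit (Subgroup.zpowers x) ω₀ = sᶜ :=
    Set.eq_of_subset_of_ncard_le hosub (by rw [hsc, ho17])
  -- transitivity of the fixing subgroup on the complement
  have hxmem : x ∈ fixingSubgroup H s := (mem_fixingSubgroup_iff H).mpr hxs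
  have hreach : ∀ ω : Ω, ω ∉ s → ∃ i : ℤ, x ^ i • ω₀ = ω := by
    intro ω hω
    have : ω ∈ orbit (Subgroup.zpowers x) ω₀ := by rw [hoeq]; exact hω
    obtain ⟨⟨g, hg⟩, hgω⟩ := this
    obtain ⟨i, rfl⟩ := Subgroup.mem_zpowers_iff.mp hg
    exact ⟨i, hgω⟩
  have htrans : IsPretransitive (fixingSubgroup H s) (SubMulAction.ofFixingSubgroup H s) := by
    constructor
    rintro ⟨a, ha⟩ ⟨b, hb⟩
    obtain ⟨i, hi⟩ := hreach a ha
    obtain ⟨j, hj⟩ := hreach b hb
    refine ⟨⟨x ^ (j - i), Subgroup.zpow_mem _ hxmem _⟩, ?_⟩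
    apply Subtype.ext
    change x ^ (j - i) • a = b
    rw [← hi, ← hj, smul_smul, ← zpow_add]
    congr 2
    omega
  have hcardc : Nat.card (SubMulAction.ofFixingSubgroup H s) = 17 := by
    rw [← hsc, ← Nat.card_coe_set_eq]
    rfl
  have hprim' : IsPreprimitive (fixingSubgroup H s) (SubMulAction.ofFixingSubgroup H s) :=
    IsPreprimitive.of_prime_card (by rw [hcardc]; norm_num)
  have hM := (prim D hΩ).isMultiplyPreprimitive hs18 (by omega) hprim'
  have h19 : IsMultiplyPretransitive H Ω 19 := hM.isMultiplyPretransitive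
  have h3 : IsMultiplyPretransitive H Ω 3 :=
    isMultiplyPretransitive_of_le (n := 19) (by omega) (by omega)
  -- use 3-transitivity
  obtain ⟨δ', hδ'1, hδ'2⟩ := exists_other D hΩ α δ h
  obtain ⟨δ'', hδ''1, hδ''2⟩ : ∃ δ'' ∈ orbit (D.P α) δ, δ'' ≠ δ := by
    by_contra hcon
    push Not at hcon
    have : orbit (D.P α) δ ⊆ {δ} := fun a ha => hcon a ha
    have := Set.ncard_le_ncard this
    rw [orbit_card D hΩ α δ h, Set.ncard_singleton] at this
    omega
  have hδ''α : δ'' ≠ α := by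
    rintro rfl
    exact alpha_notMem D _ δ h hδ''1
  have hδ'δ : δ' ≠ δ := by
    rintro rfl
    exact hδ'2 (mem_orbit_self _)
  let a : Fin 3 ↪ Ω := ⟨![α, δ, δ''], inj3 _ _ _ h.symm hδ''α.symm hδ''2.symm⟩
  let b : Fin 3 ↪ Ω := ⟨![α, δ, δ'], inj3 _ _ _ h.symm hδ'1.symm hδ'δ.symm⟩
  obtain ⟨g, hg⟩ := exists_smul_eq H a b
  have hg0 : g • α = α := by
    have := congrArg (fun f : Fin 3 ↪ Ω => f 0) hg
    simpa [a, b] using this
  have hg1 : g • δ = δ := by
    have := congrArg (fun f : Fin 3 ↪ Ω => f 1) hg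
    simpa [a, b] using this
  have hg2 : g • δ'' = δ' := by
    have := congrArg (fun f : Fin 3 ↪ Ω => f 2) hg
    simpa [a, b] using this
  obtain ⟨y, rfl⟩ := hδ''1
  apply hδ'2
  rw [← hg2]
  have hmem := D.equiv g α y.1 y.2
  rw [hg0] at hmem
  refine ⟨⟨g * y.1 * g⁻¹, hmem⟩, ?_⟩
  change (g * y.1 * g⁻¹) • δ = g • (y.1 • δ)
  rw [mul_smul, mul_smul]
  congr 2
  rw [inv_smul_eq_iff, hg1]


variable [IsPretransitive H Ω]

/-- A nontrivial element of `P α` fixes only `α`. -/
theorem stab_trivial (α δ : Ω) (h : δ ≠ α) (x : H) (hx : x ∈ D.P α) (hxδ : x • δ = δ) : x = 1 := by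
  set S : Subgroup (D.P α) := stabilizer (D.P α) δ with hS
  have hidx : S.index = 17 := by
    rw [hS, index_stabilizer, orbit_card D hΩ α δ h]
  have hmin : (Nat.card (D.P α)).minFac = 17 := by
    obtain ⟨n, hn⟩ := IsPGroup.iff_card.mp (D.pgrp α)
    have hn0 : n ≠ 0 := by
      rintro rfl
      have h1 : Nat.card (D.P α) = 1 := by simpa using hn
      have h2 := S.card_mul_index
      rw [hidx, h1] at h2
      omega
    rw [hn, Nat.Prime.pow_minFac (by norm_num) hn0]
  have hnorm : S.Normal := Subgroup.normal_of_index_eq_minFac_card (by rw [hidx, hmin])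
  apply noFix D hΩ α δ h x hx
  rintro _ ⟨y, rfl⟩
  have hxS : (⟨x, hx⟩ : D.P α) ∈ S := by
    rw [hS, mem_stabilizer_iff]; exact hxδ
  have hc := hnorm.conj_mem _ hxS y⁻¹
  rw [hS, mem_stabilizer_iff] at hc
  have hc' : ((y : H)⁻¹ * x * (y : H)) • δ = δ := by
    have h5 : (y⁻¹ * (⟨x, hx⟩ : D.P α) * y⁻¹⁻¹) • δ = δ := hc
    rw [inv_inv] at h5
    exact h5
  change x • ((y : H) • δ) = (y : H) • δ
  have h3 : x • ((y : H) • δ) = (y : H) • (((y : H)⁻¹ * x * (y : H)) • δ) := by
    simp only [smul_smul]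
    congr 1
    group
  rw [h3, hc']

omit [IsPretransitive H Ω] in
theorem exists_ne' (α : Ω) : ∃ δ, δ ≠ α := by
  by_contra hcon
  push Not at hcon
  have : Subsingleton Ω := ⟨fun a b => by rw [hcon a, hcon b]⟩
  have := Nat.card_of_subsingleton (α := Ω) α
  omega

theorem card_P (α : Ω) : Nat.card (D.P α) = 17 := by
  obtain ⟨δ, hδ⟩ := exists_ne' D hΩ α
  have h1 : stabilizer (D.P α) δ = ⊥ := by
    rw [Subgroup.eq_bot_iff_forall]
    intro y hy
    apply Subtype.ext
    exact stab_trivial D hΩ α δ hδ y.1 y.2 hy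
  have h2 := (stabilizer (D.P α) δ).card_mul_index
  rw [index_stabilizer, orbit_card D hΩ α δ hδ, h1] at h2
  simp at h2
  omega

theorem exists_gen (α : Ω) :
    ∃ x ∈ D.P α, x ≠ 1 ∧ x ^ 17 = 1 ∧ ∀ y ∈ D.P α, ∃ k : ℤ, x ^ k = y := by
  have hc : IsCyclic (D.P α) := isCyclic_of_prime_card (p := 17) (card_P D hΩ α)
  obtain ⟨g, hg⟩ := IsCyclic.exists_generator (α := D.P α)
  refine ⟨g.1, g.2, ?_, ?_, ?_⟩
  · intro h1
    have hg1 : g = 1 := Subtype.ext h1
    have : ∀ y : D.P α, y = 1 := by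
      intro y
      obtain ⟨k, hk⟩ := Subgroup.mem_zpowers_iff.mp (hg y)
      rw [← hk, hg1, one_zpow]
    have hs : Subsingleton (D.P α) := ⟨fun a b => by rw [this a, this b]⟩
    have := Nat.card_of_subsingleton (α := D.P α) 1
    rw [card_P D hΩ α] at this
    omega
  · have := pow_card_eq_one' (x := g)
    rw [card_P D hΩ α] at this
    exact congrArg Subtype.val this
  · intro y hy
    obtain ⟨k, hk⟩ := Subgroup.mem_zpowers_iff.mp (hg ⟨y, hy⟩)
    exact ⟨k, congrArg Subtype.val hk⟩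

theorem P_comm (α : Ω) (y z : H) (hy : y ∈ D.P α) (hz : z ∈ D.P α) : y * z = z * y := by
  obtain ⟨x, -, -, -, hgen⟩ := exists_gen D hΩ α
  obtain ⟨i, rfl⟩ := hgen y hy
  obtain ⟨j, rfl⟩ := hgen z hz
  exact (Commute.refl x).zpow_zpow i j

theorem P_pow (α : Ω) (y : H) (hy : y ∈ D.P α) : y ^ 17 = 1 := by
  have := pow_card_eq_one' (x := (⟨y, hy⟩ : D.P α))
  rw [card_P D hΩ α] at this
  exact congrArg Subtype.val this

omit [Finite H] [Finite Ω] [FaithfulSMul H Ω] [IsPretransitive H Ω] hΩ in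
theorem mem_norm (α : Ω) (s : H) (hs : s • α = α) : s ∈ Subgroup.normalizer (D.P α : Set H) := by
  rw [Subgroup.mem_normalizer_iff]
  intro y
  constructor
  · intro hy
    have := D.equiv s α y hy
    rwa [hs] at this
  · intro hy
    have hs' : s⁻¹ • α = α := by rw [inv_smul_eq_iff, hs]
    have := D.equiv s⁻¹ α _ hy
    rw [hs'] at this
    simpa [mul_assoc] using this

/-- An element of a two-point stabilizer centralizing `P α` is trivial. -/
theorem central_trivial (α δ : Ω) (h : δ ≠ α) (d : H) (hα : d • α = α) (hδ : d • δ = δ)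
    (hd : ∀ y ∈ D.P α, d * y = y * d) : d = 1 := by
  obtain ⟨δ', h'1, h'2⟩ := exists_other D hΩ α δ h
  have hfix1 : ∀ ω ∈ orbit (D.P α) δ, d • ω = ω := by
    rintro _ ⟨y, rfl⟩
    change d • ((y : H) • δ) = (y : H) • δ
    rw [smul_smul, hd y y.2, mul_smul, hδ]
  have hdδ' : d • δ' ∈ orbit (D.P α) δ' := by
    rcases cover D hΩ α δ δ' h h'1 h'2 (d • δ') with h0 | h1 | h2
    · exfalso
      apply h'1
      apply MulAction.injective d
      change d • δ' = d • α
      rw [h0, hα]
    · exfalso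
      obtain ⟨y, hy⟩ := h1
      apply h'2
      refine ⟨y, ?_⟩
      change (y : H) • δ = δ'
      have hy' : (y : H) • δ = d • δ' := hy
      apply MulAction.injective d
      change d • ((y : H) • δ) = d • δ'
      rw [← hy', smul_smul, hd y y.2, mul_smul, hδ]
    · exact h2
  obtain ⟨y₀, hy₀⟩ := hdδ'
  have hy₀' : (y₀ : H) • δ' = d • δ' := hy₀
  have on2 : ∀ ω ∈ orbit (D.P α) δ', d • ω = (y₀ : H) • ω := by
    rintro _ ⟨z, rfl⟩
    change d • ((z : H) • δ') = (y₀ : H) • ((z : H) • δ')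
    rw [smul_smul, hd z z.2, mul_smul, ← hy₀', smul_smul, smul_smul,
      P_comm D hΩ α _ _ y₀.2 z.2]
  have hy₀mem : ∀ ω ∈ orbit (D.P α) δ', (y₀ : H) • ω ∈ orbit (D.P α) δ' := by
    rintro _ ⟨z, rfl⟩
    exact ⟨y₀ * z, mul_smul y₀ z δ'⟩
  have pw : ∀ n : ℕ, ∀ ω ∈ orbit (D.P α) δ', d ^ n • ω = (y₀ : H) ^ n • ω := by
    intro n
    induction n with
    | zero => intro ω _; simp
    | succ n ih =>
      intro ω hω
      rw [pow_succ, mul_smul, on2 ω hω, ih _ (hy₀mem ω hω), pow_succ, mul_smul]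
  have hd17 : d ^ 17 = 1 := by
    apply FaithfulSMul.eq_of_smul_eq_smul (α := Ω)
    intro ω
    rw [one_smul]
    rcases cover D hΩ α δ δ' h h'1 h'2 ω with rfl | h1 | h2
    · have : d ∈ stabilizer H ω := hα
      exact (stabilizer H ω).pow_mem this 17
    · have : d ∈ stabilizer H ω := hfix1 ω h1
      exact (stabilizer H ω).pow_mem this 17
    · rw [pw 17 ω h2, P_pow D hΩ α _ y₀.2, one_smul]
  have hpz : IsPGroup 17 (Subgroup.zpowers d) := by
    intro g
    obtain ⟨g, hg⟩ := g
    obtain ⟨i, rfl⟩ := Subgroup.mem_zpowers_iff.mp hg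
    refine ⟨1, ?_⟩
    apply Subtype.ext
    simp only [pow_one, Subgroup.coe_pow, Subgroup.coe_one]
    rw [← zpow_natCast, ← zpow_mul, mul_comm, zpow_mul, zpow_natCast, hd17, one_zpow]
  have hdn : d ∈ Subgroup.normalizer (D.P α : Set H) := mem_norm D α d hα
  have hsup := (D.pgrp α).to_sup_of_normal_left' hpz ((Subgroup.zpowers_le).mpr hdn)
  have heq := D.sylow α _ hsup le_sup_left
  have hdm : d ∈ D.P α := by
    rw [← heq]
    exact (le_sup_right : Subgroup.zpowers d ≤ _) (Subgroup.mem_zpowers d)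
  exact stab_trivial D hΩ α δ h d hdm hδ


/-- Involutions with at least two fixed points invert `P α`. -/
theorem invert (α δ : Ω) (h : δ ≠ α) (t : H) (ht2 : t ^ 2 = 1) (ht1 : t ≠ 1) (tα : t • α = α)
    (tδ : t • δ = δ) : ∀ y ∈ D.P α, t * y * t⁻¹ = y⁻¹ := by
  obtain ⟨x, hx, hx1, hx17, hgen⟩ := exists_gen D hΩ α
  have hmem : t * x * t⁻¹ ∈ D.P α := by
    have := D.equiv t α x hx
    rwa [tα] at this
  obtain ⟨k, hk⟩ := hgen _ hmem
  have htt : t * t = 1 := by rw [← pow_two, ht2]
  have hti : t⁻¹ = t := inv_eq_of_mul_eq_one_left htt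
  have h1 : x ^ (k * k) = x := by
    rw [zpow_mul, hk, conj_zpow, hk, hti]
    calc t * (t * x * t) * t = (t * t) * x * (t * t) := by simp only [mul_assoc]
      _ = x := by rw [htt]; simp
  have hord : orderOf x = 17 := orderOf_eq_prime hx17 hx1
  have h2 : (17 : ℤ) ∣ k * k - 1 := by
    have h3 : x ^ (k * k - 1) = 1 := by
      rw [zpow_sub, h1, zpow_one, mul_inv_cancel]
    have h4 := orderOf_dvd_iff_zpow_eq_one.mpr h3
    rwa [hord] at h4
  have h3 : (17 : ℤ) ∣ (k - 1) * (k + 1) := by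
    convert h2 using 1
    ring
  have hprime : Prime (17 : ℤ) := Int.prime_iff_natAbs_prime.mpr (by norm_num)
  have hx17z : x ^ (17 : ℤ) = 1 := by
    have : x ^ ((17 : ℕ) : ℤ) = 1 := by rw [zpow_natCast, hx17]
    simpa using this
  rcases hprime.dvd_or_dvd h3 with h4 | h4
  · exfalso
    obtain ⟨m, hm⟩ := h4
    have hk1 : k = 17 * m + 1 := by omega
    have hxk : x ^ k = x := by
      rw [hk1, zpow_add, zpow_mul, hx17z, one_zpow, one_mul, zpow_one]
    apply ht1
    apply central_trivial D hΩ α δ h t tα tδ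
    intro y hy
    obtain ⟨i, rfl⟩ := hgen y hy
    have hc : Commute t x := by
      rw [hxk] at hk
      have : t * x = x * t := by
        have h5 := congrArg (fun a => a * t) hk
        simpa using h5.symm
      exact this
    exact (hc.zpow_right i)
  · obtain ⟨m, hm⟩ := h4
    have hk1 : k = 17 * m + (-1) := by omega
    have hxk : x ^ k = x⁻¹ := by
      rw [hk1, zpow_add, zpow_mul, hx17z, one_zpow, one_mul, zpow_neg_one]
    intro y hy
    obtain ⟨i, rfl⟩ := hgen y hy
    rw [← conj_zpow, ← hk, hxk, inv_zpow]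

/-- The fixed points of such an involution on an orbit are unique. -/
theorem fix_unique (α δ : Ω) (h : δ ≠ α) (t : H) (ht2 : t ^ 2 = 1) (ht1 : t ≠ 1) (tα : t • α = α)
    (tδ : t • δ = δ) (y : H) (hy : y ∈ D.P α) (hfix : t • (y • δ) = y • δ) : y = 1 := by
  have hinv := invert D hΩ α δ h t ht2 ht1 tα tδ y hy
  have hti : t⁻¹ • δ = δ := by rw [inv_smul_eq_iff, tδ]
  have h1 : t • (y • δ) = y⁻¹ • δ := by
    rw [← hinv, mul_smul, mul_smul, hti]
  have h2 : y⁻¹ • δ = y • δ := by rw [← h1, hfix]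
  have h3 : (y * y) • δ = δ := by
    rw [mul_smul, ← h2, smul_inv_smul]
  have h4 : y * y = 1 := stab_trivial D hΩ α δ h (y * y) (mul_mem hy hy) h3
  have h5 := P_pow D hΩ α y hy
  have h6 : y ^ 17 = y * (y * y) ^ 8 := by
    simp only [pow_succ, pow_zero, one_mul, mul_assoc]
  rw [h6, h4] at h5
  simpa using h5

omit [IsPretransitive H Ω] D hΩ in
/-- An involution has an odd number of fixed points on an odd set. -/
theorem odd_fix (hΩ : Nat.card Ω = 35) (t : H) (ht2 : t ^ 2 = 1) : {ω : Ω | t • ω = ω}.ncard % 2 = 1 := by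
  haveI : Fact (Nat.Prime 2) := ⟨by norm_num⟩
  have hp : IsPGroup 2 (Subgroup.zpowers t) := by
    intro g
    obtain ⟨g, hg⟩ := g
    obtain ⟨i, rfl⟩ := Subgroup.mem_zpowers_iff.mp hg
    refine ⟨1, ?_⟩
    apply Subtype.ext
    simp only [pow_one, Subgroup.coe_pow, Subgroup.coe_one]
    rw [← zpow_natCast, ← zpow_mul, mul_comm, zpow_mul, zpow_natCast, ht2, one_zpow]
  have h1 := hp.card_modEq_card_fixedPoints Ω
  have h2 : fixedPoints (Subgroup.zpowers t) Ω = {ω : Ω | t • ω = ω} := by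
    ext ω
    constructor
    · intro hω
      exact hω ⟨t, Subgroup.mem_zpowers t⟩
    · intro hω g
      obtain ⟨g, hg⟩ := g
      obtain ⟨i, rfl⟩ := Subgroup.mem_zpowers_iff.mp hg
      have hmem : t ∈ stabilizer H ω := hω
      exact (stabilizer H ω).zpow_mem hmem i
  rw [h2, Nat.card_coe_set_eq, hΩ] at h1
  have h3 : 35 % 2 = {ω : Ω | t • ω = ω}.ncard % 2 := h1
  omega

/-- The exact fixed points of such an involution. -/
theorem inv_fix (α δ : Ω) (h : δ ≠ α) (t : H) (ht2 : t ^ 2 = 1) (ht1 : t ≠ 1) (tα : t • α = α)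
    (tδ : t • δ = δ) : ∃ δ', δ' ≠ α ∧ δ' ∉ orbit (D.P α) δ ∧ t • δ' = δ' ∧
      ∀ ω, t • ω = ω ↔ ω = α ∨ ω = δ ∨ ω = δ' := by
  obtain ⟨δ₀, h01, h02⟩ := exists_other D hΩ α δ h
  have horb : ∀ ω ∈ orbit (D.P α) δ, t • ω = ω → ω = δ := by
    rintro _ ⟨y, rfl⟩ hf
    have := fix_unique D hΩ α δ h t ht2 ht1 tα tδ y.1 y.2 hf
    have hy1 : y = 1 := Subtype.ext this
    rw [hy1]
    exact one_smul _ _
  obtain ⟨δ', hδ'mem, hδ'fix⟩ : ∃ δ' ∈ orbit (D.P α) δ₀, t • δ' = δ' := by
    by_contra hcon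
    push Not at hcon
    have hset : {ω : Ω | t • ω = ω} = {α, δ} := by
      ext ω
      simp only [Set.mem_setOf_eq, Set.mem_insert_iff, Set.mem_singleton_iff]
      constructor
      · intro hω
        rcases cover D hΩ α δ δ₀ h h01 h02 ω with h1 | h1 | h1
        · exact Or.inl h1
        · exact Or.inr (horb ω h1 hω)
        · exact absurd hω (hcon ω h1)
      · rintro (rfl | rfl)
        · exact tα
        · exact tδ
    have hodd := odd_fix hΩ t ht2
    rw [hset, Set.ncard_pair h.symm] at hodd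
    omega
  have hδ'α : δ' ≠ α := by
    rintro rfl
    exact alpha_notMem D _ δ₀ h01 hδ'mem
  have hδ'δ : δ' ∉ orbit (D.P α) δ := by
    intro hin
    apply h02
    have h3 : orbit (D.P α) δ' = orbit (D.P α) δ₀ := orbit_eq_iff.mpr hδ'mem
    have h4 : orbit (D.P α) δ' = orbit (D.P α) δ := orbit_eq_iff.mpr hin
    rw [← h4, h3]
    exact mem_orbit_self δ₀
  refine ⟨δ', hδ'α, hδ'δ, hδ'fix, ?_⟩
  intro ω
  constructor
  · intro hω
    rcases cover D hΩ α δ δ' h hδ'α hδ'δ ω with h1 | h1 | h1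
    · exact Or.inl h1
    · exact Or.inr (Or.inl (horb ω h1 hω))
    · right; right
      obtain ⟨y, rfl⟩ := h1
      have := fix_unique D hΩ α δ' hδ'α t ht2 ht1 tα hδ'fix y.1 y.2 hω
      have hy1 : y = 1 := Subtype.ext this
      rw [hy1]
      exact one_smul _ _
  · rintro (rfl | rfl | rfl)
    · exact tα
    · exact tδ
    · exact hδ'fix

/-- Involutions with two fixed points. -/
def Inv2 (H Ω : Type*) [Group H] [MulAction H Ω] : Set H :=
  {t | t ^ 2 = 1 ∧ t ≠ 1 ∧ ∃ a b : Ω, a ≠ b ∧ t • a = a ∧ t • b = b}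

omit [Finite H] [Finite Ω] [FaithfulSMul H Ω] [IsPretransitive H Ω] D hΩ in
theorem exists_second (t : H) (ht : t ∈ Inv2 H Ω) (α : Ω) : ∃ δ, δ ≠ α ∧ t • δ = δ := by
  obtain ⟨-, -, a, b, hab, ha, hb⟩ := ht
  by_cases h : a = α
  · subst h
    exact ⟨b, hab.symm, hb⟩
  · exact ⟨a, h, ha⟩

theorem inv2_ncard (t : H) (ht : t ∈ Inv2 H Ω) : {ω : Ω | t • ω = ω}.ncard = 3 := by
  obtain ⟨ht2, ht1, a, b, hab, ha, hb⟩ := ht
  obtain ⟨δ', h1, h2, h3, h4⟩ := inv_fix D hΩ a b hab.symm t ht2 ht1 ha hb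
  have hset : {ω : Ω | t • ω = ω} = {a, b, δ'} := by
    ext ω
    simp only [Set.mem_setOf_eq, Set.mem_insert_iff, Set.mem_singleton_iff]
    exact h4 ω
  have hbδ : b ≠ δ' := by
    rintro rfl
    exact h2 (mem_orbit_self _)
  rw [hset, Set.ncard_insert_of_notMem, Set.ncard_pair hbδ]
  simp only [Set.mem_insert_iff, Set.mem_singleton_iff, not_or]
  exact ⟨hab, h1.symm⟩

/-- If an involution with two fixed points fixes `α`, exactly 17 do. -/
theorem J_card (α : Ω) (t₀ : H) (ht₀ : t₀ ∈ Inv2 H Ω) (hα : t₀ • α = α) :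
    {t : H | t ∈ Inv2 H Ω ∧ t • α = α}.ncard = 17 := by
  obtain ⟨δ₀, hδ₀, hfδ₀⟩ := exists_second t₀ ht₀ α
  have ht₀2 := ht₀.1
  have ht₀1 := ht₀.2.1
  have htt : t₀ * t₀ = 1 := by rw [← pow_two, ht₀2]
  let f : D.P α → H := fun y => (y : H) * t₀ * (y : H)⁻¹
  have hinv₀ := invert D hΩ α δ₀ hδ₀ t₀ ht₀2 ht₀1 hα hfδ₀
  have hf : Function.Injective f := by
    intro y z hyz
    have hyz' : (y : H) * t₀ * (y : H)⁻¹ = (z : H) * t₀ * (z : H)⁻¹ := hyz
    set w : H := (z : H)⁻¹ * (y : H) with hw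
    have hwm : w ∈ D.P α := mul_mem (inv_mem z.2) y.2
    have h1 : t₀ * w * t₀⁻¹ = w := by
      have h2 : w * t₀ = t₀ * w := by
        rw [hw]
        have h3 : (z : H)⁻¹ * ((y : H) * t₀ * (y : H)⁻¹) * (y : H) = (z : H)⁻¹ * ((z : H) * t₀ * (z : H)⁻¹) * (y : H) := by
          rw [hyz']
        simpa [mul_assoc] using h3
      rw [← h2]
      simp
    have h2 := hinv₀ w hwm
    rw [h1] at h2
    have h3 : w * w = 1 := by
      nth_rewrite 1 [h2]
      simp
    have h5 := P_pow D hΩ α w hwm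
    have h6 : w ^ 17 = w * (w * w) ^ 8 := by
      simp only [pow_succ, pow_zero, one_mul, mul_assoc]
    rw [h6, h3] at h5
    have hw1 : w = 1 := by simpa using h5
    rw [hw, inv_mul_eq_one] at hw1
    exact (Subtype.ext hw1).symm
  have hrange : {t : H | t ∈ Inv2 H Ω ∧ t • α = α} = Set.range f := by
    ext t
    constructor
    · rintro ⟨ht, htα⟩
      obtain ⟨δ₁, hδ₁, hfδ₁⟩ := exists_second t ht α
      have ht2 := ht.1
      have ht1 := ht.2.1
      obtain ⟨δ₁', h1', h2', h3', -⟩ := inv_fix D hΩ α δ₁ hδ₁ t ht2 ht1 htα hfδ₁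
      -- a fixed point of `t` in the orbit of `δ₀`
      obtain ⟨c, hc, hfc⟩ : ∃ c ∈ orbit (D.P α) δ₀, t • c = c := by
        by_cases hin : δ₁ ∈ orbit (D.P α) δ₀
        · exact ⟨δ₁, hin, hfδ₁⟩
        · rcases cover D hΩ α δ₀ δ₁ hδ₀ hδ₁ hin δ₁' with h5 | h5 | h5
          · exact absurd h5 h1'
          · exact ⟨δ₁', h5, h3'⟩
          · exact absurd h5 h2'
      obtain ⟨y, rfl⟩ := hc
      have hy' : (y : H) • δ₀ = y • δ₀ := rfl
      set t' : H := (y : H)⁻¹ * t * (y : H) with ht'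
      have hyα : (y : H) • α = α := D.fix' α y.1 y.2
      have hyiα : (y : H)⁻¹ • α = α := by rw [inv_smul_eq_iff, hyα]
      have httt : t * t = 1 := by rw [← pow_two, ht2]
      have ht'2 : t' ^ 2 = 1 := by
        rw [pow_two, ht']
        calc (y : H)⁻¹ * t * (y : H) * ((y : H)⁻¹ * t * (y : H))
            = (y : H)⁻¹ * (t * t) * (y : H) := by group
          _ = 1 := by rw [httt]; group
      have ht'1 : t' ≠ 1 := by
        intro h0
        apply ht1
        have h5 : t = (y : H) * t' * (y : H)⁻¹ := by rw [ht']; group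
        rw [h5, h0]
        group
      have ht'α : t' • α = α := by
        rw [ht', mul_smul, mul_smul, hyα, htα, hyiα]
      have ht'δ : t' • δ₀ = δ₀ := by
        have hfc' : t • ((y : H) • δ₀) = (y : H) • δ₀ := hfc
        rw [ht', mul_smul, mul_smul, hfc', inv_smul_smul]
      have hinv' := invert D hΩ α δ₀ hδ₀ t' ht'2 ht'1 ht'α ht'δ
      have hd1 : t₀ * t' = 1 := by
        apply central_trivial D hΩ α δ₀ hδ₀
        · rw [mul_smul, ht'α, hα]
        · rw [mul_smul, ht'δ, hfδ₀]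
        · intro z hz
          have e1 := hinv' z hz
          have e2 := hinv₀ z⁻¹ (inv_mem hz)
          rw [inv_inv] at e2
          calc t₀ * t' * z = t₀ * (t' * z * t'⁻¹) * t' := by group
            _ = t₀ * z⁻¹ * t' := by rw [e1]
            _ = (t₀ * z⁻¹ * t₀⁻¹) * (t₀ * t') := by group
            _ = z * (t₀ * t') := by rw [e2]
      have ht't₀ : t' = t₀ := by
        have h5 : t' = t₀⁻¹ := eq_inv_of_mul_eq_one_right hd1
        rw [h5]
        exact inv_eq_of_mul_eq_one_left htt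
      refine ⟨y, ?_⟩
      change (y : H) * t₀ * (y : H)⁻¹ = t
      rw [← ht't₀, ht']
      group
    · rintro ⟨y, rfl⟩
      change (y : H) * t₀ * (y : H)⁻¹ ∈ Inv2 H Ω ∧ ((y : H) * t₀ * (y : H)⁻¹) • α = α
      have hyα : (y : H) • α = α := D.fix' α y.1 y.2
      have hyiα : (y : H)⁻¹ • α = α := by rw [inv_smul_eq_iff, hyα]
      have hfixα : ((y : H) * t₀ * (y : H)⁻¹) • α = α := by
        rw [mul_smul, mul_smul, hyiα, hα, hyα]
      refine ⟨⟨?_, ?_, α, (y : H) • δ₀, ?_, hfixα, ?_⟩, hfixα⟩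
      · rw [conj_pow, ht₀2]
        group
      · intro h0
        apply ht₀1
        have h5 : t₀ = (y : H)⁻¹ * ((y : H) * t₀ * (y : H)⁻¹) * (y : H) := by group
        rw [h5, h0]
        group
      · intro h0
        apply hδ₀
        have h5 := congrArg (fun a => (y : H)⁻¹ • a) h0
        simp only [inv_smul_smul, hyiα] at h5
        exact h5.symm
      · rw [mul_smul, mul_smul, inv_smul_smul, hfδ₀]
  rw [hrange, ← Nat.card_coe_set_eq, Nat.card_range_of_injective hf, card_P D hΩ α]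


/-- No involution has two fixed points. -/
theorem no_inv2 : Inv2 H Ω = ∅ := by
  by_contra hne
  obtain ⟨t₀, ht₀⟩ := Set.nonempty_iff_ne_empty.mpr hne
  classical
  haveI := Fintype.ofFinite H
  haveI := Fintype.ofFinite Ω
  have hfa : ∃ a : Ω, t₀ • a = a := by
    obtain ⟨-, -, a, -, -, ha, -⟩ := ht₀
    exact ⟨a, ha⟩
  obtain ⟨a, ha⟩ := hfa
  have hJ : ∀ ω : Ω, {t : H | t ∈ Inv2 H Ω ∧ t • ω = ω}.ncard = 17 := by
    intro ω
    obtain ⟨h, rfl⟩ := exists_smul_eq H a ω
    apply J_card D hΩ (h • a) (h * t₀ * h⁻¹)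
    · obtain ⟨h2, h1, b, c, hbc, hb, hc⟩ := ht₀
      refine ⟨?_, ?_, h • b, h • c, ?_, ?_, ?_⟩
      · rw [conj_pow, h2]
        group
      · intro h0
        apply h1
        have h5 : t₀ = h⁻¹ * (h * t₀ * h⁻¹) * h := by group
        rw [h5, h0]
        group
      · intro h0
        exact hbc (MulAction.injective h h0)
      · rw [mul_smul, mul_smul, inv_smul_smul, hb]
      · rw [mul_smul, mul_smul, inv_smul_smul, hc]
    · rw [mul_smul, mul_smul, inv_smul_smul, ha]
  let I : Finset H := Finset.univ.filter (· ∈ Inv2 H Ω)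
  have key := Finset.sum_card_bipartiteAbove_eq_sum_card_bipartiteBelow (s := I)
    (t := (Finset.univ : Finset Ω)) (fun (t : H) (ω : Ω) => t • ω = ω)
  have hL : ∀ t ∈ I, (Finset.bipartiteAbove (fun (t : H) (ω : Ω) => t • ω = ω)
      (Finset.univ : Finset Ω) t).card = 3 := by
    intro t ht
    have ht' : t ∈ Inv2 H Ω := (Finset.mem_filter.mp ht).2
    rw [← inv2_ncard D hΩ t ht', ← Set.ncard_coe_finset]
    congr 1
    ext ω
    simp [Finset.bipartiteAbove]
  have hR : ∀ ω ∈ (Finset.univ : Finset Ω), (Finset.bipartiteBelow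
      (fun (t : H) (ω : Ω) => t • ω = ω) I ω).card = 17 := by
    intro ω _
    rw [← hJ ω, ← Set.ncard_coe_finset]
    congr 1
    ext t
    simp [Finset.bipartiteBelow, I]
  rw [Finset.sum_congr rfl hL, Finset.sum_congr rfl hR] at key
  simp only [Finset.sum_const, smul_eq_mul, Finset.card_univ] at key
  rw [← Nat.card_eq_fintype_card, hΩ] at key
  omega

/-- Two-point stabilizers are trivial. -/
theorem two_stab_trivial (α δ : Ω) (h : δ ≠ α) (d : H) (dα : d • α = α) (dδ : d • δ = δ) :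
    d = 1 := by
  set S : Subgroup H := stabilizer H α ⊓ stabilizer H δ with hS
  have hle : S ≤ Subgroup.normalizer (D.P α : Set H) := fun s hs => mem_norm D α s hs.1
  let φ : S →* MulAut (D.P α) := (D.P α).normalizerMonoidHom.comp (Subgroup.inclusion hle)
  have hφ : Function.Injective φ := by
    rw [injective_iff_map_eq_one]
    intro s hs
    have h1 : Subgroup.inclusion hle s ∈ (D.P α).normalizerMonoidHom.ker := hs
    rw [Subgroup.normalizerMonoidHom_ker, Subgroup.mem_subgroupOf] at h1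
    rw [Subgroup.mem_centralizer_iff] at h1
    apply Subtype.ext
    apply central_trivial D hΩ α δ h s.1 s.2.1 s.2.2
    intro y hy
    exact (h1 y hy).symm
  have hc : IsCyclic (D.P α) := isCyclic_of_prime_card (p := 17) (card_P D hΩ α)
  have hdvd : Nat.card S ∣ 16 := by
    have h1 := Subgroup.card_dvd_of_injective φ hφ
    rw [IsCyclic.card_mulAut, card_P D hΩ α] at h1
    have h2 : Nat.totient 17 = 16 := by decide
    rwa [h2] at h1
  have hS1 : Nat.card S = 1 := by
    by_contra hne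
    have h2 : 2 ∣ Nat.card S := by
      have h3 : Nat.card S ∈ Nat.divisors 16 := by
        rw [Nat.mem_divisors]; exact ⟨hdvd, by norm_num⟩
      have h4 : Nat.divisors 16 = {1, 2, 4, 8, 16} := by decide
      rw [h4] at h3
      simp only [Finset.mem_insert, Finset.mem_singleton] at h3
      rcases h3 with h3 | h3 | h3 | h3 | h3 <;> rw [h3] <;> first | exact absurd h3 hne | norm_num
    obtain ⟨t, ht⟩ := exists_prime_orderOf_dvd_card' (G := S) 2 h2
    have hmem : (t : H) ∈ Inv2 H Ω := by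
      refine ⟨?_, ?_, α, δ, h.symm, t.2.1, t.2.2⟩
      · have := pow_orderOf_eq_one t
        rw [ht] at this
        exact congrArg Subtype.val this
      · intro h0
        have : t = 1 := Subtype.ext h0
        rw [this, orderOf_one] at ht
        omega
    rw [no_inv2 D hΩ] at hmem
    exact hmem
  have hsub : Subsingleton S := (Nat.card_eq_one_iff_unique.mp hS1).1
  have : (⟨d, dα, dδ⟩ : S) = 1 := Subsingleton.elim _ _
  exact congrArg Subtype.val this

/-- The point stabilizer has order 17 or 34. -/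
theorem card_stab (α : Ω) : Nat.card (stabilizer H α) = 17 ∨ Nat.card (stabilizer H α) = 34 := by
  obtain ⟨δ, hδ⟩ := exists_ne' D hΩ α
  have hinj : Function.Injective (fun m : stabilizer H α =>
      (⟨(m : H) • δ, by
        intro h0
        apply hδ
        have hm : (m : H) • α = α := m.2
        rw [Set.mem_singleton_iff] at h0
        apply MulAction.injective (m : H)
        change (m : H) • δ = (m : H) • α
        rw [h0, hm]⟩ : (({α} : Set Ω)ᶜ : Set Ω))) := by
    intro m n hmn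
    have h1 : (m : H) • δ = (n : H) • δ := congrArg Subtype.val hmn
    have h2 : (n : H)⁻¹ * (m : H) = 1 := by
      apply two_stab_trivial D hΩ α δ hδ
      · have hm : (m : H) • α = α := m.2
        have hn : (n : H) • α = α := n.2
        rw [mul_smul, hm, inv_smul_eq_iff, hn]
      · rw [mul_smul, h1, inv_smul_smul]
    rw [inv_mul_eq_one] at h2
    exact (Subtype.ext h2).symm
  have hle := Nat.card_le_card_of_injective _ hinj
  rw [Nat.card_coe_set_eq] at hle
  have hcompl := Set.ncard_add_ncard_compl ({α} : Set Ω)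
  rw [Set.ncard_singleton, hΩ] at hcompl
  have hdvd : 17 ∣ Nat.card (stabilizer H α) := by
    rw [← card_P D hΩ α]
    apply Subgroup.card_dvd_of_le
    intro g hg
    exact D.fix' α g hg
  obtain ⟨c, hc⟩ := hdvd
  have hpos : 0 < Nat.card (stabilizer H α) := Nat.card_pos
  rw [hc] at hle hpos ⊢
  have hc2 : c = 1 ∨ c = 2 := by omega
  rcases hc2 with rfl | rfl
  · left; rfl
  · right; rfl

include D hΩ in
/-- The final contradiction. -/
theorem final : False := by
  obtain ⟨α⟩ : Nonempty Ω := by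
    have : 0 < Nat.card Ω := by omega
    exact (Nat.card_pos_iff.mp this).1
  have hcard := (stabilizer H α).card_mul_index
  rw [index_stabilizer_of_transitive, hΩ] at hcard
  have hH : Nat.card H = 595 ∨ Nat.card H = 1190 := by
    rcases card_stab D hΩ α with h1 | h1 <;> rw [h1] at hcard <;> omega
  haveI : Fact (Nat.Prime 5) := ⟨by norm_num⟩
  obtain ⟨F⟩ : Nonempty (Sylow 5 H) := inferInstance
  have hidx := (F : Subgroup H).card_mul_index
  have hnd : ¬ 5 ∣ (F : Subgroup H).index := F.not_dvd_index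
  obtain ⟨k, hk⟩ := IsPGroup.iff_card.mp F.isPGroup'
  have hk1 : k = 1 := by
    rw [hk] at hidx
    have hk0 : k ≠ 0 := by
      rintro rfl
      apply hnd
      rcases hH with h1 | h1 <;> rw [h1] at hidx <;> omega
    have hk2 : k < 2 := by
      by_contra hk2
      obtain ⟨j, rfl⟩ : ∃ j, k = j + 2 := ⟨k - 2, by omega⟩
      rw [pow_add] at hidx
      have : 25 ∣ Nat.card H := ⟨5 ^ j * (F : Subgroup H).index, by rw [← hidx]; ring⟩
      rcases hH with h1 | h1 <;> rw [h1] at this <;> omega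
    omega
  subst hk1
  have hF5 : Nat.card (F : Subgroup H) = 5 := by simpa using hk
  rw [hF5] at hidx
  have hn1 : Nat.card (Sylow 5 H) = 1 := by
    have hd : Nat.card (Sylow 5 H) ∣ (F : Subgroup H).index := F.card_dvd_index
    have hm := card_sylow_modEq_one 5 H
    have hd238 : Nat.card (Sylow 5 H) ∣ 238 := by
      apply hd.trans
      rcases hH with h1 | h1
      · have : (F : Subgroup H).index = 119 := by omega
        rw [this]; norm_num
      · have : (F : Subgroup H).index = 238 := by omega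
        rw [this]
    have h3 : Nat.card (Sylow 5 H) ∈ Nat.divisors 238 := by
      rw [Nat.mem_divisors]; exact ⟨hd238, by norm_num⟩
    have h4 : Nat.divisors 238 = {1, 2, 7, 14, 17, 34, 119, 238} := by decide
    rw [h4] at h3
    simp only [Finset.mem_insert, Finset.mem_singleton] at h3
    have hm' : Nat.card (Sylow 5 H) % 5 = 1 % 5 := hm
    omega
  have hsub : Subsingleton (Sylow 5 H) := (Nat.card_eq_one_iff_unique.mp hn1).1
  have hnorm : (F : Subgroup H).Normal := F.normal_of_subsingleton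
  have hc5 : IsCyclic (F : Subgroup H) := isCyclic_of_prime_card (p := 5) hF5
  have hAut : Nat.card (MulAut (F : Subgroup H)) = 4 := by
    rw [IsCyclic.card_mulAut, hF5]
    decide
  -- `F` commutes with every `P ω`
  have hcomm : ∀ ω, ∀ x ∈ D.P ω, ∀ f ∈ (F : Subgroup H), x * f * x⁻¹ = f := by
    intro ω x hx f hf
    have hx17 := P_pow D hΩ ω x hx
    let c := MulAut.conjNormal (H := (F : Subgroup H)) x
    have h1 : c ^ 17 = 1 := by
      have : c ^ 17 = MulAut.conjNormal (H := (F : Subgroup H)) (x ^ 17) := by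
        rw [map_pow]
      rw [this, hx17, map_one]
    have h2 : c ^ 4 = 1 := by
      have := pow_card_eq_one' (x := c)
      rwa [hAut] at this
    have h3 : c = 1 := by
      have h4 : orderOf c ∣ 1 := by
        have := Nat.dvd_gcd (orderOf_dvd_of_pow_eq_one h1) (orderOf_dvd_of_pow_eq_one h2)
        simpa using this
      have h5 : orderOf c = 1 := Nat.dvd_one.mp h4
      exact orderOf_eq_one_iff.mp h5
    have h6 : (c ⟨f, hf⟩ : H) = x * f * x⁻¹ := MulAut.conjNormal_apply _ _
    rw [← h6, h3]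
    rfl
  -- so `F` acts trivially
  have htriv : ∀ f ∈ (F : Subgroup H), f = 1 := by
    intro f hf
    apply FaithfulSMul.eq_of_smul_eq_smul (α := Ω)
    intro ω
    rw [one_smul]
    apply D.fix ω
    intro g hg
    have h1 := hcomm ω g hg f hf
    have h2 : g * f = f * g := by
      have h3 := congrArg (fun a => a * g) h1
      simpa using h3
    rw [smul_smul, h2, mul_smul, D.fix' ω g hg]
  have hbot : (F : Subgroup H) = ⊥ := (Subgroup.eq_bot_iff_forall _).mpr htriv
  rw [hbot] at hF5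
  simp at hF5


omit D hΩ in
/-- No finite group has exactly 35 Sylow 17-subgroups. -/
theorem main {G : Type*} [Group G] [Finite G] : Nat.card (Sylow 17 G) ≠ 35 := by
  intro hn
  let Ω' := Sylow 17 G
  let φ : G →* Equiv.Perm Ω' := MulAction.toPermHom G Ω'
  let H' := φ.range
  let f : G →* H' := φ.rangeRestrict
  have hf : Function.Surjective f := φ.rangeRestrict_surjective
  haveI faithful : FaithfulSMul H' Ω' := ⟨fun h => Subtype.ext (Equiv.ext h)⟩
  haveI htrans : IsPretransitive H' Ω' :=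
    ⟨fun a b => by
      obtain ⟨g, hg⟩ := exists_smul_eq G a b
      exact ⟨f g, hg⟩⟩
  let D' : Data H' Ω' :=
    { P := fun α => (α : Subgroup G).map f
      pgrp := fun α => (α.mapSurjective hf).isPGroup'
      sylow := fun α Q hQ hle => (α.mapSurjective hf).is_maximal' hQ hle
      fix := by
        intro α β hfix
        have h1 : (α : Subgroup G) ≤ Subgroup.normalizer (β : Set G) := by
          intro g hg
          rw [← Sylow.smul_eq_iff_mem_normalizer]
          exact hfix (f g) (Subgroup.mem_map_of_mem f hg)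
        have h2 := α.isPGroup'.inf_normalizer_sylow β
        have h3 : (α : Subgroup G) ≤ β := by
          have h4 : (α : Subgroup G) ⊓ Subgroup.normalizer (β : Set G) = α :=
            inf_eq_left.mpr h1
          rw [h4] at h2
          rw [h2]
          exact inf_le_right
        exact Sylow.ext (α.is_maximal' β.isPGroup' h3)
      fix' := by
        rintro α _ ⟨g, hg, rfl⟩
        exact Sylow.smul_eq_iff_mem_normalizer.mpr (Subgroup.le_normalizer hg)
      equiv := by
        rintro h α _ ⟨g, hg, rfl⟩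
        obtain ⟨h, rfl⟩ := hf h
        refine ⟨h * g * h⁻¹, ?_, by simp⟩
        change h * g * h⁻¹ ∈ ((h • α : Sylow 17 G) : Subgroup G)
        rw [Sylow.coe_subgroup_smul]
        exact Subgroup.smul_mem_pointwise_smul g (MulAut.conj h) _ hg }
  exact final D' hn

end CfsgLib.Syl35
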