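import Cfsg.Agent.Lib.FGS.FrobThm
import Cfsg.Agent.Lib.Lead.Derangements
import Cfsg.Agent.Lib.Fusion.GroupSys
import Cfsg.Agent.Lib.Trans.Basic
import Cfsg.Agent.Lib.H3.RelFrob
import Cfsg.Prelude.Def_OddOrderLocal

/-! TI subgroups which are Hall subgroups of their normalizers. -/

set_option autoImplicit false
set_option linter.unusedSectionVars false

namespace CfsgLib.TIHall

open Subgroup Cfsg CfsgLib.Char CfsgLib.FGS
open scoped ComplexConjugate Pointwise

universe u

section Chars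

variable {G : Type u} [Group G] [Fintype G] (N : Subgroup G) [Fintype N]

theorem frobStar_norm_ti (S : Set G) (hS : ∀ g : G, g ∉ N → ∀ t ∈ S, g * t * g⁻¹ ∈ S → t = 1)
    {θ : N → ℂ} (hθ : IsIrrCharacter N θ) (d : ℕ) (hd : θ 1 = d)
    (hvan : ∀ x : N, (x : G) ∉ S → θ x = d) :
    classInner (frobStar N θ d : G → ℂ) (frobStar N θ d) = 1 := by
  set u : G → ℂ := fun _ => 1 with hu
  set v : N → ℂ := fun _ => 1 with hv
  have hvirr : IsIrrCharacter N v := isIrrCharacter_one
  have huirr : IsIrrCharacter G u := isIrrCharacter_one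
  set ψ0 : N → ℂ := θ - (d : ℂ) • v with hψ0
  have hcl : IsClassFunction N ψ0 :=
    IsClassFunction.sub' hθ.isClassFunction (IsClassFunction.smul' hvirr.isClassFunction _)
  set a : G → ℂ := indFun N ψ0 with ha
  have hψ01 : ψ0 1 = 0 := by
    simp [hψ0, hv, hd]
  have hv0 : ∀ x : N, (x : G) ∉ S → ψ0 x = 0 := by
    intro x hx
    simp [hψ0, hv, hvan x hx]
  have h1 : classInner a a = classInner ψ0 ψ0 := classInner_indFun_of_TI N S hS ψ0 ψ0 hcl hv0 hv0 hψ01
  obtain ⟨e, he⟩ := hθ.isCharacter.classInner_nat hvirr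
  have he' : classInner v θ = e := by
    rw [← conj_classInner, he, Complex.conj_natCast]
  have h2 : classInner ψ0 ψ0 = 1 - 2 * d * e + d ^ 2 := by
    rw [hψ0, classInner_sub_left, classInner_sub_right, classInner_sub_right,
      classInner_smul_left, classInner_smul_left, classInner_smul_right, classInner_smul_right,
      classInner_irr_self hθ, classInner_irr_self hvirr, he, he', Complex.conj_natCast]
    ring
  have h3 : classInner a u = (e : ℂ) - d := by
    rw [ha, frobenius N ψ0 huirr.isClassFunction]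
    change classInner ψ0 v = _
    rw [hψ0, classInner_sub_left, classInner_smul_left, he, classInner_irr_self hvirr, mul_one]
  have h4 : classInner u a = (e : ℂ) - d := by
    rw [← conj_classInner, h3]
    simp
  have hF : (frobStar N θ d : G → ℂ) = a + (d : ℂ) • u := rfl
  rw [hF, classInner_add_left, classInner_add_right, classInner_add_right, classInner_smul_left,
    classInner_smul_right, classInner_smul_right, Complex.conj_natCast, classInner_smul_left,
    h1, h2, h3, h4, classInner_irr_self huirr]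
  ring

theorem frobStar_isIrr_ti (S : Set G) (hS : ∀ g : G, g ∉ N → ∀ t ∈ S, g * t * g⁻¹ ∈ S → t = 1)
    {θ : N → ℂ} (hθ : IsIrrCharacter N θ) (d : ℕ) (hd : θ 1 = d)
    (hvan : ∀ x : N, (x : G) ∉ S → θ x = d) : IsIrrCharacter G (frobStar N θ d) := by
  have hd0 : 0 < d := by
    have h := hθ.map_one_ne_zero
    rw [hd] at h
    have : d ≠ 0 := by
      rintro rfl
      simp at h
    omega
  set u : G → ℂ := fun _ => 1 with hu
  set v : N → ℂ := fun _ => 1 with hv
  have hvirr : IsIrrCharacter N v := isIrrCharacter_one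
  have huirr : IsIrrCharacter G u := isIrrCharacter_one
  have hF : (frobStar N θ d : G → ℂ) = (indFun N θ + d • u) - (d • indFun N v) := by
    funext g
    simp only [frobStar, indFun_sub, indFun_smul, Pi.add_apply, Pi.sub_apply, Pi.smul_apply,
      smul_eq_mul]
    simp only [nsmul_eq_mul, hu, hv]
    ring
  rw [hF]
  have hχ : IsCharacter G (indFun N θ + d • u) :=
    (isCharacter_indFun N hθ.isCharacter).add (huirr.isCharacter.nsmul _)
  have hψ : IsCharacter G (d • indFun N v) :=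
    (isCharacter_indFun N hvirr.isCharacter).nsmul _
  refine isIrr_of_gen_norm_one hχ hψ ?_ d hd0 ?_
  · rw [← hF]
    exact frobStar_norm_ti N S hS hθ d hd hvan
  · rw [← hF]
    have h1 := indFun_one N (θ - (d : ℂ) • v)
    simp only [Pi.sub_apply, Pi.smul_apply, hd, hv, smul_eq_mul, mul_one, sub_self, mul_zero] at h1
    simp only [frobStar, Pi.add_apply, Pi.smul_apply, smul_eq_mul, mul_one]
    have h2 : indFun N (θ - (d : ℂ) • v) (1 : G) = 0 := by
      simpa using h1
    rw [h2, zero_add]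

theorem frobStar_of_mem_ti (S : Set G) (hS : ∀ g : G, g ∉ N → ∀ t ∈ S, g * t * g⁻¹ ∈ S → t = 1)
    {θ : N → ℂ} (hθ : IsIrrCharacter N θ) (d : ℕ)
    (hvan : ∀ x : N, (x : G) ∉ S → θ x = d) (h : N) (hhS : (h : G) ∈ S) (hh : h ≠ 1) :
    frobStar N θ d (h : G) = θ h := by
  set v : N → ℂ := fun _ => 1 with hv
  have hvirr : IsIrrCharacter N v := isIrrCharacter_one
  have hcl : IsClassFunction N (θ - (d : ℂ) • v) :=
    IsClassFunction.sub' hθ.isClassFunction (IsClassFunction.smul' hvirr.isClassFunction _)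
  have h1 := indFun_eq_of_TI N S hS (θ - (d : ℂ) • v) hcl
    (fun x hx => by simp [hv, hvan x hx]) h hhS hh
  simp only [frobStar, Pi.add_apply, Pi.smul_apply, smul_eq_mul, mul_one]
  change indFun N (θ - (d : ℂ) • v) h + _ = _
  rw [h1]
  simp [hv]

theorem frobStar_one_ti {θ : N → ℂ} (d : ℕ) (hd : θ 1 = d) : frobStar N θ d (1 : G) = d := by
  have h1 := indFun_one N (θ - (d : ℂ) • (fun _ => (1 : ℂ)))
  simp only [Pi.sub_apply, Pi.smul_apply, hd, smul_eq_mul, mul_one, sub_self, mul_zero] at h1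
  simp only [frobStar, Pi.add_apply, Pi.smul_apply, smul_eq_mul, mul_one]
  have h2 : indFun N (θ - (d : ℂ) • (fun _ => (1 : ℂ))) (1 : G) = 0 := by
    simpa using h1
  rw [h2, zero_add]

theorem frobStar_of_zero_ti {θ : N → ℂ} (d : ℕ) (x : G)
    (hx : ∀ (g : G) (hg : g⁻¹ * x * g ∈ N), θ ⟨_, hg⟩ = d) : frobStar N θ d x = d := by
  simp only [frobStar, Pi.add_apply, Pi.smul_apply, smul_eq_mul, mul_one]
  have h1 : indFun N (θ - (d : ℂ) • (fun _ => (1 : ℂ))) x = 0 := by
    rw [indFun_def]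
    have : ∀ g : G, extendByZero N (θ - (d : ℂ) • (fun _ => (1 : ℂ))) (g⁻¹ * x * g) = 0 := by
      intro g
      by_cases hg : g⁻¹ * x * g ∈ N
      · rw [extendByZero_of_mem _ _ hg]
        simp [hx g hg]
      · exact extendByZero_of_not_mem _ _ hg
    simp [this]
  rw [h1, zero_add]

end Chars

/-- Jordan's lemma: a finite group is not the union of the conjugates of a proper subgroup. -/
theorem eq_top_of_conj {G : Type*} [Group G] [Finite G] (L : Subgroup G)
    (h : ∀ g : G, ∃ x : G, x * g * x⁻¹ ∈ L) : L = ⊤ := by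
  by_contra hne
  obtain ⟨g, hg⟩ : ∃ g, g ∉ L := by
    by_contra hcon
    push Not at hcon
    exact hne (eq_top_iff.2 fun x _ => hcon x)
  haveI : Nonempty (G ⧸ L) := ⟨(1 : G)⟩
  have hmain := (CfsgLib.Lead.derange_main (G := G) (Ω := G ⧸ L) inferInstance).1
  obtain ⟨⟨d, hd⟩, hdg⟩ := hmain.exists_smul_eq ((1 : G) : G ⧸ L) (g : G ⧸ L)
  have hd1 : d ≠ 1 := by
    rintro rfl
    have h1 : ((1 : G) : G ⧸ L) = (g : G ⧸ L) := by
      simpa using hdg
    rw [QuotientGroup.eq] at h1
    apply hg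
    simpa using h1
  have hex : ∃ g₀ : G, ∀ ω : G ⧸ L, g₀ • ω ≠ ω := by
    by_contra hcon
    have hemp : {g : G | ∀ ω : G ⧸ L, g • ω ≠ ω} = ∅ := by
      ext g₀
      simp only [Set.mem_setOf_eq, Set.mem_empty_iff_false, iff_false]
      intro h'
      exact hcon ⟨g₀, h'⟩
    rw [CfsgLib.Lead.derangeSub, hemp, Subgroup.closure_empty, Subgroup.mem_bot] at hd
    exact hd1 hd
  obtain ⟨g₀, hg₀⟩ := hex
  obtain ⟨x, hx⟩ := h g₀
  apply hg₀ ((x⁻¹ : G) : G ⧸ L)
  change ((g₀ * x⁻¹ : G) : G ⧸ L) = (x⁻¹ : G)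
  rw [QuotientGroup.eq]
  have e : (g₀ * x⁻¹)⁻¹ * x⁻¹ = x * g₀⁻¹ * x⁻¹ := by group
  rw [e]
  have := L.inv_mem hx
  have e2 : (x * g₀ * x⁻¹)⁻¹ = x * g₀⁻¹ * x⁻¹ := by group
  rwa [e2] at this

section Basic

variable {G : Type u} [Group G] [Finite G] (H : Subgroup G)
  (hTI : IsTISubset (H : Set G))
  (hHall : (Nat.card H).Coprime (H.subgroupOf (normalizer (H : Set G))).index)

/-- elements of the normalizer of order prime to the index lie in `H`. -/
theorem mem_of_coprime {x : G} (hx : x ∈ normalizer (H : Set G))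
    (ho : (orderOf x).Coprime (H.subgroupOf (normalizer (H : Set G))).index) : x ∈ H := by
  haveI : (H.subgroupOf (normalizer (H : Set G))).Normal :=
    (normal_subgroupOf_iff_le_normalizer Subgroup.le_normalizer).2 le_rfl
  have h1 : (⟨x, hx⟩ : normalizer (H : Set G)) ∈ H.subgroupOf (normalizer (H : Set G)) := by
    apply CfsgLib.Trans.mem_of_coprime_index
    rw [Subgroup.orderOf_mk]
    exact ho
  exact Subgroup.mem_subgroupOf.1 h1

include hHall

theorem mem_of_order {x : G} (hx : x ∈ normalizer (H : Set G)) (ho : orderOf x ∣ Nat.card H) : x ∈ H :=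
  mem_of_coprime H hx (Nat.Coprime.coprime_dvd_left ho hHall)

include hTI

/-- Sylow subgroups of `H` for primes dividing `|H|` are Sylow subgroups of `G`. -/
theorem exists_sylow_le {r : ℕ} [Fact r.Prime] (hr : r ∣ Nat.card H) :
    ∃ S : Sylow r G, (S : Subgroup G) ≤ H := by
  let R : Sylow r H := default
  set R₁ := (R : Subgroup H).map H.subtype with hR₁
  have hR₁p : IsPGroup r R₁ := R.isPGroup'.map _
  have hR₁H : R₁ ≤ H := Subgroup.map_subtype_le _
  have hmem : ∀ v : H, (v : G) ∈ R₁ ↔ v ∈ (R : Subgroup H) := fun v =>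
    ⟨by
      rintro ⟨a, ha, hav⟩
      have : a = v := Subtype.ext hav
      rwa [← this], fun hv => ⟨v, hv, rfl⟩⟩
  obtain ⟨S, hS⟩ := hR₁p.exists_le_sylow
  refine ⟨S, ?_⟩
  by_contra hcon
  have hne : R₁ ≠ (S : Subgroup G) := by
    intro he
    exact hcon (he ▸ hR₁H)
  have hlt : R₁.subgroupOf (S : Subgroup G) < ⊤ := by
    apply lt_top_iff_ne_top.2
    intro h
    apply hne
    apply le_antisymm hS
    intro z hz
    have : (⟨z, hz⟩ : (S : Subgroup G)) ∈ R₁.subgroupOf (S : Subgroup G) := by rw [h]; trivial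
    exact Subgroup.mem_subgroupOf.1 this
  haveI : Group.IsNilpotent (S : Subgroup G) := S.isPGroup'.isNilpotent
  obtain ⟨w, hw, hwR⟩ := SetLike.exists_of_lt (normalizerCondition_of_isNilpotent _ hlt)
  have hzN : (w : G) ∈ normalizer (R₁ : Set G) :=
    CfsgLib.RelFrob.mem_normalizer_of_subgroupOf hS w hw
  have hzR : (w : G) ∉ R₁ := fun h => hwR (Subgroup.mem_subgroupOf.2 h)
  have hR₁b : R₁ ≠ ⊥ := by
    intro hb
    have hRb : (R : Subgroup H) = ⊥ := by
      have := Subgroup.map_eq_bot_iff_of_injective (R : Subgroup H) H.subtype_injective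
      exact this.1 hb
    apply R.not_dvd_index
    rw [hRb, Subgroup.index_bot]
    exact hr
  obtain ⟨⟨y, hy⟩, hy1'⟩ := Subgroup.ne_bot_iff_exists_ne_one.1 hR₁b
  have hy1 : y ≠ 1 := fun h => hy1' (Subtype.ext h)
  have hzT : (w : G) ∈ normalizer (H : Set G) := by
    by_contra hzT
    exact hy1 (hTI w hzT y (hR₁H hy) (hR₁H ((Subgroup.mem_normalizer_iff.1 hzN y).1 hy)))
  obtain ⟨k, hk⟩ := S.isPGroup' w
  have hk' : (w : G) ^ (r ^ k) = 1 := by
    have := congrArg Subtype.val hk
    simpa using this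
  have ho : orderOf (w : G) ∣ r ^ k := orderOf_dvd_of_pow_eq_one hk'
  have hrm : (r ^ k).Coprime (H.subgroupOf (normalizer (H : Set G))).index :=
    Nat.Coprime.pow_left k (Nat.Coprime.coprime_dvd_left hr hHall)
  have hzH : (w : G) ∈ H := mem_of_coprime H hzT (Nat.Coprime.coprime_dvd_left ho hrm)
  set z' : H := ⟨w, hzH⟩ with hz'
  have hz'N : z' ∈ normalizer ((R : Subgroup H) : Set H) := by
    rw [Subgroup.mem_normalizer_iff]
    intro v
    rw [← hmem, ← hmem]
    exact Subgroup.mem_normalizer_iff.1 hzN v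
  have hP : IsPGroup r (zpowers z') := by
    obtain ⟨i, -, hi⟩ := (Nat.dvd_prime_pow Fact.out).1 ho
    apply IsPGroup.of_card (n := i)
    rw [Nat.card_zpowers, ← Subgroup.orderOf_coe z']
    exact hi
  have h1 := hP.inf_normalizer_sylow R
  have h2 : z' ∈ zpowers z' ⊓ (R : Subgroup H) := by
    rw [← h1]
    exact Subgroup.mem_inf.2 ⟨mem_zpowers z', hz'N⟩
  exact hzR ((hmem z').2 (Subgroup.mem_inf.1 h2).2)

/-- Elements of order dividing `|H|` are conjugate into `H`. -/
theorem exists_conj_mem {u : G} (hu : orderOf u ∣ Nat.card H) : ∃ x : G, x * u * x⁻¹ ∈ H := by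
  by_cases hu1 : u = 1
  · exact ⟨1, by simp [hu1, H.one_mem]⟩
  have huo : orderOf u ≠ 1 := by
    rw [Ne, orderOf_eq_one_iff]; exact hu1
  set r := (orderOf u).minFac with hr
  haveI hrp : Fact r.Prime := ⟨Nat.minFac_prime huo⟩
  have hru : r ∣ orderOf u := Nat.minFac_dvd _
  obtain ⟨S, hS⟩ := exists_sylow_le H hTI hHall (r := r) (hru.trans hu)
  set u₁ := u ^ (orderOf u / r) with hu₁
  have hu₁o : orderOf u₁ = r := orderOf_pow_orderOf_div (orderOf_pos u).ne' hru
  have hB : IsPGroup r (zpowers u₁) := by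
    apply IsPGroup.of_card (n := 1)
    rw [Nat.card_zpowers, hu₁o, pow_one]
  obtain ⟨x, hx⟩ := CfsgLib.Fusion.exists_conj_le_sylow S hB
  have hy : x * u₁ * x⁻¹ ∈ H := hS (hx ⟨u₁, mem_zpowers u₁, rfl⟩)
  refine ⟨x, ?_⟩
  set v := x * u * x⁻¹ with hv
  have hvc : v * (x * u₁ * x⁻¹) * v⁻¹ = x * u₁ * x⁻¹ := by
    have hc : u * u₁ = u₁ * u := ((Commute.refl u).pow_right _).eq
    have : v * (x * u₁ * x⁻¹) = (x * u₁ * x⁻¹) * v := by
      rw [hv]
      calc x * u * x⁻¹ * (x * u₁ * x⁻¹) = x * (u * u₁) * x⁻¹ := by group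
        _ = x * (u₁ * u) * x⁻¹ := by rw [hc]
        _ = _ := by group
    rw [this]; group
  have hy1 : x * u₁ * x⁻¹ ≠ 1 := by
    intro h
    have h2 : u₁ = 1 := by
      have e : u₁ = x⁻¹ * (x * u₁ * x⁻¹) * x := by group
      rw [e, h]; group
    rw [h2, orderOf_one] at hu₁o
    exact hrp.out.ne_one hu₁o.symm
  have hvT : v ∈ normalizer (H : Set G) := by
    by_contra hvT
    apply hy1
    apply hTI v hvT _ hy
    rw [hvc]
    exact hy
  have hvo : orderOf v = orderOf u := CfsgLib.RelFrob.orderOf_conj' x u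
  exact mem_of_order H hHall hvT (by rw [hvo]; exact hu)

/-- `H` is a Hall subgroup of `G`. -/
theorem coprime_index : (Nat.card H).Coprime H.index := by
  apply Nat.coprime_of_dvd
  intro r hr hr1 hr2
  haveI : Fact r.Prime := ⟨hr⟩
  obtain ⟨S, hS⟩ := exists_sylow_le H hTI hHall hr1
  exact S.not_dvd_index (hr2.trans (Subgroup.index_dvd_of_le hS))

/-- Decomposition of elements. -/
theorem exists_decomp (g : G) : ∃ u v : G, g = u * v ∧ Commute u v ∧ orderOf u ∣ Nat.card H ∧
    (orderOf v).Coprime (Nat.card H) := by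
  have hc := coprime_index H hTI hHall
  have hcard := H.card_mul_index
  obtain ⟨a, b, hab⟩ : ∃ a b : ℤ, (Nat.card H : ℤ) * a + (H.index : ℤ) * b = 1 := by
    refine ⟨Nat.gcdA (Nat.card H) H.index, Nat.gcdB (Nat.card H) H.index, ?_⟩
    have := Nat.gcd_eq_gcd_ab (Nat.card H) H.index
    rw [hc.gcd_eq_one] at this
    push_cast at this
    linarith
  refine ⟨g ^ ((H.index : ℤ) * b), g ^ ((Nat.card H : ℤ) * a), ?_, ?_, ?_, ?_⟩
  · rw [← zpow_add, add_comm, hab, zpow_one]
  · exact (Commute.refl g).zpow_zpow _ _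
  · apply orderOf_dvd_of_pow_eq_one
    rw [← zpow_natCast, ← zpow_mul]
    have : (H.index : ℤ) * b * (Nat.card H : ℤ) = (Nat.card G : ℤ) * b := by
      rw [← hcard]; push_cast; ring
    rw [this, zpow_mul, zpow_natCast, pow_card_eq_one', one_zpow]
  · have h1 : orderOf (g ^ ((Nat.card H : ℤ) * a)) ∣ H.index := by
      apply orderOf_dvd_of_pow_eq_one
      rw [← zpow_natCast, ← zpow_mul]
      have : (Nat.card H : ℤ) * a * (H.index : ℤ) = (Nat.card G : ℤ) * a := by
        rw [← hcard]; push_cast; ring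
      rw [this, zpow_mul, zpow_natCast, pow_card_eq_one', one_zpow]
    exact Nat.Coprime.coprime_dvd_left h1 hc.symm

omit hTI hHall in
theorem eq_one_of_order {H₀ : Type*} [Group H₀] [Finite H₀] {x : H₀} {m : ℕ}
    (hm : (Nat.card H₀).Coprime m) (h : x ^ m = 1) : x = 1 := by
  have h1 : orderOf x ∣ m := orderOf_dvd_of_pow_eq_one h
  have h2 : orderOf x ∣ Nat.card H₀ := orderOf_dvd_natCard x
  have h3 := Nat.Coprime.eq_one_of_dvd (Nat.Coprime.coprime_dvd_left h2 hm) h1
  exact orderOf_eq_one_iff.1 h3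

variable (r : normalizer (H : Set G) →* H)
  (hr : ∀ h : H, r ⟨h, Subgroup.le_normalizer h.2⟩ = h)

/-- The set supporting the class functions. -/
def supp : Set G := {x | x = 1 ∨ ∃ hx : x ∈ normalizer (H : Set G), r ⟨x, hx⟩ ≠ 1}

omit hr in
theorem supp_ti : ∀ g : G, g ∉ normalizer (H : Set G) → ∀ t ∈ supp H r, g * t * g⁻¹ ∈ supp H r → t = 1 := by
  intro g hg t ht hgt
  rcases ht with rfl | ⟨htT, hrt⟩
  · rfl
  rcases hgt with h1 | ⟨h2T, hrt₂⟩
  · have e : t = g⁻¹ * (g * t * g⁻¹) * g := by group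
    rw [e, h1]; group
  exfalso
  set m := (H.subgroupOf (normalizer (H : Set G))).index with hm
  haveI : (H.subgroupOf (normalizer (H : Set G))).Normal :=
    (normal_subgroupOf_iff_le_normalizer Subgroup.le_normalizer).2 le_rfl
  have hpow : ∀ (s : G) (hs : s ∈ normalizer (H : Set G)), s ^ m ∈ H := by
    intro s hs
    have := Subgroup.pow_index_mem (H.subgroupOf (normalizer (H : Set G))) (⟨s, hs⟩ : normalizer (H : Set G))
    have h2 := Subgroup.mem_subgroupOf.1 this
    simpa using h2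
  have h1 := hpow t htT
  have h2 := hpow _ h2T
  have e : (g * t * g⁻¹) ^ m = g * t ^ m * g⁻¹ := by
    exact conj_pow
  rw [e] at h2
  have h3 : t ^ m = 1 := hTI g hg _ h1 h2
  apply hrt
  apply eq_one_of_order (m := m) hHall
  have h4 : (⟨t, htT⟩ : normalizer (H : Set G)) ^ m = 1 := by
    apply Subtype.ext
    simpa using h3
  rw [← map_pow, h4, map_one]

include hr in
/-- The main construction. -/
theorem exists_complement : ∃ M : Subgroup G, M.Normal ∧ M.IsComplement' H := by
  classical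
  cases nonempty_fintype G
  letI : Fintype H := Fintype.ofFinite H
  letI : Fintype (normalizer (H : Set G)) := Fintype.ofFinite (normalizer (H : Set G))
  have hrs : Function.Surjective r := fun h => ⟨_, hr h⟩
  have hdeg : ∀ θ : IrrCharacter H, ∃ d : ℕ, (θ : H → ℂ) 1 = d := fun θ => θ.2.isCharacter.map_one
  choose d hd using hdeg
  set S := supp H r with hS
  have hSti := supp_ti H hTI hHall r
  have hθ : ∀ θ : IrrCharacter H, IsIrrCharacter (normalizer (H : Set G)) ((θ : H → ℂ) ∘ r) :=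
    fun θ => θ.2.comp_surjective r hrs
  have hd' : ∀ θ : IrrCharacter H, ((θ : H → ℂ) ∘ r) 1 = d θ := by
    intro θ
    simp [hd]
  have hvan : ∀ (θ : IrrCharacter H) (x : (normalizer (H : Set G))), (x : G) ∉ S → ((θ : H → ℂ) ∘ r) x = d θ := by
    intro θ x hx
    have h1 : r x = 1 := by
      by_contra h
      exact hx (Or.inr ⟨x.2, h⟩)
    simp [h1, hd]
  set F : IrrCharacter H → G → ℂ := fun θ => frobStar (normalizer (H : Set G)) ((θ : H → ℂ) ∘ r) (d θ) with hF
  have hirr : ∀ θ, IsIrrCharacter G (F θ) := fun θ =>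
    frobStar_isIrr_ti (normalizer (H : Set G)) S hSti (hθ θ) (d θ) (hd' θ) (hvan θ)
  have hker := fun θ : IrrCharacter H => exists_charKer (hirr θ).isCharacter
  choose K hK using hker
  have hF1 : ∀ θ, F θ 1 = d θ := fun θ => frobStar_one_ti (normalizer (H : Set G)) (d θ) (hd' θ)
  let M : Subgroup G := ⨅ θ, K θ
  have hMmem : ∀ x, x ∈ M ↔ ∀ θ, F θ x = d θ := by
    intro x
    simp only [M, Subgroup.mem_iInf, hK, hF1]
  have hMn : M.Normal := by
    constructor
    intro n hn g
    rw [hMmem] at hn ⊢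
    intro θ
    rw [← hn θ]
    exact (hirr θ).isClassFunction n g
  -- values on `H`
  have hFH : ∀ θ (h : H), h ≠ 1 → F θ (h : G) = (θ : H → ℂ) h := by
    intro θ h hh
    have hne : (⟨h, Subgroup.le_normalizer h.2⟩ : (normalizer (H : Set G))) ≠ 1 := by
      intro h0
      apply hh
      apply Subtype.ext
      have := congrArg Subtype.val h0
      simpa using this
    have h1 := frobStar_of_mem_ti (normalizer (H : Set G)) S hSti (hθ θ) (d θ) (hvan θ) ⟨h, Subgroup.le_normalizer h.2⟩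
      (Or.inr ⟨Subgroup.le_normalizer h.2, by rw [hr]; exact hh⟩) hne
    have h2 : F θ (h : G) = ((θ : H → ℂ) ∘ r) ⟨h, Subgroup.le_normalizer h.2⟩ := h1
    rw [h2]
    simp [hr]
  have hdisj : M ⊓ H = ⊥ := by
    rw [eq_bot_iff]
    intro x hx
    obtain ⟨hxM, hxH⟩ := Subgroup.mem_inf.1 hx
    by_contra hx1
    have hh1 : (⟨x, hxH⟩ : H) ≠ 1 := fun h0 => hx1 (congrArg Subtype.val h0)
    have hall : ∀ θ : IrrCharacter H, (θ : H → ℂ) ⟨x, hxH⟩ = (θ : H → ℂ) 1 := by
      intro θ
      rw [hd θ, ← hFH θ ⟨x, hxH⟩ hh1]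
      exact (hMmem x).1 hxM θ
    have hconj := (isConj_iff_irr (⟨x, hxH⟩ : H) 1).mpr hall
    exact hh1 (isConj_one_left.mp hconj)
  -- elements of order prime to `|H|`
  have hMord : ∀ x : G, (orderOf x).Coprime (Nat.card H) → x ∈ M := by
    intro x hx
    rw [hMmem]
    intro θ
    apply frobStar_of_zero_ti (normalizer (H : Set G)) (d θ) x
    intro g hg
    have h1 : (orderOf (⟨g⁻¹ * x * g, hg⟩ : (normalizer (H : Set G)))) = orderOf x := by
      rw [Subgroup.orderOf_mk]
      have := CfsgLib.RelFrob.orderOf_conj' g⁻¹ x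
      simpa using this
    have h2 : r ⟨g⁻¹ * x * g, hg⟩ = 1 := by
      apply eq_one_of_order (m := orderOf x) hx.symm
      rw [← map_pow, ← h1, pow_orderOf_eq_one, map_one]
    simp [h2, hd]
  haveI := hMn
  -- `M H = G`
  have hsup : M ⊔ H = ⊤ := by
    apply eq_top_of_conj
    intro g
    obtain ⟨u, v, rfl, hc, hu, hv⟩ := exists_decomp H hTI hHall g
    obtain ⟨x, hx⟩ := exists_conj_mem H hTI hHall hu
    refine ⟨x, ?_⟩
    have e : x * (u * v) * x⁻¹ = (x * u * x⁻¹) * (x * v * x⁻¹) := by group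
    rw [e]
    refine Subgroup.mul_mem _ (Subgroup.mem_sup_right hx) (Subgroup.mem_sup_left ?_)
    apply hMn.conj_mem _ (hMord v hv) x
  refine ⟨M, hMn, ?_⟩
  have hdisj' : Disjoint M H := by
    rw [disjoint_iff]; exact hdisj
  refine Subgroup.isComplement'_of_card_mul_and_disjoint ?_ hdisj'
  have h1 := CfsgLib.Solv.card_sup_mul_card_inf H M
  rw [sup_comm, hsup, inf_comm, hdisj, Subgroup.card_top, Subgroup.card_bot, mul_one] at h1
  rw [h1, mul_comm]

omit hTI in
/-- The retraction from a normal complement. -/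
theorem exists_retraction (K : Subgroup (normalizer (H : Set G))) [hKn : K.Normal]
    (hc : K.IsComplement' (H.subgroupOf (normalizer (H : Set G)))) :
    ∃ r : normalizer (H : Set G) →* H, ∀ h : H, r ⟨h, Subgroup.le_normalizer h.2⟩ = h := by
  let e := hc.symm.QuotientMulEquiv
  let r₀ : normalizer (H : Set G) →* H.subgroupOf (normalizer (H : Set G)) :=
    e.toMonoidHom.comp (QuotientGroup.mk' K)
  refine ⟨(Subgroup.subgroupOfEquivOfLe Subgroup.le_normalizer).toMonoidHom.comp r₀, ?_⟩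
  intro h
  have h1 : (⟨h, Subgroup.le_normalizer h.2⟩ : normalizer (H : Set G)) ∈ H.subgroupOf (normalizer (H : Set G)) :=
    Subgroup.mem_subgroupOf.2 h.2
  have h2 : r₀ ⟨h, Subgroup.le_normalizer h.2⟩ = ⟨⟨h, Subgroup.le_normalizer h.2⟩, h1⟩ := by
    change e ((QuotientGroup.mk' K) ⟨h, Subgroup.le_normalizer h.2⟩) = _
    rw [MulEquiv.apply_eq_iff_symm_apply]
    rfl
  apply Subtype.ext
  change ((r₀ ⟨h, Subgroup.le_normalizer h.2⟩ : H.subgroupOf (normalizer (H : Set G))) : normalizer (H : Set G)).1 = h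
  rw [h2]

omit hTI hHall in
/-- The easy direction. -/
theorem complement_in_normalizer (N : Subgroup G) [N.Normal] (hc : N.IsComplement' H) :
    ∃ K : Subgroup (normalizer (H : Set G)), K.Normal ∧
      K.IsComplement' (H.subgroupOf (normalizer (H : Set G))) := by
  refine ⟨N.subgroupOf (normalizer (H : Set G)), inferInstance, ?_⟩
  apply Subgroup.isComplement'_of_disjoint_and_mul_eq_univ
  · rw [Subgroup.disjoint_def]
    intro x hx1 hx2
    have h1 : (x : G) ∈ N := Subgroup.mem_subgroupOf.1 hx1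
    have h2 : (x : G) ∈ H := Subgroup.mem_subgroupOf.1 hx2
    have h3 := hc.disjoint
    rw [Subgroup.disjoint_def] at h3
    exact Subtype.ext (h3 h1 h2)
  · ext t
    simp only [Set.mem_univ, iff_true]
    obtain ⟨⟨n, h⟩, hnh⟩ := hc.2 (t : G)
    change (n : G) * h = t at hnh
    have hhT : (h : G) ∈ normalizer (H : Set G) := Subgroup.le_normalizer h.2
    have hnT : (n : G) ∈ normalizer (H : Set G) := by
      have : (n : G) = t * (h : G)⁻¹ := by rw [← hnh]; group
      rw [this]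
      exact Subgroup.mul_mem _ t.2 (Subgroup.inv_mem _ hhT)
    refine Set.mem_mul.2 ⟨⟨n, hnT⟩, Subgroup.mem_subgroupOf.2 n.2, ⟨h, hhT⟩, Subgroup.mem_subgroupOf.2 h.2, ?_⟩
    apply Subtype.ext
    exact hnh

end Basic

end CfsgLib.TIHall
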