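import Cfsg.Agent.Lib.H3.TIHall
import Cfsg.Agent.Lib.Solv.CoprimeSylow

/-! TI subgroups which are Hall subgroups of their normalizers: Frobenius complements. -/

set_option autoImplicit false
set_option linter.unusedSectionVars false

namespace CfsgLib.TIHall

open Subgroup Cfsg MulAction CfsgLib.RelFrob
open scoped Pointwise

universe u

/-- A group acting so that each nonidentity element has exactly one fixed point has a fixed point. -/
theorem exists_fixed_of_unique {A Ω : Type*} [Group A] [Finite A] [Finite Ω] [Nonempty Ω]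
    [MulAction A Ω] (h : ∀ a : A, a ≠ 1 → ∃! ω : Ω, a • ω = ω) : ∃ ω : Ω, ∀ a : A, a • ω = ω := by
  classical
  haveI := Fintype.ofFinite A
  haveI := Fintype.ofFinite Ω
  by_contra hcon
  push Not at hcon
  set g := Nat.card A with hg
  have hg2 : 2 ≤ g := by
    obtain ⟨ω⟩ := (inferInstance : Nonempty Ω)
    obtain ⟨a, ha⟩ := hcon ω
    have ha1 : a ≠ 1 := by
      rintro rfl
      exact ha (one_smul _ _)
    haveI : Nontrivial A := ⟨⟨a, 1, ha1⟩⟩
    exact Finite.one_lt_card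
  haveI : Fintype (orbitRel.Quotient A Ω) := Fintype.ofFinite _
  -- Burnside
  have hB := CfsgLib.Lead.burnside_card (G := A) (X := Ω)
  rw [finsum_eq_sum_of_fintype] at hB
  have hfix1 : ∀ a : A, a ≠ 1 → Nat.card (fixedBy Ω a) = 1 := by
    intro a ha
    obtain ⟨ω, hω, huniq⟩ := h a ha
    rw [Nat.card_eq_one_iff_unique]
    refine ⟨⟨?_⟩, ⟨⟨ω, hω⟩⟩⟩
    rintro ⟨x, hx⟩ ⟨y, hy⟩
    apply Subtype.ext
    change x = y
    rw [huniq x hx, huniq y hy]
  have hfix2 : Nat.card (fixedBy Ω (1 : A)) = Nat.card Ω := by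
    apply Nat.card_congr
    exact (Equiv.subtypeUnivEquiv (fun x => by simp [mem_fixedBy]))
  have hsum : ∑ a : A, Nat.card (fixedBy Ω a) = Nat.card Ω + (g - 1) := by
    rw [← Finset.add_sum_erase _ _ (Finset.mem_univ (1 : A)), hfix2]
    congr 1
    rw [Finset.sum_congr rfl (fun a ha => hfix1 a (Finset.ne_of_mem_erase ha))]
    simp [Finset.card_erase_of_mem, hg, Nat.card_eq_fintype_card]
  rw [hsum] at hB
  -- orbits
  let q : orbitRel.Quotient A Ω → Ω := Quotient.out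
  let n : orbitRel.Quotient A Ω → ℕ := fun o => Nat.card (orbit A (q o))
  have hcardΩ : Nat.card Ω = ∑ o, n o := by
    rw [Nat.card_congr (selfEquivSigmaOrbits A Ω), Nat.card_sigma]
  have hndvd : ∀ o, n o ∣ g := by
    intro o
    have h1 := (stabilizer A (q o)).card_mul_index
    rw [MulAction.index_stabilizer] at h1
    have h2 : n o = (orbit A (q o)).ncard := Nat.card_coe_set_eq _
    rw [hg, ← h1, h2]
    exact Dvd.intro_left _ rfl
  have hn2 : ∀ o, 2 ≤ n o := by
    intro o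
    obtain ⟨a, ha⟩ := hcon (q o)
    have h1 : Nontrivial (orbit A (q o)) := by
      refine ⟨⟨⟨a • q o, mem_orbit _ _⟩, ⟨q o, mem_orbit_self _⟩, ?_⟩⟩
      intro h2
      exact ha (congrArg Subtype.val h2)
    exact Finite.one_lt_card
  have hgpos : 0 < g := by omega
  have hnle : ∀ o, n o ≤ g := fun o => Nat.le_of_dvd hgpos (hndvd o)
  -- the defect
  let t : orbitRel.Quotient A Ω → ℕ := fun o => g - n o
  have hsumt : ∑ o, t o = g - 1 := by
    have h1 : ∑ o, (t o + n o) = Nat.card (orbitRel.Quotient A Ω) * g := by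
      rw [Finset.sum_congr rfl (fun o _ => Nat.sub_add_cancel (hnle o))]
      simp [Nat.card_eq_fintype_card]
    rw [Finset.sum_add_distrib, ← hcardΩ, ← hB] at h1
    omega
  have hthalf : ∀ o, 0 < t o → g ≤ 2 * t o := by
    intro o ho
    obtain ⟨c, hc⟩ := hndvd o
    have h1 : n o ≠ g := fun he => by
      have : t o = 0 := by simp [t, he]
      omega
    have hc2 : 2 ≤ c := by
      by_contra hlt
      have : c = 0 ∨ c = 1 := by omega
      rcases this with rfl | rfl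
      · omega
      · exact h1 (by omega)
    have h2 : 2 * n o ≤ g := by
      rw [hc]
      nlinarith [hn2 o]
    have h3 := Nat.sub_add_cancel (hnle o)
    change g ≤ 2 * (g - n o)
    omega
  obtain ⟨o₀, ho₀⟩ : ∃ o, 0 < t o := by
    by_contra hc
    push Not at hc
    have : ∑ o, t o = 0 := Finset.sum_eq_zero (fun o _ => Nat.le_zero.1 (hc o))
    omega
  obtain ⟨o₁, ho₁, hne⟩ : ∃ o, 0 < t o ∧ o ≠ o₀ := by
    by_contra hc
    push Not at hc
    have h1 : ∑ o, t o = t o₀ := by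
      apply Finset.sum_eq_single
      · intro b _ hb
        by_contra hb2
        exact hb (hc b (Nat.pos_of_ne_zero hb2))
      · intro h'
        exact absurd (Finset.mem_univ _) h'
    have h2 : t o₀ ≤ g - 2 := by
      have := hn2 o₀
      change g - n o₀ ≤ g - 2
      omega
    omega
  have h5 : t o₀ + t o₁ ≤ ∑ o, t o := by
    have hsub : ({o₀, o₁} : Finset _) ⊆ Finset.univ := Finset.subset_univ _
    have := Finset.sum_le_sum_of_subset_of_nonneg (f := t) hsub (fun _ _ _ => Nat.zero_le _)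
    rwa [Finset.sum_pair (Ne.symm hne)] at this
  have h6 := hthalf o₀ ho₀
  have h7 := hthalf o₁ ho₁
  omega


/-- A section on which `H` acts fixed point freely gives a Frobenius complement isomorphic to `H`. -/
theorem frob_of_section {G : Type u} [Group G] [Finite G] (H A Q : Subgroup G)
    (hQA : Q ≤ A) (hQne : Q ≠ A)
    (hHA : H ≤ normalizer (A : Set G)) (hHQ : H ≤ normalizer (Q : Set G))
    (hAQ : A ≤ normalizer (Q : Set G))
    (hcop : (Nat.card H).Coprime (Nat.card A)) (hH : H ≠ ⊥)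
    (hfix : ∀ h ∈ H, h ≠ 1 → ∀ a ∈ A, h * a = a * h → a ∈ Q)
    (hsolv : Group.IsSolvable A) :
    ∃ (F : Type u) (_ : Group F) (_ : Finite F) (C : Subgroup F),
      IsFrobeniusComplement C ∧ Nonempty (H ≃* C) := by
  classical
  set E : Subgroup G := H ⊔ A with hE
  have hHE : H ≤ E := le_sup_left
  have hAE : A ≤ E := le_sup_right
  have hQE : Q ≤ E := hQA.trans hAE
  have hEQ : E ≤ normalizer (Q : Set G) := sup_le hHQ hAQ
  haveI hQn : (Q.subgroupOf E).Normal := (normal_subgroupOf_iff_le_normalizer hQE).2 hEQ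
  let φ : H →* (E ⧸ Q.subgroupOf E) := (QuotientGroup.mk' (Q.subgroupOf E)).comp (Subgroup.inclusion hHE)
  have hdisj : ∀ x, x ∈ H → x ∈ A → x = 1 := by
    intro x hxH hxA
    have h1 : orderOf x ∣ Nat.card H := by
      have := orderOf_dvd_natCard (⟨x, hxH⟩ : H)
      rwa [Subgroup.orderOf_mk] at this
    have h2 : orderOf x ∣ Nat.card A := by
      have := orderOf_dvd_natCard (⟨x, hxA⟩ : A)
      rwa [Subgroup.orderOf_mk] at this
    exact orderOf_eq_one_iff.1 (Nat.eq_one_of_dvd_coprimes hcop h1 h2)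
  have hmk : ∀ x y : E, ((x : E ⧸ Q.subgroupOf E) = (y : E ⧸ Q.subgroupOf E)) ↔ (x : G)⁻¹ * y ∈ Q := by
    intro x y
    rw [QuotientGroup.eq, Subgroup.mem_subgroupOf]
    simp
  have hφ : ∀ h : H, φ h = ((⟨h, hHE h.2⟩ : E) : E ⧸ Q.subgroupOf E) := fun h => rfl
  have hφinj : Function.Injective φ := by
    rw [injective_iff_map_eq_one]
    intro h hh
    rw [hφ] at hh
    have h1 : ((⟨h, hHE h.2⟩ : E) : E ⧸ Q.subgroupOf E) = ((1 : E) : E ⧸ Q.subgroupOf E) := hh
    rw [hmk] at h1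
    simp only [OneMemClass.coe_one, mul_one] at h1
    have h2 := hdisj _ h.2 (by simpa using hQA h1)
    exact Subtype.ext h2
  refine ⟨E ⧸ Q.subgroupOf E, inferInstance, inferInstance, φ.range, ?_, ⟨MonoidHom.ofInjective hφinj⟩⟩
  refine ⟨?_, ?_, ?_⟩
  · intro hb
    apply hH
    rw [eq_bot_iff]
    intro h hh
    have h1 : φ ⟨h, hh⟩ ∈ φ.range := ⟨_, rfl⟩
    rw [hb, Subgroup.mem_bot] at h1
    have h2 := hφinj (h1.trans (map_one φ).symm)
    exact congrArg Subtype.val h2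
  · intro ht
    obtain ⟨a, haA, haQ⟩ : ∃ a, a ∈ A ∧ a ∉ Q := by
      by_contra hcon
      push Not at hcon
      exact hQne (le_antisymm hQA hcon)
    have h1 : ((⟨a, hAE haA⟩ : E) : E ⧸ Q.subgroupOf E) ∈ φ.range := by rw [ht]; trivial
    obtain ⟨h, hh⟩ := h1
    rw [hφ, hmk] at hh
    simp only at hh
    have h2 : (h : G) ∈ A := by
      have h3 := A.mul_mem haA (A.inv_mem (hQA hh))
      have e : a * ((h : G)⁻¹ * a)⁻¹ = a * a⁻¹ * h := by group
      rw [e] at h3
      simpa using h3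
    have h3 := hdisj _ h.2 h2
    rw [h3] at hh
    apply haQ
    simpa using hh
  · intro g hg
    obtain ⟨e, rfl⟩ := QuotientGroup.mk_surjective g
    obtain ⟨h₀, hh₀, a, ha, he⟩ := CfsgLib.RelFrob.mem_sup_of_le_normalizer hHA e.2
    rw [eq_bot_iff]
    intro c hc
    obtain ⟨hc1, hc2⟩ := Subgroup.mem_inf.1 hc
    obtain ⟨⟨h₁, hh₁⟩, rfl⟩ := hc1
    rw [Subgroup.mem_smul_pointwise_iff_exists] at hc2
    obtain ⟨c₂, ⟨⟨h₂, hh₂⟩, rfl⟩, hc2⟩ := hc2
    by_cases hone : h₁ = 1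
    · subst hone
      rw [Subgroup.mem_bot]
      exact map_one φ
    exfalso
    apply hg
    rw [MulAut.smul_def, MulAut.conj_apply, hφ, hφ] at hc2
    have hc3 : ((e * ⟨h₂, hHE hh₂⟩ * e⁻¹ : E) : E ⧸ Q.subgroupOf E) = ((⟨h₁, hHE hh₁⟩ : E) : E ⧸ Q.subgroupOf E) := hc2
    rw [hmk] at hc3
    simp only [Subgroup.coe_mul, Subgroup.coe_inv] at hc3
    rw [he] at hc3
    -- conjugate by `h₀⁻¹`
    have hc4 := (Subgroup.mem_normalizer_iff.1 (hHQ (H.inv_mem hh₀)) _).1 hc3
    set h₃ := h₀⁻¹ * h₁ * h₀ with hh₃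
    have hh₃H : h₃ ∈ H := H.mul_mem (H.mul_mem (H.inv_mem hh₀) hh₁) hh₀
    have e1 : h₀⁻¹ * ((h₀ * a * h₂ * (h₀ * a)⁻¹)⁻¹ * h₁) * h₀⁻¹⁻¹ = a * h₂⁻¹ * a⁻¹ * h₃ := by
      rw [hh₃]; group
    rw [e1] at hc4
    -- `h₂ = h₃`
    have hconjA : h₂⁻¹ * a⁻¹ * h₂ ∈ A := by
      have := (Subgroup.mem_normalizer_iff.1 (hHA (H.inv_mem hh₂)) _).1 (A.inv_mem ha)
      simpa using this
    have h23A : h₂⁻¹ * h₃ ∈ A := by
      have h5 := A.mul_mem (A.inv_mem (A.mul_mem ha hconjA)) (hQA hc4)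
      have e2 : (a * (h₂⁻¹ * a⁻¹ * h₂))⁻¹ * (a * h₂⁻¹ * a⁻¹ * h₃) = h₂⁻¹ * h₃ := by group
      rwa [e2] at h5
    have h23 := hdisj _ (H.mul_mem (H.inv_mem hh₂) hh₃H) h23A
    have h32 : h₃ = h₂ := by
      have := mul_left_cancel (a := h₂⁻¹) (b := h₃) (c := h₂) (by rw [h23]; group)
      exact this
    rw [h32] at hc4
    have hh₂1 : h₂ ≠ 1 := by
      intro h0
      apply hone
      rw [h0] at h32
      have e3 : h₁ = h₀ * h₃ * h₀⁻¹ := by rw [hh₃]; group
      rw [e3, h32]; group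
    -- coprime action
    let W : Subgroup G :=
      { carrier := {b | b ∈ normalizer (Q : Set G) ∧ b * a * b⁻¹ * a⁻¹ ∈ Q}
        one_mem' := ⟨Subgroup.one_mem _, by simp [Q.one_mem]⟩
        mul_mem' := by
          rintro b₁ b₂ ⟨hb₁, hb₁'⟩ ⟨hb₂, hb₂'⟩
          refine ⟨Subgroup.mul_mem _ hb₁ hb₂, ?_⟩
          have h6 := (Subgroup.mem_normalizer_iff.1 hb₁ _).1 hb₂'
          have e4 : b₁ * b₂ * a * (b₁ * b₂)⁻¹ * a⁻¹ =
              (b₁ * (b₂ * a * b₂⁻¹ * a⁻¹) * b₁⁻¹) * (b₁ * a * b₁⁻¹ * a⁻¹) := by group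
          rw [e4]
          exact Q.mul_mem h6 hb₁'
        inv_mem' := by
          rintro b ⟨hb, hb'⟩
          refine ⟨Subgroup.inv_mem _ hb, ?_⟩
          have h6 := (Subgroup.mem_normalizer_iff.1 (Subgroup.inv_mem _ hb) _).1 (Q.inv_mem hb')
          have e4 : b⁻¹ * a * b⁻¹⁻¹ * a⁻¹ = b⁻¹ * (b * a * b⁻¹ * a⁻¹)⁻¹ * b⁻¹⁻¹ := by group
          rw [e4]
          exact h6 }
    have hh'W : h₂⁻¹ ∈ W := by
      refine ⟨hHQ (H.inv_mem hh₂), ?_⟩
      have h7 := Q.inv_mem hc4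
      have e5 : h₂⁻¹ * a * h₂⁻¹⁻¹ * a⁻¹ = (a * h₂⁻¹ * a⁻¹ * h₂)⁻¹ := by group
      rw [e5]
      exact h7
    have hzW : zpowers h₂⁻¹ ≤ W := (Subgroup.zpowers_le).2 hh'W
    have hzH : zpowers h₂⁻¹ ≤ H := (Subgroup.zpowers_le).2 (H.inv_mem hh₂)
    obtain ⟨c, hc, hcQ⟩ := CfsgLib.Solv.coprime_fixed_coset (zpowers h₂⁻¹) A (hzH.trans hHA)
      (Nat.Coprime.coprime_dvd_left (Subgroup.card_dvd_of_le hzH) hcop) (Or.inr hsolv) Q hQA hAQ
      (hzH.trans hHQ) a ha (fun b hb => (hzW hb).2)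
    obtain ⟨hcA, hcC⟩ := Subgroup.mem_inf.1 hc
    have hcom : h₂⁻¹ * c = c * h₂⁻¹ := (Subgroup.mem_centralizer_iff.1 hcC) _ (mem_zpowers _)
    have hcQ2 : c ∈ Q := hfix _ (H.inv_mem hh₂) (inv_ne_one.2 hh₂1) c hcA hcom
    have haQ : a ∈ Q := by
      have h8 := Q.mul_mem hcQ2 (Q.inv_mem hcQ)
      have e6 : c * (a⁻¹ * c)⁻¹ = a := by group
      rwa [e6] at h8
    refine ⟨⟨h₀, hh₀⟩, ?_⟩
    rw [hφ]
    rw [hmk]
    simp only
    rw [he]
    have e7 : h₀⁻¹ * (h₀ * a) = a := by group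
    rw [e7]
    exact haQ

section Main

variable {G : Type u} [Group G] [Finite G] (H : Subgroup G)
  (hTI : IsTISubset (H : Set G))
  (hHall : (Nat.card H).Coprime (H.subgroupOf (normalizer (H : Set G))).index)

include hTI hHall

/-- Subgroups of order dividing `|H|` are conjugate into `H`. -/
theorem exists_conj_of_card (H₁ : Subgroup G) (hcard : Nat.card H₁ ∣ Nat.card H) :
    ∃ g : G, ∀ a ∈ H₁, g⁻¹ * a * g ∈ H := by
  classical
  set T := normalizer (H : Set G) with hT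
  have hordH : ∀ a : H₁, orderOf (a : G) ∣ Nat.card H := by
    intro a
    have := orderOf_dvd_natCard a
    rw [← Subgroup.orderOf_coe] at this
    exact this.trans hcard
  have hfix : ∀ (a : H₁) (g : G), (a • ((g : G) : G ⧸ T) = (g : G ⧸ T)) ↔ g⁻¹ * a * g ∈ T := by
    intro a g
    change (((a : G) * g : G) : G ⧸ T) = (g : G ⧸ T) ↔ _
    rw [QuotientGroup.eq]
    have e : ((a : G) * g)⁻¹ * g = (g⁻¹ * a * g)⁻¹ := by group
    rw [e, inv_mem_iff]
  haveI : Nonempty (G ⧸ T) := ⟨((1 : G) : G ⧸ T)⟩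
  obtain ⟨ω, hω⟩ := exists_fixed_of_unique (A := H₁) (Ω := G ⧸ T) (by
    intro a ha
    obtain ⟨x, hx⟩ := exists_conj_mem H hTI hHall (hordH a)
    have ha' : (a : G) ≠ 1 := fun h => ha (Subtype.ext h)
    refine ⟨((x⁻¹ : G) : G ⧸ T), ?_, ?_⟩
    · apply (hfix a x⁻¹).2
      have e : x⁻¹⁻¹ * a * x⁻¹ = x * a * x⁻¹ := by group
      rw [e]
      exact Subgroup.le_normalizer hx
    · intro ω hω
      obtain ⟨g, rfl⟩ := QuotientGroup.mk_surjective ω
      have h1 := (hfix a g).1 hω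
      have h2 : g⁻¹ * a * g ∈ H := by
        apply mem_of_order H hHall h1
        have := CfsgLib.RelFrob.orderOf_conj' g⁻¹ (a : G)
        rw [inv_inv] at this
        rw [this]
        exact hordH a
      rw [QuotientGroup.eq]
      by_contra hnot
      have e : (x * g) * (g⁻¹ * a * g) * (x * g)⁻¹ = x * a * x⁻¹ := by group
      have h3 := hTI (x * g) (fun h => hnot (by
        have := T.inv_mem h
        rwa [mul_inv_rev] at this)) _ h2 (by rw [e]; exact hx)
      apply ha'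
      have e2 : (a : G) = g * (g⁻¹ * a * g) * g⁻¹ := by group
      rw [e2, h3]
      group)
  obtain ⟨g, rfl⟩ := QuotientGroup.mk_surjective ω
  refine ⟨g, fun a ha => ?_⟩
  have h1 := (hfix ⟨a, ha⟩ g).1 (hω ⟨a, ha⟩)
  apply mem_of_order H hHall h1
  have := CfsgLib.RelFrob.orderOf_conj' g⁻¹ a
  rw [inv_inv] at this
  rw [this]
  exact hordH ⟨a, ha⟩

/-- A Sylow subgroup of the complement normalized by `H`. -/
theorem exists_sylow_normalized (M : Subgroup G) [hMn : M.Normal] (hc : M.IsComplement' H)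
    (p : ℕ) [Fact p.Prime] :
    ∃ P : Subgroup G, P ≤ M ∧ IsPGroup p P ∧ ¬ p ∣ P.relIndex M ∧ H ≤ normalizer (P : Set G) := by
  classical
  let P₀ : Sylow p M := default
  set P₁ := (P₀ : Subgroup M).map M.subtype with hP₁
  set N₁ := normalizer (P₁ : Set G) with hN₁
  have hsup : N₁ ⊔ M = ⊤ := Sylow.normalizer_sup_eq_top P₀
  have hcardH : M.index = Nat.card H := hc.symm.index_eq_card
  have hcardM : H.index = Nat.card M := hc.index_eq_card
  have hcopr : (Nat.card M).Coprime (Nat.card H) := by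
    have := coprime_index H hTI hHall
    rw [hcardM] at this
    exact this.symm
  have hrel : (M ⊓ N₁).relIndex N₁ = Nat.card H := by
    rw [Subgroup.inf_relIndex_right, ← Subgroup.relIndex_sup_right, hsup,
      Subgroup.relIndex_top_right, hcardH]
  have hLN : N₁ ≤ normalizer ((M ⊓ N₁ : Subgroup G) : Set G) := by
    apply CfsgLib.Solv.le_normalizer_inf'
    · rw [Subgroup.normalizer_eq_top_iff.2 hMn]
      exact le_top
    · exact Subgroup.le_normalizer
  obtain ⟨C, hCN, hCc⟩ := CfsgLib.Solv.sz_exists_in (M ⊓ N₁) N₁ inf_le_right hLN (by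
    rw [hrel]
    exact Nat.Coprime.coprime_dvd_left (Subgroup.card_dvd_of_le inf_le_left) hcopr)
  rw [hrel] at hCc
  obtain ⟨g, hg⟩ := exists_conj_of_card H hTI hHall C (by rw [hCc])
  set P := CfsgLib.RelFrob.conjS g⁻¹ P₁ with hP
  have hmemP : ∀ y, y ∈ P ↔ g * y * g⁻¹ ∈ P₁ := by
    intro y
    rw [hP, CfsgLib.RelFrob.mem_conjS, inv_inv]
  have hP₁M : P₁ ≤ M := Subgroup.map_subtype_le _
  have hP₁p : IsPGroup p P₁ := P₀.isPGroup'.map _
  have hPM : P ≤ M := by
    intro y hy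
    have h1 := hP₁M ((hmemP y).1 hy)
    have := hMn.conj_mem _ h1 g⁻¹
    have e : g⁻¹ * (g * y * g⁻¹) * g⁻¹⁻¹ = y := by group
    rwa [e] at this
  refine ⟨P, hPM, CfsgLib.RelFrob.isPGroup_conjS g⁻¹ hP₁p, ?_, ?_⟩
  · intro hdvd
    apply P₀.not_dvd_index
    have h1 : Nat.card (P₀ : Subgroup M) = Nat.card P₁ :=
      (Subgroup.card_map_of_injective M.subtype_injective).symm
    have h2 : Nat.card P = Nat.card P₁ := CfsgLib.RelFrob.card_conjS _ _
    have h3 := (P₀ : Subgroup M).card_mul_index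
    have h4 := (P.subgroupOf M).card_mul_index
    rw [CfsgLib.Solv.card_subgroupOf_of_le hPM, h2] at h4
    rw [h1] at h3
    have hpos : 0 < Nat.card P₁ := Nat.card_pos
    have h5 : (P₀ : Subgroup M).index = P.relIndex M := by
      apply Nat.eq_of_mul_eq_mul_left hpos
      rw [h3]
      exact h4.symm
    rw [h5]
    exact hdvd
  · -- `H` is a conjugate of `C`
    have hHe : conjS g⁻¹ C = H := by
      apply Subgroup.eq_of_le_of_card_ge
      · intro y hy
        rw [CfsgLib.RelFrob.mem_conjS, inv_inv] at hy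
        have := hg _ hy
        have e : g⁻¹ * (g * y * g⁻¹) * g = y := by group
        rwa [e] at this
      · rw [CfsgLib.RelFrob.card_conjS, hCc]
    intro h hh
    rw [← hHe, CfsgLib.RelFrob.mem_conjS, inv_inv] at hh
    have hcN := hCN hh
    rw [Subgroup.mem_normalizer_iff]
    intro y
    rw [hmemP, hmemP]
    have h1 := Subgroup.mem_normalizer_iff.1 hcN (g * y * g⁻¹)
    rw [h1]
    have e : g * h * g⁻¹ * (g * y * g⁻¹) * (g * h * g⁻¹)⁻¹ = g * (h * y * h⁻¹) * g⁻¹ := by group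
    rw [e]

omit hTI hHall in
theorem mem_normalizer_normalizer {Q : Subgroup G} {h : G} (hh : h ∈ normalizer (Q : Set G)) :
    h ∈ normalizer ((normalizer (Q : Set G) : Subgroup G) : Set G) := by
  rw [Subgroup.mem_normalizer_iff]
  intro x
  have hh' := Subgroup.mem_normalizer_iff.1 hh
  constructor
  · intro hx
    rw [Subgroup.mem_normalizer_iff] at hx ⊢
    intro y
    have h1 := Subgroup.mem_normalizer_iff.1 (Subgroup.inv_mem _ hh) y
    have e : h * x * h⁻¹ * y * (h * x * h⁻¹)⁻¹ = h * (x * (h⁻¹ * y * h⁻¹⁻¹) * x⁻¹) * h⁻¹ := by group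
    rw [h1, hx, e, ← hh']
  · intro hx
    rw [Subgroup.mem_normalizer_iff] at hx ⊢
    intro y
    rw [hh' y, hx (h * y * h⁻¹), hh' (x * y * x⁻¹)]
    have e : h * x * h⁻¹ * (h * y * h⁻¹) * (h * x * h⁻¹)⁻¹ = h * (x * y * x⁻¹) * h⁻¹ := by group
    rw [e]

/-- The second assertion. -/
theorem frob_main (M : Subgroup G) [hMn : M.Normal] (hc : M.IsComplement' H) (hnn : ¬ H.Normal) :
    ∃ (F : Type u) (_ : Group F) (_ : Finite F) (C : Subgroup F),
      IsFrobeniusComplement C ∧ Nonempty (H ≃* C) := by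
  classical
  set T := normalizer (H : Set G) with hT
  have hMT : ¬ M ≤ T := by
    intro h
    apply hnn
    have : T = ⊤ := by
      rw [eq_top_iff]
      intro g _
      obtain ⟨⟨m, h'⟩, hmh⟩ := hc.2 g
      change (m : G) * h' = g at hmh
      rw [← hmh]
      exact T.mul_mem (h m.2) (Subgroup.le_normalizer h'.2)
    exact Subgroup.normalizer_eq_top_iff.1 this
  have hne : (M ⊓ T).relIndex M ≠ 1 := by
    intro h1
    rw [Subgroup.relIndex_eq_one] at h1
    exact hMT (h1.trans inf_le_right)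
  set p := ((M ⊓ T).relIndex M).minFac with hp
  haveI : Fact p.Prime := ⟨Nat.minFac_prime hne⟩
  obtain ⟨P, hPM, hPp, hPi, hHP⟩ := exists_sylow_normalized H hTI hHall M hc p
  have hPT : ¬ P ≤ T := by
    intro h
    apply hPi
    have hle : P ≤ M ⊓ T := le_inf hPM h
    exact (Nat.minFac_dvd _).trans (Subgroup.relIndex_dvd_of_le_left M hle)
  set Q := P ⊓ T with hQ
  have hQP : Q ≤ P := inf_le_left
  have hlt : Q.subgroupOf P < ⊤ := by
    apply lt_top_iff_ne_top.2
    intro h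
    apply hPT
    intro z hz
    have : (⟨z, hz⟩ : P) ∈ Q.subgroupOf P := by rw [h]; trivial
    exact (Subgroup.mem_inf.1 (Subgroup.mem_subgroupOf.1 this)).2
  haveI : Group.IsNilpotent P := hPp.isNilpotent
  obtain ⟨w, hw, hwQ⟩ := SetLike.exists_of_lt (normalizerCondition_of_isNilpotent _ hlt)
  have hwN : (w : G) ∈ normalizer (Q : Set G) := CfsgLib.RelFrob.mem_normalizer_of_subgroupOf hQP w hw
  have hwQ' : (w : G) ∉ Q := fun h => hwQ (Subgroup.mem_subgroupOf.2 h)
  set A := P ⊓ normalizer (Q : Set G) with hA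
  have hQA : Q ≤ A := le_inf hQP Subgroup.le_normalizer
  have hwA : (w : G) ∈ A := Subgroup.mem_inf.2 ⟨w.2, hwN⟩
  have hQne : Q ≠ A := fun h => hwQ' (h ▸ hwA)
  have hHT : H ≤ normalizer (T : Set G) := fun h hh => Subgroup.le_normalizer (Subgroup.le_normalizer hh)
  have hHQ : H ≤ normalizer (Q : Set G) := CfsgLib.Solv.le_normalizer_inf' hHP hHT
  have hHNQ : H ≤ normalizer ((normalizer (Q : Set G) : Subgroup G) : Set G) :=
    fun h hh => mem_normalizer_normalizer (hHQ hh)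
  have hHA : H ≤ normalizer (A : Set G) := CfsgLib.Solv.le_normalizer_inf' hHP hHNQ
  have hAP : A ≤ P := inf_le_left
  have hcardM : H.index = Nat.card M := hc.index_eq_card
  have hcopr : (Nat.card H).Coprime (Nat.card M) := by
    have := coprime_index H hTI hHall
    rwa [hcardM] at this
  refine frob_of_section H A Q hQA hQne hHA hHQ inf_le_right
    (Nat.Coprime.coprime_dvd_right (Subgroup.card_dvd_of_le (hAP.trans hPM)) hcopr) ?_ ?_ ?_
  · rintro rfl
    exact hnn inferInstance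
  · intro h hh hne a ha hcomm
    have haP := hAP ha
    refine Subgroup.mem_inf.2 ⟨haP, ?_⟩
    by_contra haT
    apply hne
    apply hTI a haT h hh
    have e : a * h * a⁻¹ = h := by
      rw [← hcomm]; group
    rw [e]
    exact hh
  · haveI : Group.IsNilpotent A := (hPp.to_le hAP).isNilpotent
    infer_instance

end Main

end CfsgLib.TIHall
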