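import Mathlib
import Cfsg.Agent.Lib.H3.CT1

/-! The trace map: fixed points of a subgroup of coprime index split over the fixed points of the group. -/

set_option autoImplicit false
set_option linter.style.haveILetI false

namespace CfsgLib.Trace

variable {Γ A : Type*} [Group Γ] [Finite Γ] [CommGroup A]

/-- Fixed points of a subgroup. -/
def fixedBy (ρ : Γ →* MulAut A) (T : Subgroup Γ) : Subgroup A where
  carrier := {z | ∀ t ∈ T, ρ t z = z}
  one_mem' := fun t _ => map_one (ρ t)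
  mul_mem' := fun {a b} ha hb t ht => by rw [map_mul, ha t ht, hb t ht]
  inv_mem' := fun {a} ha t ht => by rw [map_inv, ha t ht]

omit [Finite Γ] in
lemma mem_fixedBy {ρ : Γ →* MulAut A} {T : Subgroup Γ} {z : A} :
    z ∈ fixedBy ρ T ↔ ∀ t ∈ T, ρ t z = z := Iff.rfl

/-- The trace. -/
noncomputable def tr (ρ : Γ →* MulAut A) (T : Subgroup Γ) (z : A) : A :=
  letI : Fintype (Γ ⧸ T) := Fintype.ofFinite _
  ∏ q : Γ ⧸ T, ρ q.out z

lemma tr_mul (ρ : Γ →* MulAut A) (T : Subgroup Γ) (z w : A) :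
    tr ρ T (z * w) = tr ρ T z * tr ρ T w := by
  letI : Fintype (Γ ⧸ T) := Fintype.ofFinite _
  unfold tr
  simp only [map_mul, Finset.prod_mul_distrib]

lemma tr_fix (ρ : Γ →* MulAut A) (T : Subgroup Γ) {z : A} (hz : z ∈ fixedBy ρ T) (g : Γ) :
    ρ g (tr ρ T z) = tr ρ T z := by
  classical
  letI : Fintype (Γ ⧸ T) := Fintype.ofFinite _
  unfold tr
  rw [map_prod]
  rw [← Equiv.prod_comp (MulAction.toPerm g : Equiv.Perm (Γ ⧸ T)) (fun q : Γ ⧸ T => ρ q.out z)]
  refine Finset.prod_congr rfl (fun q _ => ?_)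
  have h1 : ((g * q.out : Γ) : Γ ⧸ T) = g • q := by
    conv_rhs => rw [← q.out_eq']
    rfl
  have h2 : (g • q).out⁻¹ * (g * q.out) ∈ T := by
    have h3 : (((g • q).out : Γ) : Γ ⧸ T) = ((g * q.out : Γ) : Γ ⧸ T) := by
      rw [h1]
      exact (g • q).out_eq'
    exact QuotientGroup.eq.1 h3
  have h4 : ρ g (ρ q.out z) = ρ (g * q.out) z := by rw [map_mul]; rfl
  rw [h4]
  have h5 : g * q.out = (g • q).out * ((g • q).out⁻¹ * (g * q.out)) := by group
  rw [h5, map_mul, MulAut.mul_apply, hz _ h2]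
  rfl

lemma tr_top (ρ : Γ →* MulAut A) (T : Subgroup Γ) {z : A} (hz : z ∈ fixedBy ρ ⊤) :
    tr ρ T z = z ^ T.index := by
  letI : Fintype (Γ ⧸ T) := Fintype.ofFinite _
  unfold tr
  rw [Finset.prod_congr rfl (fun q _ => hz q.out trivial), Finset.prod_const, Finset.card_univ,
    Subgroup.index, Nat.card_eq_fintype_card]

/-- The fixed points of `Γ` are a direct factor of those of `T`, when the index of `T` is prime to
the order of `A`. -/
theorem split [Finite A] (ρ : Γ →* MulAut A) (T : Subgroup Γ) (hn : T.index.Coprime (Nat.card A)) :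
    ∃ K : Subgroup A, K ≤ fixedBy ρ T ∧ fixedBy ρ ⊤ ⊓ K = ⊥ ∧ fixedBy ρ ⊤ ⊔ K = fixedBy ρ T := by
  classical
  have hWZ : fixedBy ρ ⊤ ≤ fixedBy ρ T := fun z hz t _ => hz t trivial
  let K : Subgroup A :=
    { carrier := {z | z ∈ fixedBy ρ T ∧ tr ρ T z = 1}
      one_mem' := by
        refine ⟨Subgroup.one_mem _, ?_⟩
        have := tr_mul ρ T 1 1
        rw [mul_one] at this
        exact (mul_eq_left.1 this.symm)
      mul_mem' := fun {a b} ha hb => ⟨Subgroup.mul_mem _ ha.1 hb.1, by rw [tr_mul, ha.2, hb.2, one_mul]⟩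
      inv_mem' := fun {a} ha => ⟨Subgroup.inv_mem _ ha.1, by
        have h1 := tr_mul ρ T a a⁻¹
        have h0 : tr ρ T 1 = 1 := by
          have := tr_mul ρ T 1 1
          rw [mul_one] at this
          exact (mul_eq_left.1 this.symm)
        rw [mul_inv_cancel, h0, ha.2, one_mul] at h1
        exact h1.symm⟩ }
  refine ⟨K, fun z hz => hz.1, ?_, ?_⟩
  · rw [eq_bot_iff]
    rintro w ⟨hw, hwK⟩
    have h1 := tr_top ρ T hw
    rw [(hwK : w ∈ fixedBy ρ T ∧ tr ρ T w = 1).2] at h1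
    have h2 : w ^ Nat.card A = 1 := pow_card_eq_one'
    have h3 := orderOf_dvd_of_pow_eq_one h1.symm
    have h4 := orderOf_dvd_of_pow_eq_one h2
    rw [Subgroup.mem_bot]
    exact orderOf_eq_one_iff.1 (Nat.eq_one_of_dvd_coprimes hn h3 h4)
  · apply le_antisymm (sup_le hWZ (show K ≤ fixedBy ρ T from fun z hz => hz.1))
    intro z hz
    set t := tr ρ T z with ht
    have htW : t ∈ fixedBy ρ ⊤ := fun g _ => tr_fix ρ T hz g
    have hcop : T.index.Coprime (orderOf t) :=
      Nat.Coprime.coprime_dvd_right (orderOf_dvd_natCard t) hn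
    obtain ⟨m, hm⟩ := exists_pow_eq_self_of_coprime hcop
    set w := t ^ m with hw
    have hwW : w ∈ fixedBy ρ ⊤ := Subgroup.pow_mem _ htW m
    have hww : tr ρ T w = t := by
      rw [tr_top ρ T hwW, hw, ← pow_mul, mul_comm, pow_mul, hm]
    have hzw : z * w⁻¹ ∈ K := by
      refine ⟨Subgroup.mul_mem _ hz (Subgroup.inv_mem _ (hWZ hwW)), ?_⟩
      have h1 := tr_mul ρ T (z * w⁻¹) w
      rw [inv_mul_cancel_right, hww, ← ht] at h1
      exact (mul_eq_right.1 h1.symm)
    have : z = w * (z * w⁻¹) := by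
      rw [mul_comm z, ← mul_assoc, mul_inv_cancel, one_mul]
    rw [this]
    exact Subgroup.mul_mem_sup hwW hzw

end CfsgLib.Trace
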