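import Cfsg.Agent.Lib.H3.Signal
import Cfsg.Agent.Lib.H3.Comp3
import Cfsg.Agent.Lib.Solv.Act
import Cfsg.Agent.Lib.Solv.Coprime
import Cfsg.Agent.Lib.Solv.CoprimeSylow

/-! A `p`-group with a noncyclic abelian group of order `q²` acting so that only two lines have fixed points. -/

set_option autoImplicit false
set_option linter.unusedSectionVars false
set_option linter.style.haveILetI false

namespace CfsgLib.TwoLines

open Subgroup
open scoped commutatorElement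

universe u

lemma comm_le_comm_of_central {G : Type*} [Group G] {Y₁ Y₂ X : Subgroup G}
    (h1 : ∀ a ∈ Y₁, ∀ x ∈ X, a * x = x * a)
    (hY₂ : ⁅Y₂, X⁆ = Y₂) (hX : X ≤ normalizer (Y₂ : Set G))
    (hc : ∀ a ∈ Y₁, ∀ b ∈ Y₂, ∀ u ∈ Y₂, ⁅a, b⁆ * u = u * ⁅a, b⁆) :
    ⁅Y₁, Y₂⁆ ≤ ⁅⁅Y₁, Y₂⁆, X⁆ := by
  rw [Subgroup.commutator_le]
  intro a ha b hb
  have hmul : ∀ b₁ ∈ Y₂, ∀ b₂ ∈ Y₂, ⁅a, b₁ * b₂⁆ = ⁅a, b₁⁆ * ⁅a, b₂⁆ := by
    intro b₁ h₁ b₂ h₂
    have e1 : ⁅a, b₁ * b₂⁆ = ⁅a, b₁⁆ * (b₁ * ⁅a, b₂⁆ * b₁⁻¹) := by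
      simp only [commutatorElement_def]; group
    have e2 : b₁ * ⁅a, b₂⁆ * b₁⁻¹ = ⁅a, b₂⁆ := by
      rw [← hc a ha b₂ h₂ b₁ h₁]; group
    rw [e1, e2]
  have hinv : ∀ b₁ ∈ Y₂, ⁅a, b₁⁻¹⁆ = ⁅a, b₁⁆⁻¹ := by
    intro b₁ h₁
    have e1 := hmul b₁ h₁ b₁⁻¹ (Y₂.inv_mem h₁)
    rw [mul_inv_cancel, commutatorElement_one_right] at e1
    exact eq_inv_of_mul_eq_one_right e1.symm
  have hcl : Subgroup.closure {g | ∃ x ∈ Y₂, ∃ y ∈ X, ⁅x, y⁆ = g} = Y₂ := by
    rw [← Subgroup.commutator_def]; exact hY₂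
  have hb' := hb
  rw [← hcl] at hb'
  induction hb' using Subgroup.closure_induction with
  | mem z hz =>
    obtain ⟨b', hb', x, hx, rfl⟩ := hz
    have hc1 : x * b'⁻¹ * x⁻¹ ∈ Y₂ := by
      exact (Subgroup.mem_normalizer_iff.1 (hX hx) _).1 (Y₂.inv_mem hb')
    have e1 : ⁅b', x⁆ = b' * (x * b'⁻¹ * x⁻¹) := by
      simp only [commutatorElement_def]; group
    have e2 : ⁅a, x * b'⁻¹ * x⁻¹⁆ = x * ⁅a, b'⁻¹⁆ * x⁻¹ := by
      rw [conjugate_commutatorElement]
      have : x * a * x⁻¹ = a := by rw [← h1 a ha x hx]; group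
      rw [this]
    rw [e1, hmul _ hb' _ hc1, e2, hinv _ hb']
    have e3 : ⁅a, b'⁆ * (x * ⁅a, b'⁆⁻¹ * x⁻¹) = ⁅⁅a, b'⁆, x⁆ := by
      simp only [commutatorElement_def]; group
    rw [e3]
    exact Subgroup.commutator_mem_commutator (Subgroup.commutator_mem_commutator ha hb') hx
  | one =>
    rw [commutatorElement_one_right]
    exact Subgroup.one_mem _
  | mul x z hx hz ihx ihz =>
    rw [hcl] at hx hz
    rw [hmul _ hx _ hz]
    exact Subgroup.mul_mem _ (ihx hx) (ihz hz)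
  | inv x hx ihx =>
    rw [hcl] at hx
    rw [hinv _ hx]
    exact Subgroup.inv_mem _ (ihx hx)

/-- Fixed points lift from quotients for a coprime element. -/
lemma fix_quot {S : Type*} [Group S] [Finite S] {p q : ℕ} [Fact p.Prime] [Fact q.Prime] (hpq : p ≠ q)
    {P N : Subgroup S} [hPn : P.Normal] [hN : N.Normal] (hNP : N ≤ P) (hP : IsPGroup p P) {x : S}
    (hx : x ^ q = 1) (hfix : P ⊓ centralizer ({x} : Set S) = ⊥) :
    P.map (QuotientGroup.mk' N) ⊓ centralizer ({QuotientGroup.mk' N x} : Set (S ⧸ N)) = ⊥ := by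
  rw [eq_bot_iff]
  intro w hw
  rw [Subgroup.mem_inf] at hw
  obtain ⟨⟨u, hu, rfl⟩, hw2⟩ := hw
  rw [Subgroup.mem_centralizer_singleton_iff] at hw2
  rw [Subgroup.mem_bot]
  have hA : Subgroup.zpowers x ≤ normalizer (P : Set S) := by
    rw [Subgroup.normalizer_eq_top_iff.2 hPn]; exact le_top
  have hAN : Subgroup.zpowers x ≤ normalizer (N : Set S) := by
    rw [Subgroup.normalizer_eq_top_iff.2 hN]; exact le_top
  have hcardA : Nat.card (Subgroup.zpowers x) ∣ q := by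
    rw [Nat.card_zpowers]; exact orderOf_dvd_of_pow_eq_one hx
  have hcop : (Nat.card (Subgroup.zpowers x)).Coprime (Nat.card P) := by
    obtain ⟨k, hk⟩ := hP.exists_card_eq
    rw [hk]
    apply Nat.Coprime.pow_right
    exact Nat.Coprime.coprime_dvd_left hcardA ((Nat.coprime_primes Fact.out Fact.out).2 hpq.symm)
  have hsolv : Group.IsSolvable P := by
    haveI := hP.isNilpotent
    infer_instance
  obtain ⟨d, hd, hd2⟩ := CfsgLib.Solv.exists_fixed_in_coset hA hcop (Or.inr hsolv) hNP hAN hu (by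
    intro a ha
    obtain ⟨k, rfl⟩ := Subgroup.mem_zpowers_iff.1 ha
    apply (QuotientGroup.eq_one_iff _).1
    change (QuotientGroup.mk' N) (u⁻¹ * x ^ k * u * (x ^ k)⁻¹) = 1
    have h1 : Commute (QuotientGroup.mk' N u) (QuotientGroup.mk' N x) := hw2
    have h2 := h1.zpow_right k
    simp only [map_mul, map_inv, map_zpow]
    rw [mul_assoc (_)⁻¹, ← h2.eq]
    group)
  have h3 : u * d ∈ P ⊓ centralizer ({x} : Set S) := by
    refine Subgroup.mem_inf.2 ⟨(Subgroup.mem_inf.1 hd2).1, ?_⟩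
    have h4 := (Subgroup.mem_inf.1 hd2).2
    rw [Subgroup.mem_centralizer_iff] at h4 ⊢
    intro g hg
    rw [Set.mem_singleton_iff] at hg
    subst hg
    exact h4 _ (Subgroup.mem_zpowers _)
  rw [hfix, Subgroup.mem_bot] at h3
  have h5 : u = d⁻¹ := eq_inv_of_mul_eq_one_left h3
  rw [h5]
  exact (QuotientGroup.eq_one_iff _).2 (N.inv_mem hd)


lemma isPGroup_of_exp {G : Type*} [Group G] {A : Subgroup G} {q : ℕ} (h : ∀ a ∈ A, a ^ q = 1) :
    IsPGroup q A := by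
  intro a
  refine ⟨1, ?_⟩
  rw [pow_one]
  exact Subtype.ext (h a a.2)

lemma card_coprime_of_groups {G : Type*} [Group G] [Finite G] {p q : ℕ} [Fact p.Prime] [Fact q.Prime]
    (hpq : p ≠ q) {X Y : Subgroup G} (hX : IsPGroup q X) (hY : IsPGroup p Y) :
    (Nat.card X).Coprime (Nat.card Y) := by
  obtain ⟨k, hk⟩ := hX.exists_card_eq
  obtain ⟨j, hj⟩ := hY.exists_card_eq
  rw [hk, hj]
  exact Nat.Coprime.pow _ _ ((Nat.coprime_primes Fact.out Fact.out).2 hpq.symm)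

/-- The main theorem, in a form stable under quotients. -/
theorem core {p q : ℕ} [Fact p.Prime] [Fact q.Prime] (hpq : p ≠ q) (n : ℕ) :
    ∀ (S : Type u) [Group S] [Finite S], Nat.card S = n → ∀ (P A X₁ X₂ : Subgroup S), P.Normal →
      IsPGroup p P → (∀ a ∈ A, ∀ b ∈ A, a * b = b * a) → (∀ a ∈ A, a ^ q = 1) → q < Nat.card A →
      X₁ ≤ A → X₂ ≤ A → (∀ x ∈ X₁, x ≠ 1 → X₁ ≤ zpowers x) → (∀ x ∈ X₂, x ≠ 1 → X₂ ≤ zpowers x) →
      (∀ x ∈ A, x ∉ X₁ → x ∉ X₂ → P ⊓ centralizer ({x} : Set S) = ⊥) →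
      (∃ x ∈ X₁ ⊔ X₂, P ⊓ centralizer ({x} : Set S) = ⊥) →
      ⁅P ⊓ centralizer (X₁ : Set S), P ⊓ centralizer (X₂ : Set S)⁆ = ⊥ := by
  induction n using Nat.strong_induction_on with
  | _ n ih =>
  intro S _ _ hn P A X₁ X₂ hPn hP hcomm hexp hcard h1A h2A hz1 hz2 hfix hx3
  by_cases hPb : P = ⊥
  · subst hPb
    have : (⊥ : Subgroup S) ⊓ centralizer (X₁ : Set S) = ⊥ := bot_inf_eq _
    rw [this, Subgroup.commutator_bot_left]
  haveI := hPn
  set N : Subgroup S := (center P).map P.subtype with hNd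
  haveI hNn : N.Normal := CfsgLib.Comp.char_map_normal_of_normal hPn _
  have hNP : N ≤ P := Subgroup.map_subtype_le _
  have hNb : N ≠ ⊥ := by
    intro h
    haveI : Finite P := inferInstance
    haveI : Nontrivial P := by
      rw [Subgroup.nontrivial_iff_ne_bot]; exact hPb
    have h2 : Nontrivial (center P) := hP.center_nontrivial
    have h3 : center P = ⊥ := by
      rw [hNd, Subgroup.map_eq_bot_iff] at h
      rw [Subgroup.ker_subtype] at h
      exact le_bot_iff.1 h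
    rw [h3] at h2
    exact not_subsingleton_iff_nontrivial.2 h2 inferInstance
  have hNc : ∀ y ∈ N, ∀ u ∈ P, y * u = u * y := by
    rintro y ⟨z, hz, rfl⟩ u hu
    have := Subgroup.mem_center_iff.1 hz ⟨u, hu⟩
    exact (congrArg Subtype.val this).symm
  set π := QuotientGroup.mk' N with hπ
  have hπs : Function.Surjective π := QuotientGroup.mk'_surjective N
  have hAq : IsPGroup q A := isPGroup_of_exp hexp
  have hlt : Nat.card (S ⧸ N) < n := by
    rw [← hn, Subgroup.card_eq_card_quotient_mul_card_subgroup N]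
    have h1 : 1 < Nat.card N := by
      by_contra h
      apply hNb
      have h2 : Nat.card N = 1 := by
        have := Nat.card_pos (α := N)
        omega
      exact Subgroup.card_eq_one.1 h2
    have h2 : 0 < Nat.card (S ⧸ N) := Nat.card_pos
    nlinarith
  have hAinj : Function.Injective (π.comp A.subtype) := by
    rw [injective_iff_map_eq_one]
    intro a ha
    have h1 : (a : S) ∈ N := (QuotientGroup.eq_one_iff _).1 ha
    have h2 : (a : S) ∈ A ⊓ P := Subgroup.mem_inf.2 ⟨a.2, hNP h1⟩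
    have h3 : A ⊓ P = ⊥ :=
      (Subgroup.disjoint_of_coprime_natCard (card_coprime_of_groups hpq hAq hP)).eq_bot
    rw [h3, Subgroup.mem_bot] at h2
    exact Subtype.ext h2
  have hcardA' : Nat.card (A.map π) = Nat.card A := by
    have h1 : A.map π = (π.comp A.subtype).range := by
      rw [MonoidHom.range_comp, Subgroup.range_subtype]
    rw [h1]
    exact Nat.card_congr (MonoidHom.ofInjective hAinj).toEquiv.symm
  -- hypotheses in the quotient
  have hzq : ∀ X : Subgroup S, (∀ x ∈ X, x ≠ 1 → X ≤ zpowers x) →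
      ∀ x ∈ X.map π, x ≠ 1 → X.map π ≤ zpowers x := by
    rintro X hX _ ⟨x, hx, rfl⟩ hne
    have h1 : x ≠ 1 := by
      rintro rfl
      exact hne (map_one π)
    have h2 := Subgroup.map_mono (f := π) (hX x hx h1)
    rwa [MonoidHom.map_zpowers] at h2
  have h4 := ih _ hlt (S ⧸ N) rfl (P.map π) (A.map π) (X₁.map π) (X₂.map π)
    (Subgroup.Normal.map hPn π hπs) (hP.map π)
    (by
      rintro _ ⟨a, ha, rfl⟩ _ ⟨b, hb, rfl⟩
      rw [← map_mul, ← map_mul, hcomm a ha b hb])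
    (by
      rintro _ ⟨a, ha, rfl⟩
      rw [← map_pow, hexp a ha, map_one])
    (by rw [hcardA']; exact hcard)
    (Subgroup.map_mono h1A) (Subgroup.map_mono h2A) (hzq X₁ hz1) (hzq X₂ hz2)
    (by
      rintro _ ⟨x, hx, rfl⟩ hx1 hx2
      apply fix_quot hpq hNP hP (hexp x hx)
      apply hfix x hx
      · exact fun h => hx1 ⟨x, h, rfl⟩
      · exact fun h => hx2 ⟨x, h, rfl⟩)
    (by
      obtain ⟨x, hx, hxf⟩ := hx3
      refine ⟨π x, ?_, fix_quot hpq hNP hP (hexp x (sup_le h1A h2A hx)) hxf⟩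
      rw [← Subgroup.map_sup]
      exact ⟨x, hx, rfl⟩)
  -- the commutators are central in `P`
  set Y₁ := P ⊓ centralizer (X₁ : Set S) with hY₁
  set Y₂ := P ⊓ centralizer (X₂ : Set S) with hY₂
  set Y := ⁅Y₁, Y₂⁆ with hY
  have hY₁c : ∀ a ∈ Y₁, ∀ x ∈ X₁, a * x = x * a := fun a ha x hx =>
    (Subgroup.mem_centralizer_iff.1 (Subgroup.mem_inf.1 ha).2 x hx).symm
  have hY₂c : ∀ a ∈ Y₂, ∀ x ∈ X₂, a * x = x * a := fun a ha x hx =>
    (Subgroup.mem_centralizer_iff.1 (Subgroup.mem_inf.1 ha).2 x hx).symm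
  have hYN : Y ≤ N := by
    rw [hY, Subgroup.commutator_le]
    intro a ha b hb
    have h5 : π a ∈ P.map π ⊓ centralizer ((X₁.map π : Subgroup (S ⧸ N)) : Set (S ⧸ N)) := by
      refine Subgroup.mem_inf.2 ⟨⟨a, (Subgroup.mem_inf.1 ha).1, rfl⟩, ?_⟩
      rw [Subgroup.mem_centralizer_iff]
      rintro _ ⟨x, hx, rfl⟩
      rw [← map_mul, ← map_mul, hY₁c a ha x hx]
    have h6 : π b ∈ P.map π ⊓ centralizer ((X₂.map π : Subgroup (S ⧸ N)) : Set (S ⧸ N)) := by
      refine Subgroup.mem_inf.2 ⟨⟨b, (Subgroup.mem_inf.1 hb).1, rfl⟩, ?_⟩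
      rw [Subgroup.mem_centralizer_iff]
      rintro _ ⟨x, hx, rfl⟩
      rw [← map_mul, ← map_mul, hY₂c b hb x hx]
    have h7 := CfsgLib.Comp.comm_bot_iff.1 h4 _ h5 _ h6
    apply (QuotientGroup.eq_one_iff _).1
    change π ⁅a, b⁆ = 1
    rw [map_commutatorElement]
    exact commutatorElement_eq_one_iff_mul_comm.2 h7
  have hYP : Y ≤ P := hYN.trans hNP
  have hYc : ∀ y ∈ Y, ∀ u ∈ P, y * u = u * y := fun y hy u hu => hNc y (hYN hy) u hu
  have hY₁P : Y₁ ≤ P := inf_le_left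
  have hY₂P : Y₂ ≤ P := inf_le_left
  have hinf : Y₁ ⊓ Y₂ = ⊥ := by
    obtain ⟨x, hx, hxf⟩ := hx3
    rw [eq_bot_iff, ← hxf]
    intro a ha
    refine Subgroup.mem_inf.2 ⟨hY₁P (Subgroup.mem_inf.1 ha).1, ?_⟩
    rw [Subgroup.mem_centralizer_singleton_iff]
    have h5 : X₁ ⊔ X₂ ≤ centralizer ({a} : Set S) := by
      apply sup_le
      · intro y hy
        rw [Subgroup.mem_centralizer_singleton_iff]
        exact (hY₁c a (Subgroup.mem_inf.1 ha).1 y hy).symm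
      · intro y hy
        rw [Subgroup.mem_centralizer_singleton_iff]
        exact (hY₂c a (Subgroup.mem_inf.1 ha).2 y hy).symm
    have h6 := h5 hx
    rw [Subgroup.mem_centralizer_singleton_iff] at h6
    exact h6.symm
  have hNPtop : ∀ X : Subgroup S, X ≤ normalizer (P : Set S) := fun X => by
    rw [Subgroup.normalizer_eq_top_iff.2 hPn]; exact le_top
  -- `A` normalizes everything
  have hAC : ∀ X : Subgroup S, X ≤ A → A ≤ normalizer (centralizer (X : Set S) : Set S) := by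
    intro X hX a ha
    have h5 : a ∈ centralizer (X : Set S) := by
      rw [Subgroup.mem_centralizer_iff]
      intro x hx
      exact hcomm x (hX hx) a ha
    exact Subgroup.le_normalizer h5
  have hAY₁ : A ≤ normalizer (Y₁ : Set S) :=
    CfsgLib.Solv.le_normalizer_inf' (hNPtop A) (hAC X₁ h1A)
  have hAY₂ : A ≤ normalizer (Y₂ : Set S) :=
    CfsgLib.Solv.le_normalizer_inf' (hNPtop A) (hAC X₂ h2A)
  have hAY : A ≤ normalizer (Y : Set S) := by
    intro a ha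
    apply CfsgLib.CT.mem_normalizer_of_conj_le
    intro z hz
    have e : ⁅Y₁, Y₂⁆.map (MulAut.conj a).toMonoidHom ≤ ⁅Y₁, Y₂⁆ := by
      rw [Subgroup.map_commutator]
      apply Subgroup.commutator_mono
      · rintro _ ⟨u, hu, rfl⟩
        exact (Subgroup.mem_normalizer_iff.1 (hAY₁ ha) u).1 hu
      · rintro _ ⟨u, hu, rfl⟩
        exact (Subgroup.mem_normalizer_iff.1 (hAY₂ ha) u).1 hu
    exact e ⟨z, hz, rfl⟩
  have hPsolv : ∀ T : Subgroup S, T ≤ P → Group.IsSolvable T := by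
    intro T hT
    have := (hP.to_le hT).isNilpotent
    infer_instance
  have hX1q : IsPGroup q X₁ := hAq.to_le h1A
  have hX2q : IsPGroup q X₂ := hAq.to_le h2A
  have hcop1 : ∀ T : Subgroup S, T ≤ P → (Nat.card X₁).Coprime (Nat.card T) := fun T hT =>
    card_coprime_of_groups hpq hX1q (hP.to_le hT)
  have hcop2 : ∀ T : Subgroup S, T ≤ P → (Nat.card X₂).Coprime (Nat.card T) := fun T hT =>
    card_coprime_of_groups hpq hX2q (hP.to_le hT)
  have hcomY₂ : ⁅Y₂, X₁⁆ = Y₂ := by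
    have h5 := CfsgLib.Solv.coprime_commutator_sup_centralizer X₁ Y₂ (h1A.trans hAY₂)
      (hcop1 Y₂ hY₂P) (Or.inr (hPsolv Y₂ hY₂P))
    have h6 : Y₂ ⊓ centralizer (X₁ : Set S) = ⊥ := by
      rw [eq_bot_iff, ← hinf]
      intro a ha
      have ha' := Subgroup.mem_inf.1 ha
      exact Subgroup.mem_inf.2 ⟨Subgroup.mem_inf.2 ⟨hY₂P ha'.1, ha'.2⟩, ha'.1⟩
    rw [h6, sup_bot_eq] at h5
    exact h5
  have hcomY₁ : ⁅Y₁, X₂⁆ = Y₁ := by
    have h5 := CfsgLib.Solv.coprime_commutator_sup_centralizer X₂ Y₁ (h2A.trans hAY₁)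
      (hcop2 Y₁ hY₁P) (Or.inr (hPsolv Y₁ hY₁P))
    have h6 : Y₁ ⊓ centralizer (X₂ : Set S) = ⊥ := by
      rw [eq_bot_iff, ← hinf]
      intro a ha
      have ha' := Subgroup.mem_inf.1 ha
      exact Subgroup.mem_inf.2 ⟨ha'.1, Subgroup.mem_inf.2 ⟨hY₁P ha'.1, ha'.2⟩⟩
    rw [h6, sup_bot_eq] at h5
    exact h5
  have hle1 : Y ≤ ⁅Y, X₁⁆ := by
    apply comm_le_comm_of_central hY₁c hcomY₂ (h1A.trans hAY₂)
    intro a ha b hb u hu
    exact hYc _ (Subgroup.commutator_mem_commutator ha hb) u (hY₂P hu)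
  have hle2 : Y ≤ ⁅Y, X₂⁆ := by
    have h5 : ⁅Y₂, Y₁⁆ ≤ ⁅⁅Y₂, Y₁⁆, X₂⁆ := by
      apply comm_le_comm_of_central hY₂c hcomY₁ (h2A.trans hAY₁)
      intro a ha b hb u hu
      have h6 : ⁅a, b⁆ ∈ Y := by
        rw [hY, Subgroup.commutator_comm]
        exact Subgroup.commutator_mem_commutator ha hb
      exact hYc _ h6 u (hY₁P hu)
    rw [hY, Subgroup.commutator_comm Y₁ Y₂]
    exact h5
  haveI hYcomm : IsMulCommutative Y := by
    refine ⟨⟨fun a b => Subtype.ext ?_⟩⟩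
    exact hYc a a.2 b (hYP b.2)
  have hC1 : Y ⊓ centralizer (X₁ : Set S) = ⊥ := by
    have h5 := CfsgLib.Solv.inf_centralizer_commutator_eq_bot X₁ Y (h1A.trans hAY) (hcop1 Y hYP)
    rw [eq_bot_iff, ← h5]
    intro a ha
    exact Subgroup.mem_inf.2 ⟨ha, hle1 (Subgroup.mem_inf.1 ha).1⟩
  have hC2 : Y ⊓ centralizer (X₂ : Set S) = ⊥ := by
    have h5 := CfsgLib.Solv.inf_centralizer_commutator_eq_bot X₂ Y (h2A.trans hAY) (hcop2 Y hYP)
    rw [eq_bot_iff, ← h5]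
    intro a ha
    exact Subgroup.mem_inf.2 ⟨ha, hle2 (Subgroup.mem_inf.1 ha).1⟩
  have hgen := CfsgLib.Signal.gen_pgroup (p := q) (q := p) hpq A Y hcomm hexp (hP.to_le hYP) hAY
  rw [eq_bot_iff]
  refine hgen.trans (iSup_le ?_)
  rintro ⟨B, hBA, hBi⟩
  -- `B` contains a nontrivial element
  have hB : ∃ x ∈ B, x ≠ 1 := by
    by_contra hcon
    push Not at hcon
    have h5 : B = ⊥ := by
      rw [eq_bot_iff]
      intro x hx
      exact (Subgroup.mem_bot).2 (hcon x hx)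
    rw [h5, Subgroup.relIndex_bot_left] at hBi
    exact absurd hBi (not_le.2 hcard)
  obtain ⟨x, hxB, hx1⟩ := hB
  have hxA := hBA hxB
  intro w hw
  have hw1 := (Subgroup.mem_inf.1 hw).1
  have hw2 := (Subgroup.mem_inf.1 hw).2
  have hwx : x * w = w * x := Subgroup.mem_centralizer_iff.1 hw2 x hxB
  by_cases hx1' : x ∈ X₁
  · have h5 : w ∈ Y ⊓ centralizer (X₁ : Set S) := by
      refine Subgroup.mem_inf.2 ⟨hw1, ?_⟩
      rw [Subgroup.mem_centralizer_iff]
      intro y hy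
      obtain ⟨k, rfl⟩ := Subgroup.mem_zpowers_iff.1 (hz1 x hx1' hx1 hy)
      exact ((Commute.zpow_left hwx k))
    rwa [hC1] at h5
  by_cases hx2' : x ∈ X₂
  · have h5 : w ∈ Y ⊓ centralizer (X₂ : Set S) := by
      refine Subgroup.mem_inf.2 ⟨hw1, ?_⟩
      rw [Subgroup.mem_centralizer_iff]
      intro y hy
      obtain ⟨k, rfl⟩ := Subgroup.mem_zpowers_iff.1 (hz2 x hx2' hx1 hy)
      exact ((Commute.zpow_left hwx k))
    rwa [hC2] at h5
  · have h5 : w ∈ P ⊓ centralizer ({x} : Set S) := by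
      refine Subgroup.mem_inf.2 ⟨hYP hw1, ?_⟩
      rw [Subgroup.mem_centralizer_singleton_iff]
      exact hwx.symm
    rwa [hfix x hxA hx1' hx2'] at h5

end CfsgLib.TwoLines
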